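import Cfsg.Agent.Lib.MP.SpgS
import Cfsg.Agent.Lib.MP.X2

/-!
The model `Aut(A₆)` of docs/MP_PLAN.md.
-/

set_option autoImplicit false
set_option maxRecDepth 100000

namespace Cfsg.Agent.MP.Spg

open Cfsg.Agent.Fus Cfsg.Agent.SP4 Equiv Equiv.Perm Subgroup

namespace A6

abbrev S6 := Perm (Fin 6)
abbrev A := alternatingGroup (Fin 6)

/-- The table of the images of the transpositions under an outer automorphism. -/
def syn (i j k : Fin 6) : Fin 6 := Fin.ofNat 6 ((810441755302213276127669284952171936169457062793937293198343253863586044822306078819978353415206225238774971032482446828239204933622983862446333812475464614464428989463194086627407369816869881480 >>> (3 * (36 * i.val + 6 * j.val + k.val))) % 8)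

def tau (i j : Fin 6) : S6 := Function.Involutive.toPerm (syn i j) (by
  unfold Function.Involutive; revert i j; decide +kernel)

/-- The graph of the outer automorphism. -/
def H : Subgroup (S6 × S6) where
  carrier := {x | ∀ i j k, syn (x.1 i) (x.1 j) (x.2 k) = x.2 (syn i j k)}
  one_mem' := fun _ _ _ => rfl
  mul_mem' := fun ha hb i j k => (ha ..).trans (congrArg _ (hb i j k))
  inv_mem' := fun {a} ha i j k => a.2.injective (by rw [← ha]; simp)

instance (x : S6 × S6) : Decidable (x ∈ H) :=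
  inferInstanceAs (Decidable (∀ i j k, syn (x.1 i) (x.1 j) (x.2 k) = x.2 (syn i j k)))

theorem bij : Function.Bijective ((MonoidHom.fst S6 S6).comp H.subtype) := by
  refine ⟨(injective_iff_map_eq_one _).2 ?_, ?_⟩
  · rintro ⟨⟨g, h⟩, e⟩ (rfl : g = 1)
    obtain rfl := (by decide +kernel : ∀ h : S6, (1, h) ∈ H → h = 1) h e
    rfl
  · rw [← MonoidHom.range_eq_top, eq_top_iff, ← closure_isSwap, closure_le]
    rintro _ ⟨i, j, -, rfl⟩
    exact ⟨⟨(_, tau i j), by revert i j; decide +kernel⟩, rfl⟩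

noncomputable def th₀ : S6 →* S6 := ((MonoidHom.snd S6 S6).comp H.subtype).comp
  (MulEquiv.ofBijective _ bij).symm.toMonoidHom

theorem th₀_eq {g h : S6} (e : (g, h) ∈ H) : th₀ g = h :=
  congrArg (fun x : H => x.1.2) ((MulEquiv.ofBijective _ bij).symm_apply_apply ⟨_, e⟩)

theorem th₀_sq : th₀.comp th₀ = MonoidHom.id _ :=
  MonoidHom.eq_of_eqOn_dense closure_isSwap (by
    rintro _ ⟨i, j, -, rfl⟩
    obtain ⟨h1, h2⟩ := (by decide +kernel : ∀ i j, (swap i j, tau i j) ∈ H ∧
      (tau i j, swap i j) ∈ H) i j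
    exact (congrArg th₀ (th₀_eq h1)).trans (th₀_eq h2))

/-- The outer automorphism. -/
noncomputable def th : MulAut S6 := th₀.toMulEquiv th₀ th₀_sq th₀_sq

noncomputable def ga : MulAut A := MulAut.characteristic _ th

noncomputable def ph : S6 →* MulAut A := (MulAut.characteristic _).comp MulAut.conj

theorem ph_val (s : S6) (x : A) : (ph s x : S6) = s * x * s⁻¹ := rfl
theorem ga_val (x : A) : (ga x : S6) = th₀ x := rfl

theorem ga_sq : ga * ga = 1 := MulEquiv.ext fun x => Subtype.ext (DFunLike.congr_fun th₀_sq x.1)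

theorem ga_ph (s : S6) : ga * ph s * ga = ph (th₀ s) := MulEquiv.ext fun x => Subtype.ext (by
  simp only [MulAut.mul_apply, ph_val, ga_val, map_mul, map_inv]
  rw [show th₀ (th₀ x) = x from DFunLike.congr_fun th₀_sq x.1])

def a : A := ⟨swap 0 2 * swap 0 1, by simp⟩
def b : A := ⟨swap 1 5 * swap 1 4 * (swap 1 3 * swap 1 2), by simp⟩

theorem ext_ab {α : MulAut A} (ha : α a = a) (hb : α b = b) : α = 1 := by
  have : alternatingGroup (Fin 6) ≤ (α.toMonoidHom.eqLocus (MonoidHom.id _)).map (A).subtype := by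
    rw [← closure_three_cycles_eq_alternating, closure_le]
    intro σ hσ
    obtain ⟨i, -, j, -, k, -, e, -, h⟩ := (by decide +kernel : ∀ σ : S6, σ.support.card = 3 →
      ∃ i < 5, ∃ j < 3, ∃ k < 5, ∃ e < 3, σ * (b.1 ^ i * a.1 ^ j * b.1 ^ k) =
        b.1 ^ i * a.1 ^ j * b.1 ^ k * a.1 ^ e) σ hσ.card_support
    refine ⟨b ^ i * a ^ j * b ^ k * a ^ e * (b ^ i * a ^ j * b ^ k)⁻¹, ?_,
      (eq_mul_inv_of_mul_eq h).symm⟩
    show α _ = _
    simp [ha, hb]
  refine MulEquiv.ext fun x => ?_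
  obtain ⟨y, hy, e⟩ := this x.2
  rwa [← Subtype.ext e]

theorem ph_inj : Function.Injective ph := (injective_iff_map_eq_one _).2 fun s hs =>
  (by decide +kernel : ∀ s : S6, s * a * s⁻¹ = a → s * b * s⁻¹ = b → s = 1) s
    (by rw [← ph_val, hs]; rfl) (by rw [← ph_val, hs]; rfl)

theorem mem_of_fix {α : MulAut A} (ha : α a = a) : α ∈ ph.range := by
  have e : ∀ (w : A) n, w ^ n = 1 → (α w : S6) ^ n = 1 := fun w n h => by
    rw [← Subgroup.coe_pow, ← map_pow, h, map_one, Subgroup.coe_one]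
  have e1 := e b 5 (by decide +kernel)
  have e2 := e (a * b) 4 (by decide +kernel)
  have e3 := e (a * b * b) 4 (by decide +kernel)
  simp only [map_mul, ha, Subgroup.coe_mul] at e2 e3
  obtain ⟨_, -, _, -, _, -, s, -, h1, h2⟩ := (by decide +kernel : ∀ x : S6, x ^ 5 = 1 → (a * x) ^ 4 = 1 →
    (a * x * x) ^ 4 = 1 → ∃ i < 3, ∃ j < 3, ∃ k < 2, ∃ s ∈ ([a.1 ^ i * (swap 3 4 * swap 4 5) ^ j *
      swap 3 4 ^ k] : List S6), s * a * s⁻¹ = a ∧ s * b * s⁻¹ = x) _ e1 e2 e3
  exact ⟨s, eq_of_inv_mul_eq_one (ext_ab (by rw [MulAut.mul_apply, show ph s a = a from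
    Subtype.ext h1, MulAut.inv_apply, MulEquiv.symm_apply_eq, ha]) (by
    rw [MulAut.mul_apply, show ph s b = α b from Subtype.ext h2]; simp)) |>.symm⟩

theorem conj3 {x y : S6} (hx : orderOf x = 3) (hy : orderOf y = 3)
    (h : x.support.card = y.support.card) : IsConj x y := by
  obtain ⟨n, hn⟩ := cycleType_prime_order (σ := x) (hx ▸ Nat.prime_three)
  obtain ⟨m, hm⟩ := cycleType_prime_order (σ := y) (hy ▸ Nat.prime_three)
  rw [← sum_cycleType, ← sum_cycleType, hn, hm, hx, hy] at h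
  rw [isConj_iff_cycleType_eq, hn, hm, hx, hy, show n = m by simpa using h]

theorem th_a : th₀ a = swap 0 5 * swap 5 3 * (swap 1 4 * swap 4 2) := th₀_eq (by decide +kernel)

theorem index_ph : ph.range.index = 2 ∧ ga ∉ ph.range := by
  have h0 : ga ∉ ph.range := fun ⟨s, hs⟩ => absurd (th_a ▸ (ph_val s a).symm.trans
    (hs ▸ ga_val a)) (by clear hs; revert s; decide +kernel)
  have o : ∀ α : MulAut A, orderOf (α a : S6) = 3 := fun α => by
    rw [orderOf_coe, MulEquiv.orderOf_eq]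
    exact orderOf_eq_prime (by decide +kernel) (by decide +kernel)
  refine ⟨index_eq_two_iff.2 ⟨ga, fun α => ?_⟩, h0⟩
  suffices α ∈ ph.range ∨ α * ga ∈ ph.range from this.elim (fun h => .inr ⟨h, fun h' =>
    h0 ((ph.range.mul_mem_cancel_left h).1 h')⟩) fun h => .inl ⟨h, fun h' =>
    h0 ((ph.range.mul_mem_cancel_left h').1 h)⟩
  obtain ⟨n, hn⟩ := cycleType_prime_order (σ := (α⁻¹ a : S6)) (o _ ▸ Nat.prime_three)
  have h1 := sum_cycleType (α⁻¹ a : S6)
  have h2 := Finset.card_le_univ (α⁻¹ a : S6).support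
  rw [hn, o] at h1
  simp only [Multiset.sum_replicate, smul_eq_mul, Fintype.card_fin] at h1 h2
  rcases (by omega : (α⁻¹ a : S6).support.card = 3 ∨ (α⁻¹ a : S6).support.card = 6) with h | h
  · obtain ⟨s, hs⟩ := isConj_iff.1 (conj3 (o α⁻¹) (o 1) (h.trans (by decide +kernel)))
    have := mul_mem (inv_mem (mem_of_fix (α := ph s * α⁻¹) (Subtype.ext hs))) ⟨s, rfl⟩
    exact .inl (by rwa [mul_inv_rev, inv_inv, inv_mul_cancel_right] at this)
  · obtain ⟨s, hs⟩ := isConj_iff.1 (conj3 (o α⁻¹) (o ga) (h.trans (by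
      rw [ga_val, th_a]; decide +kernel)))
    have := mul_mem (inv_mem (mem_of_fix (α := ga * (ph s * α⁻¹)) (by
      rw [MulAut.mul_apply, show (ph s * α⁻¹) a = ga a from Subtype.ext hs, ← MulAut.mul_apply,
        ga_sq, MulAut.one_apply]))) ⟨th₀ s, rfl⟩
    rw [← ga_ph] at this
    exact .inr (by convert this using 1; group)

def f₀ (t a b c : ZMod 2) : S6 := swap 0 1 ^ a.val * (swap 0 2 * swap 1 3 * swap 4 5) ^ t.val *
  (swap 0 1 * swap 2 3 * swap 4 5) ^ b.val * swap 4 5 ^ c.val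

theorem f₀_mul : ∀ t a b c t' a' b' c', f₀ t a b c * f₀ t' a' b' c' =
    f₀ (t + t') (a + a') (b + b' + t * a') (c + c' + t ^ 2 * a') := by decide +kernel

/-- A Sylow subgroup of the image of `S₆`. -/
def U : Subgroup (MulAut A) where
  carrier := {x | ∃ t a b c, x = ph (f₀ t a b c)}
  one_mem' := ⟨0, 0, 0, 0, by simp [f₀]⟩
  mul_mem' := by
    rintro _ _ ⟨t, a, b, c, rfl⟩ ⟨t', a', b', c', rfl⟩
    exact ⟨_, _, _, _, by rw [← map_mul, f₀_mul]⟩
  inv_mem' := by
    rintro _ ⟨t, a, b, c, rfl⟩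
    exact ⟨t, a, b + t * a, c + t * a, by
      rw [← map_inv]; congr 1; revert t a b c; decide +kernel⟩

noncomputable def D : Ce U (ZMod 2) where
  f t a b c := ph (f₀ t a b c)
  mem_iff _ := Iff.rfl
  mul _ _ _ _ _ _ _ _ := by rw [← map_mul, f₀_mul]
  inj {t a b c t' a' b' c'} h := by
    replace h := ph_inj h
    revert t a b c t' a' b' c'
    decide +kernel

theorem act (t a b c : ZMod 2) : ga * D.graph.f t a b c * ga = D.f t a b c := by
  refine (ga_ph _).trans (congrArg ph (th₀_eq ?_))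
  revert t a b c
  decide +kernel

theorem ga_U : ∀ x ∈ U, ga * x * ga ∈ U := fun x hx => by
  obtain ⟨t, a, b, c, rfl⟩ := (D.graph.mem_iff x).1 hx
  exact ⟨t, a, b, c, act ..⟩

theorem card_U : Nat.card U = 2 ^ 4 := by
  rw [← Nat.card_eq_of_bijective (fun x : ZMod 2 × ZMod 2 × ZMod 2 × ZMod 2 =>
    (⟨_, x.1, x.2.1, x.2.2.1, x.2.2.2, rfl⟩ : U)) ⟨fun x y h => by
      simpa [Prod.ext_iff] using D.inj (congrArg Subtype.val h),
      fun ⟨_, t, a, b, c, e⟩ => ⟨(t, a, b, c), Subtype.ext e.symm⟩⟩]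
  simp

end A6

open A6 in
theorem a6 : A6Stmt := by
  have hU : U ≤ ph.range := fun _ ⟨_, _, _, _, e⟩ => ⟨_, e.symm⟩
  have hi : ga⁻¹ = ga := inv_eq_of_mul_eq_one_right ga_sq
  have := normal_of_index_eq_two index_ph.1
  refine ⟨X2.dbl U ga ga_sq ga_U, U, D, ga, ⟨⟨X2.self_mem_dbl, ga_sq, one_ne_zero, one_ne_zero,
    fun t a b c => by rw [hi, act]; simp [dg]⟩, fun _ => Iff.rfl, isSylowIn_of_not_dvd le_top
      (X2.pg_dbl (IsPGroup.of_card card_U)) ?_, ⟨ph (swap 1 2), trivial, fun t b c => ?_⟩,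
      ph (swap 0 4 * swap 1 5), trivial, fun a b c => ?_⟩, fun g t ht h => h.resolve_right fun h =>
        index_ph.2 ((ph.range.mul_mem_cancel_left (this.conj_mem _ (hU ht) g)).1 (hU h))⟩
  · have h1 := relIndex_mul_index (X2.le_dbl (h₁ := ga_sq) (h₂ := ga_U))
    have h2 := U.card_mul_index
    have h3 := ph.range.card_mul_index
    rw [X2.relIndex_dbl fun h => index_ph.2 (hU h)] at h1
    rw [index_ph.1, ← Nat.card_congr (MonoidHom.ofInjective ph_inj).toEquiv, Nat.card_perm,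
      Nat.card_fin, ← h2, card_U, ← h1] at h3
    rw [relIndex_top_right]
    simp only [Nat.factorial] at h3
    omega
  · simp only [D, ← map_inv, ← map_mul]
    congr 1
    revert t b c
    decide +kernel
  · simp only [D, ← map_inv, ← map_mul]
    congr 1
    revert a b c
    decide +kernel

end Cfsg.Agent.MP.Spg
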