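import Cfsg.Prelude.Def_FusionComponents
import Cfsg.Prelude.Def_CaseTheorems
import Cfsg.Prelude.Def_Local
import Cfsg.Prelude.Def_Transfer
import Cfsg.Prelude.Def_Classical
import Cfsg.Prelude.Def_Spor_J3
import Cfsg.Agent.Lib.MP.L3Co
import Cfsg.Agent.Lib.SP4.Defs
import Cfsg.Agent.Lib.Transfer.SylowIn

/-!
Minimal 2-fusion systems in the pushing up case (statement 5175): definitions and the row
statements of `docs/MP_PLAN.md`.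
-/

set_option autoImplicit false

namespace Cfsg.Agent.MP

open Subgroup Cfsg.Agent.Tr Cfsg.Agent.Fus Cfsg.Agent.Fus2 Cfsg.FusionSystem

universe u

section Mod

variable {V : Type*} [Group V]

/-- Fixed points of a group of automorphisms. -/
def fx (D : Subgroup (MulAut V)) : Subgroup V where
  carrier := {v | ∀ d ∈ D, d v = v}
  one_mem' := fun d _ => map_one d
  mul_mem' := fun ha hb d hd => by rw [map_mul, ha d hd, hb d hd]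
  inv_mem' := fun ha d hd => by rw [map_inv, ha d hd]

theorem mem_fx {D : Subgroup (MulAut V)} {v : V} : v ∈ fx D ↔ ∀ d ∈ D, d v = v := Iff.rfl

/-- A quadratic offender without proper nontrivial sub-offenders. -/
structure Good (D : Subgroup (MulAut V)) : Prop where
  ne : D ≠ ⊥
  sq : ∀ d ∈ D, d * d = 1
  quad : ∀ d ∈ D, ∀ v, d v * v ∈ fx D
  off : (fx D).index ≤ Nat.card D
  min : ∀ E < D, E ≠ ⊥ → Nat.card E < (fx E).index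

/-- One half of a rank one pair; `d v * v` is the commutator `[v, d]`. -/
structure Hf (D D' : Subgroup (MulAut V)) : Prop where
  ne : D ≠ ⊥
  sq : ∀ d ∈ D, d * d = 1
  quad : ∀ d ∈ D, ∀ v, d v * v ∈ fx D
  idx : (fx D).index = Nat.card D
  inj : ∀ d ∈ D, d ≠ 1 → ∀ v, v ∉ fx D → d v * v ∉ fx D'
  surj : ∀ v, v ∉ fx D → ∀ w ∈ fx D, ∃ d ∈ D, w * (d v * v) ∈ fx D'

/-- A rank one pair: `⟨D, D'⟩` acts on `V / (fx D ⊓ fx D')` like `SL₂(q)` on the natural module. -/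
structure R1 (D D' : Subgroup (MulAut V)) : Prop where
  l : Hf D D'
  r : Hf D' D

end Mod

section Grp

variable {X : Type*} [Group X]

/-- Exponent two. -/
def E2 (A : Subgroup X) : Prop := ∀ a ∈ A, a * a = 1

/-- Two elementary abelian subgroups acting on each other like opposite unipotent radicals. -/
structure Tw (E₁ E₂ C₁ C₂ : Subgroup X) : Prop where
  sq₁ : E2 E₁
  sq₂ : E2 E₂
  le₁ : C₁ ≤ E₁ ⊓ E₂
  le₂ : C₂ ≤ E₁ ⊓ E₂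
  ne₁ : ¬ E₁ ≤ E₂
  ne₂ : ¬ E₂ ≤ E₁
  cm : ∀ a ∈ E₁, ∀ b ∈ E₂, a * b * a⁻¹ * b⁻¹ ∈ E₁ ⊓ E₂
  nc : ∀ a ∈ E₁, a ∉ E₂ → ∀ b ∈ E₂, b ∉ E₁ →
    a * b * a⁻¹ * b⁻¹ ∉ C₁ ∧ a * b * a⁻¹ * b⁻¹ ∉ C₂

end Grp

section Fus

variable {Ω : Type u} [Group Ω] {S : Subgroup Ω}

/-- The conclusion of the theorem. -/
def Concl (F : FusionSystem S) : Prop :=
    ∃ (G : Type u) (_ : Group G) (_ : Finite G) (ι : ↥S →* G),
      F.IsRealizedBy ι ∧ (∃ T : Sylow 2 G, (T : Subgroup G) = ι.range) ∧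
      (((∃ m : ℕ, 8 ≤ m ∧ Nonempty (↥S ≃* DihedralGroup m)) ∧
          ∃ (K : Type) (_ : Field K) (_ : Fintype K), Odd (Fintype.card K) ∧
            (Nonempty (G ≃* Matrix.ProjectiveSpecialLinearGroup (Fin 2) K) ∨
              Nonempty (G ≃* GL (Fin 2) K ⧸ Subgroup.center (GL (Fin 2) K)))) ∨
        (Cfsg.IsQuasiDihedral ↥S ∧
          ∃ (K : Type) (_ : Field K) (_ : Fintype K) (r : ℕ), Odd r ∧ Fintype.card K = r ^ 2 ∧
            ∃ L : Subgroup G, L.Normal ∧ L.index = 2 ∧ Subgroup.centralizer (L : Set G) = ⊥ ∧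
              Nonempty (↥L ≃* Matrix.ProjectiveSpecialLinearGroup (Fin 2) K)) ∨
        (Cfsg.IsQuasiDihedral ↥S ∧ Nat.card S = 16 ∧
          Nonempty (G ≃* Matrix.ProjectiveSpecialLinearGroup (Fin 3) (ZMod 3))) ∨
        (Nat.card S = 32 ∧ (Nonempty (G ≃* MulAut ↥(alternatingGroup (Fin 6))) ∨
          Nonempty (G ≃* MulAut (Matrix.ProjectiveSpecialLinearGroup (Fin 3) (ZMod 3))))) ∨
        (Nat.card S = 2 ^ 7 ∧ Cfsg.Spor.IsoJ3 G) ∨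
        (∃ (K : Type) (_ : Field K) (_ : Fintype K),
          (Nonempty (↥(Cfsg.generalizedFittingSubgroup G) ≃* Matrix.ProjectiveSpecialLinearGroup (Fin 3) K) ∨
            (Nonempty (↥(Cfsg.generalizedFittingSubgroup G) ≃* Cfsg.PSp 2 K) ∧
              ∃ e : ℕ, Odd e ∧ Fintype.card K = 2 ^ e)) ∧
          Cfsg.generalizedFittingSubgroup G ≤ Cfsg.pResidual 2 G ∧
          Odd ((Cfsg.generalizedFittingSubgroup G).subgroupOf (Cfsg.pResidual 2 G)).index ∧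
          (Cfsg.pResidual 2 G).index = 2))

/-- The minimality hypothesis. -/
def Min (F : FusionSystem S) : Prop :=
  ∀ U : Subgroup Ω, U ≠ ⊥ → F.IsFullyNormalized U →
    ∀ E : FusionSystem (normalizerIn S U), F.IsNormalizerSystem U E → E.IsSolvableSystem

/-- The configuration reached by row RED. -/
structure Cfg (F : FusionSystem S) (E₁ E₂ : Subgroup Ω) (s : Ω) (l : MulAut E₁) : Prop where
  le : E₁ ≤ S
  sS : s ∈ S
  s₁ : cj s E₁ = E₂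
  s₂ : cj s E₂ = E₁
  tw : Tw E₁ E₂ ⊥ ⊥
  fn : F.IsFullyNormalized E₁
  cen : centralizerIn S E₁ ≤ E₁
  max : ∀ A ≤ normalizerIn S E₁, E2 A → Nat.card E₁ ≤ Nat.card A → A = E₁ ∨ A = E₂
  lF : l ∈ F.autGroup E₁
  r1 : R1 (autInducedBy E₂ E₁) (cj l (autInducedBy E₂ E₁))
  all : ∀ g ∈ F.autGroup E₁, cj g (autInducedBy E₂ E₁) = autInducedBy E₂ E₁ ∨
    ∃ d ∈ autInducedBy E₂ E₁, cj g (autInducedBy E₂ E₁) = cj (d * l) (autInducedBy E₂ E₁)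

end Fus

/-- Row RK1 (helper3): a weakly closed good offender. -/
def Rk1Stmt : Prop :=
  ∀ (V : Type u) [Group V] [Finite V], (∀ v : V, v * v = 1) →
    ∀ K M P D : Subgroup (MulAut V), SylowIn 2 P K → D ≤ P → P ≤ M → ¬ K ≤ M → Good D →
      (∀ g ∈ K, cj g D ≤ P → cj g D = D) → (∀ g ∈ K, cj g D = D → g ∈ M) →
      (∀ g ∈ K, (∀ v ∈ fx P, g v = v) → g ∈ M) →
      ∃ l ∈ K, R1 D (cj l D) ∧ ∀ g ∈ K, cj g D = D ∨ ∃ d ∈ D, cj g D = cj (d * l) D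

/-- Row MOD (helper3): FF-modules for groups with a unique maximal subgroup over `B`. -/
def ModStmt : Prop :=
  ∀ (V : Type u) [Group V] [Finite V], (∀ v : V, v * v = 1) →
    ∀ (G M P B : Subgroup (MulAut V)) (O : Set (Subgroup (MulAut V))), SylowIn 2 P G → B ≤ P →
      ¬ G ≤ M → (∀ H, B ≤ H → H ≤ G → H ≠ G → H ≤ M) →
      (∀ R ≤ P, G ≤ normalizer (R : Set (MulAut V)) → R = ⊥) →
      (∃ v ∈ fx P, v ∉ fx G) →
      (∀ A ∈ O, A ≤ B ∧ E2 A ∧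
        ∀ E ≤ A, Nat.card E * Nat.card (fx E) ≤ Nat.card A * Nat.card (fx A)) →
      (∃ A ∈ O, A ≠ ⊥) → (∀ v, (∀ A ∈ O, v ∈ fx A) → v ∈ fx B) →
      (∀ A ∈ O, A ≠ ⊥ → A = B) ∧ ∀ l ∈ G, l ∉ M → R1 B (cj l B)

/-- Row GRP (helper4): local `C(G,T)` situation, Baumann and pushing up. -/
def GrpStmt : Prop :=
  ∀ (G : Type u) [Group G] [Finite G] (T M Q : Subgroup G) (W : Subgroup (MulAut T)),
    SylowIn 2 T ⊤ → Q.Normal → Q ≤ T → centralizer (Q : Set G) ≤ Q → T ≤ M → M ≠ ⊤ →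
    (∀ t : T, MulAut.conj t ∈ W) →
    (∀ Y ≤ T, Y ≠ ⊥ → (∀ α ∈ W, ∀ y : T, (y : G) ∈ Y → (α y : G) ∈ Y) →
      normalizer (Y : Set G) ≤ M) →
    ∃ (E₁ E₂ C₁ C₂ : Subgroup G) (l : G) (α : MulAut T), α ∈ W ∧ E₁ ≤ T ∧ E₂ ≤ T ∧
      (∀ y : T, (α y : G) ∈ E₂ ↔ (y : G) ∈ E₁) ∧ (∀ y : T, (α y : G) ∈ C₂ ↔ (y : G) ∈ C₁) ∧
      (∀ y : T, (α y : G) ∈ E₁ ⊓ E₂ ↔ (y : G) ∈ E₁ ⊓ E₂) ∧
      Tw E₁ E₂ C₁ C₂ ∧ l ∈ normalizer (E₁ : Set G) ∧ l ∉ M ∧ (∀ c ∈ C₁, Commute l c) ∧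
      (∀ x ∈ E₁ ⊓ E₂, x ∉ C₁ → l * x * l⁻¹ ∉ E₂) ∧
      (C₁ ⊓ C₂ = ⊥ → T ⊓ centralizer (E₁ : Set G) ≤ E₁ ∧
        ∀ A ≤ T, E2 A → Nat.card E₁ ≤ Nat.card A → A = E₁ ∨ A = E₂)

/-- Row SOLV: the configuration `Tw` does not occur inside a solvable normalizer system. -/
def SolvStmt : Prop :=
  ∀ {Ω : Type u} [Group Ω] {S : Subgroup Ω} [Finite S] (F : FusionSystem S), IsPGroup 2 S →
    F.IsSaturated 2 → Min F → ∀ U E₁ E₂ C₁ C₂ : Subgroup Ω, U ≠ ⊥ → U ≤ S →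
      E₁ ≤ normalizerIn S U → E₂ ≤ normalizerIn S U → Tw E₁ E₂ C₁ C₂ →
      ∀ a₁ a₂ : Ω → Ω, M F (E₁ ⊔ U) a₁ → M F (E₂ ⊔ U) a₂ → (∀ x ∈ U, a₁ x ∈ U) →
        (∀ x ∈ U, a₂ x ∈ U) → (∀ x ∈ E₁, a₁ x ∈ E₁) → (∀ x ∈ E₂, a₂ x ∈ E₂) →
        (∀ x ∈ E₁ ⊓ E₂, x ∉ C₁ → a₁ x ∉ E₂) → (∀ x ∈ E₁ ⊓ E₂, x ∉ C₂ → a₂ x ∉ E₁) → False

/-- Row RED: from the hypotheses of the theorem to `Cfg` (uses GRP, SOLV, RK1). -/
def RedStmt : Prop :=
  ∀ {Ω : Type u} [Group Ω] {S : Subgroup Ω} [Finite S] (F : FusionSystem S), IsPGroup 2 S →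
    F.IsSaturated 2 → F.core = ⊥ → Min F → ∀ N : FusionSystem S, N.IsSaturated 2 → N ≤ F → N ≠ F →
      (∀ R : Subgroup Ω, R ≠ ⊥ → R ≤ S → S ≤ normalizer (R : Set Ω) →
        (∀ P : Subgroup Ω, F.normalizerHom S P ⊆ F.normalizerHom R P) →
        ∀ P : Subgroup Ω, F.normalizerHom R P ⊆ N.Hom P) →
      ∃ E₁ E₂ s l, Cfg F E₁ E₂ s l

/-- Row STG: from `Cfg` to the three cases (uses SOLV). -/
def StgStmt : Prop :=
  ∀ {Ω : Type u} [Group Ω] {S : Subgroup Ω} [Finite S] (F : FusionSystem S), IsPGroup 2 S →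
    F.IsSaturated 2 → Min F → ∀ E₁ E₂ s l, Cfg F E₁ E₂ s l → F.IsEssential 2 E₁ ∧
      (Nat.card E₁ = 4 ∨ ∃ (K : Type) (_ : Field K) (_ : Fintype K) (_ : CharP K 2),
        (E₁ ⊔ E₂).relIndex S = 2 ∧
        ((2 < Fintype.card K ∧ ∃ D : L3.H3 (E₁ ⊔ E₂) K, D.A₁ = E₁) ∨
          ∃ D : SP4.Co (E₁ ⊔ E₂) K, ∀ x, x ∈ E₁ ↔ ∃ a b c, x = D.f 0 a b c))

/-- Row DIH (helper9): an essential four-group that is not normal in `S`. -/
def DihStmt : Prop :=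
  ∀ {Ω : Type u} [Group Ω] {S : Subgroup Ω} [Finite S] (F : FusionSystem S), IsPGroup 2 S →
    F.IsSaturated 2 → F.core = ⊥ → Min F → ∀ E : Subgroup Ω, F.IsEssential 2 E → E2 E →
      Nat.card E = 4 → (∃ s ∈ S, s ∈ normalizer (normalizerIn S E : Set Ω) ∧
        s ∉ normalizer (E : Set Ω)) → Concl F

/-- Row SP (helper6): the symplectic branch. -/
def SpStmt : Prop :=
  ∀ {Ω : Type u} [Group Ω] {S : Subgroup Ω} [Finite S] (F : FusionSystem S), IsPGroup 2 S →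
    F.IsSaturated 2 → F.core = ⊥ → Min F → ∀ (K : Type) [Field K] [Fintype K] [CharP K 2]
      (T E : Subgroup Ω) (D : SP4.Co T K), T ≤ S → T.relIndex S = 2 →
      (∀ x, x ∈ E ↔ ∃ a b c, x = D.f 0 a b c) → ¬ S ≤ normalizer (E : Set Ω) →
      F.IsEssential 2 E → Concl F

end Cfsg.Agent.MP
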