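import Cfsg.Agent.Lib.MP.Mc
import Cfsg.Agent.Lib.MP.Defs

/-!
# Row DIH: an essential four-group that is not normal
-/

set_option autoImplicit false

namespace Cfsg.Agent.MP

open Subgroup TwoGrp

universe u

theorem dih : DihStmt.{u} := by
  rintro Ω _ S _ F hS hF hO hmin E hE h2 h4 ⟨s, hs, -, hs'⟩
  have hV : IsKleinFour E := isKleinFour_of_card h4 h2
  have hES : E ≤ S := hE.1.1
  refine Mc.of_four' hS hF hO hmin ⟨fun D => ?_⟩ hV hES (Fus.IsCentric_centralizerIn_le hE.1)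
  obtain ⟨k, rfl⟩ := D.four_eq hV hES
  exact hs' (Mc.le_normalizer_V D k hs)

end Cfsg.Agent.MP
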