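import Cfsg.Agent.Lib.MP.L3Co
import Cfsg.Agent.Lib.LT.Simple

/-!
Diagonal, field and graph automorphisms of `SL₃(K)`.
-/

set_option autoImplicit false
set_option linter.unusedVariables false
set_option linter.style.haveILetI false
set_option linter.unusedSectionVars false

namespace Cfsg.Agent.MP.L3

open Cfsg.Agent.Fus Subgroup Matrix
open Cfsg.Agent.Ess (u3 u3_mul u3_inj coe_u3 u3_zero)
open scoped commutatorElement

universe v

/-- The group `SL₃(K)`. -/
abbrev SL3 (K : Type v) [Field K] := Matrix.SpecialLinearGroup (Fin 3) K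

variable {K : Type v} [Field K]

theorem val_mul (g h : SL3 K) : (g * h).1 = g.1 * h.1 := rfl

/-- A matrix of determinant one. -/
def mkS (A : Matrix (Fin 3) (Fin 3) K) (h : A.det = 1) : SL3 K := ⟨A, h⟩

@[simp] theorem val_mkS (A : Matrix (Fin 3) (Fin 3) K) (h : A.det = 1) : (mkS A h).1 = A := rfl

/-- The diagonal `(uv, v, 1)`. -/
def dd (u v : K) : Fin 3 → K := ![u * v, v, 1]

theorem dd_ne {u v : K} (hu : u ≠ 0) (hv : v ≠ 0) (i : Fin 3) : dd u v i ≠ 0 := by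
  fin_cases i <;> simp [dd, hu, hv]

/-- `φ` is a diagonal times a field automorphism. -/
def IsD (φ : MulAut (SL3 K)) (u v : K) (τ : K ≃+* K) : Prop :=
  ∀ (g : SL3 K) i j, (φ g).1 i j = dd u v i / dd u v j * τ (g.1 i j)

/-- `γ` is a graph times a field automorphism. -/
def IsG (γ : MulAut (SL3 K)) (σ : K ≃+* K) : Prop :=
  ∀ (g : SL3 K) i j, (γ g).1 i j = σ ((g⁻¹).1 j.rev i.rev)

/-- The diagonal-field map. -/
def dH (d : Fin 3 → K) (hd : ∀ i, d i ≠ 0) (τ : K ≃+* K) : SL3 K →* SL3 K :=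
  MonoidHom.mk' (fun g => mkS (of fun i j => d i / d j * τ (g.1 i j)) (by
    have h := congrArg τ g.2
    have h0 := hd 0
    have h1 := hd 1
    have h2 := hd 2
    simp only [det_fin_three, map_add, map_sub, map_mul, map_one, of_apply] at h ⊢
    field_simp
    linear_combination h)) fun g h => Subtype.ext (by
    ext i j
    have h0 := hd 0
    have h1 := hd 1
    have h2 := hd 2
    have h3 := hd j
    simp only [val_mul, val_mkS, mul_apply, Fin.sum_univ_three, of_apply, map_add,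
      map_mul]
    field_simp)

theorem exists_isD [Finite K] {u v : K} (hu : u ≠ 0) (hv : v ≠ 0) (τ : K ≃+* K) :
    ∃ φ, IsD φ u v τ :=
  ⟨MulEquiv.ofBijective (dH (dd u v) (dd_ne hu hv) τ) (Finite.injective_iff_bijective.1
    fun g h e => Subtype.ext (by
      ext i j
      have : dd u v i / dd u v j * τ (g.1 i j) = dd u v i / dd u v j * τ (h.1 i j) :=
        congrFun (congrFun (congrArg Subtype.val e) i) j
      exact τ.injective (mul_left_cancel₀ (div_ne_zero (dd_ne hu hv i) (dd_ne hu hv j)) this))),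
    fun _ _ _ => rfl⟩

/-- The graph-field map. -/
def gH (σ : K ≃+* K) : SL3 K →* SL3 K :=
  MonoidHom.mk' (fun g => mkS (of fun i j => σ ((g⁻¹).1 j.rev i.rev)) (by
    have h := congrArg σ (g⁻¹).2
    generalize (g⁻¹).1 = m at h ⊢
    simp only [det_fin_three, map_add, map_sub, map_mul, map_one, of_apply] at h ⊢
    simp only [Fin.rev, Fin.isValue, Fin.val_zero, Fin.val_one, Fin.val_two, Fin.reduceFinMk,
      Nat.reduceAdd, Nat.reduceSub]
    linear_combination h)) fun g h => Subtype.ext (by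
    ext i j
    rw [_root_.mul_inv_rev]
    generalize g⁻¹ = m
    generalize h⁻¹ = n
    simp only [val_mul, val_mkS, mul_apply, Fin.sum_univ_three, of_apply, map_add,
      map_mul]
    simp only [Fin.rev, Fin.isValue, Fin.val_zero, Fin.val_one, Fin.val_two, Fin.reduceFinMk,
      Nat.reduceAdd, Nat.reduceSub]
    ring)

theorem exists_isG [Finite K] (σ : K ≃+* K) : ∃ γ, IsG γ σ :=
  ⟨MulEquiv.ofBijective (gH σ) (Finite.injective_iff_bijective.1
    fun g h e => inv_injective (Subtype.ext (by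
      ext i j
      have : σ ((g⁻¹).1 i.rev.rev j.rev.rev) = σ ((h⁻¹).1 i.rev.rev j.rev.rev) :=
        congrFun (congrFun (congrArg Subtype.val e) j.rev) i.rev
      simpa using this))), fun _ _ _ => rfl⟩

section Calc

variable {φ φ' γ : MulAut (SL3 K)} {u v u' v' : K} {τ τ' σ : K ≃+* K}

theorem IsD.unique (h : IsD φ u v τ) (h' : IsD φ' u v τ) : φ = φ' :=
  MulEquiv.ext fun g => Subtype.ext (by ext i j; rw [h, h'])

theorem isD_one : IsD (1 : MulAut (SL3 K)) 1 1 (RingEquiv.refl K) := fun g i j => by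
  fin_cases i <;> fin_cases j <;> simp [dd]

theorem IsD.mul (h : IsD φ u v τ) (h' : IsD φ' u' v' τ') :
    IsD (φ' * φ) (u' * τ' u) (v' * τ' v) (τ.trans τ') := fun g i j => by
  have e : ∀ i, dd (u' * τ' u) (v' * τ' v) i = dd u' v' i * τ' (dd u v i) := fun i => by
    fin_cases i <;> simp [dd]
    ring
  rw [MulAut.mul_apply, h', h, e, e, map_mul, map_div₀, RingEquiv.trans_apply]
  ring

theorem IsD.inv (h : IsD φ u v τ) (hu : u ≠ 0) (hv : v ≠ 0) :
    IsD φ⁻¹ (τ.symm u⁻¹) (τ.symm v⁻¹) τ.symm := fun g i j => by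
  have e : ∀ i, dd (τ.symm u⁻¹) (τ.symm v⁻¹) i = τ.symm (dd u v i)⁻¹ := fun i => by
    fin_cases i <;> simp [dd]
    ring
  have := h (φ⁻¹ g) i j
  rw [MulAut.apply_inv_self] at this
  have h1 := dd_ne hu hv i
  have h2 := dd_ne hu hv j
  rw [this, e, e, ← map_div₀, ← map_mul, eq_comm, RingEquiv.symm_apply_eq]
  field_simp

theorem IsD.u3 (h : IsD φ u v τ) (hu : u ≠ 0) (hv : v ≠ 0) (a b c : K) :
    φ (u3 a b c) = u3 (u * τ a) (v * τ b) (u * v * τ c) := Subtype.ext (by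
  ext i j
  rw [h]
  fin_cases i <;> fin_cases j <;> simp [dd, coe_u3, hu, hv])

theorem IsG.sq (h : IsG γ σ) (hσ : ∀ x, σ (σ x) = x) : γ * γ = 1 :=
  MulEquiv.ext fun g => Subtype.ext (by
    ext i j
    rw [MulAut.mul_apply, h, ← map_inv, h, hσ]
    simp)

theorem IsG.conj (h : IsG γ σ) (h' : IsD φ u v τ) (hu : u ≠ 0) (hv : v ≠ 0) :
    IsD (γ * φ * γ) (σ v) (σ u) ((σ.trans τ).trans σ) := fun g i j => by
  have hu' : σ u ≠ 0 := by simpa using hu
  have hv' : σ v ≠ 0 := by simpa using hv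
  have e : ∀ i j : Fin 3, σ (dd u v j.rev / dd u v i.rev) =
      dd (σ v) (σ u) i / dd (σ v) (σ u) j := fun i j => by
    fin_cases i <;> fin_cases j <;> simp [dd, Fin.rev, hu, hv] <;> field_simp
  rw [MulAut.mul_apply, MulAut.mul_apply, h, ← map_inv, h', ← map_inv, h, map_mul, e]
  simp

end Calc

/-- The unitriangular group. -/
def U3 (K : Type v) [Field K] : Subgroup (SL3 K) where
  carrier := {x | ∃ a b c, x = u3 a b c}
  one_mem' := ⟨0, 0, 0, u3_zero.symm⟩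
  mul_mem' := by
    rintro _ _ ⟨a, b, c, rfl⟩ ⟨a', b', c', rfl⟩
    exact ⟨_, _, _, u3_mul ..⟩
  inv_mem' := by
    rintro _ ⟨a, b, c, rfl⟩
    exact ⟨-a, -b, a * b - c, inv_eq_of_mul_eq_one_right (by
      rw [u3_mul, ← u3_zero]; congr 1 <;> ring)⟩

/-- Its coordinates. -/
def D₀ (K : Type v) [Field K] : H3 (U3 K) K := ⟨u3, fun _ => Iff.rfl, u3_mul, u3_inj⟩

/-- Conjugation. -/
abbrev cj : SL3 K →* MulAut (SL3 K) := MulAut.conj

theorem cj_conj (φ : MulAut (SL3 K)) (g : SL3 K) : φ * cj g * φ⁻¹ = cj (φ g) := by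
  ext1 x
  simp

theorem ker_cj : (cj (K := K)).ker = center (SL3 K) := by
  ext g
  rw [MonoidHom.mem_ker, Subgroup.mem_center_iff, MulEquiv.ext_iff]
  exact forall_congr' fun x => by
    rw [MulAut.conj_apply, MulAut.one_apply, mul_inv_eq_iff_eq_mul, eq_comm]

theorem cj_eq_iff {g h : SL3 K} : cj g = cj h ↔ h⁻¹ * g ∈ center (SL3 K) := by
  rw [← ker_cj, MonoidHom.mem_ker, map_mul, map_inv, inv_mul_eq_one, eq_comm]

/-- The image of the unitriangular group in the inner automorphisms. -/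
def T' (K : Type v) [Field K] : Subgroup (MulAut (SL3 K)) := (U3 K).map cj

/-- Its coordinates. -/
def D' (K : Type v) [Field K] : H3 (T' K) K where
  f a b c := cj (u3 a b c)
  mem_iff x := ⟨by rintro ⟨_, ⟨a, b, c, rfl⟩, rfl⟩; exact ⟨a, b, c, rfl⟩,
    by rintro ⟨a, b, c, rfl⟩; exact ⟨_, ⟨a, b, c, rfl⟩, rfl⟩⟩
  mul a b c a' b' c' := by rw [← map_mul, u3_mul]
  inj {a b c a' b' c'} e := by
    have h := cj_eq_iff.1 e
    obtain ⟨x, y, z, e'⟩ := (U3 K).mul_mem ((U3 K).inv_mem ⟨a', b', c', rfl⟩) ⟨a, b, c, rfl⟩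
    rw [e'] at h
    obtain ⟨r, -, hr⟩ := Matrix.SpecialLinearGroup.mem_center_iff.1 h
    have h1 : x = 0 := by simpa [coe_u3] using (congrFun (congrFun hr 0) 1).symm
    have h2 : y = 0 := by simpa [coe_u3] using (congrFun (congrFun hr 1) 2).symm
    have h3 : z = 0 := by simpa [coe_u3] using (congrFun (congrFun hr 0) 2).symm
    rw [h1, h2, h3, u3_zero, inv_mul_eq_one] at e'
    exact u3_inj e'.symm

theorem perfect : commutator (SL3 K) = ⊤ := by
  refine le_antisymm le_top fun A _ => LT.transvection_induction _ (fun i j h c => ?_)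
    (fun _ _ => mul_mem) A
  obtain ⟨k, hk⟩ : ∃ k, k ≠ i ∧ k ≠ j := by revert i j; decide
  rw [← LT.comm_transvection h (Ne.symm hk.1) hk.2]
  exact commutator_mem_commutator (mem_top _) (mem_top _)

theorem cen_range : centralizer ((cj (K := K)).range : Set (MulAut (SL3 K))) = ⊥ := by
  refine eq_bot_iff.2 fun φ hφ => ?_
  have h : ∀ g, g⁻¹ * φ g ∈ center (SL3 K) := fun g => cj_eq_iff.1 (by
    rw [← cj_conj, ← hφ _ ⟨g, rfl⟩, mul_inv_cancel_right])
  have key : commutator (SL3 K) ≤ φ.toMonoidHom.eqLocus (MonoidHom.id _) := by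
    rw [commutator_def, commutator_le]
    intro a _ b _
    show φ ⁅a, b⁆ = ⁅a, b⁆
    obtain ⟨y, hy, ey⟩ : ∃ y ∈ center (SL3 K), φ a = a * y := ⟨_, h a, by group⟩
    obtain ⟨z, hz, ez⟩ : ∃ z ∈ center (SL3 K), φ b = b * z := ⟨_, h b, by group⟩
    have h1 := Subgroup.mem_center_iff.1 hy
    have h2 := Subgroup.mem_center_iff.1 hz
    rw [map_commutatorElement, ey, ez, commutatorElement_def, commutatorElement_def]
    calc a * y * (b * z) * (a * y)⁻¹ * (b * z)⁻¹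
        = a * (y * (b * z) * y⁻¹) * a⁻¹ * (b * z)⁻¹ := by group
      _ = a * b * (z * a⁻¹ * z⁻¹) * b⁻¹ := by rw [← h1]; group
      _ = _ := by rw [← h2]; group
  exact MulEquiv.ext fun g => key (perfect.ge (mem_top g))

/-- The inner automorphism group is `PSL₃(K)`. -/
noncomputable def rangeEquiv : ProjectiveSpecialLinearGroup (Fin 3) K ≃* (cj (K := K)).range :=
  (QuotientGroup.quotientMulEquivOfEq ker_cj.symm).trans (QuotientGroup.quotientKerEquivRange cj)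

theorem range_normal : (cj (K := K)).range.Normal :=
  ⟨by rintro _ ⟨g, rfl⟩ φ; exact ⟨φ g, (cj_conj ..).symm⟩⟩

theorem borel {l : SL3 K} (hl : l ∈ normalizer (U3 K : Set (SL3 K))) :
    ∃ t ∈ U3 K, ∃ μ ν : K, μ ≠ 0 ∧ ν ≠ 0 ∧ ∀ a b c, l * u3 a b c * l⁻¹ =
      t * u3 (ν ^ 2 / μ * a) (μ ^ 2 / ν * b) (ν ^ 2 / μ * (μ ^ 2 / ν) * c) * t⁻¹ := by
  have h₁ : ∀ a b c, ∃ a' b' c', l.1 * (u3 a b c).1 = (u3 a' b' c').1 * l.1 := fun a b c => by
    obtain ⟨a', b', c', e⟩ := (hl _).1 ⟨a, b, c, rfl⟩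
    rw [mul_inv_eq_iff_eq_mul] at e
    exact ⟨a', b', c', congrArg Subtype.val e⟩
  have h₂ : ∃ a' b' c', (u3 1 0 0).1 * l.1 = l.1 * (u3 a' b' c').1 := by
    obtain ⟨a', b', c', e⟩ := (inv_mem hl _).1 ⟨1, 0, 0, rfl⟩
    rw [inv_inv, mul_assoc, inv_mul_eq_iff_eq_mul] at e
    exact ⟨a', b', c', congrArg Subtype.val e⟩
  have e₁ : l.1 2 0 = 0 := by
    obtain ⟨a, b, c, e⟩ := h₁ 1 0 0
    simpa [coe_u3, mul_apply, Fin.sum_univ_three] using congrFun (congrFun e 2) 1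
  have e₂ : l.1 2 1 = 0 := by
    obtain ⟨a, b, c, e⟩ := h₁ 0 1 0
    simpa [coe_u3, mul_apply, Fin.sum_univ_three] using congrFun (congrFun e 2) 2
  have e₃ : l.1 1 0 = 0 := by
    obtain ⟨a, b, c, e⟩ := h₂
    simpa [coe_u3, mul_apply, Fin.sum_univ_three] using congrFun (congrFun e 0) 0
  have hd : l.1 0 0 * l.1 1 1 * l.1 2 2 = 1 := by
    have := l.2
    rw [det_fin_three] at this
    simpa [e₁, e₂, e₃] using this
  have h0 : l.1 0 0 ≠ 0 := fun e => by simp [e] at hd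
  have h1 : l.1 1 1 ≠ 0 := fun e => by simp [e] at hd
  have h2 : l.1 2 2 ≠ 0 := fun e => by simp [e] at hd
  let m : SL3 K := mkS !![l.1 0 0, 0, 0; 0, l.1 1 1, 0; 0, 0, l.1 2 2] (by simp [det_fin_three, hd])
  have e : l = u3 (l.1 0 1 / l.1 1 1) (l.1 1 2 / l.1 2 2) (l.1 0 2 / l.1 2 2) * m :=
    Subtype.ext (by
      ext i j
      fin_cases i <;> fin_cases j <;>
        simp [m, val_mul, coe_u3, mul_apply, Fin.sum_univ_three, e₁, e₂, e₃, h1, h2])
  refine ⟨_, ⟨l.1 0 1 / l.1 1 1, l.1 1 2 / l.1 2 2, l.1 0 2 / l.1 2 2, rfl⟩, (l.1 2 2)⁻¹, l.1 0 0,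
    inv_ne_zero h2, h0, fun a b c => ?_⟩
  have e' : m * u3 a b c = u3 (l.1 0 0 ^ 2 / (l.1 2 2)⁻¹ * a) ((l.1 2 2)⁻¹ ^ 2 / l.1 0 0 * b)
      (l.1 0 0 ^ 2 / (l.1 2 2)⁻¹ * ((l.1 2 2)⁻¹ ^ 2 / l.1 0 0) * c) * m := Subtype.ext (by
    ext i j
    fin_cases i <;> fin_cases j <;> simp [m, val_mul, coe_u3, mul_apply, Fin.sum_univ_three]
    · linear_combination (-l.1 0 0 * a) * hd
    · field_simp
    · field_simp
      linear_combination b * hd)
  generalize u3 (l.1 0 1 / l.1 1 1) (l.1 1 2 / l.1 2 2) (l.1 0 2 / l.1 2 2) = t at e ⊢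
  generalize u3 (l.1 0 0 ^ 2 / (l.1 2 2)⁻¹ * a) _ _ = y at e' ⊢
  rw [e, mul_assoc t, e']
  group

variable [CharP K 2]

theorem IsG.u3 {γ : MulAut (SL3 K)} {σ : K ≃+* K} (h : IsG γ σ) (a b c : K) :
    γ (u3 a b c) = u3 (σ b) (σ a) (σ (c + a * b)) := Subtype.ext (by
  ext i j
  rw [h, show (Ess.u3 a b c)⁻¹ = Ess.u3 a b (c + a * b) from (D₀ K).inv a b c]
  fin_cases i <;> fin_cases j <;> simp [coe_u3, Fin.rev])

theorem exists_w : ∃ w : SL3 K, ∀ a c, w * u3 a 0 c * w⁻¹ = u3 c 0 a :=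
  ⟨mkS !![1, 0, 0; 0, 0, 1; 0, 1, 0] (by simp [det_fin_three, CharTwo.neg_eq]), fun a c => by
    rw [mul_inv_eq_iff_eq_mul]
    refine Subtype.ext ?_
    ext i j
    fin_cases i <;> fin_cases j <;> simp [val_mul, coe_u3, mul_apply, Fin.sum_univ_three]⟩

variable [Fintype K]

theorem syl_T' : IsSylowIn 2 (T' K) (cj (K := K)).range := by
  obtain ⟨U, hU⟩ := Ess.exists_sylow_u3 (p := 2) K
  have e : U3 K = U := Subgroup.ext fun x => (hU x).symm
  rw [T', e, MonoidHom.range_eq_map]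
  exact (isSylowIn_top U).map cj

theorem mem_norm {l : SL3 K} (hl : cj l ∈ normalizer (T' K : Set (MulAut (SL3 K)))) :
    l ∈ normalizer (U3 K : Set (SL3 K)) := by
  refine mem_normalizer_fintype fun x hx => ?_
  obtain ⟨y, hy, e⟩ := (hl _).1 ⟨x, hx, rfl⟩
  rw [cj_conj, cj_eq_iff, MulAut.conj_apply] at e
  obtain ⟨z, hz, ez⟩ : ∃ z ∈ center (SL3 K), y = l * x * l⁻¹ * z := ⟨_, e, by group⟩
  have h4 : z ^ 4 = 1 := by
    have h1 : y ^ 4 = 1 := by simpa [pow_succ, mul_assoc] using (D₀ K).pow_four hy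
    have h2 : x ^ 4 = 1 := by simpa [pow_succ, mul_assoc] using (D₀ K).pow_four hx
    rwa [ez, Commute.mul_pow (Subgroup.mem_center_iff.1 hz _), conj_pow, h2, mul_one, mul_inv_cancel,
      one_mul] at h1
  have h3 : z ^ 3 = 1 := by
    obtain ⟨r, hr, e⟩ := Matrix.SpecialLinearGroup.mem_center_iff.1 hz
    refine Subtype.ext ?_
    rw [Matrix.SpecialLinearGroup.coe_pow, ← e, ← map_pow]
    simpa using congrArg (scalar (Fin 3)) hr
  rw [pow_succ, h3, one_mul] at h4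
  rwa [ez, h4, mul_one] at hy

end Cfsg.Agent.MP.L3
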