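import Cfsg.Agent.Lib.MP.L3Nf
import Cfsg.Agent.Lib.MP.L3Mod
import Cfsg.Agent.Lib.MP.X2

/-!
Identification of the systems over `T.2`, `T` a Sylow 2-subgroup of `L₃(2ⁿ)`, all of whose
essential subgroups lie in `T`.
-/

set_option autoImplicit false
set_option linter.unusedVariables false
set_option linter.style.haveILetI false
set_option linter.unusedSectionVars false

namespace Cfsg.Agent.MP.L3

open Cfsg.Agent.Fus Subgroup
open Cfsg.Agent.Ess (u3)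
open Cfsg.Agent.Fus2 (M img HomOn GIso M_conj M_id mem_img_of_mem)
open H3

universe u v

/-- The multiplication of coordinates. -/
def cm {K : Type v} [Field K] (i j : K × K × K) : K × K × K :=
  (i.1 + j.1, i.2.1 + j.2.1, i.2.2 + j.2.2 + i.1 * j.2.1)

/-- The action of the outer involution on coordinates. -/
def cw {K : Type v} [Field K] (σ : K ≃+* K) (i : K × K × K) : K × K × K :=
  (σ i.2.1, σ i.1, σ (i.2.2 + i.1 * i.2.1))

theorem coord {Ω : Type*} [Group Ω] {S T : Subgroup Ω} {K : Type v} [Field K] (D : H3 T K) {s : Ω}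
    {σ : K ≃+* K} (h₁ : ∀ x, x ∈ S ↔ x ∈ T ∨ x * s ∈ T) (h₂ : s ∉ T) (h₃ : s * s = 1)
    (h₄ : ∀ a b c, s * D.f a b c * s⁻¹ = D.f (σ b) (σ a) (σ (c + a * b)))
    (r : K × K × K → Ω) (hr : r = fun i => D.f i.1 i.2.1 i.2.2) :
    (∀ i j, r i * r j = r (cm i j)) ∧ (∀ i j, r i * (r j * s) = r (cm i j) * s) ∧
      (∀ i j, r i * s * r j = r (cm i (cw σ j)) * s) ∧
      (∀ i j, r i * s * (r j * s) = r (cm i (cw σ j))) ∧
      Function.Injective r ∧ Function.Injective (fun i => r i * s) ∧ (∀ i j, r i ≠ r j * s) ∧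
      ∀ x, x ∈ S ↔ (∃ i, x = r i) ∨ ∃ i, x = r i * s := by
  have e₁ : ∀ i j, r i * r j = r (cm i j) := fun i j => by subst hr; exact D.mul ..
  have e₂ : ∀ i j, r i * s * r j = r (cm i (cw σ j)) * s := fun i j => by
    rw [← e₁, show r (cw σ j) = s * r j * s⁻¹ by subst hr; exact (h₄ ..).symm]; group
  have e₃ : Function.Injective r := fun i j e => by
    subst hr
    obtain ⟨h1, h2, h3⟩ := D.inj e
    exact Prod.ext h1 (Prod.ext h2 h3)
  have e₄ : ∀ x, x ∈ T ↔ ∃ i, x = r i := fun x => by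
    subst hr
    simp [D.mem_iff]
  refine ⟨e₁, fun i j => by rw [← mul_assoc, e₁], e₂,
    fun i j => by rw [← mul_assoc, e₂, mul_assoc, h₃, mul_one], e₃,
    fun i j e => e₃ (mul_right_cancel e), fun i j e => h₂ ?_, fun x => ?_⟩
  · exact (T.mul_mem_cancel_left ((e₄ _).2 ⟨j, rfl⟩)).1 (e ▸ (e₄ _).2 ⟨i, rfl⟩)
  · rw [h₁, e₄, e₄]
    refine or_congr_right (exists_congr fun i => ?_)
    rw [← eq_mul_inv_iff_mul_eq, inv_eq_of_mul_eq_one_right h₃]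

/-- Two groups `T⟨s⟩` with the same coordinates are isomorphic. -/
theorem exists_iso {Ω Ω' : Type*} [Group Ω] [Group Ω'] {S T : Subgroup Ω} {S' T' : Subgroup Ω'}
    {K : Type v} [Field K] (D : H3 T K) (D' : H3 T' K) {s : Ω} {s' : Ω'} {σ : K ≃+* K}
    (h₁ : ∀ x, x ∈ S ↔ x ∈ T ∨ x * s ∈ T) (h₁' : ∀ x, x ∈ S' ↔ x ∈ T' ∨ x * s' ∈ T')
    (h₂ : s ∉ T) (h₂' : s' ∉ T') (h₃ : s * s = 1) (h₃' : s' * s' = 1)
    (h₄ : ∀ a b c, s * D.f a b c * s⁻¹ = D.f (σ b) (σ a) (σ (c + a * b)))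
    (h₄' : ∀ a b c, s' * D'.f a b c * s'⁻¹ = D'.f (σ b) (σ a) (σ (c + a * b))) :
    ∃ a b, GIso S S' a b ∧ (∀ x y z, a (D.f x y z) = D'.f x y z) ∧ a s = s' := by
  obtain ⟨a₁, a₂, a₃, a₄, a₅, a₆, a₇, a₈⟩ := coord D h₁ h₂ h₃ h₄ _ rfl
  obtain ⟨b₁, b₂, b₃, b₄, b₅, b₆, b₇, b₈⟩ := coord D' h₁' h₂' h₃' h₄' _ rfl
  obtain ⟨a, b, h, e₁, e₂⟩ := Tr.exists_gIso_of_coord cm cm (fun i j => cm i (cw σ j))
    (fun i j => cm i (cw σ j)) _ _ _ _ a₁ a₂ a₃ a₄ b₁ b₂ b₃ b₄ a₅ a₆ a₇ b₅ b₆ b₇ a₈ b₈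
  exact ⟨a, b, h, fun x y z => e₁ (x, y, z), by simpa [D.f_zero, D'.f_zero] using e₂ (0, 0, 0)⟩

section Main

variable {Ω : Type u} [Group Ω] {S T : Subgroup Ω} {K : Type} [Field K] [CharP K 2] [Fintype K]
  [Finite S] {D : H3 T K} {F : FusionSystem S} {s : Ω} {σ : K ≃+* K} (h : NF D F s σ)
  (hq : 2 < Fintype.card K)

/-- The diagonal-field automorphisms that induce a map of `F`. -/
def Gam : Subgroup (MulAut (SL3 K)) where
  carrier := {φ | ∃ u v τ, u ≠ 0 ∧ v ≠ 0 ∧ IsD φ u v τ ∧ ∃ g, M F T g ∧ Dg D D g u v τ}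
  one_mem' := ⟨1, 1, _, one_ne_zero, one_ne_zero, isD_one, _, M_id F h.su.le,
    fun a b c => by simp⟩
  mul_mem' := by
    rintro φ' φ ⟨u', v', τ', hu', hv', e', g', hg', d'⟩ ⟨u, v, τ, hu, hv, e, g, hg, d⟩
    exact ⟨_, _, _, by simp [hu, hu'], by simp [hv, hv'], e.mul e', _,
      hg.comp hg' (h.su.mapT hq hg), d.comp d'⟩
  inv_mem' := by
    rintro φ ⟨u, v, τ, hu, hv, e, g, hg, d⟩
    obtain ⟨g', hg', -, e₁, -⟩ := hg.inv' (hg.img_eq_self (h.su.mapT hq hg))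
    exact ⟨_, _, _, by simp [hu], by simp [hv], e.inv hu hv, g', hg', d.symm hu hv e₁⟩

theorem IsD.D' {φ : MulAut (SL3 K)} {u v : K} {τ : K ≃+* K} (e : IsD φ u v τ) (hu : u ≠ 0)
    (hv : v ≠ 0) (a b c : K) :
    φ * (D' K).f a b c * φ⁻¹ = (D' K).f (u * τ a) (v * τ b) (u * v * τ c) :=
  (cj_conj ..).trans (congrArg cj (e.u3 hu hv a b c))

theorem IsG.D' {γ : MulAut (SL3 K)} (e : IsG γ σ) (a b c : K) :
    γ * (D' K).f a b c * γ⁻¹ = (D' K).f (σ b) (σ a) (σ (c + a * b)) :=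
  (cj_conj ..).trans (congrArg cj (e.u3 a b c))

instance instFiniteAut : Finite (MulAut (SL3 K)) :=
  Finite.of_injective (fun α : MulAut (SL3 K) => (α : SL3 K → SL3 K)) DFunLike.coe_injective

variable (hS : IsPGroup 2 S) (hF : F.IsSaturated 2)
include hS hF

theorem ext_Gam {γ : MulAut (SL3 K)} (hγ : IsG γ σ) :
    X2.Ext (cj (K := K)).range (Gam h hq) (T' K) γ := by
  obtain ⟨h1, h2⟩ := LT.psl_simple (ι := Fin 3) (F := K) (by simp)
  have sq := hγ.sq h.σσ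
  have hi : γ⁻¹ = γ := inv_eq_of_mul_eq_one_right sq
  refine ⟨range_normal, rangeEquiv.symm.isSimpleGroup,
    Group.IsPerfect.ofSurjective (f := (rangeEquiv (K := K)).toMonoidHom) rangeEquiv.surjective,
    cen_range, ?_, sq, ?_, syl_T', fun t ht => ?_, fun e => ?_⟩
  · refine Nat.not_even_iff_odd.1 fun he => ?_
    obtain ⟨⟨φ, u, v, τ, hu, hv, e, g, hg, d⟩, ho⟩ :=
      exists_prime_orderOf_dvd_card' 2 (even_iff_two_dvd.1 he)
    rw [← orderOf_coe, orderOf_eq_prime_iff] at ho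
    obtain ⟨rfl, rfl, hτ⟩ := h.su.odd hq hS hF hg hu d fun x hx => by
      obtain ⟨a, b, c, rfl⟩ := D.surj hx
      have e₁ : φ * (φ * (D' K).f a b c * φ⁻¹) * φ⁻¹ = (D' K).f a b c := by
        have : φ * φ = 1 := by simpa [_root_.sq] using ho.1
        rw [show φ * (φ * (D' K).f a b c * φ⁻¹) * φ⁻¹ = φ * φ * (D' K).f a b c * (φ * φ)⁻¹ by group,
          this]
        simp
      rw [e.D' hu hv, e.D' hu hv] at e₁
      rw [d, d]
      exact D.eq_iff.2 ((D' K).inj e₁)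
    obtain rfl : τ = RingEquiv.refl K := RingEquiv.ext hτ
    exact ho.2 (e.unique isD_one)
  · rintro φ ⟨u, v, τ, hu, hv, e, g, hg, d⟩
    have hm : ∀ x ∈ T, s⁻¹ * x * s⁻¹⁻¹ ∈ T := fun x hx => h.su.nor (inv_mem h.mem) hx
    refine ⟨_, _, _, by simp [hv], by simp [hu], hγ.conj e hu hv, _,
      ((M_conj F h.su.le (inv_mem h.mem)).comp hg hm).comp (M_conj F le_rfl h.mem)
        fun x hx => hg.mem (hm x hx), fun a b c => ?_⟩
    have h2 := CharTwo.two_eq_zero (R := K)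
    simp only [inv_inv, h.conj', d _ _ _, h.conj, map_add, map_mul, RingEquiv.trans_apply]
    congr 1
    linear_combination (σ u * σ v * σ (τ (σ a)) * σ (τ (σ b))) * h2
  · obtain ⟨a, b, c, rfl⟩ := (D' K).surj ht
    have := hγ.D' a b c
    rw [hi] at this
    exact this ▸ (D' K).f_mem ..
  · simpa [hγ.D'] using (D' K).conj₁ e (x := (D' K).f 1 0 0) (by simp)

include h hq in
theorem main (hE : ∀ E, F.IsEssential 2 E → E ≤ T) :
    ∃ (G : Type u) (_ : Group G) (_ : Finite G) (κ : S →* G), F.IsRealizedBy κ ∧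
      (∃ T : Sylow 2 G, (T : Subgroup G) = κ.range) ∧
      Nonempty (generalizedFittingSubgroup G ≃* Matrix.ProjectiveSpecialLinearGroup (Fin 3) K) ∧
      generalizedFittingSubgroup G ≤ pResidual 2 G ∧
      Odd ((generalizedFittingSubgroup G).subgroupOf (pResidual 2 G)).index ∧
      (pResidual 2 G).index = 2 := by
  obtain ⟨γ, hγ⟩ := exists_isG σ
  have hX := ext_Gam h hq hS hF hγ
  obtain ⟨ι, κ, hι, e₁, e₂⟩ := exists_iso (S := S) (S' := hX.S) D (D' K) (fun x => ⟨fun hx => by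
      by_cases hT : x ∈ T
      · exact Or.inl hT
      · exact Or.inr (h.su.idx x hx s h.mem hT h.nm),
    fun hx => hx.elim (fun e => h.su.le e) fun e => (S.mul_mem_cancel_right h.mem).1 (h.su.le e)⟩)
    (fun _ => hX.mem_S) h.nm hX.nm h.sq hX.sq h.conj hγ.D'
  obtain ⟨E, hE', key⟩ := hX.exists_system hι.hom hι.inj hι.img_top
  have mT : ∀ x ∈ T, ι x ∈ T' K := fun x hx => by
    obtain ⟨a, b, c, rfl⟩ := D.surj hx
    exact e₁ a b c ▸ (D' K).f_mem ..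
  have sT : ∀ y ∈ T' K, ∃ x ∈ T, ι x = y := fun y hy => by
    obtain ⟨a, b, c, rfl⟩ := (D' K).surj hy
    exact ⟨_, D.f_mem .., e₁ a b c⟩
  let Ind : FusionSystem S → MulAut (SL3 K) → Prop := fun F n =>
    ∃ g, M F T g ∧ ∀ x ∈ T, ι (g x) = n * ι x * n⁻¹
  have iN : ∀ F n, Ind F n → n ∈ normalizer (T' K : Set (MulAut (SL3 K))) := by
    rintro F n ⟨g, hg, e⟩
    refine mem_normalizer_fintype fun y hy => ?_
    obtain ⟨x, hx, rfl⟩ := sT y hy
    exact e x hx ▸ mT _ (h.su.mapT hq hg x hx)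
  have iM : ∀ n n', Ind F n → Ind F n' → Ind F (n * n') := by
    rintro n n' ⟨g, hg, e⟩ ⟨g', hg', e'⟩
    exact ⟨_, hg'.comp hg (h.su.mapT hq hg'), fun x hx => by
      rw [e _ (h.su.mapT hq hg' x hx), e' x hx]; group⟩
  have iS : ∀ x ∈ S, Ind F (ι x) := fun x hx =>
    ⟨_, M_conj F h.su.le hx, fun y hy => hι.hom.map_conj hx (h.su.le hy)⟩
  have dD : ∀ {φ g u v τ}, u ≠ 0 → v ≠ 0 → IsD φ u v τ → Dg D D g u v τ →
      ∀ x ∈ T, ι (g x) = φ * ι x * φ⁻¹ := fun hu hv e d x hx => by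
    obtain ⟨a, b, c, rfl⟩ := D.surj hx
    rw [d, e₁, e₁, e.D' hu hv]
  have iΓ : ∀ φ ∈ Gam h hq, Ind F φ := by
    rintro φ ⟨u, v, τ, hu, hv, e, g, hg, d⟩
    exact ⟨g, hg, dD hu hv e d⟩
  have iL : ∀ l, cj l ∈ normalizer (T' K : Set (MulAut (SL3 K))) → Ind F (cj l) := fun l hl => by
    obtain ⟨_, ⟨a, b, c, rfl⟩, μ, ν, hμ, hν, e⟩ := borel (mem_norm hl)
    obtain ⟨g, hg, d⟩ := h.torus hq hS hF hμ hν
    refine ⟨_, hg.comp (M_conj F le_rfl (h.su.f_mem a b c)) fun x hx => hg.mem hx, fun x hx => ?_⟩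
    rw [hι.hom.map_conj (h.su.f_mem ..) (hg.mem hx)]
    obtain ⟨a', b', c', rfl⟩ := D.surj hx
    rw [d, e₁, e₁, e₁]
    exact ((congrArg cj (e a' b' c')).trans (by rw [map_mul, map_mul, map_inv]; rfl)).symm.trans
      (by rw [map_mul, map_mul, map_inv]; rfl)
  have hFE : ∀ g, M F T g → M E T g := fun g hg => by
    obtain ⟨x, hx, u, v, τ, hu, hv, d⟩ := h.std hq hS hF hg
    obtain ⟨φ, e⟩ := exists_isD hu hv τ
    have hφ : φ ∈ Gam h hq := ⟨u, v, τ, hu, hv, e, _,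
      hg.comp (M_conj F le_rfl hx) fun y hy => hg.mem hy, d⟩
    refine (key _ _).2 ⟨h.su.le, fun y hy => hg.mem hy, (ι x)⁻¹ * φ,
      mul_mem (inv_mem (hX.S_le (hι.mem x hx))) (hX.le₀ (mem_sup_right hφ)), fun y hy => ?_⟩
    have := dD hu hv e d y hy
    rw [hι.hom.map_conj hx (hg.mem hy)] at this
    rw [show (ι x)⁻¹ * φ * ι y * ((ι x)⁻¹ * φ)⁻¹ = (ι x)⁻¹ * (φ * ι y * φ⁻¹) * ι x by group, ← this]
    group
  have hEF : ∀ g, M E T g → M F T g := fun g hg => by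
    obtain ⟨-, -, n, hn, e⟩ := (key _ _).1 hg
    have hN := iN E n ⟨g, hg, e⟩
    have : Ind F n := by
      obtain ⟨_, ⟨l, rfl⟩, δ, hδ, H⟩ := hX.mem_G.1 hn
      obtain ⟨m, hm, rfl⟩ : ∃ m, Ind F m ∧ n = cj l * m := by
        rcases H with rfl | rfl
        · exact ⟨δ, iΓ δ hδ, rfl⟩
        · exact ⟨δ * γ, iM _ _ (iΓ δ hδ) (e₂ ▸ iS s h.mem), mul_assoc ..⟩
      exact iM _ _ (iL l ((Subgroup.mul_mem_cancel_right _ (iN F m hm)).1 hN)) hm
    obtain ⟨g', hg', e'⟩ := this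
    exact hg'.congr fun x hx => hι.inj _ (hg'.mem hx) _ (hg.mem hx) ((e' x hx).trans (e x hx).symm)
  have hN : NF D E s σ := by
    refine ⟨⟨h.su, h.mem, h.σσ, h.conj, ?_⟩, h.sq, fun hσ => ?_⟩
    · obtain ⟨w, hw, ew⟩ := h.w
      obtain ⟨w', ew'⟩ := exists_w (K := K)
      refine ⟨w, (key _ _).2 ⟨h.su.le₁, fun x hx => hw.mem hx, cj w',
        hX.le₀ (mem_sup_left ⟨w', rfl⟩), ?_⟩, ew⟩
      rintro _ ⟨a, c, rfl⟩
      rw [ew, e₁, e₁]
      exact (congrArg cj (ew' a c)).symm.trans (by rw [map_mul, map_mul, map_inv]; rfl)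
    · obtain ⟨μ, h0, h1, g, hg, hs, d⟩ := h.tor hσ
      obtain ⟨φ, e⟩ := exists_isD h0 h0 (RingEquiv.refl K)
      have hφ : φ ∈ Gam h hq := ⟨_, _, _, h0, h0, e, g, hg.mono h.su.le, d⟩
      refine ⟨μ, h0, h1, g, (key _ _).2 ⟨le_rfl, fun x hx => hg.mem hx, φ,
        hX.le₀ (mem_sup_right hφ), ?_⟩, hs, d⟩
      refine h.su.ext h.mem h.nm (hg.homOn.comp hι.hom fun x hx => hg.mem hx)
        (hι.hom.comp (Fus2.homOn_conj ⊤ φ) fun _ _ => trivial) (dD h0 h0 e d) ?_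
      have := hγ.conj e h0 h0
      rw [hσ, show (σ.trans (RingEquiv.refl K)).trans σ = RingEquiv.refl K from
        RingEquiv.ext h.σσ] at this
      have e₃ := this.unique e
      rw [hs, e₂, eq_mul_inv_iff_mul_eq]
      calc γ * φ = γ * φ * γ * γ := by rw [mul_assoc _ γ, hX.sq, mul_one]
        _ = φ * γ := by rw [e₃]
  have hsc : E.StronglyClosed T := Fus2.stronglyClosed_iff.2 ⟨h.su.le, fun P f hf x hx hxT => by
    obtain ⟨-, -, n, hn, e⟩ := (key _ _).1 hf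
    obtain ⟨y, hy, e'⟩ := sT _ (hX.conj_mem hn (mT x hxT) (e x hx ▸ hι.mem _ (hf.mem hx)))
    exact hι.inj _ (h.su.le hy) _ (hf.mem hx) (e'.trans (e x hx).symm) ▸ hy⟩
  obtain rfl : F = E := fs_le_antisymm (h.le hq hS hF hN hE' hFE hE)
    (hN.le hq hS hE' h hF hEF fun P hP => h.su.ess_sc hS hE' hsc hP)
  obtain ⟨G, _, _, κ, r₁, r₂, ⟨r₃⟩, r₄⟩ := hX.realize hι.hom hι.inj hι.img_top key
  exact ⟨G, _, inferInstance, κ, r₁, r₂, ⟨r₃.trans rangeEquiv.symm⟩, r₄⟩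

end Main

/-- Change of the field along an isomorphism. -/
def H3.re {Ω : Type u} [Group Ω] {T : Subgroup Ω} {K : Type v} {K' : Type} [Field K] [Field K']
    (D : H3 T K) (e : K' ≃+* K) : H3 T K' where
  f a b c := D.f (e a) (e b) (e c)
  mem_iff x := (D.mem_iff x).trans ⟨fun ⟨a, b, c, h⟩ => ⟨e.symm a, e.symm b, e.symm c, by simpa⟩,
    fun ⟨a, b, c, h⟩ => ⟨_, _, _, h⟩⟩
  mul a b c a' b' c' := by simp [D.mul]
  inj h := by simpa using D.inj h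

theorem H3.re₁ {Ω : Type u} [Group Ω] {T : Subgroup Ω} {K : Type v} {K' : Type} [Field K]
    [Field K'] [CharP K 2] [CharP K' 2] (D : H3 T K) (e : K' ≃+* K) : (D.re e).A₁ = D.A₁ := by
  ext x
  exact ⟨by rintro ⟨a, c, rfl⟩; simp [re], by
    rintro ⟨a, c, rfl⟩; exact ⟨e.symm a, e.symm c, by simp [re]⟩⟩

/-- The `L₃(2ⁿ)` identification. -/
theorem l3 {Ω : Type u} [Group Ω] {S T : Subgroup Ω} [Finite S] (hS : IsPGroup 2 S)
    {F : FusionSystem S} (hF : F.IsSaturated 2) {K : Type v} [Field K] [Fintype K] [CharP K 2]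
    (D : H3 T K) (hq : 2 < Fintype.card K) (hle : T ≤ S) (hi : T.relIndex S = 2)
    (hn : ¬ S ≤ normalizer (D.A₁ : Set Ω)) (h₁ : F.IsEssential 2 D.A₁)
    (hE : ∀ E, F.IsEssential 2 E → E ≤ T) :
    ∃ (G : Type u) (_ : Group G) (_ : Finite G) (ι : S →* G), F.IsRealizedBy ι ∧
      (∃ T : Sylow 2 G, (T : Subgroup G) = ι.range) ∧
      ∃ (K : Type) (_ : Field K) (_ : Fintype K),
        Nonempty (generalizedFittingSubgroup G ≃* Matrix.ProjectiveSpecialLinearGroup (Fin 3) K) ∧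
        generalizedFittingSubgroup G ≤ pResidual 2 G ∧
        Odd ((generalizedFittingSubgroup G).subgroupOf (pResidual 2 G)).index ∧
        (pResidual 2 G).index = 2 := by
  obtain ⟨n, -, hK⟩ := FiniteField.card K 2
  letI : Fintype (GaloisField 2 n) := Fintype.ofFinite _
  have hc : Fintype.card (GaloisField 2 n) = Fintype.card K := by
    rw [hK, ← Nat.card_eq_fintype_card, GaloisField.card 2 n n.ne_zero]
  have e := FiniteField.ringEquivOfCardEq hc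
  obtain ⟨D', s, σ, -, -, h⟩ := (D.re e).exists_nf (hc ▸ hq) hS hF hle hi (by rwa [H3.re₁])
    (by rwa [H3.re₁])
  obtain ⟨G, _, _, ι, r₁, r₂, r₃⟩ := main h (hc ▸ hq) hS hF hE
  exact ⟨G, _, inferInstance, ι, r₁, r₂, _, _, inferInstance, r₃⟩

end Cfsg.Agent.MP.L3
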