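import Cfsg.Agent.Lib.MP.Defs
import Cfsg.Agent.Lib.MP.L3

/-!
Statement 5175: assembly of the rows of `docs/MP_PLAN.md`.
-/

set_option autoImplicit false

namespace Cfsg.Agent.MP

open Subgroup Cfsg.Agent.Tr Cfsg.FusionSystem

universe u

/-- Row J3 (helper2): the `L₃(q)` branch with an extra essential subgroup. -/
def J3Stmt : Prop :=
  ∀ {Ω : Type u} [Group Ω] {S T : Subgroup Ω} [Finite S], IsPGroup 2 S → ∀ {F : FusionSystem S},
    F.IsSaturated 2 → ∀ {K : Type} [Field K] [Fintype K] [CharP K 2] (D : L3.H3 T K),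
      2 < Fintype.card K → T ≤ S → T.relIndex S = 2 → ¬ S ≤ normalizer (D.A₁ : Set Ω) →
      F.IsEssential 2 D.A₁ → (∃ E, F.IsEssential 2 E ∧ ¬ E ≤ T) →
      ∃ (G : Type u) (_ : Group G) (_ : Finite G) (ι : S →* G), F.IsRealizedBy ι ∧
        (∃ T : Sylow 2 G, (T : Subgroup G) = ι.range) ∧ Nat.card S = 2 ^ 7 ∧ Cfsg.Spor.IsoJ3 G

variable {Ω : Type u} [Group Ω] {S : Subgroup Ω} [Finite S] {F : FusionSystem S}

theorem Cfg.le₂ {E₁ E₂ : Subgroup Ω} {s : Ω} {l : MulAut E₁} (c : Cfg F E₁ E₂ s l) : E₂ ≤ S := by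
  rw [← c.s₁]
  exact cj_le_iff.2 fun a ha => S.mul_mem (S.mul_mem c.sS (c.le ha)) (S.inv_mem c.sS)

theorem Cfg.norm_s {E₁ E₂ : Subgroup Ω} {s : Ω} {l : MulAut E₁} (c : Cfg F E₁ E₂ s l) :
    s ∈ normalizer (normalizerIn S E₁ : Set Ω) := by
  have h₂ : E₂ ≤ normalizerIn S E₁ := fun b hb => mem_inf.2 ⟨c.le₂ hb, by
    have : Finite E₁ := Finite.of_injective _ (inclusion_injective c.le)
    refine mem_normalizer_fintype fun a ha => ?_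
    simpa [mul_assoc] using E₁.mul_mem (E₁.inv_mem (c.tw.cm _ ha _ hb).1) ha⟩
  have : Finite (normalizerIn S E₁) :=
    Finite.of_injective _ (inclusion_injective (inf_le_left : normalizerIn S E₁ ≤ S))
  refine mem_normalizer_fintype fun t ht => mem_inf.2
    ⟨S.mul_mem (S.mul_mem c.sS ht.1) (S.inv_mem c.sS), ?_⟩
  have : cj t E₂ = E₂ := (c.max (cj t E₂) (cj_le_iff.2 fun b hb =>
    mul_mem (mul_mem ht (h₂ hb)) (Subgroup.inv_mem _ ht)) (fun _ ⟨b, hb, e⟩ => by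
      rw [← e, ← map_mul, c.tw.sq₂ b hb, map_one]) (by rw [card_cj, ← c.s₁, card_cj])).resolve_left
    fun e => c.tw.ne₁ (cj_inj.1 ((cj_eq_iff.2 ht.2).trans e.symm)).le
  rw [← cj_eq_iff, cj_mul, cj_mul, cj_eq_iff_eq_cj_inv.1 c.s₂ |>.symm, this, c.s₂]

theorem s5175_of (hR : RedStmt.{u}) (hG : StgStmt.{u}) (hD : DihStmt.{u}) (hP : SpStmt.{u})
    (hJ : J3Stmt.{u}) (hS : IsPGroup 2 S) (hF : F.IsSaturated 2) (hO : F.core = ⊥) (hm : Min F)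
    (N : FusionSystem S) (hN : N.IsSaturated 2) (hle : N ≤ F) (hne : N ≠ F)
    (hpar : ∀ R : Subgroup Ω, R ≠ ⊥ → R ≤ S → S ≤ normalizer (R : Set Ω) →
      (∀ P : Subgroup Ω, F.normalizerHom S P ⊆ F.normalizerHom R P) →
      ∀ P : Subgroup Ω, F.normalizerHom R P ⊆ N.Hom P) : Concl F := by
  obtain ⟨E₁, E₂, s, l, c⟩ := hR F hS hF hO hm N hN hle hne hpar
  have hs : s ∉ normalizer (E₁ : Set Ω) := fun h =>
    c.tw.ne₁ ((cj_eq_iff.2 h).symm.trans c.s₁).le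
  have hT : E₁ ⊔ E₂ ≤ S := sup_le c.le c.le₂
  obtain ⟨hE, h4 | ⟨K, _, _, _, hi, ⟨hq, D, e⟩ | ⟨D, e⟩⟩⟩ := hG F hS hF hm E₁ E₂ s l c
  · exact hD F hS hF hO hm E₁ hE c.tw.sq₁ h4 ⟨s, c.sS, c.norm_s, hs⟩
  · by_cases hx : ∀ E, F.IsEssential 2 E → E ≤ E₁ ⊔ E₂
    · obtain ⟨G, _, _, ι, h1, h2, K, _, _, h3, h4⟩ := L3.l3 hS hF D hq hT hi
        (fun h => hs (by rw [e] at h; exact h c.sS)) (by rwa [e]) hx
      exact ⟨G, _, inferInstance, ι, h1, h2,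
        .inr (.inr (.inr (.inr (.inr ⟨K, _, inferInstance, .inl h3, h4⟩))))⟩
    · obtain ⟨G, _, _, ι, h1, h2, h3⟩ := hJ hS hF D hq hT hi
        (fun h => hs (by rw [e] at h; exact h c.sS)) (by rwa [e]) (by simpa using hx)
      exact ⟨G, _, inferInstance, ι, h1, h2, .inr (.inr (.inr (.inr (.inl h3))))⟩
  · exact hP F hS hF hO hm K _ E₁ D hT hi e (fun h => hs (h c.sS)) hE

end Cfsg.Agent.MP
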