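import Cfsg.Agent.Lib.MP.Rk0

/-!
Step 1: a minimal subgroup over `R D` not contained in `M`.
-/

set_option autoImplicit false
set_option linter.unusedSectionVars false

namespace Cfsg.Agent.MP.Rk

open Subgroup Cfsg.Agent.Tr

section Grp

variable {X : Type*} [Group X] [Finite X]

/-- The largest subgroup of `L ⊓ M` normalized by `L`. -/
def cr (L M : Subgroup X) : Subgroup X where
  carrier := {x | x ∈ L ∧ ∀ g ∈ L, g⁻¹ * x * g ∈ M}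
  one_mem' := ⟨one_mem _, fun g _ => by simp⟩
  mul_mem' := fun {a b} ha hb => ⟨mul_mem ha.1 hb.1, fun g hg => by
    rw [show g⁻¹ * (a * b) * g = g⁻¹ * a * g * (g⁻¹ * b * g) by group]
    exact mul_mem (ha.2 g hg) (hb.2 g hg)⟩
  inv_mem' := fun {a} ha => ⟨inv_mem ha.1, fun g hg => by
    rw [show g⁻¹ * a⁻¹ * g = (g⁻¹ * a * g)⁻¹ by group]; exact inv_mem (ha.2 g hg)⟩

theorem cr_le (L M : Subgroup X) : cr L M ≤ M := fun x hx => by simpa using hx.2 1 (one_mem _)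

theorem cr_norm (L M : Subgroup X) : L ≤ normalizer (cr L M : Set X) := fun g hg =>
  mem_normalizer_of_forall fun a ha => ⟨mul_mem (mul_mem hg ha.1) (inv_mem hg), fun k hk => by
    have := ha.2 _ (mul_mem (inv_mem hg) hk)
    rwa [show (g⁻¹ * k)⁻¹ * a * (g⁻¹ * k) = k⁻¹ * (g * a * g⁻¹) * k by group] at this⟩

/-- Core lemma. -/
theorem core_lemma {L M P A : Subgroup X} (hP : SylowIn 2 P L) (hA : A ≤ P) (hL : ¬ L ≤ M)
    (hmax : ∀ H, A ≤ H → H ≤ L → H ≠ L → H ≤ M) :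
    L ≤ normalizer ((P ⊓ cr L M : Subgroup X) : Set X) := by
  have h1 : cr L M ≤ L := fun _ h => h.1
  have h2 := hP.inf_of_le_normalizer h1 (hP.le.trans (cr_norm L M))
  have h3 : P ≤ normalizer ((P ⊓ cr L M : Subgroup X) : Set X) := fun g hg =>
    mem_normalizer_of_forall fun a ha => ⟨P.mul_mem (P.mul_mem hg ha.1) (P.inv_mem hg),
      conj_mem_of_mem_normalizer (cr_norm L M (hP.le hg)) ha.2⟩
  by_contra hc
  refine hL fun x hx => ?_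
  obtain ⟨n, hn, y, hy, rfl⟩ := h2.frattini (cr_norm L M hx)
  refine mul_mem (cr_le L M hn) (hmax (L ⊓ normalizer ((P ⊓ cr L M : Subgroup X) : Set X))
    (hA.trans (le_inf hP.le h3)) inf_le_left (fun e => hc (e.symm.le.trans inf_le_right))
    ⟨(mul_mem_cancel_left (h1 hn)).1 hx, hy⟩)

end Grp

variable {V : Type*} [CommGroup V] [Finite V] (hV : ∀ v : V, v * v = 1)

instance finAut : Finite (MulAut V) := Finite.of_injective _ (DFunLike.coe_injective (F := MulAut V))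

/-- The elements of `L` moving each element of `A` inside its `W`-coset. -/
def mv (hV : ∀ v : V, v * v = 1) (L : Subgroup (MulAut V)) (A : Set V) (W : Subgroup V)
    (hW : ∀ g ∈ L, ∀ w ∈ W, g w ∈ W) : Subgroup (MulAut V) where
  carrier := {g | g ∈ L ∧ ∀ u ∈ A, g u * u ∈ W}
  one_mem' := ⟨one_mem _, fun u _ => by simp [hV]⟩
  mul_mem' := fun {a b} ha hb => ⟨mul_mem ha.1 hb.1, fun u hu => by
    rw [cm_comp hV]; exact mul_mem (hW a ha.1 _ (hb.2 u hu)) (ha.2 u hu)⟩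
  inv_mem' := fun {a} ha => ⟨inv_mem ha.1, fun u hu => by
    have := hW _ (inv_mem ha.1) _ (ha.2 u hu)
    rwa [map_mul, MulAut.inv_apply_self, mul_comm] at this⟩

/-- The output of step 1. -/
structure S1 (R M D L : Subgroup (MulAut V)) (U : Subgroup V) : Prop where
  RL : R ≤ L
  DL : D ≤ L
  nM : ¬ L ≤ M
  UR : U ≤ fx R
  inv : ∀ g ∈ L, ∀ u ∈ U, g u ∈ U
  idx : (fx D).index = Nat.card D
  gen : ∀ l ∈ L, l ∉ M → R ⊔ D ⊔ cj l D = L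
  inj : ∀ l ∈ L, l ∉ M → ∀ d ∈ D, d ≠ 1 → ∀ v, v ∉ fx D → d v * v ∉ fx (cj l D)
  cov : ∀ l ∈ L, l ∉ M → ∀ v, ∃ u ∈ U ⊓ fx (cj l D), v * u ∈ fx D

include hV

theorem step1_mod {R M D L R₁ : Subgroup (MulAut V)} (hD : Good D) (RL : R ≤ L) (DL : D ≤ L)
    (nM : ¬ L ≤ M) (RR : R ≤ R₁) (hn : L ≤ normalizer (R₁ : Set (MulAut V))) (nD : ¬ D ≤ R₁)
    (gen : ∀ l ∈ L, l ∉ M → R ⊔ D ⊔ cj l D = L)
    (gen' : ∀ d ∈ D, d ∉ R₁ → ∃ l ∈ L, l ∉ M ∧ R ⊔ zpowers d ⊔ cj l D = L)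
    (odd : ∃ x ∈ L, Odd (orderOf x) ∧ ∃ z ∈ fx R₁, x z ≠ z) : ∃ U, S1 R M D L U := by
  obtain ⟨U, ⟨U1, U2, x₀, x₀L, x₀o, u₀, u₀U, hu₀⟩, Umin⟩ := exists_min
    (fun U : Subgroup V => U ≤ fx R₁ ∧ (∀ g ∈ L, ∀ u ∈ U, g u ∈ U) ∧
      ∃ x ∈ L, Odd (orderOf x) ∧ ∃ z ∈ U, x z ≠ z) (a := fx R₁)
    ⟨le_rfl, fun g hg u hu => fx_app (hn hg) hu, odd⟩
  have UR : U ≤ fx R := U1.trans (fx_anti RR)
  let U₀ : Subgroup V :=
    { carrier := {u | u ∈ U ∧ ∀ x ∈ L, Odd (orderOf x) → x u = u}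
      one_mem' := ⟨one_mem _, fun x _ _ => map_one x⟩
      mul_mem' := fun ha hb => ⟨mul_mem ha.1 hb.1, fun x hx ho => by
        rw [map_mul, ha.2 x hx ho, hb.2 x hx ho]⟩
      inv_mem' := fun ha => ⟨inv_mem ha.1, fun x hx ho => by rw [map_inv, ha.2 x hx ho]⟩ }
  have U₀i : ∀ g ∈ L, ∀ u ∈ U₀, g u ∈ U₀ := fun g hg u hu => ⟨U2 g hg u hu.1, fun x hx ho => by
    have := hu.2 (g⁻¹ * x * g) (mul_mem (mul_mem (inv_mem hg) hx) hg) (by rwa [orderOf_conj'])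
    simpa using congrArg g this⟩
  have cL : ∀ l ∈ L, cj l D ≤ L := fun l hl => cj_le_of_mem DL hl
  -- (a)
  have ha : ∀ l ∈ L, l ∉ M → ∀ u ∈ U, ∃ h ∈ U ⊓ fx D, ∃ h' ∈ U ⊓ fx (cj l D), h * h' = u := by
    intro l hl hlM u hu
    set W := (U ⊓ fx D) ⊔ (U ⊓ fx (cj l D)) with hW
    have WU : W ≤ U := sup_le inf_le_left inf_le_left
    let T : Subgroup (MulAut V) :=
      { carrier := {g | g ∈ L ∧ ∀ u ∈ U, g u * u ∈ W}
        one_mem' := ⟨one_mem _, fun u _ => by simp [hV]⟩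
        mul_mem' := fun {a b} ha hb => ⟨mul_mem ha.1 hb.1, fun u hu => by
          have := mul_mem (ha.2 _ (U2 b hb.1 u hu)) (hb.2 u hu)
          rwa [mul_assoc, sq' hV] at this⟩
        inv_mem' := fun {a} ha => ⟨inv_mem ha.1, fun u hu => by
          have := ha.2 _ (U2 _ (inv_mem ha.1) u hu)
          rwa [MulAut.apply_inv_self, mul_comm] at this⟩ }
    have LT : L ≤ T := by
      rw [← gen l hl hlM]
      refine sup_le (sup_le (fun r hr => ⟨RL hr, fun u hu => ?_⟩)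
        fun d hd => ⟨DL hd, fun u hu => ?_⟩) fun d hd => ⟨cL l hl hd, fun u hu => ?_⟩
      · rw [UR hu r hr, hV]; exact one_mem _
      · exact mem_sup_left ⟨mul_mem (U2 d (DL hd) u hu) hu, hD.quad d hd u⟩
      · exact mem_sup_right ⟨mul_mem (U2 d (cL l hl hd) u hu) hu, (hD.cj l).quad d hd u⟩
    have : W = U := by
      by_contra hne
      refine hne (Umin W ⟨WU.trans U1, fun g hg w hw => ?_, x₀, x₀L, x₀o, x₀ u₀ * u₀,
        (LT x₀L).2 u₀ u₀U, fun e => hu₀ (odd_fix hV x₀o e)⟩ WU)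
      have := mul_mem ((LT hg).2 w (WU hw)) hw
      rwa [mul_assoc, hV, mul_one] at this
    exact mem_sup.1 (this ▸ hu : u ∈ W)
  -- (b)
  have hb : ∀ E₁ E₂ : Subgroup (MulAut V), R ⊔ E₁ ⊔ E₂ = L → ∀ u ∈ U,
      (∀ e ∈ E₁, e u * u ∈ U₀) → (∀ e ∈ E₂, e u * u ∈ U₀) → u ∈ U₀ := by
    intro E₁ E₂ e u hu h1 h2
    have LT : L ≤ mv hV L {u} U₀ U₀i := by
      refine e.symm.le.trans (sup_le (sup_le (fun r hr => ⟨RL hr, ?_⟩)
        fun d hd => ⟨e ▸ mem_sup_left (mem_sup_right hd), ?_⟩)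
        fun d hd => ⟨e ▸ mem_sup_right hd, ?_⟩) <;> rintro _ rfl
      · rw [UR hu r hr, hV]; exact one_mem _
      · exact h1 d hd
      · exact h2 d hd
    exact ⟨hu, fun x hx ho => odd_fix hV ho (((LT hx).2 u rfl).2 x hx ho)⟩
  have fxU₀ : ∀ {E : Subgroup (MulAut V)} {u : V}, u ∈ fx E → ∀ e ∈ E, e u * u ∈ U₀ :=
    fun hu e he => by rw [hu e he, hV]; exact one_mem _
  have hA : ∀ h ∈ U ⊓ fx D, ∀ w ∈ U₀, ∀ e ∈ D, e (h * w) * (h * w) ∈ U₀ := fun h hh w hw e he => by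
    rw [mul_comm h, cm_fix hV (hh.2 e he)]
    exact mul_mem (U₀i e (DL he) w hw) hw
  -- (c)
  have hc : ∀ d ∈ D, d ∉ R₁ → ∀ u ∈ U, d u * u ∈ U₀ → ∃ h ∈ U ⊓ fx D, ∃ w ∈ U₀, h * w = u := by
    intro d hd hdR u hu e
    obtain ⟨l, hl, hlM, g⟩ := gen' d hd hdR
    obtain ⟨h, hh, h', hh', rfl⟩ := ha l hl hlM u hu
    refine ⟨h, hh, h', hb _ _ g h' hh'.1 (fun e' he' => ?_) (fxU₀ hh'.2), rfl⟩
    rw [mul_comm h, cm_fix hV (hh.2 d hd)] at e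
    exact ((zpowers_le (H := mv hV L {h'} U₀ U₀i)).2 ⟨DL hd, by rintro _ rfl; exact e⟩ he').2 _ rfl
  obtain ⟨l₀, l₀L, l₀M⟩ := SetLike.not_le_iff_exists.1 nM
  -- a vector outside `(U ∩ H) U₀`
  obtain ⟨u₁, u₁U, hu₁⟩ : ∃ u ∈ U, ¬ ∃ h ∈ U ⊓ fx D, ∃ w ∈ U₀, h * w = u := by
    by_contra hcon
    push Not at hcon
    refine hu₀ ((hb _ _ (gen l₀ l₀L l₀M) u₀ u₀U (fun e he => ?_) fun e he => ?_).2 x₀ x₀L x₀o)
    · obtain ⟨h, hh, w, hw, rfl⟩ := hcon u₀ u₀U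
      exact hA h hh w hw e he
    · obtain ⟨h, hh, w, hw, e'⟩ := hcon _ (U2 _ (inv_mem l₀L) u₀ u₀U)
      obtain ⟨a, ha', rfl⟩ := mem_cj'.1 he
      have := U₀i l₀ l₀L _ (hA h hh w hw a ha')
      rwa [e', ← conj_app, MulAut.apply_inv_self] at this
  have k1 : R₁.relIndex D ≤ U₀.relIndex (U ⊓ fx D) :=
    (ri_le (D := D) (A := U ⊓ fx D) (fun d => d u₁ * u₁) (fun d hd => ⟨mul_mem (U2 d (DL hd) _ u₁U) u₁U, hD.quad d hd _⟩)
      fun d hd e he k => by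
        by_contra hne
        refine hu₁ (hc _ (mul_mem (inv_mem hd) he) hne u₁ u₁U ?_)
        rwa [inv_of_sq hD.sq hd, cm_quad hV (hD.quad e he _ d hd), ← iv hV (d u₁ * u₁)]).1
  have k2 : ∀ l ∈ L, U₀.relIndex (U ⊓ fx D) ≤ U₀.relIndex (U ⊓ fx (cj l D)) := fun l hl =>
    (ri_le (D := U ⊓ fx D) (A := U ⊓ fx (cj l D)) l (fun d hd => ⟨U2 l hl d hd.1, app_mem_fx_cj.2 hd.2⟩) fun d _ e _ k => by
      have := U₀i _ (inv_mem hl) _ k
      rwa [← map_inv, ← map_mul, MulAut.inv_apply_self] at this).1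
  have k3 : ∀ l ∈ L, l ∉ M → fx D ⊓ (U ⊓ fx (cj l D)) ≤ U₀ := fun l hl hlM u hu =>
    hb _ _ (gen l hl hlM) u hu.2.1 (fxU₀ hu.1) (fxU₀ hu.2.2)
  have k4 : ∀ l ∈ L, l ∉ M → R₁.relIndex D ≤ U₀.relIndex (U ⊓ fx (cj l D)) ∧
      U₀.relIndex (U ⊓ fx (cj l D)) ≤ (fx D).relIndex (U ⊓ fx (cj l D)) := fun l hl hlM =>
    ⟨k1.trans (k2 l hl), ri_left (k3 l hl hlM)⟩
  have hB : R₁ ⊓ D = ⊥ := by
    by_contra hne
    have m1 := hD.min _ (lt_of_le_of_ne inf_le_right fun e => nD (e ▸ inf_le_left)) hne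
    have m2 : R₁.relIndex D ≤ (fx D).relIndex (fx (R₁ ⊓ D)) :=
      (k4 l₀ l₀L l₀M).1.trans ((k4 l₀ l₀L l₀M).2.trans
        (ri_right (inf_le_left.trans (U1.trans (fx_anti inf_le_left)))))
    have m3 := relIndex_mul_index (fx_anti (inf_le_right : R₁ ⊓ D ≤ D))
    have m4 := card_inf_mul_relIndex R₁ D
    have m5 := hD.off
    have m6 := ri_pos R₁ D
    nlinarith
  have hq : R₁.relIndex D = Nat.card D := by
    have := card_inf_mul_relIndex R₁ D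
    rwa [hB, card_bot, one_mul] at this
  have k5 : ∀ l ∈ L, l ∉ M → (fx D).index ≤ U₀.relIndex (U ⊓ fx (cj l D)) := fun l hl hlM =>
    hD.off.trans (hq ▸ (k4 l hl hlM).1)
  have cov : ∀ l ∈ L, l ∉ M → ∀ v, ∃ u ∈ U ⊓ fx (cj l D), v * u ∈ fx D := fun l hl hlM v => by
    obtain ⟨u, hu, e⟩ := cover (A := fx D) (le_top : U ⊓ fx (cj l D) ≤ ⊤)
      (by rw [relIndex_top_right]; exact (k5 l hl hlM).trans (k4 l hl hlM).2) v trivial
    exact ⟨u, hu, by rwa [iv hV, mul_comm] at e⟩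
  refine ⟨U, RL, DL, nM, UR, U2, le_antisymm hD.off ?_, gen, fun l hl hlM d hd d1 v hv e => ?_, cov⟩
  · exact hq ▸ (k4 l₀ l₀L l₀M).1.trans ((k4 l₀ l₀L l₀M).2.trans (ri_le_index _ _))
  obtain ⟨u, hu, e'⟩ := cov l hl hlM v
  have e1 : d v * v = d u * u := by
    rw [← cm_fix hV (e' d hd) u, mul_comm v u, sq' hV]
  rw [e1] at e
  obtain ⟨h, hh, w, hw, rfl⟩ := hc d hd (fun k => d1 (mem_bot.1 (hB ▸ ⟨k, hd⟩))) u hu.1
    (k3 l hl hlM ⟨hD.quad d hd u, mul_mem (U2 d (DL hd) u hu.1) hu.1, e⟩)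
  have := le_of_ri (k3 l hl hlM) ((ri_le_index _ _).trans (k5 l hl hlM))
    ⟨hb _ _ (gen l hl hlM) _ hu.1 (hA h hh w hw) (fxU₀ hu.2), hu⟩
  exact hv ((mul_mem_cancel_right this).1 e')

theorem step1 {K R M P D K₀ : Subgroup (MulAut V)} (hP : SylowIn 2 P K) (hRP : R ≤ P)
    (hRn : K ≤ normalizer (R : Set (MulAut V))) (hPM : P ≤ M) (hDM : D ≤ M) (hD : Good D)
    (hU : ∀ g ∈ K, cj g D ≤ M → g ∈ M) (hF : ∀ g ∈ K, (∀ v ∈ fx P, g v = v) → g ∈ M)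
    (h1 : R ⊔ D ≤ K₀) (h2 : K₀ ≤ K) (h3 : ¬ K₀ ≤ M) : ∃ L U, L ≤ K₀ ∧ S1 R M D L U := by
  obtain ⟨L, ⟨L1, L2, L3⟩, Lm⟩ := exists_min
    (fun L : Subgroup (MulAut V) => R ⊔ D ≤ L ∧ L ≤ K₀ ∧ ¬ L ≤ M) ⟨h1, le_rfl, h3⟩
  have LK := L2.trans h2
  have hmax : ∀ H, R ⊔ D ≤ H → H ≤ L → H ≠ L → H ≤ M := fun H a b c => by
    by_contra k; exact c (Lm H ⟨a, b.trans L2, k⟩ b)
  have RL := le_sup_left.trans L1
  have DL := le_sup_right.trans L1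
  have gen : ∀ l ∈ L, l ∉ M → R ⊔ D ⊔ cj l D = L := fun l hl hlM => by
    by_contra k
    exact hlM (hU l (LK hl) (le_sup_right.trans
      (hmax _ le_sup_left (sup_le L1 (cj_le_of_mem DL hl)) k)))
  obtain ⟨Q, hQ, hQ'⟩ := exists_sylowIn_ge (p := 2) (Q := R ⊔ D) (by
    rw [sup_comm]
    exact isPGroup_sup_of_le_normalizer (pg_of_sq hD.sq) (hP.isPGroup.to_le hRP)
      ((DL.trans LK).trans hRn)) L1
  obtain ⟨g, gK, hg⟩ := hP.exists_cj_le hQ.isPGroup (hQ.le.trans LK)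
  have gM : g ∈ M := hU g gK ((cj_mono g (le_sup_right.trans hQ')).trans (hg.trans hPM))
  have QM : Q ≤ M := by
    rw [← cj_inv_cj g Q]; exact cj_le_of_mem (hg.trans hPM) (inv_mem gM)
  have hn := core_lemma hQ hQ' L3 hmax
  obtain ⟨l₀, l₀L, l₀M⟩ := SetLike.not_le_iff_exists.1 L3
  obtain ⟨U, hU⟩ := step1_mod hV (R₁ := Q ⊓ cr L M) hD RL DL L3
    (le_inf (le_sup_left.trans hQ') fun r hr => ⟨RL hr, fun k hk => hPM (hRP
      (conj_mem_of_mem_normalizer' (hRn (LK hk)) hr))⟩) hn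
    (fun k => l₀M (hU l₀ (LK l₀L) (cj_le_iff.2 fun a ha => by
      simpa using (k ha).2.2 _ (inv_mem l₀L)))) gen
    (fun d hd hdR => by
      obtain ⟨l, hl, e⟩ : ∃ l ∈ L, l⁻¹ * d * l ∉ M := by
        by_contra k; push Not at k
        exact hdR ⟨hQ' (mem_sup_right hd), DL hd, k⟩
      refine ⟨l, hl, fun k => e (mul_mem (mul_mem (inv_mem k) (hDM hd)) k), ?_⟩
      have : R ⊔ D ⊔ zpowers (l⁻¹ * d * l) = L := by
        by_contra k
        exact e (hmax _ le_sup_left (sup_le L1 (zpowers_le.2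
          (mul_mem (mul_mem (inv_mem hl) (DL hd)) hl))) k (mem_sup_right (mem_zpowers _)))
      have := congrArg (cj l) this
      rwa [cj_sup, cj_sup, cj_zpowers, cj_eq_of_mem hl, cj_eq_of_mem_normalizer (hRn (LK hl)),
        show l * (l⁻¹ * d * l) * l⁻¹ = d by group, sup_right_comm] at this)
    (by
      by_contra k
      push Not at k
      have hZ : ∀ x ∈ L, ∀ z ∈ fx (Q ⊓ cr L M), x z ∈ fx (Q ⊓ cr L M) :=
        fun x hx z hz => fx_app (hn hx) hz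
      refine L3 ((le_sup_of_pow (F := L ⊓ st (fx (Q ⊓ cr L M))) hQ le_rfl
        (hQ.le.trans le_normalizer) inf_le_left (fun x hx => mem_normalizer_of_forall fun a ha =>
          ⟨L.mul_mem (L.mul_mem hx ha.1) (L.inv_mem hx), fun z hz => by
            simp only [MulAut.mul_apply]
            rw [ha.2 _ (hZ _ (inv_mem hx) z hz), MulAut.apply_inv_self]⟩) fun x hx => ?_).trans
        (sup_le (fun x hx => ?_) QM))
      · obtain ⟨j, hj⟩ := exists_odd_pow x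
        exact ⟨j, pow_mem hx _, k _ (pow_mem hx _) hj⟩
      · have := hF (g * x * g⁻¹) (mul_mem (mul_mem gK (LK hx.1)) (inv_mem gK)) fun v hv => by
          simp only [MulAut.mul_apply]
          rw [hx.2 _ (fx_anti inf_le_left (mem_fx_cj.1 (fx_anti hg hv))), MulAut.apply_inv_self]
        rwa [mul_mem_cancel_right (inv_mem gM), mul_mem_cancel_left gM] at this)
  exact ⟨L, U, L2, hU⟩

end Cfsg.Agent.MP.Rk
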