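import Cfsg.Agent.Lib.MP.Pv2
import Cfsg.Agent.Lib.MP.Rk1

/-!
Row GRP of statement 5175, part 0: from the pushing up hypothesis to the configuration `Tw`.
-/

set_option autoImplicit false

namespace Cfsg.Agent.MP.Gp

open Subgroup Cfsg.Agent.Tr Cfsg.Agent.PV
open Cfsg.Agent.PU (Om mem_Om Om_le Om_inv commute_conj commute_conj' commute_of_conj Om_cj
  conj_mem_Om NatM)

variable {G : Type*} [Group G] {T M L Q B Y : Subgroup G} {W : Subgroup (MulAut T)}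

theorem exists_Om [Finite G] {P : Subgroup G} (hP : IsPGroup 2 P) (hY : Y ≤ P)
    (hn : ∀ u ∈ P, ∀ t ∈ Y, u * t * u⁻¹ ∈ Y) (h : Y ≠ ⊥) : ∃ x ∈ Y, x ≠ 1 ∧ x ∈ Om P := by
  obtain ⟨x, hx, h1, hc⟩ := Fus.exists_central_mod_of_isPGroup (N := ⊥) hP hY hn (by simp)
    (mt le_bot_iff.1 h)
  have hz : zpowers x ≤ Y := zpowers_le.2 hx
  obtain ⟨t, ht, t2, t1⟩ := Fus.exists_involution_mem (hP.to_le (hz.trans hY))
    (mt zpowers_eq_bot.1 h1)
  refine ⟨t, hz ht, t1, hY (hz ht), t2, fun y hy => ?_⟩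
  obtain ⟨k, rfl⟩ := ht
  exact (Commute.symm (mul_inv_eq_iff_eq_mul.1 (mul_inv_eq_one.1 (hc y hy)))).zpow_left k

/-- Invariance under a group of automorphisms of `T`. -/
def IW (W : Subgroup (MulAut T)) (Y : Subgroup G) : Prop :=
  ∀ α ∈ W, ∀ y : T, (y : G) ∈ Y → (α y : G) ∈ Y

theorem IW.iff (h : IW W Y) {α : MulAut T} (hα : α ∈ W) (y : T) : (α y : G) ∈ Y ↔ (y : G) ∈ Y :=
  ⟨fun hy => by simpa using h _ (inv_mem hα) _ hy, h α hα y⟩

theorem comm_app (α : MulAut T) {a b : T} (h : Commute (a : G) b) : Commute (α a : G) (α b) :=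
  ((Commute.of_map T.subtype_injective h).map α).map T.subtype

theorem sq_app (α : MulAut T) {a : T} (h : (a : G) * a = 1) : (α a : G) * α a = 1 := by
  rw [← coe_mul, ← map_mul, show a * a = 1 from Subtype.ext h, map_one, coe_one]

theorem IW.om (h : IW W Y) (hY : Y ≤ T) : IW W (Om Y) := fun α hα z hz =>
  ⟨h α hα z hz.1, sq_app α hz.2.1, fun y hy => by
    simpa using comm_app α (hz.2.2 _ (h _ (inv_mem hα) ⟨y, hY hy⟩ hy))⟩

/-- The image of a subgroup of `T` under an automorphism of `T`. -/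
def am (α : MulAut T) (Y : Subgroup G) : Subgroup G :=
  ((Y.subgroupOf T).map α.toMonoidHom).map T.subtype

theorem mem_am {α : MulAut T} {x : G} : x ∈ am α Y ↔ ∃ y : T, (y : G) ∈ Y ∧ (α y : G) = x :=
  ⟨by rintro ⟨_, ⟨y, hy, rfl⟩, rfl⟩; exact ⟨y, hy, rfl⟩,
    by rintro ⟨y, hy, rfl⟩; exact ⟨_, ⟨y, hy, rfl⟩, rfl⟩⟩

theorem am_iff {α : MulAut T} (y : T) : (α y : G) ∈ am α Y ↔ (y : G) ∈ Y :=
  ⟨fun h => by
    obtain ⟨z, hz, e⟩ := mem_am.1 h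
    rwa [← α.injective (Subtype.ext e)], fun h => mem_am.2 ⟨y, h, rfl⟩⟩

theorem card_am (α : MulAut T) (hY : Y ≤ T) : Nat.card (am α Y) = Nat.card Y := by
  rw [am, card_map_of_injective T.subtype_injective, card_map_of_injective α.injective,
    Nat.card_congr (subgroupOfEquivOfLe hY).toEquiv]

theorem exists_move [Finite G] (h : PH L Q B) (blk : Blk L Q) (BT : B ≤ T)
    (hW : ∀ t : T, MulAut.conj t ∈ W) (hN : ∀ Y ≤ T, Y ≠ ⊥ → IW W Y → normalizer (Y : Set G) ≤ M)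
    (LM : ¬ L ≤ M) : ∃ α ∈ W, ∃ z : T, (z : G) ∈ Om Q ∧ (α z : G) ∉ Q := by
  by_contra hc
  simp only [not_exists, not_and, not_not] at hc
  have QT := h.le.trans BT
  set Y := (⨅ α : W, (Q.subgroupOf T).comap α.1.toMonoidHom).map T.subtype
  have hY : ∀ y : T, (y : G) ∈ Y ↔ ∀ α ∈ W, (α y : G) ∈ Q := fun y => by
    simp [Y, mem_iInf, mem_subgroupOf]
  have YT : Y ≤ T := map_subtype_le _
  have EY : Om Q ≤ Y := fun z hz => (hY ⟨z, QT hz.1⟩).2 fun α hα => hc α hα _ hz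
  have YW : IW W Y := fun α hα y hy => (hY _).2 fun β hβ => (hY y).1 hy _ (mul_mem hβ hα)
  refine LM fun g hg => hN Y YT (fun e => h.Om_ne_bot (le_bot_iff.1 (e ▸ EY))) YW ?_
  obtain ⟨c, hc, e⟩ := blk g hg
  rw [← mul_mem_cancel_right (mem_normalizer_of_forall fun a ha =>
    YW _ (hW ⟨c, QT hc⟩) ⟨a, YT ha⟩ ha : c ∈ normalizer (Y : Set G))]
  refine mem_normalizer_of_forall fun a ha => ?_
  rw [← inv_mul_cancel_right (g * c * a * (g * c)⁻¹) a]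
  exact mul_mem (EY (e a ((hY ⟨a, YT ha⟩).1 ha 1 (one_mem _)))) ha

theorem le_or_le {A E₁ E₂ : Subgroup G} (h : ∀ x ∈ A, x ∈ E₁ ∨ x ∈ E₂) : A ≤ E₁ ∨ A ≤ E₂ := by
  by_contra hc
  rw [not_or] at hc
  obtain ⟨a, ha, a1⟩ := SetLike.not_le_iff_exists.1 hc.1
  obtain ⟨b, hb, b2⟩ := SetLike.not_le_iff_exists.1 hc.2
  rcases h _ (mul_mem ha hb) with e | e
  · exact a1 ((mul_mem_cancel_right ((h b hb).resolve_right b2)).1 e)
  · exact b2 ((mul_mem_cancel_left ((h a ha).resolve_left a1)).1 e)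

theorem fin [Finite G] (h : PH L Q B) (hT : IsPGroup 2 T) (BT : B ≤ T)
    (hW : ∀ t : T, MulAut.conj t ∈ W) (hB : IW W B)
    (hN : ∀ Y ≤ T, Y ≠ ⊥ → IW W Y → normalizer (Y : Set G) ≤ M)
    (LM : ¬ L ≤ M) (gen : ∀ l ∈ L, l ∉ M → B ⊔ cj l B = L)
    (hC : ∀ t ∈ T, (∀ z ∈ Om B, Commute z t) → t ∈ B)
    (hA : ∀ A ≤ T, E2 A → Nat.card Q ≤ Nat.card A → A ≤ B) :
    ∃ (E₁ E₂ C₁ C₂ : Subgroup G) (l : G) (α : MulAut T), α ∈ W ∧ E₁ ≤ T ∧ E₂ ≤ T ∧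
      (∀ y : T, (α y : G) ∈ E₂ ↔ (y : G) ∈ E₁) ∧ (∀ y : T, (α y : G) ∈ C₂ ↔ (y : G) ∈ C₁) ∧
      (∀ y : T, (α y : G) ∈ E₁ ⊓ E₂ ↔ (y : G) ∈ E₁ ⊓ E₂) ∧
      Tw E₁ E₂ C₁ C₂ ∧ l ∈ normalizer (E₁ : Set G) ∧ l ∉ M ∧ (∀ c ∈ C₁, Commute l c) ∧
      (∀ x ∈ E₁ ⊓ E₂, x ∉ C₁ → l * x * l⁻¹ ∉ E₂) ∧
      (C₁ ⊓ C₂ = ⊥ → T ⊓ centralizer (E₁ : Set G) ≤ E₁ ∧
        ∀ A ≤ T, E2 A → Nat.card E₁ ≤ Nat.card A → A = E₁ ∨ A = E₂) := by
  have blk : Blk L Q := pu_aut h BT W hB fun Y hY h1 h2 => by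
    by_contra e
    exact LM (h1.trans (hN Y (hY.trans BT) e h2))
  obtain ⟨α, hα, z₀, hz₀, hz₀'⟩ := exists_move h blk BT hW hN LM
  have tw := two h BT α (hB α hα) hz₀ hz₀'
  have QT := h.le.trans BT
  have ET := (Om_le Q).trans QT
  have hZ := hB.om BT
  have ZE : Om B ≤ Om Q := fun z hz => h.mem_Om hz.1 hz.2.1 fun y hy => hz.2.2 y (h.le hy)
  have k2 : ∀ e : T, (e : G) ∈ Om Q → (α e : G) ∈ Q → (α e : G) ∈ Om B := fun e he hx =>
    ⟨h.le hx, sq_app α he.2.1, fun b hb => by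
      obtain ⟨a, ha, c, hc, e⟩ := (tw ⟨b, BT hb⟩ hb).2
      rw [show b = a * α c from congrArg Subtype.val e.symm]
      exact (ha.2.2 _ hx).symm.mul_right (comm_app α (he.2.2 c hc))⟩
  have k3 : ∀ e : T, (e : G) ∈ Q → (α e : G) ∈ Om Q → (α e : G) ∈ Om B := fun e he hx =>
    ⟨h.le hx.1, hx.2.1, fun b hb => by
      obtain ⟨a, ha, c, hc, e⟩ := (tw ⟨b, BT hb⟩ hb).1
      rw [show b = α a * c from congrArg Subtype.val e.symm]
      exact (comm_app α (ha.2.2 _ he).symm).mul_right (hx.2.2 c hc)⟩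
  have Z2 : Om B ≤ am α (Om Q) := fun z hz => mem_am.2 ⟨α⁻¹ ⟨z, BT hz.1⟩,
    ZE (hZ _ (inv_mem hα) _ hz), by simp⟩
  have k1 : Om Q ⊓ am α (Om Q) = Om B := le_antisymm (fun x hx => by
    obtain ⟨e, he, rfl⟩ := mem_am.1 hx.2
    exact k2 e he hx.1.1) (le_inf ZE Z2)
  have nE : ¬ Om Q ≤ Om B := fun e => h.ne fun t ht => h.cen ht fun z hz => (e hz).2.2 t ht
  have CZ : Om Q ⊓ centralizer (L : Set G) ≤ Om B := fun z hz =>
    ⟨h.le hz.1.1, hz.1.2.1, fun b hb => (hz.2 b (h.lG hb)).symm⟩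
  have nc : ∀ a : T, (a : G) ∈ Om Q → (a : G) ∉ Om B → ∀ b : T, (b : G) ∈ B → (b : G) ∉ Q →
      (b : G) * a * (b : G)⁻¹ * (a : G)⁻¹ ∉ Om Q ⊓ centralizer (L : Set G) := fun a ha ha' b hb hb' hc =>
    ha' ⟨h.le ha.1, ha.2.1, h.nat b hb hb' a ha fun g hg => (hc.2 g hg).symm⟩
  have hTw : Tw (Om Q) (am α (Om Q)) (Om Q ⊓ centralizer (L : Set G))
      (am α (Om Q ⊓ centralizer (L : Set G))) := by
    refine ⟨fun a ha => ha.2.1, fun a ha => ?_, k1 ▸ CZ, fun a ha => ?_,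
      fun e => nE (k1 ▸ le_inf le_rfl e), fun e => hz₀' (e ((am_iff z₀).2 hz₀)).1,
      fun a ha b hb => ?_, fun a ha ha' b hb hb' => ?_⟩
    · obtain ⟨e, he, rfl⟩ := mem_am.1 ha
      exact sq_app α he.2.1
    · obtain ⟨e, he, rfl⟩ := mem_am.1 ha
      exact k1 ▸ hZ α hα e (CZ he)
    · obtain ⟨e, he, rfl⟩ := mem_am.1 hb
      obtain ⟨a, rfl⟩ : ∃ a' : T, (α a' : G) = a := ⟨α⁻¹ ⟨a, ET ha⟩, by simp⟩
      constructor
      · simpa [mul_assoc] using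
          mul_mem ha (h.conj_Om (h.lG (hB α hα e (h.le he.1))) (inv_mem ha))
      · refine mem_am.2 ⟨a * e * a⁻¹ * e⁻¹, ?_, by simp⟩
        exact mul_mem (h.conj_Om (h.lG ((hB.iff hα a).1 (h.le ha.1))) he) (inv_mem he)
    · obtain ⟨e, he, rfl⟩ := mem_am.1 hb
      obtain ⟨a, rfl⟩ : ∃ a' : T, (α a' : G) = a := ⟨α⁻¹ ⟨a, ET ha⟩, by simp⟩
      constructor
      · intro hc
        refine nc (α a) ha (mt (@Z2 _) ha') (α e) (hB α hα e (h.le he.1))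
          (fun hx => hb' (ZE (k2 e he hx))) ?_
        simpa [mul_assoc] using inv_mem hc
      · intro hc
        refine nc e he (fun hx => hb' (ZE (hZ α hα e hx))) a ((hB.iff hα a).1 (h.le ha.1))
          (fun hx => ha' (Z2 (k3 a hx ha))) ?_
        exact (am_iff (α := α) (a * e * a⁻¹ * e⁻¹)).1 (by simpa using hc)
  obtain ⟨l, hl, lM⟩ := SetLike.not_le_iff_exists.1 LM
  refine ⟨Om Q, am α (Om Q), _, _, l, α, hα, ET, map_subtype_le _, am_iff, am_iff, fun y => ?_, hTw,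
    mem_normalizer_of_forall fun a ha => h.conj_Om hl ha, lM, fun c hc => hc.2 l hl,
    fun x hx hx' hc => hx' ⟨hx.1, ?_⟩, fun hC12 => ?_⟩
  · rw [k1]; exact hZ.iff hα y
  · have x1 : x ∈ Om B := k1 ▸ hx
    have x2 : l * x * l⁻¹ ∈ Om B := k1 ▸ (⟨h.conj_Om hl hx.1, hc⟩ : _ ∈ Om Q ⊓ am α (Om Q))
    have : L ≤ centralizer {x} := by
      rw [← gen l⁻¹ (inv_mem hl) (mt inv_mem_iff.1 lM)]
      refine sup_le (fun b hb => mem_centralizer_singleton_iff.2 (x1.2.2 b hb).symm)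
        fun b hb => mem_centralizer_singleton_iff.2 ?_
      have := commute_conj' l (x2.2.2 _ (mem_cj_inv.1 hb))
      simpa [mul_assoc] using this.symm.eq
    exact fun g hg => mem_centralizer_singleton_iff.1 (this hg)
  -- `Q` is elementary abelian
  have sqQ : ∀ y ∈ Q, y * y = 1 := by
    set Φ := closure {x | ∃ y ∈ Q, y * y = x} with hΦ
    have ΦQ : Φ ≤ Q := (closure_le _).2 (by rintro _ ⟨y, hy, rfl⟩; exact mul_mem hy hy)
    have ΦC : ∀ x ∈ Φ, x ∈ Om B → x ∈ Om Q ⊓ centralizer (L : Set G) := fun x hx hx' =>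
      ⟨ZE hx', fun g hg => by
        obtain ⟨c, hc, e⟩ := blk g hg
        have : Φ ≤ centralizer {g * c} := (closure_le _).2 (by
          rintro _ ⟨y, hy, rfl⟩
          refine mem_centralizer_singleton_iff.2 ?_
          have e1 := e y hy
          have e2 : g * c * y * (g * c)⁻¹ = (g * c * y * (g * c)⁻¹ * y⁻¹) * y := by group
          rw [eq_comm, ← mul_inv_eq_iff_eq_mul, show g * c * (y * y) * (g * c)⁻¹ =
            g * c * y * (g * c)⁻¹ * (g * c * y * (g * c)⁻¹) by group, e2,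
            (e1.2.2 y hy).symm.mul_mul_mul_comm, e1.2.1, one_mul])
        have c1 : Commute x (g * c) := mem_centralizer_singleton_iff.1 (this hx)
        have := c1.mul_right (hx'.2.2 c (h.le hc)).inv_right
        rw [mul_inv_cancel_right] at this
        exact this.symm⟩
    have Φα : Φ ≤ am α Φ := (closure_le _).2 (by
      rintro _ ⟨y, hy, rfl⟩
      obtain ⟨a, ha, c, hc, e⟩ := (tw ⟨y, QT hy⟩ (h.le hy)).2
      have e' : y = a * α c := congrArg Subtype.val e.symm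
      refine mem_am.2 ⟨c * c, subset_closure ⟨c, hc, rfl⟩, ?_⟩
      have : (α c : G) ∈ Q := (mul_mem_cancel_left ha.1).1 (e' ▸ hy)
      rw [e', (ha.2.2 _ this).symm.mul_mul_mul_comm, ha.2.1, one_mul, map_mul, coe_mul])
    have eΦ : Φ = am α Φ := eq_of_le_of_card_ge Φα (card_am α (ΦQ.trans QT)).le
    by_contra hc
    simp only [not_forall] at hc
    obtain ⟨y, hy, hy'⟩ := hc
    obtain ⟨x, hx, x1, xZ⟩ := exists_Om (Y := Φ) (hT.to_le BT) (ΦQ.trans h.le) (fun u hu t ht => by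
      refine (show cj u Φ ≤ Φ from ?_) (conj_mem_cj.2 ht)
      rw [hΦ, cj_closure]
      refine closure_mono ?_
      rintro _ ⟨_, ⟨y, hy, rfl⟩, rfl⟩
      exact ⟨_, h.conj_Q (h.lG hu) hy, by group⟩)
      fun e => hy' (mem_bot.1 (e ▸ subset_closure ⟨y, hy, rfl⟩))
    refine x1 (mem_bot.1 (hC12 ▸ ⟨ΦC x hx xZ, ?_⟩))
    obtain ⟨x', hx', rfl⟩ := mem_am.1 (eΦ ▸ hx)
    exact (am_iff x').2 (ΦC _ hx' ((hZ.iff hα x').1 xZ))
  have QE : Q = Om Q := le_antisymm (fun y hy => ⟨hy, sqQ y hy, fun z hz =>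
    Rk.comm_of_sq sqQ hy hz⟩) (Om_le Q)
  refine ⟨fun t ht => QE ▸ h.cen (hC t ht.1 fun z hz => ht.2 z (ZE hz)) fun z hz => ht.2 z hz,
    fun A hAT h2 hcard => ?_⟩
  have AB := hA A hAT h2 (QE ▸ hcard)
  rcases le_or_le (A := A) (E₁ := Om Q) (E₂ := am α (Om Q)) (fun x hx => by
    obtain ⟨a, ha, c, hc, e⟩ := (tw ⟨x, hAT hx⟩ (AB hx)).1
    have e' : x = α a * c := congrArg Subtype.val e.symm
    have a2 := (am_iff (α := α) a).2 ha
    rw [QE] at hc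
    by_contra hn
    rw [not_or, e'] at hn
    refine (hTw.nc c hc (mt (mul_mem a2) hn.2) _ a2 (mt (mul_mem · hc) hn.1)).1 ?_
    have := h2 x hx
    rw [e'] at this
    rw [Om_inv hc, inv_eq_of_mul_eq_one_right (sq_app α ha.2.1),
      show (c * α a * c * α a : G) = (α a : G)⁻¹ * (α a * c * (α a * c)) * α a by group, this]
    simp) with e | e
  · exact Or.inl (eq_of_le_of_card_ge e hcard)
  · exact Or.inr (eq_of_le_of_card_ge e ((card_am α ET).le.trans hcard))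

end Cfsg.Agent.MP.Gp
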