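import Cfsg.Agent.Lib.MP.Grp0

/-!
Row GRP of statement 5175, part 1: Thompson and Baumann subgroups, action on a normal
elementary abelian subgroup.
-/

set_option autoImplicit false

namespace Cfsg.Agent.MP.Gp

open Subgroup Cfsg.Agent.Tr
open Cfsg.Agent.PU (Om mem_Om Om_le Om_inv commute_conj commute_conj' commute_of_conj Om_cj
  conj_mem_Om NatM ri_sup)

universe u

section Th

variable {G : Type*} [Group G] {T A C R : Subgroup G} {W : Subgroup (MulAut T)}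

theorem norm_of_comm (h : ∀ a ∈ A, ∀ c ∈ C, Commute a c) : A ≤ normalizer (C : Set G) :=
  fun a ha => centralizer_le_normalizer _ fun c hc => (h a ha c hc).symm

theorem e2_sup (hA : E2 A) (hC : E2 C) (h : ∀ a ∈ A, ∀ c ∈ C, Commute a c) : E2 (A ⊔ C) :=
  fun x hx => by
    obtain ⟨a, ha, c, hc, rfl⟩ := (mem_sup_of_le_normalizer (norm_of_comm h)).1 hx
    rw [(h a ha c hc).symm.mul_mul_mul_comm, hA a ha, hC c hc, one_mul]

theorem card_sup (h : A ≤ normalizer (C : Set G)) :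
    Nat.card (A ⊔ C : Subgroup G) * Nat.card (C ⊓ A : Subgroup G) = Nat.card A * Nat.card C := by
  rw [← card_mul_relIndex (le_sup_right : C ≤ A ⊔ C), ri_sup h, ← card_inf_mul_relIndex C A]
  ring

theorem e2_cj (hA : E2 A) (g : G) : E2 (cj g A) := fun x hx => by
  obtain ⟨a, ha, rfl⟩ := mem_cj'.1 hx
  rw [show g * a * g⁻¹ * (g * a * g⁻¹) = g * (a * a) * g⁻¹ by group, hA a ha]; group

theorem e2_comm [Finite G] (hA : E2 A) {a b : G} (ha : a ∈ A) (hb : b ∈ A) : Commute a b :=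
  Rk.comm_of_sq hA ha hb

/-- Elementary abelian subgroups of `T` of maximal order. -/
def Mx (T A : Subgroup G) : Prop :=
  A ≤ T ∧ E2 A ∧ ∀ A' ≤ T, E2 A' → Nat.card A' ≤ Nat.card A

theorem Mx.of_card (h : Mx T A) (h1 : C ≤ T) (h2 : E2 C) (h3 : Nat.card A ≤ Nat.card C) :
    Mx T C := ⟨h1, h2, fun A' a b => (h.2.2 A' a b).trans h3⟩

theorem Mx.cj (h : Mx T A) {g : G} (hg : cj g A ≤ T) : Mx T (cj g A) :=
  h.of_card hg (e2_cj h.2.1 g) (card_cj g A).ge

theorem Mx.am (h : Mx T A) (α : MulAut T) : Mx T (am α A) :=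
  h.of_card (map_subtype_le _) (fun a ha => by
    obtain ⟨e, he, rfl⟩ := mem_am.1 ha
    exact sq_app α (h.2.1 _ he)) (card_am α h.1).ge

theorem Mx.le [Finite G] (h : Mx T A) (h1 : C ≤ T) (h2 : E2 C)
    (h3 : ∀ a ∈ A, ∀ c ∈ C, Commute a c) : C ≤ A :=
  le_sup_right.trans (eq_of_le_of_card_ge le_sup_left
    (h.2.2 _ (sup_le h.1 h1) (e2_sup h.2.1 h2 h3))).ge

theorem Mx.mem [Finite G] (h : Mx T A) {x : G} (h1 : x ∈ T) (h2 : x * x = 1)
    (h3 : ∀ a ∈ A, Commute x a) : x ∈ A := by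
  refine h.le (zpowers_le.2 h1) ?_ ?_ (mem_zpowers x)
  · rintro _ ⟨k, rfl⟩
    rw [← (Commute.refl x).mul_zpow, h2, one_zpow]
  · rintro a ha _ ⟨k, rfl⟩
    exact (h3 a ha).symm.zpow_right k

theorem exists_Mx [Finite G] (T : Subgroup G) : ∃ A, Mx T A := by
  obtain ⟨A, h, hm⟩ := Set.exists_max_image {A : Subgroup G | A ≤ T ∧ E2 A} (Nat.card ·)
    (Set.toFinite _) ⟨⊥, bot_le, by simp [E2]⟩
  exact ⟨A, h.1, h.2, fun A' a b => hm A' ⟨a, b⟩⟩

/-- The subgroup generated by the members of `𝒜(T)` in `R`. -/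
def Jin (T R : Subgroup G) : Subgroup G := ⨆ A : {A // Mx T A ∧ A ≤ R}, A.1

theorem le_Jin (h : Mx T A) (hR : A ≤ R) : A ≤ Jin T R := le_iSup_of_le ⟨A, h, hR⟩ le_rfl

theorem Jin_le (h : ∀ A, Mx T A → A ≤ R → A ≤ C) : Jin T R ≤ C :=
  iSup_le fun A => h A.1 A.2.1 A.2.2

theorem Jin_le' : Jin T R ≤ R := Jin_le fun _ _ h => h

theorem Jin_norm [Finite G] (hR : R ≤ T) {g : G} (hg : cj g (Jin T R) ≤ R) :
    g ∈ normalizer (Jin T R : Set G) :=
  mem_normalizer_of_cj_le (cj_le_iff_le_cj_inv.2 (Jin_le fun _ h1 h2 => cj_le_iff_le_cj_inv.1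
    (have := (cj_mono g (le_Jin h1 h2)).trans hg; le_Jin (h1.cj (this.trans hR)) this)))

theorem mem_Om_Jin [Finite G] (h : Mx T A) (hA : A ≤ R) {x : G} (h1 : x ∈ T) (h2 : x * x = 1)
    (h3 : ∀ A, Mx T A → A ≤ R → ∀ a ∈ A, Commute x a) : x ∈ Om (Jin T R) :=
  ⟨le_Jin h hA (h.mem h1 h2 (h3 A h hA)), h2, fun y hy => (mem_centralizer_singleton_iff.1
    (Jin_le (C := centralizer {x}) (fun A h1 h2 a ha => mem_centralizer_singleton_iff.2
      (h3 A h1 h2 a ha).symm) hy)).symm⟩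

theorem iw_J : IW W (Jin T T) := fun α _ y hy => by
  have : Jin T T ≤ am α⁻¹ (Jin T T) := Jin_le fun A h1 h2 a ha => mem_am.2
    ⟨α ⟨a, h2 ha⟩, le_Jin (h1.am α) (h1.am α).1 ((am_iff _).2 ha), by simp⟩
  exact (am_iff (α := α⁻¹) _).1 (by simpa using this hy)

/-- The Baumann subgroup. -/
def Bm (T : Subgroup G) : Subgroup G := T ⊓ centralizer (Om (Jin T T) : Set G)

theorem J_le_Bm : Jin T T ≤ Bm T := fun _ hx => ⟨Jin_le' hx, fun _ hz => hz.2.2 _ hx⟩

theorem Mx.le_Bm (h : Mx T A) : A ≤ Bm T := (le_Jin h h.1).trans J_le_Bm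

theorem iw_Bm : IW W (Bm T) := fun α hα y hy => ⟨(α y).2, fun z hz => by
  simpa using (comm_app α (hy.2 _ (iw_J.om Jin_le' _ (inv_mem hα) ⟨z, Jin_le' hz.1⟩ hz))).eq⟩

theorem Om_Bm [Finite G] : Om (Bm T) = Om (Jin T T) := by
  obtain ⟨A, h⟩ := exists_Mx T
  exact le_antisymm (fun z hz => mem_Om_Jin h h.1 hz.1.1 hz.2.1 fun A h _ a ha =>
    hz.2.2 a (h.le_Bm ha)) fun z hz => ⟨J_le_Bm hz.1, hz.2.1, fun y hy => hy.2 z hz⟩

theorem Bm_norm [Finite G] {g : G} (hg : cj g (Bm T) ≤ T) :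
    g ∈ normalizer (Jin T T : Set G) ∧ cj g (Bm T) = Bm T := by
  have := Jin_norm le_rfl ((cj_mono g J_le_Bm).trans hg)
  refine ⟨this, cj_eq_of_le (le_inf hg ((cj_mono g inf_le_right).trans ?_))⟩
  rw [← centralizer_cj, ← Om_cj, cj_eq_of_mem_normalizer this]

end Th

section Act

variable {G : Type*} [Group G] {L V H : Subgroup G} (hV : L ≤ normalizer (V : Set G))

/-- The action of `L` on `V`. -/
def act : L →* MulAut V := V.normalizerMonoidHom.comp (inclusion hV)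

theorem act_apply (g : L) (v : V) : (act hV g v : G) = g * v * (g : G)⁻¹ := rfl

theorem act_eq {g : L} {v : V} : act hV g v = v ↔ Commute (g : G) v := by
  rw [Subtype.ext_iff, act_apply, mul_inv_eq_iff_eq_mul]; rfl

theorem act_eq_one {g : L} : act hV g = 1 ↔ (g : G) ∈ centralizer (V : Set G) :=
  ⟨fun h v hv => ((act_eq hV (v := ⟨v, hv⟩)).1 (by rw [h]; rfl)).symm,
    fun h => MulEquiv.ext fun v => (act_eq hV).2 (h v v.2).symm⟩

/-- The image of a subgroup. -/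
def im (H : Subgroup G) : Subgroup (MulAut V) := (H.subgroupOf L).map (act hV)

theorem mem_im {a : MulAut V} : a ∈ im hV H ↔ ∃ g : L, (g : G) ∈ H ∧ act hV g = a := Iff.rfl

theorem im_mono {K : Subgroup G} (h : H ≤ K) : im hV H ≤ im hV K :=
  map_mono (subgroupOf_mono L h)

theorem card_im (h : H ≤ L) :
    Nat.card (im hV H) = (centralizer (V : Set G)).relIndex H := by
  rw [im, ← relIndex_ker, ← relIndex_subgroupOf h]
  congr 1
  ext g
  exact act_eq_one hV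

theorem fx_im (h : H ≤ L) : fx (im hV H) = (centralizer (H : Set G)).subgroupOf V := by
  ext v
  exact ⟨fun hv g hg => (act_eq hV (g := ⟨g, h hg⟩)).1 (hv _ ⟨_, hg, rfl⟩), by
    rintro hv _ ⟨g, hg, rfl⟩; exact (act_eq hV).2 (hv g hg)⟩

theorem card_fx_im (h : H ≤ L) :
    Nat.card (fx (im hV H)) = Nat.card (centralizer (H : Set G) ⊓ V : Subgroup G) := by
  rw [fx_im hV h, ← inf_subgroupOf_right, Nat.card_congr (subgroupOfEquivOfLe inf_le_right).toEquiv]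

theorem cj_im (l : L) : cj (act hV l) (im hV H) = im hV (cj l H) := by
  ext a
  constructor
  · rintro ⟨_, ⟨g, hg, rfl⟩, rfl⟩
    exact ⟨l * g * l⁻¹, conj_mem_cj.2 hg, by simp⟩
  · rintro ⟨g, hg, rfl⟩
    exact mem_cj.2 ⟨l⁻¹ * g * l, (mem_cj (A := H)).1 hg, by simp⟩

/-- The preimage of a subgroup. -/
def pre (E : Subgroup (MulAut V)) : Subgroup G := (E.comap (act hV)).map L.subtype

theorem pre_le (E : Subgroup (MulAut V)) : pre hV E ≤ L := map_subtype_le _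

theorem mem_pre {E : Subgroup (MulAut V)} {g : L} : (g : G) ∈ pre hV E ↔ act hV g ∈ E :=
  mem_map_iff_mem L.subtype_injective

end Act

end Cfsg.Agent.MP.Gp
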