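import Cfsg.Agent.Lib.MP.Grp1

/-!
Row GRP of statement 5175, part 2: the module argument, Baumann's argument, and the row.
-/

set_option autoImplicit false

namespace Cfsg.Agent.MP.Gp

open Subgroup Cfsg.Agent.Tr Cfsg.Agent.PV
open Cfsg.Agent.PU (Om mem_Om Om_le Om_inv commute_conj commute_conj' commute_of_conj Om_cj
  conj_mem_Om NatM ri_sup)

universe u

theorem ri_congr {G : Type*} [Group G] {A B C : Subgroup G} (h : ∀ x ∈ C, x ∈ A ↔ x ∈ B) :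
    A.relIndex C = B.relIndex C := by
  rw [← inf_relIndex_right, ← inf_relIndex_right B]
  congr 1
  ext x
  exact and_congr_left (h x)

theorem best {G : Type*} [Group G] [Finite G] {T L V A : Subgroup G}
    (hV : L ≤ normalizer (V : Set G)) (VT : V ≤ T) (V2 : E2 V) (hA : Mx T A) (AL : A ≤ L)
    {E : Subgroup (MulAut V)} (hE : E ≤ im hV A) :
    Nat.card E * Nat.card (fx E) ≤ Nat.card (im hV A) * Nat.card (fx (im hV A)) := by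
  obtain ⟨E, EA, CE, rfl⟩ : ∃ E' ≤ A, centralizer (V : Set G) ⊓ A ≤ E' ∧ im hV E' = E := by
    refine ⟨pre hV E ⊓ A, inf_le_right, fun x hx => ⟨(mem_pre hV (g := ⟨x, AL hx.2⟩)).2 ?_, hx.2⟩,
      le_antisymm ?_ fun a ha => ?_⟩
    · rw [(act_eq_one hV).2 hx.1]; exact one_mem _
    · rintro _ ⟨g, hg, rfl⟩; exact (mem_pre hV).1 hg.1
    · obtain ⟨g, hg, rfl⟩ := hE ha
      exact ⟨g, ⟨(mem_pre hV).2 ha, hg⟩, rfl⟩
  rw [card_im hV AL, card_im hV (EA.trans AL), card_fx_im hV AL, card_fx_im hV (EA.trans AL)]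
  have c : ∀ a ∈ E, ∀ c ∈ centralizer (E : Set G) ⊓ V, Commute a c := fun a ha c hc => hc.1 a ha
  have h1 := card_sup (norm_of_comm c)
  have h2 := hA.2.2 _ (sup_le (EA.trans hA.1) (inf_le_right.trans VT))
    (e2_sup (fun a ha => hA.2.1 a (EA ha)) (fun a ha => V2 a ha.2) c)
  have h3 : Nat.card (centralizer (E : Set G) ⊓ V ⊓ E : Subgroup G) ≤
      Nat.card (centralizer (A : Set G) ⊓ V : Subgroup G) :=
    card_le_of_le fun x hx => ⟨fun a ha => e2_comm hA.2.1 ha (EA hx.2), hx.1.2⟩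
  have h4 := card_inf_mul_relIndex (centralizer (V : Set G)) E
  have h5 := card_inf_mul_relIndex (centralizer (V : Set G)) A
  rw [show centralizer (V : Set G) ⊓ E = centralizer (V : Set G) ⊓ A from
    le_antisymm (inf_le_inf_left _ EA) (le_inf inf_le_left CE)] at h4
  refine Nat.le_of_mul_le_mul_left ?_ (Nat.card_pos (α := (centralizer (V : Set G) ⊓ A :
    Subgroup G)))
  rw [← mul_assoc, ← mul_assoc, h4, h5, ← h1]
  exact Nat.mul_le_mul h2 h3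

/-- The situation before the module argument. -/
structure St {G : Type u} [Group G] (T M Q L P : Subgroup G) : Prop where
  QN : Q.Normal
  QT : Q ≤ T
  cQ : centralizer (Q : Set G) ≤ Q
  TM : T ≤ M
  OM : centralizer (Om T : Set G) ≤ M
  JM : normalizer (Jin T T : Set G) ≤ M
  BL : Bm T ≤ L
  nM : ¬ L ≤ M
  min : ∀ H, Bm T ≤ H → H ≤ L → H ≠ L → H ≤ M
  syl : SylowIn 2 P (L ⊔ Q)
  BP : Bm T ≤ P
  PT : P ≤ T

namespace St

variable {G : Type u} [Group G] [Finite G] {T M Q L P : Subgroup G} (s : St T M Q L P)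
include s

theorem min₀ (H : Subgroup G) (h1 : Bm T ⊔ Q ≤ H) (h2 : H ≤ L ⊔ Q) (h3 : H ≠ L ⊔ Q) : H ≤ M := by
  have := s.QN
  have hL : H ⊓ L ≤ M := s.min _ (le_inf (le_sup_left.trans h1) s.BL) inf_le_right fun e =>
    h3 (le_antisymm h2 (sup_le (e.symm.le.trans inf_le_left) (le_sup_right.trans h1)))
  intro x hx
  obtain ⟨l, hl, q, hq, rfl⟩ := (mem_sup_of_le_normalizer (H := L) (K := Q)
    (by rw [normalizer_eq_top]; exact le_top)).1 (h2 hx)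
  exact mul_mem (hL ⟨(mul_mem_cancel_right (h1 (mem_sup_right hq))).1 hx, hl⟩) (s.TM (s.QT hq))

theorem QP (hT : IsPGroup 2 T) : Q ≤ P :=
  have := s.QN
  s.syl.le_of_le_normalizer (hT.to_le s.QT) le_sup_right (by rw [normalizer_eq_top]; exact le_top)

theorem nQ (hT : IsPGroup 2 T) :
    L ⊔ Q ≤ normalizer ((P ⊓ Rk.cr (L ⊔ Q) M : Subgroup G) : Set G) :=
  Rk.core_lemma s.syl (sup_le s.BP (s.QP hT)) (fun e => s.nM (le_sup_left.trans e)) s.min₀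

theorem QQ (hT : IsPGroup 2 T) : Q ≤ P ⊓ Rk.cr (L ⊔ Q) M := fun _ hq =>
  ⟨s.QP hT hq, mem_sup_right hq, fun g _ => s.TM (s.QT (s.QN.conj_mem' _ hq g))⟩

theorem OV (hT : IsPGroup 2 T) : Om T ≤ Om (P ⊓ Rk.cr (L ⊔ Q) M) := fun _ hz =>
  ⟨s.QQ hT (s.cQ fun q hq => (hz.2.2 q (s.QT hq)).symm), hz.2.1, fun y hy => hz.2.2 y (s.PT hy.1)⟩

theorem CM (hT : IsPGroup 2 T) : centralizer (Om (P ⊓ Rk.cr (L ⊔ Q) M) : Set G) ≤ M :=
  (centralizer_le (s.OV hT)).trans s.OM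

theorem hV (hT : IsPGroup 2 T) : L ⊔ Q ≤ normalizer (Om (P ⊓ Rk.cr (L ⊔ Q) M) : Set G) :=
  fun _ hg => mem_normalizer_of_forall fun _ ha => conj_mem_Om (s.nQ hT hg) ha

theorem CP (hT : IsPGroup 2 T) {t : G} (ht : t ∈ P) :
    t ∈ centralizer (Om (P ⊓ Rk.cr (L ⊔ Q) M) : Set G) ↔ t ∈ P ⊓ Rk.cr (L ⊔ Q) M :=
  ⟨fun h => ⟨ht, s.syl.le ht, fun g hg => s.CM hT fun v hv => by
    simpa [mul_assoc] using (commute_conj' g (h _ (conj_mem_Om (s.nQ hT hg) hv))).eq⟩,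
    fun h v hv => hv.2.2 t h⟩

theorem imM (hT : IsPGroup 2 T) {g : ↥(L ⊔ Q)} : act (s.hV hT) g ∈ im (s.hV hT) M ↔ (g : G) ∈ M :=
  ⟨by
    rintro ⟨m, hm, e⟩
    have : ((m⁻¹ * g : ↥(L ⊔ Q)) : G) ∈ M := s.CM hT ((act_eq_one (s.hV hT)).1 (by
      rw [map_mul, map_inv, e, inv_mul_cancel]))
    exact (mul_mem_cancel_left (inv_mem hm)).1 this, fun h => ⟨g, h, rfl⟩⟩

theorem exA (hT : IsPGroup 2 T) : ∃ A, Mx T A ∧ ¬ A ≤ P ⊓ Rk.cr (L ⊔ Q) M := by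
  by_contra hc
  simp only [not_exists, not_and, not_not] at hc
  refine s.nM fun g hg => s.JM (Jin_norm le_rfl (le_trans ?_ (inf_le_left.trans s.PT :
    P ⊓ Rk.cr (L ⊔ Q) M ≤ T)))
  rw [← cj_eq_of_mem_normalizer (s.nQ hT (mem_sup_left hg))]
  exact cj_mono g (Jin_le fun A h _ => hc A h)

theorem im_ne (hT : IsPGroup 2 T) {A : Subgroup G} (h : A ≤ P)
    (hA : ¬ A ≤ P ⊓ Rk.cr (L ⊔ Q) M) : im (s.hV hT) A ≠ ⊥ := fun e => hA fun a ha =>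
  (s.CP hT (h ha)).1 ((act_eq_one (s.hV hT) (g := ⟨a, s.syl.le (h ha)⟩)).1
    (mem_bot.1 (e ▸ ⟨_, ha, rfl⟩)))

theorem mod (hM : ModStmt.{u}) (hT : IsPGroup 2 T) :
    (∀ A, Mx T A → ¬ A ≤ P ⊓ Rk.cr (L ⊔ Q) M → im (s.hV hT) A = im (s.hV hT) (Bm T)) ∧
    ∀ l ∈ L, l ∉ M → R1 (im (s.hV hT) (Bm T)) (im (s.hV hT) (cj l (Bm T))) := by
  have BL := s.BP.trans s.syl.le
  obtain ⟨h1, h2⟩ := hM _ (fun v => Subtype.ext v.2.2.1) (im (s.hV hT) (L ⊔ Q)) (im (s.hV hT) M)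
    (im (s.hV hT) P) (im (s.hV hT) (Bm T)) (im (s.hV hT) '' {A | Mx T A})
    ((s.syl.subgroupOf le_rfl).map _) (im_mono _ s.BP)
    (fun e => s.nM fun g hg => (s.imM hT (g := ⟨g, mem_sup_left hg⟩)).1
      (e ⟨_, mem_sup_left hg, rfl⟩))
    (fun H h1 h2 h3 a ha => by
      obtain ⟨g, -, rfl⟩ := h2 ha
      refine (s.imM hT).2 (s.min₀ (pre (s.hV hT) H) (sup_le (fun b hb => ?_) fun q hq => ?_)
        (pre_le _ _) (fun e => h3 (le_antisymm h2 ?_)) ((mem_pre _).2 ha))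
      · exact (mem_pre _ (g := ⟨b, BL hb⟩)).2 (h1 ⟨_, hb, rfl⟩)
      · refine (mem_pre _ (g := ⟨q, mem_sup_right hq⟩)).2 ?_
        rw [(act_eq_one _).2 ((s.CP hT (s.QP hT hq)).2 (s.QQ hT hq))]
        exact one_mem _
      · rintro _ ⟨g, -, rfl⟩
        exact (mem_pre _).1 (e.symm ▸ g.2))
    (fun R h1 h2 => le_bot_iff.1 fun r hr => by
      obtain ⟨p, hp, rfl⟩ := h1 hr
      refine (act_eq_one _).2 ((s.CP hT hp).2 ⟨hp, p.2, fun g hg =>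
        (s.imM hT (g := ⟨g, hg⟩⁻¹ * p * ⟨g, hg⟩)).1 (im_mono _ (s.PT.trans s.TM) (h1 ?_))⟩)
      rw [map_mul, map_mul, map_inv]
      exact conj_mem_of_mem_normalizer' (h2 ⟨_, hg, rfl⟩) hr)
    (by
      by_contra hc
      simp only [not_exists, not_and, not_not, fx_im _ le_rfl, fx_im _ s.syl.le] at hc
      exact s.nM fun g hg => s.OM fun z hz => (hc ⟨z, s.OV hT hz⟩
        (fun p hp => (hz.2.2 p (s.PT hp)).symm) g (mem_sup_left hg)).symm)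
    (by
      rintro _ ⟨A, hA, rfl⟩
      refine ⟨im_mono _ hA.le_Bm, ?_, fun E hE => best _ ((Om_le _).trans (inf_le_left.trans s.PT))
        (fun v hv => hv.2.1) hA (hA.le_Bm.trans BL) hE⟩
      rintro _ ⟨a, ha, rfl⟩
      rw [← map_mul, show a * a = 1 from Subtype.ext (hA.2.1 _ ha), map_one])
    (by
      obtain ⟨A, hA, h⟩ := s.exA hT
      exact ⟨_, ⟨A, hA, rfl⟩, s.im_ne hT (hA.le_Bm.trans s.BP) h⟩)
    (fun v hv => by
      obtain ⟨A, hA⟩ := exists_Mx T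
      rw [fx_im _ BL]
      refine fun b hb => (hb.2 v (mem_Om_Jin hA hA.1 (s.PT v.2.1.1) v.2.2.1 fun A hA _ a ha =>
        ?_)).symm
      have := hv _ ⟨A, hA, rfl⟩
      rw [fx_im _ (hA.le_Bm.trans BL)] at this
      exact (this a ha).symm)
  refine ⟨fun A hA h => h1 _ ⟨A, hA, rfl⟩ (s.im_ne hT (hA.le_Bm.trans s.BP) h), fun l hl hl' => ?_⟩
  rw [← cj_im _ ⟨l, mem_sup_left hl⟩]
  exact h2 _ ⟨_, mem_sup_left hl, rfl⟩ (mt (s.imM hT).1 hl')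

/-- Baumann's argument. -/
theorem ph (hM : ModStmt.{u}) (hT : IsPGroup 2 T) (gen : ∀ l ∈ L, l ∉ M → Bm T ⊔ cj l (Bm T) = L) :
    PH L (P ⊓ Rk.cr (L ⊔ Q) M ⊓ Bm T) (Bm T) ∧
      ∃ A, Mx T A ∧ A ≤ P ⊓ Rk.cr (L ⊔ Q) M ⊓ Bm T := by
  obtain ⟨m1, m2⟩ := s.mod hM hT
  obtain ⟨A, hA, hAQ⟩ := s.exA hT
  obtain ⟨l, hl, lM⟩ := SetLike.not_le_iff_exists.1 s.nM
  have r := (m2 l hl lM).l
  have e := m1 A hA hAQ
  have hV := s.hV hT
  have CP := @s.CP _ _ _ _ _ _ _ _ hT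
  have nQ := s.nQ hT
  have QQ := s.QQ hT
  set Q₀ := P ⊓ Rk.cr (L ⊔ Q) M with hQ₀
  set B := Bm T with hB
  have BL : B ≤ L ⊔ Q := s.BP.trans s.syl.le
  have AB : A ≤ B := hA.le_Bm
  have Q₀T : Q₀ ≤ T := inf_le_left.trans s.PT
  have dec : ∀ b ∈ B, ∃ a ∈ A, a⁻¹ * b ∈ Q₀ := fun b hb => by
    obtain ⟨a, ha, e⟩ := (mem_im hV).1 (e.symm.le (⟨⟨b, BL hb⟩, hb, rfl⟩ : _ ∈ im hV B))
    have := (act_eq_one hV (g := a⁻¹ * ⟨b, BL hb⟩)).1 (by rw [map_mul, map_inv, e, inv_mul_cancel])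
    exact ⟨a, ha, (CP (s.BP (mul_mem (inv_mem (AB ha)) hb))).1 this⟩
  have iB : (centralizer (B : Set G)).relIndex (Om Q₀) =
      (centralizer (Om Q₀ : Set G)).relIndex B := by
    have := r.idx
    rwa [fx_im _ BL, card_im _ BL] at this
  have iA : (centralizer (A : Set G)).relIndex (Om Q₀) =
      (centralizer (Om Q₀ : Set G)).relIndex A := by
    have := r.idx
    rwa [← e, fx_im _ (AB.trans BL), card_im _ (AB.trans BL)] at this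
  have cA : ∀ a ∈ Q₀ ⊓ A, ∀ v ∈ Om Q₀, Commute a v := fun a ha v hv => (hv.2.2 a ha.1).symm
  have A'Q : Q₀ ⊓ A ⊔ Om Q₀ ≤ Q₀ := sup_le inf_le_left (Om_le _)
  have hA' : Mx T (Q₀ ⊓ A ⊔ Om Q₀) := by
    refine hA.of_card (A'Q.trans Q₀T) (e2_sup (fun a ha => hA.2.1 a ha.2) (fun v hv => hv.2.1) cA) ?_
    have h1 := card_sup (norm_of_comm cA)
    have h2 := card_inf_mul_relIndex (centralizer (A : Set G)) (Om Q₀)
    have h3 := card_inf_mul_relIndex (centralizer (Om Q₀ : Set G)) A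
    rw [show centralizer (Om Q₀ : Set G) ⊓ A = Q₀ ⊓ A from Subgroup.ext fun x =>
      and_congr_left fun hx => CP (s.BP (AB hx))] at h3
    have h4 : Nat.card (Om Q₀ ⊓ (Q₀ ⊓ A) : Subgroup G) ≤
        Nat.card (centralizer (A : Set G) ⊓ Om Q₀ : Subgroup G) :=
      card_le_of_le fun x hx => ⟨fun a ha => e2_comm hA.2.1 ha hx.2.2, hx.1⟩
    refine Nat.le_of_mul_le_mul_right ?_ (Nat.card_pos (α := (Om Q₀ ⊓ (Q₀ ⊓ A) : Subgroup G)))
    rw [h1, ← h2, iA, mul_comm (Nat.card (centralizer (A : Set G) ⊓ Om Q₀ : Subgroup G)),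
      ← mul_assoc, h3]
    exact Nat.mul_le_mul_left _ h4
  have VB : Om Q₀ ≤ B := le_sup_right.trans hA'.le_Bm
  have dA : ∀ w ∈ T, w * w = 1 → (∀ a ∈ Q₀ ⊓ A ⊔ Om Q₀, Commute w a) →
      ∃ a ∈ Q₀ ⊓ A, ∃ v ∈ Om Q₀, a * v = w := fun w h1 h2 h3 =>
    (mem_sup_of_le_normalizer (norm_of_comm cA)).1 (hA'.mem h1 h2 h3)
  have cE : ∀ v ∈ Om Q₀, ∀ z ∈ Om B, Commute v z := fun v hv z hz => (hz.2.2 v (VB hv)).symm
  have ZQ : Om B ≤ Q₀ := fun z hz => A'Q (hA'.mem hz.1.1 hz.2.1 fun a ha => hz.2.2 a (hA'.le_Bm ha))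
  have EW : Om Q₀ ⊔ Om B ≤ Om (Jin T Q₀) := sup_le
    (fun v hv => mem_Om_Jin hA' A'Q (Q₀T hv.1) hv.2.1 fun _ _ h a ha => hv.2.2 a (h ha))
    fun z hz => mem_Om_Jin hA' A'Q hz.1.1 hz.2.1 fun _ h _ a ha => hz.2.2 a (h.le_Bm ha)
  have nE : L ⊔ Q ≤ normalizer ((Om Q₀ ⊔ Om B : Subgroup G) : Set G) := by
    have key : ∀ g ∈ L ⊔ Q, g ∈ normalizer (B : Set G) →
        g ∈ normalizer ((Om Q₀ ⊔ Om B : Subgroup G) : Set G) := fun g h1 h2 => by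
      rw [← cj_eq_iff, cj_sup, cj_eq_of_mem_normalizer (hV h1), ← Om_cj, cj_eq_of_mem_normalizer h2]
    by_contra hc
    have := s.min₀ ((L ⊔ Q) ⊓ normalizer ((Om Q₀ ⊔ Om B : Subgroup G) : Set G)) (sup_le
      (fun b hb => ⟨BL hb, key b (BL hb) (le_normalizer hb)⟩)
      fun q hq => ⟨mem_sup_right hq, key q (mem_sup_right hq) (cj_eq_iff.1 (Bm_norm
        (cj_le_of_mem inf_le_left (s.QT hq))).2)⟩) inf_le_left fun e => hc (e.ge.trans inf_le_right)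
    refine hAQ fun a ha => ⟨s.BP (AB ha), BL (AB ha), fun g hg => this
      (mem_inf.2 ⟨mul_mem (mul_mem (inv_mem hg) (BL (AB ha))) hg,
        mem_normalizer_of_forall fun w hw => ?_⟩)⟩
    have w' : g * w * g⁻¹ ∈ Om (Jin T Q₀) := conj_mem_Om (Jin_norm Q₀T ((cj_mono g Jin_le').trans
      (cj_eq_of_mem_normalizer (nQ hg)).le)) (EW hw)
    obtain ⟨a', ha', v, hv, e⟩ := dA _ (Q₀T (Jin_le' w'.1)) w'.2.1 fun a ha =>
      w'.2.2 a (le_Jin hA' A'Q ha)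
    have : g⁻¹ * a * g * w * (g⁻¹ * a * g)⁻¹ =
        (g⁻¹ * a') * (a * v * a⁻¹ * v⁻¹) * (g⁻¹ * a')⁻¹ * w := by
      calc _ = g⁻¹ * (a * (g * w * g⁻¹) * a⁻¹ * (g * w * g⁻¹)⁻¹) * g * w := by group
        _ = g⁻¹ * ((a * a') * v * a⁻¹ * (a' * v)⁻¹) * g * w := by rw [← e]; group
        _ = _ := by rw [(e2_comm hA.2.1 ha ha'.2).eq]; group
    rw [this]
    exact mul_mem (mem_sup_left (conj_mem_Om (nQ (mul_mem (inv_mem hg) (BL (AB ha'.2))))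
      (mul_mem (conj_mem_Om (nQ (BL (AB ha))) hv) (inv_mem hv)))) hw
  have dE : ∀ x ∈ Om Q₀ ⊔ Om B, ∃ v ∈ Om Q₀, ∃ z ∈ Om B, v * z = x := fun x hx =>
    (mem_sup_of_le_normalizer (norm_of_comm cE)).1 hx
  have eQ : Q₀ ⊓ B = Q₀ ⊓ centralizer ((Om Q₀ ⊔ Om B : Subgroup G) : Set G) := by
    ext x
    refine and_congr_right fun hx => ⟨fun h y hy => ?_, fun h => ⟨Q₀T hx, fun z hz =>
      h z (mem_sup_right (Om_Bm (T := T) ▸ hz))⟩⟩
    obtain ⟨v, hv, z, hz, rfl⟩ := dE y hy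
    exact (hv.2.2 x hx).mul_left (hz.2.2 x h)
  have eO : Om (Q₀ ⊓ B) = Om Q₀ ⊔ Om B := by
    refine le_antisymm (fun x hx => ?_) (sup_le
      (fun v hv => ⟨⟨hv.1, VB hv⟩, hv.2.1, fun y hy => hv.2.2 y hy.1⟩)
      fun z hz => ⟨⟨ZQ hz, hz.1⟩, hz.2.1, fun y hy => hz.2.2 y hy.2⟩)
    obtain ⟨a, ha, v, hv, rfl⟩ := dA x (Q₀T hx.1.1) hx.2.1 fun a ha =>
      hx.2.2 a ⟨A'Q ha, hA'.le_Bm ha⟩
    refine mul_mem (mem_sup_right ⟨AB ha.2, hA.2.1 a ha.2, fun b hb => ?_⟩) (mem_sup_left hv)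
    obtain ⟨a', ha', hc⟩ := dec b hb
    rw [← mul_inv_cancel_left a' b]
    refine (e2_comm hA.2.1 ha.2 ha').mul_right ?_
    simpa using (hx.2.2 _ (mem_inf.2 ⟨hc, mul_mem (inv_mem (AB ha')) hb⟩)).mul_left (hv.2.2 _ hc).inv_left
  refine ⟨⟨inf_le_right, s.BL, fun g hg => ?_, ⟨l, hl, gen l hl lM⟩,
    fun h => hAQ (AB.trans (h.trans inf_le_left)), ?_, fun t ht htQ z hz hc => ?_⟩,
    _, hA', le_inf A'Q hA'.le_Bm⟩
  · rw [← cj_eq_iff, eQ, cj_inf, ← centralizer_cj, cj_eq_of_mem_normalizer (nE (mem_sup_left hg)),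
      cj_eq_of_mem_normalizer (nQ (mem_sup_left hg))]
  · rw [eO, ri_congr (B := Om B) fun x hx => ?_, ri_sup (norm_of_comm cE),
      ri_congr (B := centralizer (B : Set G)) fun x hx => ?_, iB]
    · exact ri_congr fun x hx => (CP (s.BP hx)).trans ⟨fun h => ⟨h, hx⟩, fun h => h.1⟩
    · exact ⟨fun h b hb => (h.2.2 b hb).symm, fun h => ⟨VB hx, hx.2.1, fun b hb => (h b hb).symm⟩⟩
    · rw [← eO] at hx
      exact ⟨fun h => ⟨hx.1.2, hx.2.1, fun b hb => (h b hb).symm⟩, fun h b hb => (h.2.2 b hb).symm⟩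
  · rw [eO] at hz
    obtain ⟨v, hv, z, hz', rfl⟩ := dE _ hz
    suffices ∀ b ∈ B, Commute v b from fun b hb => (this b hb).mul_left (hz'.2.2 b hb)
    by_contra hn
    refine r.inj _ ⟨⟨t, BL ht⟩, ht, rfl⟩ (fun h => htQ ⟨(CP (s.BP ht)).1 ((act_eq_one _).1 h), ht⟩)
      ⟨v, hv⟩ (fun h => hn fun b hb => ?_) ?_
    · rw [fx_im _ BL] at h
      exact (h b hb).symm
    · have lB : cj l B ≤ L := cj_le_of_mem s.BL hl
      rw [fx_im _ (lB.trans le_sup_left)]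
      intro b hb
      have := hc b (lB hb)
      rw [show t * (v * z) * t⁻¹ * (v * z)⁻¹ = t * v * (z * t⁻¹ * z⁻¹) * v⁻¹ by group,
        (hz'.2.2 t ht).inv_right.eq, mul_inv_cancel_right, Om_inv hv] at this
      exact this.symm

end St

theorem _root_.Cfsg.Agent.MP.grp (hM : ModStmt.{u}) : GrpStmt.{u} := by
  intro G _ _ T M Q W hT QN QT cQ TM M1 hW hN
  have pT := hT.isPGroup
  have T1 : T ≠ ⊥ := fun e => M1 (top_le_iff.1 fun g _ => TM (QT (cQ fun q hq => by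
    rw [show q = 1 from mem_bot.1 (e ▸ QT hq), mul_one, one_mul])))
  obtain ⟨z, -, z1, hz⟩ := exists_Om pT le_rfl (fun u hu t ht =>
    mul_mem (mul_mem hu ht) (inv_mem hu)) T1
  obtain ⟨A, hA⟩ := exists_Mx T
  have JM : normalizer (Jin T T : Set G) ≤ M := hN _ Jin_le' (fun e => z1 (mem_bot.1 (e ▸
    le_Jin hA hA.1 (hA.mem hz.1 hz.2.1 fun a ha => hz.2.2 a (hA.1 ha))))) iw_J
  have OM : centralizer (Om T : Set G) ≤ M := (centralizer_le_normalizer _).trans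
    (hN _ (Om_le T) (fun e => z1 (mem_bot.1 (e ▸ hz)))
      (IW.om (fun α _ y _ => (α y).2) le_rfl))
  have pB : IsPGroup 2 (Bm T) := pT.to_le inf_le_left
  have wc : ∀ g, cj g (Bm T) ≤ M → g ∈ M := fun g hg => by
    obtain ⟨m, hm, e⟩ := (hT.mono TM le_top).exists_cj_le (isPGroup_cj g pB) hg
    rw [← cj_mul] at e
    exact (mul_mem_cancel_left hm).1 (JM (Bm_norm e).1)
  obtain ⟨L, P, s⟩ : ∃ L P, St T M Q L P := by
    obtain ⟨L, ⟨h1, h2⟩, h3⟩ := Rk.exists_min (fun L => Bm T ≤ L ∧ ¬ L ≤ M)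
      (⟨le_top, mt top_le_iff.1 M1⟩ : Bm T ≤ ⊤ ∧ _)
    obtain ⟨P, hP, BP⟩ := exists_sylowIn_ge pB (h1.trans (le_sup_left : L ≤ L ⊔ Q))
    obtain ⟨g, -, e⟩ := hT.exists_cj_le hP.isPGroup le_top
    obtain ⟨g1, g2⟩ := Bm_norm ((cj_mono g BP).trans e)
    have gM := cj_eq_of_mem (JM g1)
    refine ⟨cj g L, cj g P, QN, QT, cQ, TM, OM, JM, g2 ▸ cj_mono g h1,
      fun h => h2 (cj_le_cj.1 (h.trans gM.ge)), fun H a b c => ?_, ?_, g2 ▸ cj_mono g BP, e⟩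
    · by_contra d
      refine c (cj_eq_iff_eq_cj_inv.2 (h3 _ ⟨cj_le_iff_le_cj_inv.1 (g2.le.trans a),
        fun h => d (gM ▸ le_cj_iff_cj_inv_le.2 h)⟩ (le_cj_iff_cj_inv_le.1 b)).symm).symm
    · simpa [cj_sup, cj_normal] using hP.cj g
  have gen : ∀ l ∈ L, l ∉ M → Bm T ⊔ cj l (Bm T) = L := fun l hl lM => by
    by_contra e
    exact lM (wc l (le_sup_right.trans (s.min _ le_sup_left
      (sup_le s.BL (cj_le_of_mem s.BL hl)) e)))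
  obtain ⟨h, A', hA', A'Q⟩ := s.ph hM pT gen
  exact fin h pT inf_le_left hW iw_Bm hN s.nM gen
    (fun t ht hc => ⟨ht, fun z hz => hc z (Om_Bm (T := T) ▸ hz)⟩)
    fun C h1 h2 h3 => (hA'.of_card h1 h2 ((card_le_of_le A'Q).trans h3)).le_Bm

end Cfsg.Agent.MP.Gp
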