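import Cfsg.Agent.Lib.MP.Final
import Cfsg.Agent.Lib.MP.J3

/-! Row J3. -/

namespace Cfsg.Agent.MP

universe u

theorem j3 : J3Stmt.{u} := fun hS _ hF _ _ _ _ D hq hle hi hn hE hx =>
  J3.j3 hS hF D hq hle hi hn hE hx

end Cfsg.Agent.MP
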