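import Cfsg.Agent.Lib.MP.SpgS
import Cfsg.Agent.Lib.LT.Simple

/-!
The model `L₃(3)` extended by the graph automorphism.
-/

set_option autoImplicit false
set_option linter.style.haveILetI false
set_option linter.unusedSimpArgs false

namespace Cfsg.Agent.MP.Spg

open Cfsg.Agent.Fus Cfsg.Agent.SP4 Subgroup Matrix

namespace L33

/-- The group `SL₃(3)`. -/
abbrev SL3 := Matrix.SpecialLinearGroup (Fin 3) (ZMod 3)

/-- The cofactor matrix. -/
def cof (A : Matrix (Fin 3) (Fin 3) (ZMod 3)) : Matrix (Fin 3) (Fin 3) (ZMod 3) :=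
  !![A 1 1 * A 2 2 - A 1 2 * A 2 1, A 1 2 * A 2 0 - A 1 0 * A 2 2, A 1 0 * A 2 1 - A 1 1 * A 2 0;
    A 0 2 * A 2 1 - A 0 1 * A 2 2, A 0 0 * A 2 2 - A 0 2 * A 2 0, A 0 1 * A 2 0 - A 0 0 * A 2 1;
    A 0 1 * A 1 2 - A 0 2 * A 1 1, A 0 2 * A 1 0 - A 0 0 * A 1 2, A 0 0 * A 1 1 - A 0 1 * A 1 0]

/-- The inverse transpose. -/
def tau : SL3 →* SL3 := MonoidHom.mk' (fun g => ⟨cof g.1, by
    have h := g.2
    rw [det_fin_three] at h ⊢
    simp [cof]
    linear_combination (g.1 0 0 * g.1 1 1 * g.1 2 2 - g.1 0 0 * g.1 1 2 * g.1 2 1 -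
      g.1 0 1 * g.1 1 0 * g.1 2 2 + g.1 0 1 * g.1 1 2 * g.1 2 0 + g.1 0 2 * g.1 1 0 * g.1 2 1 -
      g.1 0 2 * g.1 1 1 * g.1 2 0 + 1) * h⟩) fun g h => Subtype.ext (by
  show cof (g.1 * h.1) = cof g.1 * cof h.1
  ext i j
  fin_cases i <;> fin_cases j <;> simp [cof, mul_apply, Fin.sum_univ_three] <;> ring)

theorem tau_tau (g : SL3) : tau (tau g) = g := Subtype.ext (by
  have h := g.2
  rw [det_fin_three] at h
  show cof (cof g.1) = g.1
  ext i j
  fin_cases i <;> fin_cases j <;> simp [cof]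
  exacts [by linear_combination g.1 0 0 * h, by linear_combination g.1 0 1 * h,
    by linear_combination g.1 0 2 * h, by linear_combination g.1 1 0 * h,
    by linear_combination g.1 1 1 * h, by linear_combination g.1 1 2 * h,
    by linear_combination g.1 2 0 * h, by linear_combination g.1 2 1 * h,
    by linear_combination g.1 2 2 * h])

/-- The semidirect product. -/
@[ext] structure X where
  m : SL3
  e : Bool

instance : DecidableEq X := fun x y => decidable_of_iff (x.m = y.m ∧ x.e = y.e) X.ext_iff.symm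

instance : Mul X := ⟨fun x y => ⟨x.m * cond x.e (tau y.m) y.m, xor x.e y.e⟩⟩
instance : One X := ⟨⟨1, false⟩⟩
instance : Inv X := ⟨fun x => ⟨cond x.e (tau x.m⁻¹) x.m⁻¹, x.e⟩⟩

theorem mul_m (x y : X) : (x * y).m = x.m * cond x.e (tau y.m) y.m := rfl
theorem mul_e (x y : X) : (x * y).e = xor x.e y.e := rfl
theorem inv_m (x : X) : x⁻¹.m = cond x.e (tau x.m⁻¹) x.m⁻¹ := rfl
theorem inv_e (x : X) : x⁻¹.e = x.e := rfl

instance : Group X := Group.ofLeftAxioms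
  (fun ⟨a, e⟩ ⟨b, e'⟩ ⟨c, e''⟩ => X.ext (by
    cases e <;> cases e' <;> simp [mul_m, mul_e, tau_tau, mul_assoc]) (by simp [mul_e]))
  (fun _ => X.ext (one_mul _) (Bool.false_xor _))
  fun ⟨a, e⟩ => X.ext (by
    show _ = (1 : SL3)
    cases e <;> simp [mul_m, inv_m, inv_e]) (Bool.xor_self _)

/-- Coordinates. -/
def equivProd : X ≃ SL3 × Bool := ⟨fun x => (x.m, x.e), fun p => ⟨p.1, p.2⟩, fun _ => rfl, fun _ => rfl⟩

instance : Finite X := Finite.of_equiv _ equivProd.symm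

theorem card_X : Nat.card X = 11232 := by
  have hs : Function.Surjective
      (GeneralLinearGroup.det : GL (Fin 3) (ZMod 3) →* (ZMod 3)ˣ) := fun u => by
    rcases (by decide : ∀ u : (ZMod 3)ˣ, u = 1 ∨ u = -1) u with rfl | rfl
    exacts [⟨1, map_one _⟩, ⟨-1, Units.ext (by simp [det_neg])⟩]
  have h1 := card_eq_card_quotient_mul_card_subgroup
    (GeneralLinearGroup.det : GL (Fin 3) (ZMod 3) →* (ZMod 3)ˣ).ker
  have h2 : Nat.card (GeneralLinearGroup.det : GL (Fin 3) (ZMod 3) →* (ZMod 3)ˣ).ker =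
      Nat.card SL3 := by
    rw [Nat.card_congr (MonoidHom.ofInjective
      (SpecialLinearGroup.toGL_injective (n := Fin 3) (R := ZMod 3))).toEquiv]
    congr 2
    ext A
    exact ⟨fun hA => ⟨⟨A, congrArg Units.val (MonoidHom.mem_ker.1 hA)⟩, Units.ext rfl⟩,
      fun ⟨M, e⟩ => e ▸ Units.ext M.det_coe⟩
  rw [Nat.card_congr (QuotientGroup.quotientKerEquivOfSurjective _ hs).toEquiv, card_GL_field,
    Nat.card_units, h2] at h1
  rw [Nat.card_congr equivProd, Nat.card_prod]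
  simp [Fin.prod_univ_three] at h1 ⊢
  omega

/-- The embedding of `SL₃(3)`. -/
def inl : SL3 →* X := MonoidHom.mk' (fun g => ⟨g, false⟩) fun _ _ => rfl

theorem mem_L {x : X} : x ∈ inl.range ↔ x.e = false :=
  ⟨fun ⟨_, e⟩ => e ▸ rfl, fun e => ⟨x.m, X.ext rfl e.symm⟩⟩

theorem center_SL : center SL3 = ⊥ := eq_bot_iff.2 fun g hg => by
  obtain ⟨r, hr, e⟩ := Matrix.SpecialLinearGroup.mem_center_iff.1 hg
  obtain rfl := (by decide : ∀ r : ZMod 3, r ^ 3 = 1 → r = 1) r (by simpa using hr)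
  exact Subtype.ext (by simpa using e.symm)

/-- The inner part is `L₃(3)`. -/
noncomputable def eqL : inl.range ≃* ProjectiveSpecialLinearGroup (Fin 3) (ZMod 3) :=
  (MonoidHom.ofInjective (f := inl) fun _ _ e => congrArg X.m e).symm.trans
    ((QuotientGroup.quotientMulEquivOfEq center_SL).trans QuotientGroup.quotientBot).symm

/-- A matrix of determinant one. -/
def mk (a b c d e f g h i : ZMod 3)
    (H : a * e * i - a * f * h - b * d * i + b * f * g + c * d * h - c * e * g = 1 := by decide) :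
    SL3 := ⟨!![a, b, c; d, e, f; g, h, i], by rw [det_fin_three]; exact H⟩

theorem cen_L : centralizer (inl.range : Set X) = ⊥ := eq_bot_iff.2 fun ⟨m, e⟩ hx => by
  have h : ∀ g, g * m = m * cond e (tau g) g := fun g => congrArg X.m (hx _ ⟨g, rfl⟩)
  cases e
  · exact X.ext (center_SL.le (mem_center_iff.2 h)) rfl
  · have h₁ := congrArg (fun g : SL3 => g.1.trace)
      (mul_inv_eq_iff_eq_mul.2 (h (mk 0 0 1 1 0 0 0 1 1)).symm)
    simp only [Matrix.SpecialLinearGroup.coe_mul] at h₁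
    rw [trace_mul_cycle, ← Matrix.SpecialLinearGroup.coe_mul, inv_mul_cancel,
      Matrix.SpecialLinearGroup.coe_one, one_mul] at h₁
    exact absurd h₁ (by decide +kernel)

/-- The coordinates of `U`. -/
def f (t a b c : ZMod 2) : X :=
  ⟨if t = 0 then
      if a + b = 0 then if a + c = 0 then mk 1 0 0 0 1 0 0 0 1 else mk 0 0 1 0 2 0 1 0 0
      else if a + c = 0 then mk 2 0 0 0 1 0 0 0 2 else mk 0 0 2 0 2 0 2 0 0
    else if b = 0 then if c = 0 then mk 2 1 1 1 0 1 1 1 2 else mk 1 2 2 1 0 1 2 2 1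
      else if c = 0 then mk 1 1 2 2 0 2 2 1 1 else mk 2 2 1 2 0 2 1 2 2, t + a + b + c = 1⟩

theorem f_mul : ∀ t a b c t' a' b' c', f t a b c * f t' a' b' c' =
    f (t + t') (a + a') (b + b' + t * a') (c + c' + t ^ 2 * a') := by decide +kernel

theorem f_inj : ∀ t a b c t' a' b' c', f t a b c = f t' a' b' c' →
    t = t' ∧ a = a' ∧ b = b' ∧ c = c' := by decide +kernel

theorem f_zero : f 0 0 0 0 = 1 := by decide +kernel

/-- The group `D₈ × C₂`. -/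
def U : Subgroup X where
  carrier := {x | ∃ t a b c, x = f t a b c}
  one_mem' := ⟨0, 0, 0, 0, f_zero.symm⟩
  mul_mem' := by
    rintro _ _ ⟨t, a, b, c, rfl⟩ ⟨t', a', b', c', rfl⟩
    exact ⟨_, _, _, _, f_mul ..⟩
  inv_mem' := by
    rintro _ ⟨t, a, b, c, rfl⟩
    exact ⟨t, a, b + t * a, c + t * a, inv_eq_of_mul_eq_one_right (by
      rw [f_mul, ← f_zero]
      congr 1 <;> revert t a b c <;> decide)⟩

/-- Its coordinates. -/
def D₀ : Ce U (ZMod 2) := ⟨f, fun _ => Iff.rfl, f_mul, f_inj _ _ _ _ _ _ _ _⟩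

theorem card_U : Nat.card U = 2 ^ 4 := by
  rw [← Nat.card_congr (Equiv.ofBijective (fun p : ZMod 2 × ZMod 2 × ZMod 2 × ZMod 2 =>
    (⟨f p.1 p.2.1 p.2.2.1 p.2.2.2, _, _, _, _, rfl⟩ : U)) ⟨fun p q e => by
      obtain ⟨h₁, h₂, h₃, h₄⟩ := f_inj _ _ _ _ _ _ _ _ (congrArg Subtype.val e)
      exact Prod.ext h₁ (Prod.ext h₂ (Prod.ext h₃ h₄)),
    fun ⟨_, t, a, b, c, e⟩ => ⟨(t, a, b, c), Subtype.ext e.symm⟩⟩)]
  simp

/-- The involution interchanging the two elementary abelian subgroups of order `8`. -/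
def gm : X := ⟨mk 0 1 1 1 1 1 1 1 0, true⟩

theorem gm_sq : gm * gm = 1 := by decide +kernel

theorem gm_act : ∀ t a b c, gm * f a (t ^ 2) (c + t ^ 2 * a) (b ^ 2 + t ^ 2 * a ^ 2) =
    f (1 * t) (1 * a) (1 * 1 * b) (1 ^ 2 * 1 * c) * gm := by decide +kernel

theorem gm_U : ∀ x ∈ U, gm * x * gm ∈ U := by
  rintro _ ⟨t, a, b, c, rfl⟩
  exact ⟨a, t, c + t * a, b + t * a, by revert t a b c; decide +kernel⟩

/-- The Sylow subgroup. -/
def S₁ : Subgroup X := X2.dbl U gm gm_sq gm_U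

theorem syl : IsSylowIn 2 S₁ ⊤ := by
  refine isSylowIn_of_not_dvd le_top (X2.pg_dbl (.of_card card_U)) ?_
  have h₁ := relIndex_mul_relIndex U S₁ ⊤ X2.le_dbl le_top
  have h₂ := U.card_mul_index
  rw [S₁, X2.relIndex_dbl (by
    rintro ⟨t, a, b, c, e⟩
    revert t a b c
    decide +kernel), relIndex_top_right U] at h₁
  rw [card_U, card_X] at h₂
  unfold S₁
  omega

theorem tau_mem : (⟨1, true⟩ : X) ∈ S₁ := X2.le_dbl ⟨0, 1, 1, 1, by decide +kernel⟩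

theorem ext : X2.Ext inl.range ⊥ (S₁ ⊓ inl.range) ⟨1, true⟩ := by
  have hn : inl.range.Normal := ⟨fun x hx g => mem_L.2 (by simp [mul_e, inv_e, mem_L.1 hx])⟩
  obtain ⟨h₁, h₂⟩ := LT.psl_simple (ι := Fin 3) (F := ZMod 3) (by simp)
  have sq : (⟨1, true⟩ : X) * ⟨1, true⟩ = 1 := by decide +kernel
  exact ⟨hn, eqL.isSimpleGroup, Group.IsPerfect.ofSurjective (f := eqL.symm.toMonoidHom)
    eqL.symm.surjective, cen_L, by simp, sq, fun δ hδ => by simp [mem_bot.1 hδ, sq],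
    syl.inf_of_normal le_top fun g _ n hn' => hn.conj_mem n hn' g,
    fun t ht => ⟨mul_mem (mul_mem tau_mem ht.1) tau_mem, mem_L.2 (by simp [mul_e, mem_L.1 ht.2])⟩,
    fun h => by simpa using mem_L.1 h.2⟩

theorem mem_S {g : X} : g ∈ ext.S ↔ g ∈ S₁ := by
  rw [ext.mem_S]
  refine ⟨fun h => h.elim And.left fun h => (S₁.mul_mem_cancel_right tau_mem).1 h.1, fun h => ?_⟩
  cases e : g.e
  · exact .inl ⟨h, mem_L.2 e⟩
  · exact .inr ⟨mul_mem h tau_mem, mem_L.2 (by simp [mul_e, e])⟩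

theorem mem_G (g : SL3) : inl g ∈ ext.G := ext.le₀ (mem_sup_left ⟨g, rfl⟩)

end L33

open L33 in
theorem l33 : L33Stmt := by
  have h₁ : ∀ t b c, inl (mk 0 0 1 0 2 2 1 1 2) * f t 0 b c =
    f b 0 t c * inl (mk 0 0 1 0 2 2 1 1 2) := by decide +kernel
  have h₂ : ∀ a b c, inl (mk 0 0 1 0 1 0 2 0 0) * f 0 a b c =
    f 0 c b a * inl (mk 0 0 1 0 1 0 2 0 0) := by decide +kernel
  have h₃ : inl (mk 0 0 1 2 2 2 1 0 0) * f 0 0 1 0 = f 1 1 0 0 * gm * inl (mk 0 0 1 2 2 2 1 0 0) ∧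
      inl (mk 0 0 1 2 2 2 1 0 0) * gm = gm * inl (mk 0 0 1 2 2 2 1 0 0) ∧
      inl (mk 0 0 1 2 2 2 1 0 0) * f 1 1 1 0 = f 1 1 0 1 * inl (mk 0 0 1 2 2 2 1 0 0) := by
    decide +kernel
  refine ⟨X, inferInstance, inferInstance, _, _, _, _, ext, ⟨eqL⟩, U, D₀, gm,
    ⟨⟨mem_S.2 X2.self_mem_dbl, gm_sq, one_ne_zero, one_ne_zero, fun t a b c => ?_⟩,
      fun _ => mem_S, ext.sylS, ⟨_, mem_G _, fun t b c => mul_inv_eq_iff_eq_mul.2 (h₁ t b c)⟩,
      ⟨_, mem_G _, fun a b c => mul_inv_eq_iff_eq_mul.2 (h₂ a b c)⟩⟩,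
    _, mem_G _, mul_inv_eq_iff_eq_mul.2 h₃.1, mul_inv_eq_iff_eq_mul.2 h₃.2.1,
    mul_inv_eq_iff_eq_mul.2 h₃.2.2⟩
  exact mul_inv_eq_iff_eq_mul.2 (gm_act t a b c)

end Cfsg.Agent.MP.Spg
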