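import Cfsg.Agent.Lib.MP.McMod
import Cfsg.Agent.Lib.Fus2.Solv
import Cfsg.Agent.Lib.Fus2.NKSat
import Cfsg.Prelude.Def_Local
import Cfsg.Prelude.Def_Transfer
import Cfsg.Prelude.Def_Classical
import Cfsg.Prelude.Def_Spor_J3

/-!
# Minimal 2-fusion systems in the pushing-up case: Sylow subgroups of maximal class
-/

set_option autoImplicit false

namespace Cfsg.Agent.MP.Mc

open Subgroup TwoGrp Tr FusionSystem Fus2
open scoped MatrixGroups commutatorElement

universe u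

/-- The conclusion of the theorem on minimal 2-fusion systems. -/
def Concl {Ω : Type u} [Group Ω] {S : Subgroup Ω} (F : FusionSystem S) : Prop :=
    ∃ (G : Type u) (_ : Group G) (_ : Finite G) (ι : ↥S →* G),
      F.IsRealizedBy ι ∧ (∃ T : Sylow 2 G, (T : Subgroup G) = ι.range) ∧
      (((∃ m : ℕ, 8 ≤ m ∧ Nonempty (↥S ≃* DihedralGroup m)) ∧
          ∃ (K : Type) (_ : Field K) (_ : Fintype K), Odd (Fintype.card K) ∧
            (Nonempty (G ≃* Matrix.ProjectiveSpecialLinearGroup (Fin 2) K) ∨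
              Nonempty (G ≃* GL (Fin 2) K ⧸ Subgroup.center (GL (Fin 2) K)))) ∨
        (Cfsg.IsQuasiDihedral ↥S ∧
          ∃ (K : Type) (_ : Field K) (_ : Fintype K) (r : ℕ), Odd r ∧ Fintype.card K = r ^ 2 ∧
            ∃ L : Subgroup G, L.Normal ∧ L.index = 2 ∧ Subgroup.centralizer (L : Set G) = ⊥ ∧
              Nonempty (↥L ≃* Matrix.ProjectiveSpecialLinearGroup (Fin 2) K)) ∨
        (Cfsg.IsQuasiDihedral ↥S ∧ Nat.card S = 16 ∧
          Nonempty (G ≃* Matrix.ProjectiveSpecialLinearGroup (Fin 3) (ZMod 3))) ∨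
        (Nat.card S = 32 ∧ (Nonempty (G ≃* MulAut ↥(alternatingGroup (Fin 6))) ∨
          Nonempty (G ≃* MulAut (Matrix.ProjectiveSpecialLinearGroup (Fin 3) (ZMod 3))))) ∨
        (Nat.card S = 2 ^ 7 ∧ Cfsg.Spor.IsoJ3 G) ∨
        (∃ (K : Type) (_ : Field K) (_ : Fintype K),
          (Nonempty (↥(Cfsg.generalizedFittingSubgroup G) ≃*
              Matrix.ProjectiveSpecialLinearGroup (Fin 3) K) ∨
            (Nonempty (↥(Cfsg.generalizedFittingSubgroup G) ≃* Cfsg.PSp 2 K) ∧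
              ∃ e : ℕ, Odd e ∧ Fintype.card K = 2 ^ e)) ∧
          Cfsg.generalizedFittingSubgroup G ≤ Cfsg.pResidual 2 G ∧
          Odd ((Cfsg.generalizedFittingSubgroup G).subgroupOf (Cfsg.pResidual 2 G)).index ∧
          (Cfsg.pResidual 2 G).index = 2))

variable {Ω : Type u} [Group Ω] {S : Subgroup Ω} {F N : FusionSystem S} {n : ℕ}

theorem realizedIn_equiv {G H : Type*} [Group G] [Group H] [Finite G] (h : RealizedIn F G)
    (e : G ≃* H) : RealizedIn F H := by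
  have : Fact (Nat.Prime 2) := ⟨Nat.prime_two⟩
  obtain ⟨ι, ⟨h1, h2⟩, T, hT⟩ := h
  refine ⟨e.toMonoidHom.comp ι, ⟨e.injective.comp h1, fun P hP φ hφ => ?_⟩,
    T.mapSurjective (f := e.toMonoidHom) e.surjective, ?_⟩
  · rw [h2 P hP φ hφ]
    constructor
    · rintro ⟨g, hg⟩
      exact ⟨e g, fun x => by simp [hg x]⟩
    · rintro ⟨g, hg⟩
      exact ⟨e.symm g, fun x => e.injective (by simpa using hg x)⟩
  · exact (Sylow.coe_mapSurjective _ T).trans (by rw [hT, MonoidHom.map_range])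

theorem lift {G : Type} [Group G] [Finite G] (h : RealizedIn F G) :
    ∃ (H : Type u) (_ : Group H) (_ : Finite H) (ι : S →* H), F.IsRealizedBy ι ∧
      (∃ T : Sylow 2 H, (T : Subgroup H) = ι.range) ∧ Nonempty (H ≃* G) := by
  obtain ⟨ι, h1, h2⟩ := realizedIn_equiv h (MulEquiv.ulift.{0, u}).symm
  exact ⟨ULift.{u} G, inferInstance, inferInstance, ι, h1, h2, ⟨MulEquiv.ulift⟩⟩

/-- If `Aut_F(S)` is inner, then `N` contains the automorphisms of every normal subgroup. -/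
theorem M_of_par [Finite S]
    (hpar : ∀ R : Subgroup Ω, R ≠ ⊥ → R ≤ S → S ≤ normalizer (R : Set Ω) →
      (∀ P : Subgroup Ω, F.normalizerHom S P ⊆ F.normalizerHom R P) →
      ∀ P : Subgroup Ω, F.normalizerHom R P ⊆ N.Hom P)
    (hI : F.autGroup S = Inn S) {R : Subgroup Ω} (h0 : R ≠ ⊥) (hR : R ≤ S)
    (hn : S ≤ normalizer (R : Set Ω)) {f : Ω → Ω} (hf : SM F R f) : M N R f := by
  have key := hpar R h0 hR hn (fun P φ hφ => by
    obtain ⟨hP, g, hg, e, hgS⟩ := NK_top_iff.1 (mem_normalizerHom_iff.1 hφ)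
    have hPS : P ≤ S := hP.trans inf_le_left
    obtain ⟨α, hα, hαg⟩ := (hg.mono le_sup_right).exists_aut hgS
    obtain ⟨s, hs, hs'⟩ := Fus2.mem_Inn_iff.1 (hI ▸ hα)
    refine mem_normalizerHom_iff.2 (NK_top_iff.2 ⟨le_inf hPS (hPS.trans hn), g,
      hg.mono (sup_le_sup_left hR P), e, (hg.mono (hR.trans le_sup_right)).img_eq_self
        fun x hx => ?_⟩)
    rw [← hαg x (hR hx), hs' x (hR hx)]
    exact (mem_normalizer_iff.1 (hn hs) x).1 hx) R
  have h1 : hf.1.homOn.toHom ∈ F.normalizerHom R R := by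
    refine mem_normalizerHom_iff.2 (NK_top_iff.2 ⟨le_inf hR le_normalizer, f, by
      rw [sup_idem]; exact hf.1, fun x hx => (hf.1.homOn.fn_toHom hx).symm,
      hf.1.img_eq_self hf.2⟩)
  exact ⟨_, key h1, fun _ => rfl⟩

theorem le_normalizer_V [Finite S] (D : Dih S 2) (k : ZMod (2 ^ 2)) :
    S ≤ normalizer (D.V k : Set Ω) := by
  intro s hs
  have := finite_of_le (D.V_le k)
  have h1 : ∀ i j : ZMod (2 ^ 2), j = k ∨ j = k - TwoGrp.hf 2 → D.s j ∈ D.V k := by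
    rintro i j (rfl | rfl)
    · exact D.s_mem_V _
    · simpa using mul_mem (D.z_mem_V k) (D.s_mem_V k)
  have h2 : s * D.s k * s⁻¹ ∈ D.V k := by
    rcases (D.mem_iff s).1 hs with ⟨i, rfl⟩ | ⟨i, rfl⟩
    · rw [D.conj_s]
      exact h1 i _ ((by decide : ∀ k i : ZMod (2 ^ 2), k - 2 * i = k ∨
        k - 2 * i = k - TwoGrp.hf 2) k i)
    · simp only [Dih.s_mul_s, Dih.inv_s, Dih.r_mul_s]
      exact h1 i _ ((by decide : ∀ k i : ZMod (2 ^ 2), i - (k - i) = k ∨
        i - (k - i) = k - TwoGrp.hf 2) k i)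
  refine mem_normalizer_fintype fun x hx => ?_
  rcases D.mem_V.1 hx with rfl | rfl | rfl | rfl
  · simp
  · rw [D.conj_z hs]; exact D.z_mem_V k
  · exact h2
  · rw [← conj_mul, D.conj_z hs]; exact mul_mem (D.z_mem_V k) h2

theorem dih_two [Finite S] (hF : F.IsSaturated 2)
    (hpar : ∀ R : Subgroup Ω, R ≠ ⊥ → R ≤ S → S ≤ normalizer (R : Set Ω) →
      (∀ P : Subgroup Ω, F.normalizerHom S P ⊆ F.normalizerHom R P) →
      ∀ P : Subgroup Ω, F.normalizerHom R P ⊆ N.Hom P) (D : Dih S 2) : F ≤ N := by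
  have hS := DihF.isPGroup D
  have hI : F.autGroup S = Inn S := by
    rcases sp_or hS hF (Or.inl rfl) with h | h
    · obtain ⟨k, hk, -⟩ := DihF.conj_of_sp D h
      have h1 : D.r 1 ∈ D.V k := hk ▸ D.r_mem 1
      have h2 := kleinFour_mul_self (D.isKleinFour_V k) h1
      rcases D.eq_of_r_sq h2 with e | e <;> exact absurd e (by decide)
    · exact h.2
  refine le_of_sp hS hF fun P hP f hf => ?_
  obtain ⟨k, rfl, -⟩ := DihF.conj_of_sp D hP
  exact M_of_par hpar hI (fun h => D.s_ne_one k (mem_bot.1 (h ▸ D.s_mem_V k))) (D.V_le k)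
    (le_normalizer_V D k) hf

theorem qd_not_solvable [Finite S] (hF : F.IsSaturated 2)
    (hmin : ∀ U : Subgroup Ω, U ≠ ⊥ → F.IsFullyNormalized U →
      ∀ E : FusionSystem (normalizerIn S U), F.IsNormalizerSystem U E → E.IsSolvableSystem)
    (D : QD S n) (hn : 4 ≤ n) (h : F.IsConjElt (D.r (qt n)) (D.s 1)) : False := by
  have : Fact (Nat.Prime 2) := ⟨Nat.prime_two⟩
  have hS := QDF.isPGroup D
  obtain ⟨Z, hZ⟩ : ∃ Z, Z = zpowers (D.r (hf n)) := ⟨_, rfl⟩
  have hZS : Z ≤ S := hZ ▸ zpowers_le.2 (D.r_mem _)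
  have hZn : S ≤ normalizer (Z : Set Ω) := fun s hs => by
    have := finite_of_le hZS
    refine mem_normalizer_fintype ?_
    rw [hZ]
    rintro _ ⟨i, rfl⟩
    simp only [← conj_zpow, D.conj_z hs]
    exact ⟨i, rfl⟩
  have hN : S ≤ normalizerIn S Z := le_inf le_rfl hZn
  have hfn := Fus.isFullyNormalized_of_normal (F := F) hZS hZn
  have hE := isNormalizerSystem_normalizerSystem F hZS
  obtain ⟨E, hE'⟩ : ∃ E, E = normalizerSystem F hZS := ⟨_, rfl⟩
  rw [← hE'] at hE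
  have : Finite (normalizerIn S Z) := finite_of_le inf_le_left
  have hs := (isSolvableSystem_iff (S := normalizerIn S Z) (hS.to_le inf_le_left) (normalizer_saturated hS hF hfn hE)).1
    (hmin Z (fun e => (orderOf_eq_two_iff'.1 D.orderOf_z).2 (zpowers_eq_bot.1 (hZ ▸ e))) hfn E hE)
  obtain ⟨g, hg, hg'⟩ := QDF.exists_move_q8 D hF h 0
  have hgz : g (D.r (hf n)) = D.r (hf n) := by
    refine QDF.eq_z_of_mem_q8 D (hg.2 _ (D.z_mem_q8 0)) ?_ fun e => ?_
    · rw [← hg.1.homOn _ (D.z_mem_q8 0) _ (D.z_mem_q8 0), (orderOf_eq_two_iff'.1 D.orderOf_z).1,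
        hg.1.map_one]
    · exact (orderOf_eq_two_iff'.1 D.orderOf_z).2
        (hg.1.inj _ (D.z_mem_q8 0) _ (one_mem _) (e.trans hg.1.map_one.symm))
  have hZq : Z ≤ D.q8 0 := hZ ▸ zpowers_le.2 (D.z_mem_q8 0)
  have hgE : M E (D.q8 0) g := by
    refine M_normalizer_of hE hg.1 hZq ((D.q8_le 0).trans hN)
      ((hg.1.mono hZq).img_eq_self fun x hx => ?_)
    rw [hZ] at hx ⊢
    rcases eq_of_mem_zpowers_invol (orderOf_eq_two_iff'.1 D.orderOf_z).1 hx with rfl | rfl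
    · rw [hg.1.map_one]; exact one_mem _
    · rw [hgz]; exact mem_zpowers _
  obtain ⟨j, hj⟩ : ∃ j, g (D.r (qt n)) = D.s (2 * j + 1) := by
    have h1 := Fus.isConjElt_of_M hg.1 (D.w_mem_q8 0)
    rcases D.orderOf_four (Fus.isConjElt_right_mem h1)
      ((Fus.orderOf_eq_of_isConjElt h1).trans D.orderOf_w) with e | e | e
    · exact absurd (Or.inl e) hg'
    · exact absurd (Or.inr (by rw [e]; simp)) hg'
    · exact e
  have key : ∀ A, E.StronglyClosed A → D.r 4 ∈ A → D.r 2 ∈ A ∧ D.s 1 ∈ A := fun A hA h4 => by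
    have hA' := (Fus.stronglyClosed_iff_isConjElt.1 hA).2
    have h1 : D.r (qt n) ∈ A := zpowers_le.2 h4 (D.mem_zpowers_r.2 ⟨2 ^ (n - 4), by
      rw [qt, show n - 2 = 2 + (n - 4) by omega, pow_add]; norm_num⟩)
    have h2 : D.s (2 * j + 1) ∈ A := hj ▸ hA' _ h1 _ (Fus.isConjElt_of_M hgE (D.w_mem_q8 0))
    have h3 : ∀ k, D.s (2 * j + 1 + 2 * k) ∈ A := fun k => by
      obtain ⟨s, hs, e, -⟩ := D.exists_conj_s (2 * j + 1) k
      exact e ▸ hA' _ h2 _ (isConjElt_conj (hN (D.s_mem _)) (hN hs))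
    have h5 : D.s 1 ∈ A := by simpa using h3 (-j)
    have h6 := h3 (1 - j)
    rw [show 2 * j + 1 + 2 * (1 - j) = 1 + 2 by ring, ← D.s_mul_r] at h6
    exact ⟨(mul_mem_cancel_left h5).1 h6, h5⟩
  have main : ∀ A B, AbSeries E A B → E.StronglyClosed A → D.r 2 ∈ B ∧ D.s 1 ∈ B →
      D.r 2 ∈ A ∧ D.s 1 ∈ A := by
    intro A B hAB
    induction hAB using Relation.ReflTransGen.head_induction_on with
    | refl => exact fun _ h => h
    | head h₁ _ ih =>
      intro hA hB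
      obtain ⟨h2, h3⟩ := ih h₁.1 hB
      refine key _ hA ?_
      have := h₁.2.2 (commutator_mem_commutator h2 h3)
      rw [commutatorElement_def, mul_assoc, mul_assoc, ← mul_assoc (D.s 1)] at this
      have h4 : D.s 1 * (D.r 2)⁻¹ * (D.s 1)⁻¹ = D.r 2 := by
        rw [mul_inv_eq_iff_eq_mul]
        simp only [QD.inv_r, QD.s_mul_r, QD.r_mul_s]
        congr 1
        linear_combination -D.h2
      rw [h4, D.r_mul_r] at this
      convert this using 2
      norm_num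
  have h1 := (main _ _ hs (sc_bot E) ⟨hN (D.r_mem _), hN (D.s_mem _)⟩).2
  have h2 := D.orderOf_s_odd 0
  rw [mul_zero, zero_add, mem_bot.1 h1, orderOf_one] at h2
  omega

variable [Finite S] (hS : IsPGroup 2 S) (hF : F.IsSaturated 2) (hO : F.core = ⊥)
  (hmin : ∀ U : Subgroup Ω, U ≠ ⊥ → F.IsFullyNormalized U →
    ∀ E : FusionSystem (normalizerIn S U), F.IsNormalizerSystem U E → E.IsSolvableSystem)
  (hNle : N ≤ F) (hNne : N ≠ F)
  (hpar : ∀ R : Subgroup Ω, R ≠ ⊥ → R ≤ S → S ≤ normalizer (R : Set Ω) →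
    (∀ P : Subgroup Ω, F.normalizerHom S P ⊆ F.normalizerHom R P) →
    ∀ P : Subgroup Ω, F.normalizerHom R P ⊆ N.Hom P)
include hS hF hO

theorem not_comm (hne : S ≠ ⊥) : ¬ ∀ x ∈ S, ∀ y ∈ S, x * y = y * x := fun h =>
  have : Fact (Nat.Prime 2) := ⟨Nat.prime_two⟩
  hne (le_bot_iff.1 (hO ▸ le_core (Fus.isNormal_top_of_comm hS hF h)))

theorem of_dihedral (h₂ : IsEmpty (Dih S 2)) {m : ℕ} (hm : 2 ≤ m) (e : S ≃* DihedralGroup m) :
    Concl F := by
  obtain ⟨n, rfl, ⟨D⟩⟩ := exists_Dih hS hm e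
  have hZ : F.center = ⊥ := le_bot_iff.1 (hO ▸ center_le_core F)
  rcases (show n = 1 ∨ n = 2 ∨ 3 ≤ n by have := D.hn; omega) with rfl | rfl | hn
  · refine absurd (fun x hx y hy => congrArg Subtype.val (e.injective
      (a₁ := ⟨x, hx⟩ * ⟨y, hy⟩) (a₂ := ⟨y, hy⟩ * ⟨x, hx⟩) ?_))
      (not_comm hS hF hO fun h => D.s_ne_one 0 (mem_bot.1 (h ▸ D.s_mem 0)))
    rw [map_mul, map_mul]
    exact (by decide : ∀ a b : DihedralGroup (2 ^ 1), a * b = b * a) _ _
  · exact h₂.elim D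
  have h8 : 8 ≤ 2 ^ n := Nat.pow_le_pow_right two_pos hn
  by_cases h : ∀ k, F.IsConjElt (D.r (hf n)) (D.s k)
  · obtain ⟨p, _, hp, h⟩ := realizedIn_psl2 hF D (by omega) h
    obtain ⟨G, _, _, ι, h1, h2, h3⟩ := lift h
    exact ⟨G, inferInstance, inferInstance, ι, h1, h2, Or.inl ⟨⟨_, h8, ⟨e⟩⟩, ZMod p,
      inferInstance, inferInstance, by rw [ZMod.card, Nat.odd_iff]; omega, Or.inl h3⟩⟩
  push Not at h
  obtain ⟨G, _, _, T, D', ⟨k, h₁⟩, ⟨l, h₂⟩, K, _, _, hK, ⟨e'⟩⟩ := pgl2_model (n := n) (by omega)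
  obtain ⟨a, b, i⟩ := DihF.exists_isoM_one D (by omega) hF D' (Fus.group_isSaturated T)
    (DihF.exists_conj_of_center D hF hZ) h
    ⟨k, (group_isConjElt_iff (D'.r_mem _) (D'.s_mem _)).2 h₁⟩
    ⟨l, fun h => h₂ ((group_isConjElt_iff (D'.r_mem _) (D'.s_mem _)).1 h)⟩
  obtain ⟨H, _, _, ι, h1, h2, ⟨h3⟩⟩ := lift (realizedIn_of_isoM T i)
  exact ⟨H, inferInstance, inferInstance, ι, h1, h2, Or.inl ⟨⟨_, h8, ⟨e⟩⟩, K,
    inferInstance, inferInstance, hK, Or.inr ⟨h3.trans e'⟩⟩⟩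

omit hS in
include hmin in
theorem of_quasiDihedral (hq : IsQuasiDihedral S) : Concl F := by
  obtain ⟨n, ⟨D⟩⟩ := exists_QD hq
  have hZ : F.center = ⊥ := le_bot_iff.1 (hO ▸ center_le_core F)
  have h₁ := QDF.conj_of_center D hF hZ
  by_cases h : F.IsConjElt (D.r (qt n)) (D.s 1)
  · obtain rfl : n = 3 := by
      by_contra hn
      exact qd_not_solvable hF hmin D (by have := D.hn; omega) h
    obtain ⟨T, D', h₁', h₂'⟩ := psl3_model
    obtain ⟨a, b, i⟩ := QDF.exists_isoM D hF D' (Fus.group_isSaturated T)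
      (iff_of_true h₁ ((group_isConjElt_iff (D'.r_mem _) (D'.s_mem _)).2 h₁'))
      (iff_of_true h ((group_isConjElt_iff (D'.r_mem _) (D'.s_mem _)).2 h₂'))
    obtain ⟨H, _, _, ι, h1, h2, h3⟩ := lift (realizedIn_of_isoM T i)
    exact ⟨H, inferInstance, inferInstance, ι, h1, h2, Or.inr (Or.inr (Or.inl
      ⟨hq, D.card_eq, h3⟩))⟩
  obtain ⟨G, _, _, T, D', h₁', h₂', K, _, _, r, hr, hK, L, hL, hi, hC, ⟨e'⟩⟩ := mq_model D.hn
  obtain ⟨a, b, i⟩ := QDF.exists_isoM D hF D' (Fus.group_isSaturated T)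
    (iff_of_true h₁ ((group_isConjElt_iff (D'.r_mem _) (D'.s_mem _)).2 h₁'))
    (iff_of_false h fun h => h₂' ((group_isConjElt_iff (D'.r_mem _) (D'.s_mem _)).1 h))
  obtain ⟨H, _, _, ι, h1, h2, ⟨e⟩⟩ := lift (realizedIn_of_isoM T i)
  refine ⟨H, inferInstance, inferInstance, ι, h1, h2, Or.inr (Or.inl ⟨hq, K, inferInstance,
    inferInstance, r, hr, hK, L.comap e.toMonoidHom, inferInstance,
    (index_comap_of_surjective _ e.surjective).trans hi, eq_bot_iff.2 fun x hx => ?_,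
    ⟨MulEquiv.trans ?_ e'⟩⟩)⟩
  · have : e x ∈ centralizer (L : Set G) := fun y hy => by
      obtain ⟨y, rfl⟩ := e.surjective y
      rw [← map_mul, ← map_mul, hx y hy]
    rw [hC, mem_bot, EmbeddingLike.map_eq_one_iff] at this
    exact this
  · exact (e.subgroupMap _).trans (MulEquiv.subgroupCongr
      (map_comap_eq_self_of_surjective e.surjective L))

include hmin in
/-- The case of a self-centralizing four-group. -/
theorem of_four' (h₂ : IsEmpty (Dih S 2)) {V : Subgroup Ω} (hV : IsKleinFour V) (hVS : V ≤ S)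
    (hC : centralizerIn S V ≤ V) : Concl F := by
  have hV4 : Nat.card V = 4 := hV.card_four
  have hne : S ≠ ⊥ := by
    rintro rfl
    rw [le_bot_iff.1 hVS, card_bot] at hV4
    omega
  have hc : ∀ x ∈ V, ∀ y ∈ V, x * y = y * x := fun x hx y hy => kleinFour_comm hV hx hy
  obtain ⟨z, hz, hz1, -, hzc⟩ := exists_central_involution' hS hne
  have hzV : z ∈ V := hC ⟨hz, fun v hv => hzc v (hVS hv)⟩
  have hSV : ¬ S ≤ V := fun h => not_comm hS hF hO hne fun x hx y hy => hc x (h hx) y (h hy)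
  obtain ⟨t, ht, s, hs, hts⟩ : ∃ t ∈ V, ∃ s ∈ S, t * s ≠ s * t := by
    by_contra h
    push Not at h
    exact hSV fun s hs => hC ⟨hs, fun v hv => h v hv s hs⟩
  have h4 : 4 < Nat.card S := by
    rw [← hV4]
    refine lt_of_le_of_ne (card_le_of_le hVS) fun e => hSV ?_
    exact (eq_of_le_of_card_ge hVS e.ge).ge
  have h5 : Nat.card (centralizer ({(⟨t, hVS ht⟩ : S)} : Set S)) ≤ 4 := by
    rw [← hV4, ← Nat.card_congr (subgroupOfEquivOfLe hVS).toEquiv]
    refine card_le_of_le fun x hx => hC ⟨x.2, fun v hv => ?_⟩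
    have h1 : t * x = x * t := congrArg Subtype.val (mem_centralizer_single.1 hx)
    have ht1 : t ≠ 1 := by rintro rfl; simp at hts
    have htz : z ≠ t := by rintro rfl; exact hts (hzc s hs).symm
    rcases (kleinFour_mem_iff hV hzV ht hz1 ht1 htz v).1 hv with rfl | rfl | rfl | rfl
    · simp
    · exact (hzc x x.2).symm
    · exact h1
    · change z * t * x = x * (z * t)
      rw [mul_assoc, h1, ← mul_assoc, ← hzc x x.2, mul_assoc]
  rcases dihedral_or_quasiDihedral hS h4 (Subtype.ext (kleinFour_mul_self hV ht)) h5 with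
    ⟨m, hm, ⟨e⟩⟩ | h
  · exact of_dihedral hS hF hO h₂ hm e
  · exact of_quasiDihedral hF hO hmin h

include hmin hNle hNne hpar in
theorem of_four {V : Subgroup Ω} (hV : IsKleinFour V) (hVS : V ≤ S)
    (hC : centralizerIn S V ≤ V) : Concl F :=
  of_four' hS hF hO hmin ⟨fun D => hNne (Fus.fs_le_antisymm hNle (dih_two hF hpar D))⟩ hV hVS hC

end Cfsg.Agent.MP.Mc
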