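import Cfsg.Agent.Lib.Rank2.Final

/-!
# The models with Sylow 2-subgroups of maximal class, identified
-/

set_option autoImplicit false

namespace Cfsg.Agent.MP.Mc

open Subgroup TwoGrp Matrix Tr
open scoped MatrixGroups commutatorElement

/-- An automorphism of a perfect group commuting with the inner automorphisms is trivial. -/
theorem aut_eq_one {G : Type*} [Group G] (hG : commutator G = ⊤) {α : MulAut G}
    (h : ∀ g, MulAut.conj g * α = α * MulAut.conj g) : α = 1 := by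
  have h1 : ∀ g x, g⁻¹ * α g * x = x * (g⁻¹ * α g) := fun g x => by
    have := congrArg (fun β : MulAut G => β (α.symm x)) (h g)
    simp only [MulAut.mul_apply, MulAut.conj_apply, map_mul, map_inv,
      MulEquiv.apply_symm_apply] at this
    calc g⁻¹ * α g * x = g⁻¹ * (α g * x * (α g)⁻¹) * α g := by group
      _ = x * (g⁻¹ * α g) := by rw [← this]; group
  have h2 : commutator G ≤ α.toMonoidHom.eqLocus (MonoidHom.id G) := by
    refine Subgroup.commutator_le.2 fun g _ k _ => ?_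
    change α ⁅g, k⁆ = ⁅g, k⁆
    obtain ⟨a, ha⟩ : ∃ a, a = g⁻¹ * α g := ⟨_, rfl⟩
    obtain ⟨b, hb⟩ : ∃ b, b = k⁻¹ * α k := ⟨_, rfl⟩
    have ea : α g = g * a := by rw [ha]; group
    have eb : α k = k * b := by rw [hb]; group
    have ca : ∀ x, a * x = x * a := fun x => ha ▸ h1 g x
    have cb : ∀ x, b * x = x * b := fun x => hb ▸ h1 k x
    rw [commutatorElement_def, map_mul, map_mul, map_mul, map_inv, map_inv, ea, eb]
    calc g * a * (k * b) * (g * a)⁻¹ * (k * b)⁻¹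
        = g * (a * (k * b)) * a⁻¹ * g⁻¹ * b⁻¹ * k⁻¹ := by group
      _ = g * k * (b * g⁻¹) * b⁻¹ * k⁻¹ := by rw [ca]; group
      _ = g * k * g⁻¹ * k⁻¹ := by rw [cb]; group
  exact MulEquiv.ext fun x => h2 (hG ▸ mem_top x)

variable {K : Type*} [Field K]

/-- Conjugation of `SL₂(K)` by an invertible matrix. -/
def cjF (g : GL (Fin 2) K) (M : SL(2, K)) : SL(2, K) :=
  ⟨(g : Matrix (Fin 2) (Fin 2) K) * M * (g⁻¹ : GL (Fin 2) K), by
    rw [det_mul, det_mul, M.det_coe, mul_one, ← det_mul, ← Units.val_mul, mul_inv_cancel,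
      Units.val_one, det_one]⟩

theorem coe_cjF (g : GL (Fin 2) K) (M : SL(2, K)) : (cjF g M : Matrix (Fin 2) (Fin 2) K) =
    (g : Matrix (Fin 2) (Fin 2) K) * M * (g⁻¹ : GL (Fin 2) K) := rfl

theorem toGL_cjF (g : GL (Fin 2) K) (M : SL(2, K)) :
    SpecialLinearGroup.toGL (cjF g M) = g * SpecialLinearGroup.toGL M * g⁻¹ := Units.ext rfl

theorem cjF_ext {M N : SL(2, K)} (h : SpecialLinearGroup.toGL M = SpecialLinearGroup.toGL N) :
    M = N := SpecialLinearGroup.toGL_injective h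

/-- The action of `GL₂(K)` on `SL₂(K)`. -/
def cj : GL (Fin 2) K →* MulAut SL(2, K) where
  toFun g :=
    { toFun := cjF g
      invFun := cjF g⁻¹
      left_inv M := cjF_ext (by rw [toGL_cjF, toGL_cjF]; group)
      right_inv M := cjF_ext (by rw [toGL_cjF, toGL_cjF]; group)
      map_mul' M N := cjF_ext (by rw [map_mul, toGL_cjF, toGL_cjF, toGL_cjF, map_mul]; group) }
  map_one' := MulEquiv.ext fun M => cjF_ext (by
    change SpecialLinearGroup.toGL (cjF 1 M) = SpecialLinearGroup.toGL M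
    rw [toGL_cjF]; group)
  map_mul' g k := MulEquiv.ext fun M => cjF_ext (by
    change SpecialLinearGroup.toGL (cjF (g * k) M) = SpecialLinearGroup.toGL (cjF g (cjF k M))
    rw [toGL_cjF, toGL_cjF, toGL_cjF]; group)

theorem cj_apply (g : GL (Fin 2) K) (M : SL(2, K)) : cj g M = cjF g M := rfl

theorem cj_toGL (M : SL(2, K)) : cj (SpecialLinearGroup.toGL M) = MulAut.conj M :=
  MulEquiv.ext fun N => cjF_ext (by rw [cj_apply, toGL_cjF]; simp)

theorem cj_dg (u : Kˣ) : cj (TwoGrp.dg (u, 1)) = L2.dl u := by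
  refine MulEquiv.ext fun M => cjF_ext ?_
  rw [cj_apply, toGL_cjF, mul_inv_eq_iff_eq_mul]
  refine Units.ext ?_
  ext i j
  fin_cases i <;> fin_cases j <;>
    simp [TwoGrp.coe_dg, L2.dl_apply, L2.tw_apply, L2.coe_twF, Matrix.mul_apply,
      Fin.sum_univ_two, mul_comm]

theorem ker_cj : (cj : GL (Fin 2) K →* _).ker = center (GL (Fin 2) K) := by
  ext g
  rw [MonoidHom.mem_ker]
  constructor
  · intro h
    have h1 : ∀ M : SL(2, K), (g : Matrix (Fin 2) (Fin 2) K) * M = M * g := fun M => by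
      have := toGL_cjF g M
      rw [← cj_apply, h, MulAut.one_apply, eq_mul_inv_iff_mul_eq] at this
      exact (congrArg Units.val this).symm
    have a1 := congrFun (congrFun (h1 (L2.e12 1)) 0) 0
    have a2 := congrFun (congrFun (h1 (L2.e12 1)) 0) 1
    have a3 := congrFun (congrFun (h1 L2.wy) 0) 0
    simp [L2.coe_e12, L2.coe_wy, Matrix.mul_apply, Fin.sum_univ_two] at a1 a2 a3
    refine mem_center_iff.2 fun k => Units.ext ?_
    ext i j
    fin_cases i <;> fin_cases j <;>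
      simp [Matrix.mul_apply, Fin.sum_univ_two, a1, show g 0 1 = 0 by simpa [a1] using a3,
        show g 1 1 = g 0 0 by linear_combination -a2, mul_comm]
  · intro h
    exact MulEquiv.ext fun M => cjF_ext (by
      rw [cj_apply, toGL_cjF, ← mem_center_iff.1 h]; simp)

theorem range_cj [Finite K] {ζ : Kˣ} (hζ : ¬ IsSquare (ζ : K)) :
    (cj : GL (Fin 2) K →* _).range = L2.inn K ⊔ zpowers (L2.dl ζ) := by
  refine le_antisymm ?_ (sup_le ?_ (zpowers_le.2 ⟨_, cj_dg ζ⟩))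
  · rintro _ ⟨g, rfl⟩
    obtain ⟨u, hu⟩ : ∃ u, u = GeneralLinearGroup.det g := ⟨_, rfl⟩
    have h1 : GeneralLinearGroup.det (g * (TwoGrp.dg (u, 1))⁻¹) = 1 := by
      rw [map_mul, map_inv, ← hu, show GeneralLinearGroup.det (TwoGrp.dg (u, 1)) = u from
        Units.ext (by simp [TwoGrp.coe_dg, det_fin_two]), mul_inv_cancel]
    obtain ⟨M, h2⟩ : ∃ M : SL(2, K), g = SpecialLinearGroup.toGL M * TwoGrp.dg (u, 1) :=
      ⟨⟨_, congrArg Units.val h1⟩,
      (inv_mul_cancel_right g (TwoGrp.dg (u, 1))).symm.trans (congrArg (· * _) (Units.ext rfl))⟩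
    rw [h2, map_mul, cj_toGL, cj_dg]
    refine mul_mem (mem_sup_left ⟨_, rfl⟩) ?_
    have h3 : ∀ v : Kˣ, IsSquare (v : K) → L2.dl v ∈ L2.inn K := by
      rintro v ⟨a, ha⟩
      have ha0 : a ≠ 0 := by rintro rfl; simp at ha
      exact ⟨L2.dg (Units.mk0 a ha0), by
        rw [show v = Units.mk0 a ha0 * Units.mk0 a ha0 from Units.ext ha]; exact L2.conj_dg _⟩
    by_cases h4 : IsSquare (u : K)
    · exact mem_sup_left (h3 u h4)
    · rw [show u = u * ζ * ζ⁻¹ by group, map_mul, map_inv]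
      refine mul_mem (mem_sup_left (h3 _ ?_)) (mem_sup_right (inv_mem (mem_zpowers _)))
      classical
      have := Fintype.ofFinite K
      rw [Units.val_mul, ← quadraticChar_one_iff_isSquare (mul_ne_zero u.ne_zero ζ.ne_zero),
        map_mul, quadraticChar_neg_one_iff_not_isSquare.2 h4,
        quadraticChar_neg_one_iff_not_isSquare.2 hζ]
      rfl
  · rintro _ ⟨M, rfl⟩
    exact ⟨_, cj_toGL M⟩

theorem pgl_equiv [Finite K] {ζ : Kˣ} (hζ : ¬ IsSquare (ζ : K)) :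
    Nonempty ((L2.inn K ⊔ zpowers (L2.dl ζ) : Subgroup _) ≃*
      GL (Fin 2) K ⧸ center (GL (Fin 2) K)) :=
  ⟨(MulEquiv.subgroupCongr (range_cj hζ).symm).trans
    ((QuotientGroup.quotientKerEquivRange cj).symm.trans
      (QuotientGroup.quotientMulEquivOfEq ker_cj))⟩

theorem ext_shape (hG : commutator SL(2, K) = ⊤) {x : MulAut SL(2, K)} (hx : x ∉ L2.inn K)
    (h2 : x * x ∈ L2.inn K) : ∃ L : Subgroup (L2.inn K ⊔ zpowers x : Subgroup _), L.Normal ∧
      L.index = 2 ∧ centralizer (L : Set (L2.inn K ⊔ zpowers x : Subgroup _)) = ⊥ ∧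
      Nonempty (L ≃* PSL(2, K)) := by
  refine ⟨(L2.inn K).subgroupOf _, inferInstance, relIndex_sup_zpowers hx h2,
    eq_bot_iff.2 fun α hα => mem_bot.2 (Subtype.ext (aut_eq_one hG fun g => ?_)),
    ⟨(subgroupOfEquivOfLe le_sup_left).trans ((MulEquiv.subgroupCongr L2.range_io.symm).trans
      (MonoidHom.ofInjective L2.io_injective).symm)⟩⟩
  exact congrArg Subtype.val (hα ⟨MulAut.conj g, mem_sup_left ⟨g, rfl⟩⟩ ⟨g, rfl⟩)

theorem pgl2_model {n : ℕ} (hn : 2 ≤ n) : ∃ (G : Type) (_ : Group G) (_ : Finite G)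
    (S : Sylow 2 G) (D : Dih (S : Subgroup G) n),
      (∃ k, IsConj (D.r (hf n)) (D.s k)) ∧ (∃ k, ¬ IsConj (D.r (hf n)) (D.s k)) ∧
      ∃ (K : Type) (_ : Field K) (_ : Fintype K), Odd (Fintype.card K) ∧
        Nonempty (G ≃* GL (Fin 2) K ⧸ center (GL (Fin 2) K)) := by
  obtain ⟨p, u, hp, h⟩ := exists_prime_sub n (by omega)
  have : Fact p.Prime := ⟨hp⟩
  have hK : Fintype.card (ZMod p) = 2 ^ n * (2 * u + 1) + 1 := by rw [ZMod.card, h]
  obtain ⟨ζ, hζ, hζ'⟩ := L2.exists_zeta hn hK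
  obtain ⟨h1, ⟨H, h2⟩, h3⟩ := L2.ext_data hn hK (x := L2.dl ζ) (L2.tw_notMem hζ' 1)
    ⟨L2.dg ζ, by rw [← map_mul]; exact L2.conj_dg ζ⟩
  obtain ⟨S⟩ : Nonempty (Sylow 2 (L2.inn (ZMod p) ⊔ zpowers (L2.dl ζ) : Subgroup _)) :=
    inferInstance
  obtain ⟨D⟩ := exists_dih_sylow S (by omega) (h3 S) (x := ⟨_, mem_sup_right (mem_zpowers _)⟩)
    (y := ⟨MulAut.conj L2.wy, mem_sup_left ⟨_, rfl⟩⟩)
    (by rw [← orderOf_coe, orderOf_injective L2.dl L2.dl_injective, hζ])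
    (Subtype.ext L2.wy_mul_wy) (Subtype.ext (L2.dl_mul_wy ζ)) (by
      rintro ⟨k, hk⟩
      exact L2.wy_notMem ζ ⟨k, congrArg Subtype.val hk⟩)
  refine ⟨_, inferInstance, inferInstance, S, D, h1.dih D, ?_, ZMod p, inferInstance,
    inferInstance, by
      obtain ⟨k, rfl⟩ := Nat.exists_eq_add_of_le hn
      exact ⟨2 * 2 ^ k * (2 * u + 1), by rw [hK]; ring⟩, pgl_equiv hζ'⟩
  by_contra h4
  push Not at h4
  have h5 : ∀ a, orderOf a = 2 → IsConj a (D.r (hf n)) := fun a ha => by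
    rcases D.isConj_of_orderOf_two ha with h | ⟨k, h⟩
    · exact h
    · exact h.trans (h4 k).symm
  exact D.no_index_two_of_isConj (fun a b ha hb => (h5 a ha).trans (h5 b hb).symm) H h2

theorem mq_model {n : ℕ} (hn : 3 ≤ n) : ∃ (G : Type) (_ : Group G) (_ : Finite G)
    (S : Sylow 2 G) (D : QD (S : Subgroup G) n),
      IsConj (D.r (hf n)) (D.s 0) ∧ ¬ IsConj (D.r (qt n)) (D.s 1) ∧
      ∃ (K : Type) (_ : Field K) (_ : Fintype K) (r : ℕ), Odd r ∧ Fintype.card K = r ^ 2 ∧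
        ∃ L : Subgroup G, L.Normal ∧ L.index = 2 ∧ centralizer (L : Set G) = ⊥ ∧
          Nonempty (L ≃* PSL(2, K)) := by
  obtain ⟨k, rfl⟩ : ∃ k, n = k + 3 := ⟨n - 3, by omega⟩
  obtain ⟨p, u, hp, h⟩ := exists_prime_sub (k + 2) (by omega)
  have : Fact p.Prime := ⟨hp⟩
  have := Fintype.ofFinite (GaloisField p 2)
  have hK0 : Fintype.card (GaloisField p 2) = p ^ 2 := by
    rw [← Nat.card_eq_fintype_card, GaloisField.card p 2 two_ne_zero]
  have hK : Fintype.card (GaloisField p 2) =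
      2 ^ (k + 3) * (2 * (u + 2 ^ k * (2 * u + 1) ^ 2) + 1) + 1 := by
    rw [hK0, h]; ring
  obtain ⟨ζ, hζ, hζ'⟩ := L2.exists_zeta (by omega) hK
  obtain ⟨σ, hσ⟩ : ∃ σ : GaloisField p 2 ≃+* GaloisField p 2, ∀ x, σ x = x ^ p :=
    ⟨frobeniusEquiv _ p, fun _ => rfl⟩
  have hσ2 : σ * σ = 1 := RingEquiv.ext fun x => by
    change σ (σ x) = x
    rw [hσ, hσ, ← pow_mul, ← sq, ← hK0, FiniteField.pow_card]
  have hz : ζ ^ 2 ^ (k + 2) = -1 := by
    have h1 : ζ ^ 2 ^ (k + 2) * ζ ^ 2 ^ (k + 2) = 1 := by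
      rw [← pow_add, ← two_mul, ← pow_succ', ← hζ, pow_orderOf_eq_one]
    rcases mul_self_eq_one_iff.1 (congrArg Units.val h1) with h | h
    · have := orderOf_dvd_of_pow_eq_one (show ζ ^ 2 ^ (k + 2) = 1 from Units.ext h)
      rw [hζ, Nat.pow_dvd_pow_iff_le_right one_lt_two] at this
      omega
    · exact Units.ext h
  have hσζ : L2.um σ ζ = -ζ := by
    have : L2.um σ ζ = ζ ^ p := Units.ext (by simp [hσ])
    rw [this, congrArg (ζ ^ ·) h, pow_succ, pow_mul, hz, (odd_two_mul_add_one u).neg_one_pow, neg_one_mul]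
  have hsq : L2.tw ζ σ * L2.tw ζ σ = L2.dl (ζ ^ (2 ^ (k + 1) + 1) * ζ ^ (2 ^ (k + 1) + 1)) := by
    rw [L2.tw_mul, hσ2, hσζ, L2.dl_apply]
    congr 1
    rw [← pow_add, show 2 ^ (k + 1) + 1 + (2 ^ (k + 1) + 1) = 2 ^ (k + 2) + 2 by ring, pow_add, hz]
    simp [sq]
  have hhalf : L2.tw ζ σ ^ 2 ^ (k + 2) = L2.dl (-1) := by
    rw [pow_succ' 2 (k + 1), pow_mul, sq, hsq, ← map_pow, ← pow_add, ← pow_mul,
      show (2 ^ (k + 1) + 1 + (2 ^ (k + 1) + 1)) * 2 ^ (k + 1) = 2 ^ (k + 2) * (2 * 2 ^ k + 1) by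
        ring, pow_mul, hz, (odd_two_mul_add_one _).neg_one_pow]
  have hne : (-1 : (GaloisField p 2)ˣ) ≠ 1 := fun e => L2.two_ne (by omega) hK (by
    have := congrArg Units.val e
    simp only [Units.val_neg, Units.val_one] at this
    linear_combination -this)
  obtain ⟨h1, ⟨H, h2⟩, h3⟩ := L2.ext_data (by omega) hK (x := L2.tw ζ σ) (L2.tw_notMem hζ' σ)
    ⟨L2.dg _, by rw [hsq]; exact L2.conj_dg _⟩
  obtain ⟨S⟩ : Nonempty (Sylow 2 (L2.inn (GaloisField p 2) ⊔ zpowers (L2.tw ζ σ) : Subgroup _)) :=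
    inferInstance
  obtain ⟨n, ⟨D⟩⟩ := exists_QD (isQuasiDihedral_sylow S hn (h3 S)
    (x := ⟨_, mem_sup_right (mem_zpowers _)⟩) (y := ⟨MulAut.conj L2.wy, mem_sup_left ⟨_, rfl⟩⟩)
    (by
      rw [← orderOf_coe]
      refine orderOf_eq_prime_pow (fun e => hne (L2.dl_injective ?_)) ?_
      · rw [← hhalf, map_one]; exact e
      · rw [pow_succ, pow_mul]
        change (L2.tw ζ σ ^ 2 ^ (k + 2)) ^ 2 = 1
        rw [hhalf, ← map_pow, neg_one_sq, map_one])
    (by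
      rw [← orderOf_coe]
      exact orderOf_eq_two L2.wy_mul_wy (by simpa using L2.wy_ne_dl (K := GaloisField p 2) 1))
    (Subtype.ext (by
      change MulAut.conj L2.wy * L2.tw ζ σ * (MulAut.conj L2.wy)⁻¹ =
        L2.tw ζ σ ^ (2 ^ (k + 2) - 1)
      rw [← mul_left_inj (L2.tw ζ σ), ← pow_succ, Nat.sub_add_cancel Nat.one_le_two_pow, hhalf]
      have := L2.tw_mul_wy ζ⁻¹ σ
      rw [inv_inv] at this
      rw [← this, mul_inv_cancel_right, L2.tw_mul, hσ2, hσζ, L2.dl_apply]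
      simp)))
  obtain rfl : n = k + 3 := by
    have := D.card_eq
    rw [h3 S] at this
    exact (Nat.succ_injective (Nat.pow_right_injective le_rfl this)).symm
  exact ⟨_, inferInstance, inferInstance, S, D, h1.qd D,
    fun h => D.no_index_two_simple (h1.qd D).symm h.symm H h2, GaloisField p 2, inferInstance,
    inferInstance, p, ⟨2 * 2 ^ k * (2 * u + 1), by rw [h]; ring⟩, hK0,
    ext_shape (SL2.commutator_eq_top ζ.ne_zero fun e => by
      have h1 := orderOf_dvd_of_pow_eq_one (show ζ ^ 2 = 1 from Units.ext (by simpa using e))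
      rw [hζ] at h1
      have := (Nat.pow_dvd_pow_iff_le_right one_lt_two).1 (h1.trans (pow_one 2).symm.dvd)
      omega) (L2.tw_notMem hζ' σ) ⟨L2.dg _, by rw [hsq]; exact L2.conj_dg _⟩⟩

theorem psl3_model : ∃ (S : Sylow 2 PSL(3, ZMod 3)) (D : QD (S : Subgroup PSL(3, ZMod 3)) 3),
    IsConj (D.r (hf 3)) (D.s 0) ∧ IsConj (D.r (qt 3)) (D.s 1) := by
  have h2 : (2 : ZMod 3) ≠ 0 := by decide
  obtain ⟨S⟩ : Nonempty (Sylow 2 PSL(3, ZMod 3)) := inferInstance
  obtain ⟨P⟩ : Nonempty (Sylow 2 (GL (Fin 2) (ZMod 3))) := inferInstance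
  obtain ⟨e⟩ := L3.sylow_equiv h2 S P
  obtain ⟨n, ⟨D⟩⟩ := exists_QD (IsQuasiDihedral_of_equiv e
    (gl_two_quasiDihedral P (by rw [ZMod.card])))
  have hc := card_sylow_of_card P (k := 4) (u := 3) (by rw [card_GL_two, ZMod.card]; rfl)
    (by decide)
  obtain rfl : n = 3 := by
    have := D.card_eq
    rw [← Nat.card_congr e.toEquiv, hc] at this
    exact (Nat.succ_injective (Nat.pow_right_injective le_rfl this)).symm
  obtain ⟨h5, h6⟩ := D.fusion_of_no_index_two (L3.psl_no_index_two h2)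
  exact ⟨S, D, h5.symm, h6.symm⟩

end Cfsg.Agent.MP.Mc
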