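import Cfsg.Agent.Lib.MP.Rk2
import Cfsg.Agent.Lib.ST4.Red

/-!
Row MOD, part 1: minimal offenders and the reduction.
-/

set_option autoImplicit false
set_option linter.unusedSectionVars false

namespace Cfsg.Agent.MP.Rk

open Subgroup Cfsg.Agent.Tr Cfsg.Agent.ST4

local notation "𝐍(" A ")" => Subgroup.normalizer (SetLike.coe A)

section Grp

variable {X : Type*} [Group X] [Finite X]

theorem red {𝒟 : Set (Subgroup X)} (hD : ∀ D ∈ 𝒟, ∀ g, cj g D ∈ 𝒟) {G S M : Subgroup X}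
    (hS : SylowIn 2 S G) (hSM : S ≤ M) (hM : ¬ G ≤ M) (hJ : G ⊓ 𝐍(JD 𝒟 S) ≤ M) :
    ∃ Y ≤ S, JD 𝒟 Y = Y ∧ ¬ G ⊓ 𝐍(Y) ≤ M ∧ SylowIn 2 (S ⊓ 𝐍(Y)) (G ⊓ 𝐍(Y)) ∧
      Y < JD 𝒟 (S ⊓ 𝐍(Y)) ∧
      ∀ Z : Subgroup X, IsPGroup 2 Z → Z ≤ G ⊓ M → JD 𝒟 Z = Z → Y < Z →
        ∀ h ∈ G, cj h Z ≤ M → h ∈ M := by
  have hSG : G ⊓ 𝐍(S) ≤ M := (inf_le_inf_left _ (norm_JD hD)).trans hJ
  have hS' := hS.mono (le_inf hS.le hSM) inf_le_left
  have ncj : ∀ t ∈ G ⊓ M, ∀ Z : Subgroup X, G ⊓ 𝐍(cj t Z) ≤ M → G ⊓ 𝐍(Z) ≤ M := fun t ht Z h => by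
    rwa [normalizer_cj, ← cj_eq_of_mem (mem_inf.1 ht).1, ← cj_inf, ← cj_eq_of_mem (mem_inf.1 ht).2,
      cj_le_cj] at h
  obtain ⟨Y, ⟨hYS, hY, hYn⟩, hmax⟩ := Set.Finite.exists_maximalFor
    (fun Y : Subgroup X => Nat.card Y)
    {Y | Y ≤ S ∧ JD 𝒟 Y = Y ∧ ¬ G ⊓ 𝐍(Y) ≤ M} (Set.toFinite _)
    ⟨⊥, bot_le, le_bot_iff.1 JD_le, fun h => hM (le_trans (le_inf le_rfl fun g _ =>
      mem_normalizer_of_cj_le (cj_bot g).le) h)⟩
  have h1 : ∀ Z : Subgroup X, IsPGroup 2 Z → Z ≤ G ⊓ M → JD 𝒟 Z = Z → Nat.card Y < Nat.card Z →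
      G ⊓ 𝐍(Z) ≤ M := fun Z h2 h3 h4 h5 => by
    obtain ⟨t, ht, h6⟩ := hS'.exists_cj_le h2 h3
    by_contra h7
    exact (hmax (j := cj t Z) ⟨h6, JD_cj hD t h4, fun h8 => h7 (ncj t ht Z h8)⟩
      (by simpa only [card_cj] using h5.le)).not_gt (by simpa only [card_cj] using h5)
  have h2 : ∀ Z ≤ S, JD 𝒟 Z = Z → Nat.card Y < Nat.card Z → ∀ h ∈ G, cj h Z ≤ M → h ∈ M := by
    intro Z
    induction Z using WellFoundedGT.induction with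
    | ind Z ih =>
    intro h3 h4 h5 h hG h6
    have h7 : cj h (S ⊓ 𝐍(Z)) ≤ M := le_trans (by
        rw [normalizer_cj, cj_inf]; exact inf_le_inf_right _ (cj_le_of_mem hS.le hG))
      (h1 (cj h Z) (isPGroup_cj h (hS.isPGroup.to_le h3))
        (le_inf (cj_le_of_mem (h3.trans hS.le) hG) h6) (JD_cj hD h h4) (by rwa [card_cj]))
    by_cases h8 : Z = JD 𝒟 S
    · rw [inf_eq_left.2 fun x hx => h8 ▸ norm_JD hD (le_normalizer hx)] at h7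
      obtain ⟨t, ht, h9⟩ := hS'.exists_cj_eq (hS'.of_card_le (isPGroup_cj h hS.isPGroup)
        (le_inf (cj_le_of_mem hS.le hG) h7) (card_cj h S).ge)
      rw [← cj_mul, cj_eq_iff] at h9
      exact (mul_mem_cancel_left (mem_inf.1 ht).2).1 (hSG ⟨mul_mem ht.1 hG, h9⟩)
    · have h9 := lt_JD hD hS.isPGroup h3 h4 h8
      exact ih _ h9 (JD_le.trans inf_le_left) JD_JD (h5.trans_le (card_le_of_le h9.le)) h hG
        ((cj_mono h JD_le).trans h7)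
  have h3 : ∀ Z : Subgroup X, IsPGroup 2 Z → Z ≤ G ⊓ M → JD 𝒟 Z = Z → Nat.card Y < Nat.card Z →
      ∀ h ∈ G, cj h Z ≤ M → h ∈ M := fun Z a1 a2 a3 a4 h hG a5 => by
    obtain ⟨t, ht, h6⟩ := hS'.exists_cj_le a1 a2
    have := h2 _ h6 (JD_cj hD t a3) (by rwa [card_cj]) (h * t⁻¹)
      (mul_mem hG (inv_mem (mem_inf.1 ht).1)) (by rwa [cj_mul, cj_inv_cj])
    exact (mul_mem_cancel_right (inv_mem (mem_inf.1 ht).2)).1 this
  have lt := lt_JD hD hS.isPGroup hYS hY fun e => hYn (e ▸ hJ)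
  obtain ⟨Q, hQ, hQ'⟩ := exists_sylowIn_ge (p := 2) (Q := S ⊓ 𝐍(Y)) (H := G ⊓ 𝐍(Y))
    hS.isPGroup.to_inf_left (inf_le_inf_right _ hS.le)
  obtain ⟨g, gG, hg⟩ := hS.exists_cj_le hQ.isPGroup (hQ.le.trans inf_le_left)
  have gM : g ∈ M := h2 _ (JD_le.trans inf_le_left) JD_JD (FT.proper_card lt) g gG
    ((cj_mono g (JD_le.trans hQ')).trans (hg.trans hSM))
  have hQg := hQ.cj g
  rw [cj_inf, cj_eq_of_mem gG, ← normalizer_cj] at hQg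
  have YS : cj g Y ≤ S := (cj_mono g ((le_inf hYS le_normalizer).trans hQ')).trans hg
  have Yn : ¬ G ⊓ 𝐍(cj g Y) ≤ M := fun k => hYn (ncj g ⟨gG, gM⟩ Y k)
  refine ⟨cj g Y, YS, JD_cj hD g hY, Yn, ?_,
    lt_JD hD hS.isPGroup YS (JD_cj hD g hY) fun e => Yn (e ▸ hJ),
    fun Z a1 a2 a3 a4 => h3 Z a1 a2 a3 (by rw [← card_cj g]; exact FT.proper_card a4)⟩
  rwa [hQg.eq_of_le hS.isPGroup.to_inf_left (le_inf hg (hQg.le.trans inf_le_right))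
    (inf_le_inf_right _ hS.le)]

end Grp

variable {V : Type*} [CommGroup V] [Finite V] (hV : ∀ v : V, v * v = 1)

/-- Offenders. -/
def Off (D : Subgroup (MulAut V)) : Prop := D ≠ ⊥ ∧ E2 D ∧ (fx D).index ≤ Nat.card D

theorem Off.cj {D : Subgroup (MulAut V)} (h : Off D) (g : MulAut V) : Off (cj g D) :=
  ⟨mt cj_eq_bot.1 h.1, fun d hd => by
    obtain ⟨a, ha, rfl⟩ := mem_cj'.1 hd
    calc g * a * g⁻¹ * (g * a * g⁻¹) = g * (a * a) * g⁻¹ := by group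
      _ = 1 := by rw [h.2.1 a ha]; group, by rw [index_fx_cj, card_cj]; exact h.2.2⟩

include hV in
/-- Thompson replacement. -/
theorem good_of {D : Subgroup (MulAut V)} (h : Off D) (hm : ∀ E < D, ¬ Off E) : Good D := by
  refine ⟨h.1, h.2.1, fun d hd v => ?_, h.2.2, fun E hE hne => by
    by_contra k
    exact hm E hE ⟨hne, fun x hx => h.2.1 x (hE.le hx), not_lt.1 k⟩⟩
  let E : Subgroup (MulAut V) :=
    { carrier := {x | x ∈ D ∧ ∀ y ∈ D, x (y v * v) = y v * v}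
      one_mem' := ⟨one_mem _, fun _ _ => rfl⟩
      mul_mem' := fun ha hb => ⟨mul_mem ha.1 hb.1, fun y hy => by
        rw [MulAut.mul_apply, hb.2 y hy, ha.2 y hy]⟩
      inv_mem' := fun ha => ⟨inv_mem ha.1, by rw [inv_of_sq h.2.1 ha.1]; exact ha.2⟩ }
  have ED : E ≤ D := fun _ k => k.1
  have dd : ∀ d ∈ D, ∀ w, d (d w) = w := fun d hd w => by
    rw [← MulAut.mul_apply, h.2.1 d hd, MulAut.one_apply]
  obtain ⟨k1, k2⟩ := ri_le (D := D) (B := E) (A := fx E) (C := fx D) (fun d => d v * v)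
    (fun d hd x hx => hx.2 d hd) fun d hd e he k => by
      rw [iv hV] at k
      rw [inv_of_sq h.2.1 hd]
      have a1 : (d * e) v * v ∈ fx D := by
        have := k d hd
        rw [map_mul, map_mul, dd d hd] at this
        rw [cm_comp hV, mul_comm (d v) v, mul_comm, this]; exact k
      refine ⟨mul_mem hd he, fun y hy => ?_⟩
      have a2 := cm_comp hV (d * e) y v
      rw [comm_of_sq h.2.1 (mul_mem hd he) hy, cm_comp hV, a1 y hy, mul_comm] at a2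
      exact (mul_right_cancel a2).symm
  by_cases hE : E = ⊥
  · obtain ⟨e, he, k⟩ := k2 (by
      rw [hE, relIndex_bot_left]; exact (ri_le_index _ _).trans h.2.2) v (by rw [hE, fx_bot]; trivial)
    rw [iv hV, mul_assoc, hV, mul_one] at k
    have : v ∈ fx D := by rw [← dd e he v, k e he]; exact k
    rw [this d hd, hV]; exact one_mem _
  have : E = D := by
    by_contra k
    refine hm E (lt_of_le_of_ne ED k) ⟨hE, fun x hx => h.2.1 x (ED hx), ?_⟩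
    have m3 := relIndex_mul_index (fx_anti ED)
    have m4 := card_mul_relIndex ED
    have m5 := h.2.2
    have m6 := ri_pos E D
    nlinarith
  exact fun x hx => (this.ge hx).2 d hd

/-- The configuration reached by the reduction. -/
structure Rd (G M P Y K R : Subgroup (MulAut V)) (𝒟 : Set (Subgroup (MulAut V))) (q : ℕ) :
    Prop where
  syl : SylowIn 2 P G
  cjm : ∀ D ∈ 𝒟, ∀ g, cj g D ∈ 𝒟
  good : ∀ D ∈ 𝒟, D ≤ G → Good D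
  card : ∀ D ∈ 𝒟, Nat.card D = q
  mem : ∀ E ≤ G, Off E → Nat.card E ≤ q → E ∈ 𝒟
  YP : Y ≤ P
  JY : JD 𝒟 Y = Y
  KG : K ≤ G
  KN : K ≤ 𝐍(Y)
  sg : Sg K R M (P ⊓ 𝐍(Y)) {D | D ∈ 𝒟 ∧ D ≤ K ∧ ¬ D ≤ Y}
  crR : P ⊓ 𝐍(Y) ⊓ cr K M ≤ R
  YR : Y ≤ R
  JR : ∀ D ∈ 𝒟, D ≤ R → D ≤ Y
  ex : ∃ D ∈ 𝒟, D ≤ P ⊓ 𝐍(Y) ∧ ¬ D ≤ Y
  o2 : ∀ R ≤ P, G ≤ 𝐍(R) → R = ⊥
  max : ∀ H, P ≤ H → H ≤ G → H ≠ G → H ≤ M

include hV in
theorem exists_rd {G M P : Subgroup (MulAut V)} (hP : SylowIn 2 P G) (hM : ¬ G ≤ M)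
    (hmax : ∀ H, P ≤ H → H ≤ G → H ≠ G → H ≤ M) (ho : ∀ R ≤ P, G ≤ 𝐍(R) → R = ⊥)
    (hv : ∃ v ∈ fx P, v ∉ fx G) (hA : ∃ A ≤ P, Off A) : ∃ Y K R 𝒟 q, Rd G M P Y K R 𝒟 q := by
  obtain ⟨A, AP, hA⟩ := hA
  obtain ⟨v, hv, hv'⟩ := hv
  have PM : P ≤ M := hmax P le_rfl hP.le fun e => hv' (e ▸ hv)
  obtain ⟨D₀, ⟨D₀G, hD₀⟩, hmin⟩ := Set.Finite.exists_minimalFor
    (fun D : Subgroup (MulAut V) => Nat.card D) {D | D ≤ G ∧ Off D} (Set.toFinite _)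
    ⟨A, AP.trans hP.le, hA⟩
  have hmin' : ∀ E ≤ G, Off E → Nat.card D₀ ≤ Nat.card E := fun E a b => by
    by_contra k; exact k (hmin (j := E) ⟨a, b⟩ (not_le.1 k).le)
  set 𝒟 : Set (Subgroup (MulAut V)) := {D | Off D ∧ Nat.card D = Nat.card D₀} with h𝒟
  have cjm : ∀ D ∈ 𝒟, ∀ g, cj g D ∈ 𝒟 := fun D hD g => ⟨hD.1.cj g, (card_cj g D).trans hD.2⟩
  have good : ∀ D ∈ 𝒟, D ≤ G → Good D := fun D hD k => good_of hV hD.1 fun E hE a =>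
    (hD.2 ▸ FT.proper_card hE).not_ge (hmin' E (hE.le.trans k) a)
  obtain ⟨Y, YP, JY, Yn, hP₁, lt, hU⟩ := red cjm hP PM hM (hmax _
    (le_inf hP.le (le_normalizer.trans (norm_JD cjm))) inf_le_left fun e => by
      obtain ⟨g, -, hg⟩ := hP.exists_cj_le (pg_of_sq hD₀.2.1) D₀G
      exact (hD₀.cj g).1 (le_bot_iff.1 ((le_JD (cjm D₀ ⟨hD₀, rfl⟩ g) hg).trans
        (ho _ JD_le (e.symm.le.trans inf_le_right)).le)))
  obtain ⟨K, ⟨K1, K2, K3⟩, Km⟩ := exists_min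
    (fun K : Subgroup (MulAut V) => P ⊓ 𝐍(Y) ≤ K ∧ K ≤ G ⊓ 𝐍(Y) ∧ ¬ K ≤ M) ⟨hP₁.le, le_rfl, Yn⟩
  have hK := hP₁.mono K1 K2
  have hn := core_lemma hK le_rfl K3 fun H a b c => by
    by_contra k; exact c (Km H ⟨a, b.trans K2, k⟩ b)
  have KG := K2.trans inf_le_left
  have KN := K2.trans inf_le_right
  have YP₁ : Y ≤ P ⊓ 𝐍(Y) := le_inf YP le_normalizer
  have YR : Y ≤ P ⊓ 𝐍(Y) ⊓ cr K M := le_inf YP₁ fun y hy => ⟨K1 (YP₁ hy), fun g hg =>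
    PM (YP (conj_mem_of_mem_normalizer' (KN hg) hy))⟩
  have RP : P ⊓ 𝐍(Y) ⊓ cr K M ≤ P := inf_le_left.trans inf_le_left
  refine ⟨Y, K, P ⊓ 𝐍(Y) ⊓ cr K M, 𝒟, _, hP, cjm, good, fun D hD => hD.2,
    fun E a b c => ⟨b, le_antisymm c (hmin' E a b)⟩, YP, JY, KG, KN,
    ⟨hK, inf_le_left, hn, inf_le_left.trans PM, K3, fun g hg k => ?_,
      fun D hD => good D hD.1 (hD.2.1.trans KG), fun D hD => hD.2.1, fun D hD g hg =>
        ⟨cjm D hD.1 g, cj_le_of_mem hD.2.1 hg, fun k => hD.2.2 ?_⟩, fun D hD DM g hg k => ?_⟩,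
    le_rfl, YR, fun D hD k => ?_, ?_, ho, hmax⟩
  · refine hmax (G ⊓ st (fx P)) (le_inf hP.le (le_fx_iff.1 le_rfl)) inf_le_left
      (fun e => hv' (le_fx_iff.2 (e.symm.le.trans inf_le_right) hv))
      ⟨KG hg, fun u hu => k u (fx_anti inf_le_left hu)⟩
  · rwa [← cj_eq_of_mem_normalizer (KN hg), cj_le_cj] at k
  · refine hU (Y ⊔ D) ?_ (sup_le (YP.trans (le_inf hP.le PM)) (le_inf (hD.2.1.trans KG) DM))
      (le_antisymm JD_le (sup_le (JY.ge.trans (JD_mono le_sup_left)) (le_JD hD.1 le_sup_right)))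
      (left_lt_sup.2 hD.2.2) g (KG hg) ?_
    · rw [sup_comm]
      exact isPGroup_sup_of_le_normalizer (pg_of_sq hD.1.1.2.1) (hP.isPGroup.to_le YP)
        (hD.2.1.trans KN)
    · rw [cj_sup, cj_eq_of_mem_normalizer (KN hg)]; exact sup_le (YP.trans PM) k
  · by_contra c
    refine K3 fun g hg => hU (JD 𝒟 (P ⊓ 𝐍(Y) ⊓ cr K M)) (hP.isPGroup.to_le (JD_le.trans RP))
      ((JD_le.trans RP).trans (le_inf hP.le PM)) JD_JD (lt_of_le_of_ne (JY.ge.trans (JD_mono YR))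
        fun e => c (e ▸ le_JD hD k)) g (KG hg) ?_
    rw [cj_eq_of_mem_normalizer (norm_JD cjm (hn hg))]
    exact (JD_le.trans RP).trans PM
  · by_contra k
    push Not at k
    exact lt.not_ge (JD_le_iff.2 k)

end Cfsg.Agent.MP.Rk
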