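import Cfsg.Agent.Lib.MP.Mod1

/-!
Row MOD, part 2: there is a unique minimal offender in `N_P(Y)` outside `Y`.
-/

set_option autoImplicit false
set_option linter.unusedSectionVars false

namespace Cfsg.Agent.MP.Rk

open Subgroup Cfsg.Agent.Tr Cfsg.Agent.ST4

local notation "𝐍(" A ")" => Subgroup.normalizer (SetLike.coe A)

variable {V : Type*} [CommGroup V] [Finite V] (hV : ∀ v : V, v * v = 1)

theorem idm (v w a b : V) : (v * a)⁻¹ * (w * b) * (a⁻¹ * b)⁻¹ = v⁻¹ * w := by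
  rw [mul_inv, mul_inv, inv_inv]
  calc v⁻¹ * a⁻¹ * (w * b) * (a * b⁻¹) = v⁻¹ * w * (a⁻¹ * a) * (b * b⁻¹) := by ac_rfl
    _ = v⁻¹ * w := by simp

theorem S1.fix {R M D L : Subgroup (MulAut V)} {U : Subgroup V} (h : S1 R M D L U)
    (hV : ∀ v : V, v * v = 1) {d : MulAut V} (hd : d ∈ D) (d1 : d ≠ 1) {v : V} (e : d v = v) :
    v ∈ fx D := by
  obtain ⟨l, hl, hlM⟩ := SetLike.not_le_iff_exists.1 h.nM
  by_contra k
  exact h.inj l hl hlM d hd d1 v k (by rw [e, hV]; exact one_mem _)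

theorem S1.eq_one {R M D L : Subgroup (MulAut V)} {U : Subgroup V} (h : S1 R M D L U)
    (hV : ∀ v : V, v * v = 1) {r : MulAut V} (hr : r ∈ R) (e : ∀ v ∈ fx D, r v = v) : r = 1 := by
  obtain ⟨l, hl, hlM⟩ := SetLike.not_le_iff_exists.1 h.nM
  ext v
  obtain ⟨u, hu, c, hc, rfl⟩ := h.dec hV hl hlM v
  rw [map_mul, h.UR hu r hr, e c hc.1]; rfl

namespace Rd

variable {G M P Y K R : Subgroup (MulAut V)} {𝒟 : Set (Subgroup (MulAut V))} {q : ℕ}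
  (h : Rd G M P Y K R 𝒟 q)
include h

/-- The members of `𝒟` in `N_P(Y)` outside `Y`. -/
def Al (_ : Rd G M P Y K R 𝒟 q) (D : Subgroup (MulAut V)) : Prop :=
  D ∈ 𝒟 ∧ D ≤ P ⊓ 𝐍(Y) ∧ ¬ D ≤ Y

variable {D E L : Subgroup (MulAut V)} {U : Subgroup V} {t : MulAut V}

theorem al (hD : h.Al D) : D ∈ {D | D ∈ 𝒟 ∧ D ≤ K ∧ ¬ D ≤ Y} :=
  ⟨hD.1, hD.2.1.trans h.sg.syl.le, hD.2.2⟩

theorem alM (hD : h.Al D) : D ≤ M := hD.2.1.trans h.sg.PM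

theorem alg (hD : h.Al D) : Good D := h.sg.good D (h.al hD)

theorem YJ : Y ≤ JD 𝒟 (P ⊓ 𝐍(Y)) := h.JY.ge.trans (JD_mono (le_inf h.YP le_normalizer))

theorem back (ht : t ∈ 𝐍(JD 𝒟 (P ⊓ 𝐍(Y)))) (hE : E ≤ JD 𝒟 (P ⊓ 𝐍(Y))) :
    cj t⁻¹ E ≤ P ⊓ 𝐍(Y) :=
  (cj_mono _ hE).trans ((cj_eq_of_mem_normalizer (inv_mem ht)).le.trans JD_le)

theorem al_back (ht : t ∈ 𝐍(JD 𝒟 (P ⊓ 𝐍(Y)))) (hE : E ∈ 𝒟) (EJ : E ≤ JD 𝒟 (P ⊓ 𝐍(Y)))
    (hn : ¬ E ≤ cj t Y) : h.Al (cj t⁻¹ E) :=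
  ⟨h.cjm E hE _, h.back ht EJ, mt le_cj_iff_cj_inv_le.2 hn⟩

theorem exists_out (ht : t ∉ 𝐍(Y)) : ∃ E ∈ 𝒟, E ≤ Y ∧ ¬ E ≤ cj t Y := by
  by_contra k
  push Not at k
  exact ht (cj_eq_iff.1 (eq_of_le_of_card_ge (h.JY.ge.trans (JD_le_iff.2 k)) (card_cj t Y).le).symm)

include hV

theorem s1 (hD : h.Al D) : ∃ L U, L ≤ K ∧ S1 R M D L U := h.sg.s1' hV (h.al hD) (h.alM hD)

theorem la (ht : t ∈ 𝐍(JD 𝒟 (P ⊓ 𝐍(Y)))) (hE : E ∈ 𝒟) (EJ : E ≤ JD 𝒟 (P ⊓ 𝐍(Y)))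
    (hn : ¬ E ≤ cj t Y) (hD : D ∈ 𝒟) (DJ : D ≤ JD 𝒟 (P ⊓ 𝐍(Y))) {e : MulAut V} (he : e ∈ E)
    (v : V) : e v * v ∈ fx D := by
  have hE' := h.al_back ht hE EJ hn
  have he' : t⁻¹ * e * t⁻¹⁻¹ ∈ cj t⁻¹ E := conj_mem_cj.2 he
  rw [← app_mem_fx_cj (g := t⁻¹), ← conj_app]
  by_cases k : D ≤ cj t Y
  · obtain ⟨L, U, -, s⟩ := h.s1 hV hE'
    exact fx_anti ((le_cj_iff_cj_inv_le.1 k).trans h.YR) (s.UR (s.cm_mem hV he' _))
  · have hD' := h.al_back ht hD DJ k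
    exact h.sg.cm_fx hV (h.al hD') (h.alM hD') (h.al hE') (h.alM hE') he' _

theorem lb (ht : t ∈ 𝐍(JD 𝒟 (P ⊓ 𝐍(Y)))) (hE : E ∈ 𝒟) (EJ : E ≤ JD 𝒟 (P ⊓ 𝐍(Y)))
    (hn : ¬ E ≤ cj t Y) : ∃ v ∈ fx (cj t Y), v ∉ fx E := by
  have hE' := h.al_back ht hE EJ hn
  obtain ⟨L, U, -, s⟩ := h.s1 hV hE'
  obtain ⟨l, hl, hlM⟩ := SetLike.not_le_iff_exists.1 s.nM
  obtain ⟨-, -, -, v, hv⟩ := (s.hf hV (h.alg hE') hl hlM).exists_ne
  obtain ⟨u, hu, e⟩ := s.cov l hl hlM v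
  refine ⟨t u, app_mem_fx_cj.2 (fx_anti h.YR (s.UR hu.1)), fun k => hv ?_⟩
  exact (mul_mem_cancel_right (mem_fx_cj.2 (by rwa [inv_inv]))).1 e

/-- Lemma A. -/
theorem lA (ht : t ∈ 𝐍(JD 𝒟 (P ⊓ 𝐍(Y)))) (hE : E ∈ 𝒟) (EY : E ≤ Y) (hn : ¬ E ≤ cj t Y)
    (hD : h.Al D) (LK : L ≤ K) (s : S1 R M D L U) :
    ∃ l ∈ L, l ∉ M ∧ ∀ e ∈ E, ∀ v, e v * v ∈ fx D ⊓ fx (cj l D) := by
  obtain ⟨l, hl, hlM⟩ := SetLike.not_le_iff_exists.1 s.nM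
  have L0 : D ⊔ cj l D ≤ L := sup_le s.DL (cj_le_of_mem s.DL hl)
  obtain ⟨g₀, hg₀, g₀M⟩ := SetLike.not_le_iff_exists.1 (show ¬ D ⊔ cj l D ≤ M from fun k =>
    hlM (h.sg.U D (h.al hD) (h.alM hD) l (LK hl) (le_sup_right.trans k)))
  have cY : ∀ g ∈ L, cj g E ≤ Y := fun g hg =>
    (cj_mono g EY).trans (cj_eq_of_mem_normalizer (h.KN (LK hg))).le
  obtain ⟨g, hg, gM, hgn⟩ : ∃ g ∈ D ⊔ cj l D, g ∉ M ∧ ¬ cj g E ≤ cj t Y := by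
    by_contra k
    push Not at k
    obtain ⟨v, hv, hv'⟩ := h.lb hV ht hE (EY.trans h.YJ) hn
    obtain ⟨u, hu, c, hc, rfl⟩ := s.dec hV hl hlM v
    have uY : u ∈ fx Y := fx_anti h.YR (s.UR hu)
    refine hv' (mul_mem (fx_anti EY uY) ?_)
    have a1 : c ∈ fx (cj g₀ E) := (mul_mem_cancel_left (fx_anti (cY g₀ (L0 hg₀)) uY)).1
      (fx_anti (k g₀ hg₀ g₀M) hv)
    rw [← fx_sup] at hc
    rwa [mem_fx_cj, hc _ (inv_mem hg₀)] at a1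
  have DJ := le_JD hD.1 hD.2.1
  refine ⟨g⁻¹, inv_mem (L0 hg), mt inv_mem_iff.1 gM, fun e he v =>
    ⟨h.la hV ht hE (EY.trans h.YJ) hn hD.1 DJ he v, mem_fx_cj.2 ?_⟩⟩
  rw [inv_inv, ← conj_app]
  exact h.la hV ht (h.cjm E hE g) ((cY g (L0 hg)).trans h.YJ) hgn hD.1 DJ (conj_mem_cj.2 he) _

/-- Lemma B. -/
theorem lB : JD 𝒟 (P ⊓ 𝐍(Y)) = JD 𝒟 P := by
  by_contra hne
  obtain ⟨A, hA, AJ, An⟩ : ∃ A ∈ 𝒟, A ≤ P ⊓ 𝐍(JD 𝒟 (P ⊓ 𝐍(Y))) ∧ ¬ A ≤ P ⊓ 𝐍(Y) := by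
    by_contra k
    push Not at k
    exact (lt_JD h.cjm h.syl.isPGroup (JD_le.trans inf_le_left) JD_JD hne).not_ge
      (JD_le_iff.2 fun A a b => le_JD a (k A a b))
  obtain ⟨a, ha, an⟩ := SetLike.not_le_iff_exists.1 An
  have gA := h.good A hA (AJ.trans (inf_le_left.trans h.syl.le))
  obtain ⟨E, hE, EY, hn⟩ := h.exists_out (t := a) fun k => an ⟨(AJ ha).1, k⟩
  have hD := h.al_back (AJ ha).2 hE (EY.trans h.YJ) hn
  obtain ⟨L, U, LK, s⟩ := h.s1 hV hD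
  obtain ⟨l, hl, hlM, k⟩ := h.lA hV (AJ ha).2 hE EY hn hD LK s
  have a1 : fx A ⊓ U ≤ fx (cj a⁻¹ E) := fun u hu => mem_fx_cj.2 (by
    rw [inv_inv, hu.1 a ha]; exact fx_anti (EY.trans h.YR) (s.UR hu.2))
  have a2 : (fx (cj a⁻¹ E)).index ≤ (fx (cj a⁻¹ E)).relIndex U := by
    rw [← relIndex_top_right]
    choose u hu hu' using s.cov l hl hlM
    exact (ri_le u (fun v _ => (hu v).1) fun v _ w _ k => by
      have := mul_mem (mul_mem (inv_mem (hu' v)) (hu' w)) (inv_mem k)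
      rwa [idm] at this).1
  have a3 := le_of_ri a1 ((ri_le_index _ _).trans (gA.off.trans (by
    rw [h.card A hA, ← h.card _ hD.1, ← s.idx]; exact a2)))
  obtain ⟨d, hd, d1, v, hv⟩ := (s.hf hV (h.alg hD) hl hlM).exists_ne
  refine s.inj l hl hlM d hd d1 v hv ?_
  rw [← a3 ⟨(h.alg hD).quad d hd v, s.cm_mem hV hd v⟩ a ha, ← conj_app]
  exact (k _ (mem_cj_inv.1 hd) _).2

theorem PJ (ht : t ∈ P) : t ∈ 𝐍(JD 𝒟 (P ⊓ 𝐍(Y))) := by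
  rw [h.lB hV]; exact norm_JD h.cjm (le_normalizer ht)

/-- Lemma C. -/
theorem lC (hD : h.Al D) {x : MulAut V} (hx : x ∈ P ⊓ 𝐍(Y)) (hc : ∀ d ∈ D, x * d = d * x) :
    ∃ d ∈ D, d * x ∈ R := by
  obtain ⟨L, U, LK, s⟩ := h.s1 hV hD
  obtain ⟨l, hl, hlM⟩ := SetLike.not_le_iff_exists.1 s.nM
  have xK := h.sg.syl.le hx
  have xM := h.sg.PM hx
  obtain ⟨d, hd, e⟩ := h.sg.coset hV (h.al hD) (h.alM hD) LK s hl hlM
    (mul_mem (inv_mem xK) (LK hl)) fun k => hlM ((mul_mem_cancel_left (inv_mem xM)).1 k)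
  refine ⟨d, hd, h.crR ⟨mul_mem (hD.2.1 hd) hx, mul_mem ((h.al hD).2.1 hd) xK, fun g hg => ?_⟩⟩
  by_cases gM : g ∈ M
  · exact mul_mem (mul_mem (inv_mem gM) (mul_mem (h.alM hD hd) xM)) gM
  obtain ⟨e', he', k⟩ := h.sg.coset hV (h.al hD) (h.alM hD) LK s hl hlM hg gM
  have := mul_mem (mul_mem k e) (inv_mem k)
  rwa [show g⁻¹ * (e' * l) * ((x⁻¹ * l)⁻¹ * (d * l)) * (g⁻¹ * (e' * l))⁻¹ =
    g⁻¹ * (e' * x * d * e'⁻¹) * g by group, ← hc e' he', mul_assoc x e',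
    comm_of_sq (h.alg hD).sq he' hd, ← mul_assoc x, mul_inv_cancel_right, hc d hd] at this

/-- Lemma E. -/
theorem lE (hE : E ∈ 𝒟) (EY : E ≤ Y) : ∃ t ∈ P, ¬ E ≤ cj t Y := by
  obtain ⟨D, hD⟩ := h.ex
  obtain ⟨L, U, LK, s⟩ := h.s1 hV (D := D) hD
  set Δ : Set (Subgroup (MulAut V)) := {E | E ∈ 𝒟 ∧ ∀ t ∈ P, E ≤ cj t Y}
  have nrm : ∀ g, (∀ E ∈ Δ, cj g E ∈ Δ) → g ∈ 𝐍(sSup Δ) := fun g hg =>
    mem_normalizer_of_cj_le (cj_le_iff_le_cj_inv.2 (sSup_le fun E hE =>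
      cj_le_iff_le_cj_inv.1 (le_sSup (hg E hE))))
  have h1 : ∀ g ∈ P, g ∈ 𝐍(sSup Δ) := fun g hg => nrm g fun E hE => ⟨h.cjm E hE.1 g, fun t ht => by
    have := cj_mono g (hE.2 _ (mul_mem (inv_mem hg) ht))
    rwa [← cj_mul, mul_inv_cancel_left] at this⟩
  have h2 : ∀ g ∈ L, g ∈ 𝐍(sSup Δ) := fun g hg => nrm g fun E hE => ⟨h.cjm E hE.1 g, fun t ht => by
    by_contra hn
    have EY : cj g E ≤ Y := (cj_mono g ((hE.2 1 (one_mem _)).trans (cj_one Y).le)).trans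
      (cj_eq_of_mem_normalizer (h.KN (LK hg))).le
    obtain ⟨l, hl, hlM, k⟩ := h.lA hV (h.PJ hV ht) (h.cjm E hE.1 g) EY hn hD LK s
    have L0 : D ⊔ cj l D ≤ L := sup_le s.DL (cj_le_of_mem s.DL hl)
    have c : D ⊔ cj l D ≤ centralizer (cj g E : Set (MulAut V)) := sup_le
      (fun d hd e he => comm_of hV (fun v => fx_anti (EY.trans h.YR) (s.UR (s.cm_mem hV hd v)) e he)
        fun v => (k e he v).1 d hd)
      fun d hd e he => comm_of hV (fun v => by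
        obtain ⟨d, hd', rfl⟩ := mem_cj'.1 hd
        obtain ⟨v, rfl⟩ := l.surjective v
        rw [conj_app]
        exact fx_anti (EY.trans h.YR) (s.UR (s.inv l hl _ (s.cm_mem hV hd' v))) e he)
        fun v => (k e he v).2 d hd
    have := inv_mem hg
    rw [← s.gen l hl hlM, sup_assoc, mem_sup_of_le_normalizer' (L0.trans (LK.trans h.sg.Rn))] at this
    obtain ⟨r, hr, x, hx, e⟩ := this
    have a1 := hE.2 _ (mul_mem (h.sg.RP hr).1 ht)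
    rw [← cj_inv_cj g E, ← e, cj_mul, cj_eq_of_mem_centralizer (c hx), cj_mul, cj_le_cj] at a1
    exact hn a1⟩
  have h3 : sSup Δ = ⊥ := h.o2 _ (sSup_le fun E hE => ((hE.2 1 (one_mem _)).trans
    (cj_one Y).le).trans h.YP) (by
      by_contra k
      exact s.nM (le_trans (le_inf (LK.trans h.KG) h2) (h.max (G ⊓ 𝐍(sSup Δ))
        (le_inf h.syl.le h1) inf_le_left fun e => k (e.symm.le.trans inf_le_right))))
  by_contra k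
  push Not at k
  exact (h.good E hE (EY.trans (h.YP.trans h.syl.le))).ne
    (le_bot_iff.1 (h3 ▸ le_sSup (show E ∈ Δ from ⟨hE, k⟩)))

/-- Lemma F. -/
theorem uniq (hD : h.Al D) (hE : h.Al E) : E = D := by
  by_contra hne
  obtain ⟨L, U, LK, s⟩ := h.s1 hV hD
  obtain ⟨L', U', LK', s'⟩ := h.s1 hV hE
  have gD := h.alg hD
  have gE := h.alg hE
  have cm : ∀ d ∈ D, ∀ e ∈ E, d * e = e * d := fun d hd e he =>
    h.sg.comm hV (h.al hD) (h.alM hD) (h.al hE) (h.alM hE) hd he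
  have dec : ∀ b ∈ D ⊔ E, ∃ d ∈ D, ∃ e ∈ E, d * e = b := fun b hb =>
    (mem_sup_of_le_normalizer fun d hd => mem_normalizer_of_forall fun e he => by
      rwa [cm d hd e he, mul_inv_cancel_right]).1 hb
  choose! δ hδ hδ' using fun e (he : e ∈ E) =>
    h.lC hV hD (hE.2.1 he) fun d hd => (cm d hd e he).symm
  have hB : ∀ e ∈ E, δ e * e ∈ (D ⊔ E) ⊓ R := fun e he =>
    ⟨mul_mem (mem_sup_left (hδ e he)) (mem_sup_right he), hδ' e he⟩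
  have cq : Nat.card D = Nat.card E := (h.card D hD.1).trans (h.card E hE.1).symm
  have B0 : (D ⊔ E) ⊓ R ≠ ⊥ := fun e => hne (eq_of_le_of_card_ge (fun x hx => by
    have := hB x hx
    rw [e, mem_bot] at this
    rw [eq_inv_of_mul_eq_one_right this]; exact inv_mem (hδ x hx)) cq.le)
  have DE : ∀ x ∈ D, x ∈ E → x = 1 := fun x h1 h2 => by
    by_contra x1
    refine B0 (eq_bot_iff.2 fun b hb => mem_bot.2 (s.eq_one hV hb.2 fun v hv => ?_))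
    obtain ⟨d, hd, e, he, rfl⟩ := dec b hb.1
    rw [MulAut.mul_apply, s'.fix hV h2 x1 (hv x h1) e he, hv d hd]
  have c1 : Nat.card E ≤ Nat.card ((D ⊔ E) ⊓ R : Subgroup _) := by
    rw [← relIndex_bot_left, ← relIndex_bot_left]
    refine (ri_le (fun e => δ e * e) hB fun d hd e he k => mem_bot.2 (DE _ ?_
      (mul_mem (inv_mem hd) he))).1
    have k' : δ d * d = δ e * e := inv_mul_eq_one.1 (mem_bot.1 k)
    have : d⁻¹ * e = (δ e)⁻¹ * δ d := by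
      rw [inv_of_sq gE.sq hd, ← comm_of_sq gE.sq he hd, eq_inv_mul_iff_mul_eq,
        ← mul_assoc, ← k', mul_assoc, gE.sq d hd, mul_one]
    rw [this]; exact mul_mem (inv_mem (hδ e he)) (hδ d hd)
  have c2 : Nat.card ((D ⊔ E) ⊓ R : Subgroup _) ≤ Nat.card D := by
    rw [← relIndex_bot_left, ← relIndex_bot_left]
    choose! f hf g hg e using dec
    refine (ri_le (D := (D ⊔ E) ⊓ R) f (fun b hb => hf b hb.1) fun b hb c hc k => mem_bot.2 ?_).1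
    have k' : f b = f c := inv_mul_eq_one.1 (mem_bot.1 k)
    have : b⁻¹ * c = (g b)⁻¹ * g c := by
      rw [eq_inv_mul_iff_mul_eq, ← e b hb.1, ← e c hc.1, e b hb.1, e c hc.1]
      calc g b * (b⁻¹ * c) = g b * ((f b * g b)⁻¹ * (f c * g c)) := by rw [e b hb.1, e c hc.1]
        _ = g c := by rw [k']; group
    exact s'.eq_one hV (mul_mem (inv_mem hb.2) hc.2) fun v hv => by
      rw [this]; exact hv _ (mul_mem (inv_mem (hg b hb.1)) (hg c hc.1))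
  obtain ⟨l₀, hl₀, l₀M⟩ := SetLike.not_le_iff_exists.1 s.nM
  have c3 : (fx ((D ⊔ E) ⊓ R)).index ≤ Nat.card E := by
    rw [← relIndex_top_right, ← s'.idx]
    choose u hu hu' using s.cov l₀ hl₀ l₀M
    refine le_trans (ri_le (A := fx D) (C := fx E) (fun v => v * u v) (fun v _ => hu' v)
      fun v _ w _ k => ?_).1 (ri_le_index _ _)
    have a1 : (v * u v)⁻¹ * (w * u w) ∈ fx ((D ⊔ E) ⊓ R) := fx_anti inf_le_left (by
      rw [fx_sup]; exact ⟨(fx D).mul_mem ((fx D).inv_mem (hu' v)) (hu' w), k⟩)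
    have a2 : ∀ v, u v ∈ fx ((D ⊔ E) ⊓ R) := fun v => fx_anti inf_le_right (s.UR (hu v).1)
    have := mul_mem a1 (inv_mem (mul_mem (inv_mem (a2 v)) (a2 w)))
    rwa [idm] at this
  have hB0 : (D ⊔ E) ⊓ R ∈ 𝒟 := h.mem _ (inf_le_right.trans (h.sg.RP.trans
    (inf_le_left.trans h.syl.le))) ⟨B0, fun b hb => by
      obtain ⟨d, hd, e, he, rfl⟩ := dec b hb.1
      rw [mul_assoc, ← mul_assoc e, ← cm d hd e he, mul_assoc, gE.sq e he, mul_one, gD.sq d hd],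
      c3.trans c1⟩ (h.card D hD.1 ▸ c2)
  have BY := h.JR _ hB0 inf_le_right
  obtain ⟨t, ht, hn⟩ := h.lE hV hB0 BY
  obtain ⟨l, hl, hlM, k⟩ := h.lA hV (h.PJ hV ht) hB0 BY hn hD LK s
  obtain ⟨b, hb, v, hv⟩ : ∃ b ∈ (D ⊔ E) ⊓ R, ∃ v, b v ≠ v := by
    by_contra k; push Not at k
    exact B0 (eq_bot_of_fx fun v b hb => k b hb v)
  obtain ⟨u, hu, c, hc, rfl⟩ := s.dec hV hl hlM v
  obtain ⟨d, hd, e, he, rfl⟩ := dec b hb.1
  obtain ⟨l', hl', l'M⟩ := SetLike.not_le_iff_exists.1 s'.nM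
  obtain ⟨u', hu', -, e1⟩ := s'.cm_U hV hl' l'M he c
  have e2 : (d * e) c = e c := by rw [cm d hd e he, MulAut.mul_apply, hc.1 d hd]
  have e3 : e u' = d u' := by
    have := s'.UR hu'.1 _ hb.2
    conv_rhs => rw [← this, ← MulAut.mul_apply, ← mul_assoc, gD.sq d hd, one_mul]
  have e4 : d u' * u' ≠ 1 := fun k => hv (by
    rw [← e3, ← e1, ← e2] at k
    rw [map_mul, s.UR hu _ hb.2, eq_of_mul hV k])
  refine s.inj l hl hlM d hd (by rintro rfl; exact e4 (hV _)) u'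
    (fun k => e4 (by rw [k d hd, hV])) ?_
  rw [← e3, ← e1, ← e2]
  exact (k _ hb c).2

end Rd

end Cfsg.Agent.MP.Rk
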