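import Cfsg.Agent.Lib.MP.Rk2

/-!
Row MOD, part 3: elementary abelian groups of automorphisms of a rank one pair.
-/

set_option autoImplicit false
set_option linter.unusedSectionVars false

namespace Cfsg.Agent.MP.Rk

open Subgroup Cfsg.Agent.Tr

local notation "𝐍(" A ")" => Subgroup.normalizer (SetLike.coe A)
local notation "𝐂(" A ")" => Subgroup.centralizer (SetLike.coe A)

theorem fixmod {ι T : Type*} [Finite ι] (E : Set ι) (c : ι → T → T) (W N : T → Prop)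
    (h1 : ∀ x ∈ E, ∀ z, W z → W (c x z)) (h2 : ∀ x ∈ E, ∀ z, W z → N (c x (c x z)))
    (h3 : ∀ x ∈ E, ∀ y ∈ E, ∀ z, W z → N (c y z) → N (c y (c x z))) {z₀ : T} (a : W z₀)
    (b : ¬ N z₀) : ∃ z, W z ∧ ¬ N z ∧ ∀ x ∈ E, N (c x z) := by
  obtain ⟨S, ⟨z, a, b, rfl⟩, hm⟩ := exists_min (α := (Set ι)ᵒᵈ)
    (fun S => ∃ z, W z ∧ ¬ N z ∧ S = OrderDual.toDual {x | x ∈ E ∧ N (c x z)}) ⟨z₀, a, b, rfl⟩
  refine ⟨z, a, b, fun x hx => by_contra fun k => k ?_⟩
  have := hm _ ⟨c x z, h1 x hx z a, k, rfl⟩ fun y hy => ⟨hy.1, h3 x hx y hy.1 z a hy.2⟩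
  exact ((Set.ext_iff.1 (OrderDual.toDual.injective this) x).1 ⟨hx, h2 x hx z a⟩).2

theorem fix_conj {X : Type*} [Group X] [Finite X] {D E N : Subgroup X} (hD : E2 D) (hE : E2 E)
    (hn : E ≤ 𝐍(D)) (hN : ∀ x ∈ E, ∀ z ∈ N, x * z * x⁻¹ ∈ N) (h : ¬ D ≤ N) :
    ∃ z ∈ D, z ∉ N ∧ ∀ x ∈ E, x * z * x⁻¹ * z ∈ N := by
  obtain ⟨z₀, a, b⟩ := SetLike.not_le_iff_exists.1 h
  have cD : ∀ x ∈ E, ∀ z ∈ D, x * z * x⁻¹ ∈ D := fun x hx z hz =>
    conj_mem_of_mem_normalizer (hn hx) hz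
  refine fixmod (E : Set X) (fun x z => x * z * x⁻¹ * z) (· ∈ D) (· ∈ N)
    (fun x hx z hz => mul_mem (cD x hx z hz) hz) (fun x hx z hz => ?_)
    (fun x hx y hy z hz k => ?_) a b
  · have : x * (x * z * x⁻¹ * z) * x⁻¹ * (x * z * x⁻¹ * z) = 1 := by
      calc _ = x * x * z * (x * x)⁻¹ * (x * z * x⁻¹ * (x * z * x⁻¹)) * z := by group
        _ = 1 := by rw [hE x hx, hD _ (cD x hx z hz)]; simpa using hD z hz
    simp only [this]; exact one_mem _
  · have : y * (x * z * x⁻¹ * z) * y⁻¹ * (x * z * x⁻¹ * z) =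
        x * (y * z * y⁻¹ * z) * x⁻¹ * (y * z * y⁻¹ * z) := by
      calc _ = y * x * z * (y * x)⁻¹ * (y * z * y⁻¹ * (x * z * x⁻¹)) * z := by group
        _ = x * y * z * (x * y)⁻¹ * (x * z * x⁻¹ * (y * z * y⁻¹)) * z := by
          rw [comm_of_sq hE hy hx, comm_of_sq hD (cD y hy z hz) (cD x hx z hz)]
        _ = _ := by group
    simp only [this]; exact mul_mem (hN x hx _ k) k

variable {V : Type*} [CommGroup V] [Finite V] (hV : ∀ v : V, v * v = 1)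

/-- Fixed points modulo `fx D`. -/
def F1 (D E : Subgroup (MulAut V)) : Subgroup V where
  carrier := {v | ∀ x ∈ E, x v * v ∈ fx D}
  one_mem' := fun x _ => by simp
  mul_mem' := fun ha hb x hx => by rw [cm_mul]; exact mul_mem (ha x hx) (hb x hx)
  inv_mem' := fun ha x hx => by rw [map_inv, ← mul_inv]; exact inv_mem (ha x hx)

include hV

theorem cm_cong {D : Subgroup (MulAut V)} {d : MulAut V} (hd : d ∈ D) {v w : V}
    (h : v * w ∈ fx D) : d v * v = d w * w := by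
  rw [← cm_fix hV (h d hd) w, mul_comm v w, sq' hV]

theorem fix_pow {H : Subgroup V} {b : MulAut V} (hb : ∀ v ∈ H, b v ∈ H) (hH : ∃ v, v ∉ H) (k : ℕ)
    (e : b ^ 2 ^ k = 1) : ∃ v, v ∉ H ∧ b v * v ∈ H := by
  induction k generalizing b with
  | zero =>
    obtain ⟨v, hv⟩ := hH
    exact ⟨v, hv, by rw [pow_zero, pow_one] at e; rw [e, MulAut.one_apply, hV]; exact one_mem _⟩
  | succ k ih =>
    obtain ⟨v, hv, k⟩ := ih (b := b * b) (fun v hv => hb _ (hb v hv))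
      (by rw [← pow_two, ← pow_mul, ← pow_succ', e])
    by_cases c : b v * v ∈ H
    · exact ⟨v, hv, c⟩
    · refine ⟨_, c, ?_⟩
      rwa [map_mul, mul_assoc, sq' hV]

section Sf

variable {D D' A E : Subgroup (MulAut V)} (h : Hf D D') (i' : (fx D').index = Nat.card D)
include h

theorem uD {v : V} (hv : v ∉ fx D) {d e : MulAut V} (hd : d ∈ D) (he : e ∈ D)
    (k : (d v * v) * (e v * v) ∈ fx D') : d = e := by
  by_contra c
  refine h.inj _ (mul_mem hd he) (fun j => c ?_) v hv (by rwa [cm_quad hV (h.quad e he v d hd)])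
  rw [eq_inv_of_mul_eq_one_left j, inv_of_sq h.sq he]

theorem uV {d : MulAut V} (hd : d ∈ D) (d1 : d ≠ 1) {v w : V}
    (k : (d v * v) * (d w * w) ∈ fx D') : v * w ∈ fx D := by
  by_contra c
  exact h.inj d hd d1 _ c (by rwa [cm_mul])

include i' in
theorem sV {d : MulAut V} (hd : d ∈ D) (d1 : d ≠ 1) {w : V} (hw : w ∈ fx D) :
    ∃ v, (d v * v) * w ∈ fx D' := by
  obtain ⟨v, -, k⟩ := (ri_le (D := ⊤) (B := fx D) (A := fx D) (C := fx D') (fun v => d v * v)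
    (fun v _ => h.quad d hd v) fun v _ w _ k => by
      rw [iv hV] at k ⊢; exact uV hV h hd d1 k).2
    (by rw [relIndex_top_right, h.idx, ← i']; exact ri_le_index _ _) w hw
  exact ⟨v, by rwa [iv hV] at k⟩

variable (hA : E2 A) (hn : A ≤ 𝐍(D)) (hC : ∀ x ∈ A, ∀ w ∈ fx D, w ∈ fx D' → x w ∈ fx D')
include hA hn

theorem exU : ∃ u, u ∉ fx D ∧ u ∈ F1 D A := by
  obtain ⟨-, -, -, v, hv⟩ := h.exists_ne
  obtain ⟨z, -, a, b⟩ := fixmod (A : Set (MulAut V)) (fun x z => x z * z) (fun _ => True)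
    (· ∈ fx D) (fun _ _ _ _ => trivial) (fun x hx z _ => by
      simp only [map_mul, ← MulAut.mul_apply, hA x hx, MulAut.one_apply, mul_comm z, hV]
      exact one_mem _) (fun x hx y hy z _ k => by
      have := mul_mem (fx_app (hn hx) k) k
      simp only [map_mul, ← MulAut.mul_apply, comm_of_sq hA hx hy] at this ⊢
      rwa [mul_mul_mul_comm]) trivial hv
  exact ⟨z, a, b⟩

omit hV in
theorem exD : ∃ d ∈ D ⊓ 𝐂(A), d ≠ 1 := by
  obtain ⟨z, hz, a, b⟩ := fix_conj (N := ⊥) h.sq hA hn (fun x _ z hz => by simp [mem_bot.1 hz])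
    fun k => h.ne (le_bot_iff.1 k)
  refine ⟨z, ⟨hz, fun x hx => ?_⟩, a⟩
  rw [← mul_inv_eq_iff_eq_mul, eq_inv_of_mul_eq_one_left (mem_bot.1 (b x hx)), inv_of_sq h.sq hz]

include hC

/-- Transport of a relation `[v,d] [u,e] ∈ C` by `x`. -/
theorem tr {x d e : MulAut V} (hx : x ∈ A) (hd : d ∈ D) (he : e ∈ D) {v u : V}
    (k : (d v * v) * (e u * u) ∈ fx D') :
    ((x * d * x⁻¹) (x v) * x v) * ((x * e * x⁻¹) (x u) * x u) ∈ fx D' := by
  rw [conj_app, conj_app, ← map_mul]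
  exact hC x hx _ (mul_mem (h.quad d hd v) (h.quad e he u)) k

omit hA hn hC h in
theorem canc {W : Subgroup V} {a b c : V} (k : a * b ∈ W) (k' : a * c ∈ W) : b * c ∈ W := by
  have := mul_mem k k'
  rwa [mul_mul_mul_comm, hV, one_mul] at this

theorem key (hE : E ≤ A) {u v : V} (hu : u ∉ fx D) (hu' : u ∈ F1 D E) (hv : v ∈ F1 D E)
    {d e : MulAut V} (hd : d ∈ D ⊓ 𝐂(E)) (he : e ∈ D) (k : (d v * v) * (e u * u) ∈ fx D') :
    e ∈ D ⊓ 𝐂(E) := ⟨he, fun x hx => by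
  have e' := conj_mem_of_mem_normalizer (hn (hE hx)) he
  have := tr hV h hA hn hC (hE hx) hd.1 he k
  rw [hd.2 x hx, mul_inv_cancel_right, cm_cong hV hd.1 (hv x hx), cm_cong hV e' (hu' x hx)] at this
  exact mul_inv_eq_iff_eq_mul.1 (uD hV h hu he e' (canc hV k this)).symm⟩

theorem sf1 : (fx D).relIndex (F1 D A) ≤ Nat.card (D ⊓ 𝐂(A) : Subgroup _) := by
  obtain ⟨u, hu, hu'⟩ := exU hV h hA hn
  obtain ⟨d, hd, d1⟩ := exD h hA hn
  choose f hf hf' using fun v => h.surj u hu _ (h.quad d hd.1 v)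
  rw [← relIndex_bot_left]
  refine (ri_le f (fun v hv => key hV h hA hn hC le_rfl hu hu' hv hd (hf v) (hf' v))
    fun v _ w _ k => ?_).1
  rw [iv hV]
  have a := hf' v
  have b := hf' w
  rw [inv_mul_eq_one.1 (mem_bot.1 k), mul_comm] at a
  rw [mul_comm] at b
  exact uV hV h hd.1 d1 (canc hV a b)

include i' in
theorem sf2 : Nat.card (D ⊓ 𝐂(A) : Subgroup _) ≤ (fx D).relIndex (F1 D A) := by
  obtain ⟨u, hu, hu'⟩ := exU hV h hA hn
  obtain ⟨d, hd, d1⟩ := exD h hA hn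
  choose! f hf using fun e (he : e ∈ D) => sV hV h i' hd.1 d1 (h.quad e he u)
  rw [← relIndex_bot_left]
  refine (ri_le (D := D ⊓ 𝐂(A)) (A := F1 D A) f (fun e he x hx => ?_) fun e he e' he' k => ?_).1
  · have := tr hV h hA hn hC hx hd.1 he.1 (hf e he.1)
    rw [hd.2 x hx, he.2 x hx, mul_inv_cancel_right, mul_inv_cancel_right,
      cm_cong hV he.1 (hu' x hx), mul_comm] at this
    exact uV hV h hd.1 d1 (canc hV this (mul_comm (_ : V) _ ▸ hf e he.1))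
  · rw [iv hV] at k
    have a := hf e he.1
    rw [cm_cong hV hd.1 k] at a
    exact mem_bot.2 (inv_mul_eq_one.2 (uD hV h hu he.1 he'.1 (canc hV a (hf e' he'.1))))

theorem sf3 (hE : E ≤ A) {z : MulAut V} (hz : z ∈ D ⊓ 𝐂(E)) (hz' : z ∉ D ⊓ 𝐂(A)) :
    (fx D).relIndex (F1 D A) ≤ (D ⊓ 𝐂(A)).relIndex (D ⊓ 𝐂(E)) := by
  obtain ⟨u, hu, hu'⟩ := exU hV h hA hn
  choose f hf hf' using fun v => h.surj u hu _ (h.quad z hz.1 v)
  refine (ri_le (D := F1 D A) f (fun v hv => key hV h hA hn hC hE hu (fun x hx => hu' x (hE hx))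
    (fun x hx => hv x (hE hx)) hz (hf v) (hf' v)) fun v hv w hw k => ?_).1
  rw [iv hV]
  rw [inv_of_sq h.sq (hf v)] at k
  by_contra c
  refine hz' (key hV h hA hn hC le_rfl c (mul_mem hv hw) hu' k hz.1 ?_)
  have := mul_mem (hf' v) (hf' w)
  rwa [mul_mul_mul_comm, ← cm_mul, ← cm_quad hV (h.quad _ (hf w) u _ (hf v)), mul_comm] at this

include i' in
theorem sf4 : (𝐂(D)).relIndex A * Nat.card (D ⊓ 𝐂(A) : Subgroup _) ≤ Nat.card D := by
  induction A using WellFoundedLT.induction with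
  | ind A ih =>
  by_cases c : D ≤ D ⊓ 𝐂(A)
  · rw [relIndex_eq_one.2 (le_centralizer_iff.1 (c.trans inf_le_right)), one_mul]
    exact card_le_of_le inf_le_left
  obtain ⟨z, hz, a, b⟩ := fix_conj (N := D ⊓ 𝐂(A)) h.sq hA hn (fun x hx z hz => by
    rw [hz.2 x hx, mul_inv_cancel_right]; exact hz) c
  set E := A ⊓ centralizer {z} with hE
  have zE : z ∈ D ⊓ 𝐂(E) := ⟨hz, fun x hx => mem_centralizer_singleton_iff.1 hx.2⟩
  have k1 := ih E (lt_of_le_of_ne inf_le_left fun e => a (e ▸ zE)) (fun x hx => hA x hx.1)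
    (inf_le_left.trans hn) fun x hx => hC x hx.1
  have k2 : E.relIndex A ≤ Nat.card (D ⊓ 𝐂(A) : Subgroup _) := by
    rw [← relIndex_bot_left]
    refine (ri_le (B := E) (fun x => x * z * x⁻¹ * z) b fun x hx y hy k =>
      ⟨A.mul_mem (A.inv_mem hx) hy, mem_centralizer_singleton_iff.2 ?_⟩).1
    have := mul_right_cancel (inv_mul_eq_one.1 (mem_bot.1 k))
    calc x⁻¹ * y * z = x⁻¹ * (y * z * y⁻¹) * y := by group
      _ = z * (x⁻¹ * y) := by rw [← this]; group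
  have k3 := (sf2 hV h i' hA hn hC).trans (sf3 hV h hA hn hC inf_le_left zE a)
  have k4 := card_mul_relIndex (inf_le_inf_left D (centralizer_le (show (E : Set (MulAut V)) ⊆ A
    from (inf_le_left : E ≤ A))))
  have k5 : (𝐂(D)).relIndex E * E.relIndex A = (𝐂(D)).relIndex A := by
    rw [← inf_relIndex_right (𝐂(D)) E, ← inf_relIndex_right (𝐂(D)) A, ← relIndex_mul_relIndex
      (𝐂(D) ⊓ A) E A (fun x hx => ⟨hx.2, mem_centralizer_singleton_iff.2 (hx.1 z hz).symm⟩)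
      inf_le_left]
    congr 2
    exact le_antisymm (inf_le_inf_left _ inf_le_left) fun x hx =>
      ⟨hx.1, hx.2, mem_centralizer_singleton_iff.2 (hx.1 z hz).symm⟩
  calc _ = (𝐂(D)).relIndex E * (E.relIndex A * Nat.card (D ⊓ 𝐂(A) : Subgroup _)) := by
        rw [← k5, mul_assoc]
    _ ≤ (𝐂(D)).relIndex E * Nat.card (D ⊓ 𝐂(E) : Subgroup _) := by
        rw [← k4, mul_comm (Nat.card _)]
        exact Nat.mul_le_mul_left _ (Nat.mul_le_mul_right _ (k2.trans k3))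
    _ ≤ _ := k1

end Sf

end Cfsg.Agent.MP.Rk
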