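import Cfsg.Agent.Lib.MP.Mod2
import Cfsg.Agent.Lib.MP.Mod3

/-!
Row MOD, part 4: best offenders centralize `[V, D]`; conclusion.
-/

set_option autoImplicit false
set_option linter.unusedSectionVars false

namespace Cfsg.Agent.MP.Rk

open Subgroup Cfsg.Agent.Tr Cfsg.Agent.ST4

local notation "𝐍(" A ")" => Subgroup.normalizer (SetLike.coe A)
local notation "𝐂(" A ")" => Subgroup.centralizer (SetLike.coe A)

universe u

theorem ri_two {X : Type*} [Group X] (A B C : Subgroup X) :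
    A.relIndex C * B.relIndex (A ⊓ C) = B.relIndex C * A.relIndex (B ⊓ C) := by
  have key : ∀ A B : Subgroup X, A.relIndex C * B.relIndex (A ⊓ C) = (A ⊓ B ⊓ C).relIndex C :=
    fun A B => by
      rw [← inf_relIndex_right A C, ← inf_relIndex_right B, mul_comm,
        relIndex_mul_relIndex _ _ _ inf_le_right inf_le_right, ← inf_assoc, inf_comm B A]
  rw [key, key, inf_comm A B]

variable {V : Type*} [CommGroup V] [Finite V] (hV : ∀ v : V, v * v = 1)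

namespace Rd

variable {G M P Y K R : Subgroup (MulAut V)} {𝒟 : Set (Subgroup (MulAut V))} {q : ℕ}
  (h : Rd G M P Y K R 𝒟 q) {D L : Subgroup (MulAut V)} {U : Subgroup V} {t l : MulAut V}
  (hD : h.Al D)
include h hV hD

theorem nM {m : MulAut V} (hm : m ∈ K) (mM : m ∈ M) : cj m D = D := by
  have hE := h.sg.cjm D (h.al hD) m hm
  have EM : cj m D ≤ M := cj_le_of_mem (h.alM hD) mM
  obtain ⟨x, hx, e⟩ := h.sg.syl.exists_cj_le (Q := D ⊔ cj m D) (isPGroup_sup_of_le_normalizer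
    (pg_of_sq (h.alg hD).sq) (isPGroup_cj m (pg_of_sq (h.alg hD).sq)) fun d hd =>
      mem_normalizer_of_forall fun e he => by
        rwa [h.sg.comm hV (h.al hD) (h.alM hD) hE EM hd he, mul_inv_cancel_right])
    (sup_le (h.al hD).2.1 hE.2.1)
  have e1 := h.uniq hV hD (E := cj x D) ⟨h.cjm D hD.1 x, (cj_mono x le_sup_left).trans e,
    (h.sg.cjm D (h.al hD) x hx).2.2⟩
  have e2 := h.uniq hV hD (E := cj x (cj m D)) ⟨h.cjm _ hE.1 x, (cj_mono x le_sup_right).trans e,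
    (h.sg.cjm _ hE x hx).2.2⟩
  exact cj_inj.1 (e2.trans e1.symm)

theorem nP : P ⊓ 𝐍(Y) ≤ 𝐍(D) := fun _ hx =>
  cj_eq_iff.1 (h.nM hV hD (h.sg.syl.le hx) (h.sg.PM hx))

variable (LK : L ≤ K) (s : S1 R M D L U) (hl : l ∈ L) (lM : l ∉ M)
include LK s hl lM

theorem Cg {g : MulAut V} (hg : g ∈ K) (gM : g ∉ M) {w : V} (h1 : w ∈ fx D)
    (h2 : w ∈ fx (cj g D)) : w ∈ fx (cj l D) := by
  obtain ⟨d, hd, e⟩ := h.sg.coset hV (h.al hD) (h.alM hD) LK s hl lM hg gM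
  have := h.nM hV hD (mul_mem (inv_mem hg) (LK (mul_mem (s.DL hd) hl))) e
  rw [cj_mul, cj_eq_iff_eq_cj_inv, inv_inv, cj_mul] at this
  rwa [← this, mem_fx_cj, h1 _ (inv_mem hd)] at h2

theorem Cinv {x : MulAut V} (hx : x ∈ P ⊓ 𝐍(Y)) {w : V} (h1 : w ∈ fx D) (h2 : w ∈ fx (cj l D)) :
    x w ∈ fx (cj l D) :=
  h.Cg hV hD LK s hl lM (mul_mem (h.sg.syl.le hx) (LK hl))
    (fun k => lM ((mul_mem_cancel_left (h.sg.PM hx)).1 k)) (fx_app (h.nP hV hD hx) h1)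
    (by rw [cj_mul]; exact app_mem_fx_cj.2 h2)

theorem out (ht : t ∈ P) (hn : t ∉ 𝐍(Y)) : cj t D ≤ Y ∧
    ∀ d ∈ D, ∀ v, t (d v * v) ∈ fx (cj l D) := by
  obtain ⟨E, hE, EY, k⟩ := h.exists_out hn
  have e := h.uniq hV hD (h.al_back (h.PJ hV ht) hE (EY.trans h.YJ) k)
  rw [cj_eq_iff_eq_cj_inv, inv_inv] at e
  subst e
  obtain ⟨l', hl', l'M, j⟩ := h.lA hV (h.PJ hV ht) hE EY k hD LK s
  refine ⟨EY, fun d hd v => ?_⟩
  rw [← conj_app]
  have := j _ (conj_mem_cj.2 hd) (t v)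
  exact h.Cg hV hD LK s hl lM (LK hl') l'M this.1 this.2

theorem low {A : Subgroup (MulAut V)} (AP : A ≤ P) : Nat.card D ^ (𝐍(Y)).relIndex A ≤
    (⨅ a : A, fx (cj a D)).relIndex (⨆ a : A, (fx R).map (a : MulAut V).toMonoidHom) := by
  classical
  choose u hu hu' using s.cov l hl lM
  let I := A ⧸ (𝐍(Y)).subgroupOf A
  haveI : Fintype I := Fintype.ofFinite I
  let f : (I → V ⧸ fx D) → V := fun w => ∏ i, (i.out : MulAut V) (u (w i).out)
  have hf : ∀ w, f w ∈ ⨆ a : A, (fx R).map (a : MulAut V).toMonoidHom := fun w =>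
    prod_mem fun i _ => mem_iSup_of_mem i.out ⟨_, s.UR (hu _).1, rfl⟩
  let g : (I → V ⧸ fx D) → _ ⧸ (⨅ a : A, fx (cj a D)).subgroupOf
      (⨆ a : A, (fx R).map (a : MulAut V).toMonoidHom) := fun w => QuotientGroup.mk ⟨f w, hf w⟩
  have hg : Function.Injective g := fun w w' e => by
    have k0 := QuotientGroup.eq.1 e
    have k : (f w)⁻¹ * f w' ∈ ⨅ a : A, fx (cj a D) := k0
    funext j
    have k1 := mem_iInf.1 k j.out
    simp only [f] at k1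
    rw [iv hV, ← Finset.prod_mul_distrib, ← Finset.mul_prod_erase _ _ (Finset.mem_univ j),
      mul_mem_cancel_right (prod_mem fun i hi => by
        rw [← map_mul, ← cj_cj_inv (i.out : MulAut V) (cj _ D), app_mem_fx_cj, ← cj_mul]
        refine fx_anti ((h.out hV hD LK s hl lM (AP (mul_mem (inv_mem i.out.2) j.out.2))
          fun k => Finset.ne_of_mem_erase hi ?_).1.trans h.YR)
          (s.UR (mul_mem (hu _).1 (hu _).1))
        rw [← i.out_eq, ← j.out_eq]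
        exact QuotientGroup.eq.2 k), ← map_mul, app_mem_fx_cj] at k1
    rw [← (w j).out_eq, ← (w' j).out_eq]
    refine QuotientGroup.eq.2 ?_
    rw [← iv hV (u (w j).out)] at k1
    have := mul_mem (mul_mem (inv_mem (hu' (w j).out)) (hu' (w' j).out)) (inv_mem k1)
    rwa [idm] at this
  have := Nat.card_le_card_of_injective g hg
  rwa [Nat.card_fun, ← index_eq_card, s.idx] at this

theorem fixN {A : Subgroup (MulAut V)} (AP : A ≤ P) (hA : E2 A)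
    (hb : Nat.card (A ⊓ R : Subgroup _) * Nat.card (fx (A ⊓ R)) ≤ Nat.card A * Nat.card (fx A))
    {d : MulAut V} (hd : d ∈ D) (v : V) : d v * v ∈ fx A := by
  by_contra hz
  have gD := h.alg hD
  have hf := s.hf hV gD hl lM
  have i' : (fx (cj l D)).index = Nat.card D := by rw [index_fx_cj, s.idx]
  set W := ⨆ a : A, (fx R).map (a : MulAut V).toMonoidHom with hW
  set Hs := ⨅ a : A, fx (cj a D) with hHs
  set A₀ := A ⊓ 𝐍(Y) with hA₀
  have A0P : A₀ ≤ P ⊓ 𝐍(Y) := inf_le_inf_right _ AP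
  have hA0 : E2 A₀ := fun x hx => hA x hx.1
  have n0 := A0P.trans (h.nP hV hD)
  have c0 : ∀ x ∈ A₀, ∀ w ∈ fx D, w ∈ fx (cj l D) → x w ∈ fx (cj l D) := fun x hx w a b =>
    h.Cinv hV hD LK s hl lM (A0P hx) a b
  have DR : ∀ x ∈ D, x ∈ R → x = 1 := fun x a b => s.eq_one hV b fun v hv => hv x a
  have Rn : ∀ x ∈ P ⊓ 𝐍(Y), ∀ r ∈ R, x * r * x⁻¹ ∈ R := fun x hx r hr =>
    conj_mem_of_mem_normalizer (h.sg.Rn (h.sg.syl.le hx)) hr
  have RC : R ≤ 𝐂(D) := fun r hr e he => by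
    have := DR (r * e * r⁻¹ * e⁻¹) (mul_mem (conj_mem_of_mem_normalizer (h.nP hV hD (h.sg.RP hr)) he)
      (inv_mem he)) (by
        rw [mul_assoc, mul_assoc, ← mul_assoc e]
        exact mul_mem hr (Rn e (hD.2.1 he) _ (inv_mem hr)))
    rw [mul_inv_eq_one, mul_inv_eq_iff_eq_mul] at this
    exact this.symm
  have RW : fx R ≤ W := fun u hu => mem_iSup_of_mem (1 : A) ⟨u, hu, rfl⟩
  have k1 := h.low hV hD LK s hl lM AP
  have k2 : (fx A).relIndex W ≤ R.relIndex A := by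
    have a1 : W ≤ fx (A ⊓ R) := iSup_le fun a => by
      rintro _ ⟨u, hu, rfl⟩ x hx
      change (x * a) u = _
      rw [comm_of_sq hA hx.1 a.2, MulAut.mul_apply, hu x hx.2]; rfl
    refine (ri_right a1).trans ?_
    have a2 := card_mul_relIndex (fx_anti (inf_le_left : A ⊓ R ≤ A))
    have a3 := card_inf_mul_relIndex R A
    rw [inf_comm] at a3
    rw [← a2, ← a3, mul_assoc, mul_comm (R.relIndex A)] at hb
    exact Nat.le_of_mul_le_mul_left (Nat.le_of_mul_le_mul_left hb Nat.card_pos) Nat.card_pos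
  have k3 : R.relIndex A = R.relIndex (𝐂(D) ⊓ A₀) * (𝐂(D)).relIndex A₀ * (𝐍(Y)).relIndex A := by
    have a1 : R ⊓ A ≤ 𝐂(D) ⊓ A₀ := fun x hx => ⟨RC hx.1, hx.2, (h.sg.RP hx.1).2⟩
    rw [← inf_relIndex_right (𝐂(D)), ← inf_relIndex_right (𝐍(Y)), ← inf_relIndex_right R,
      ← inf_relIndex_right R (_ ⊓ _), inf_comm (𝐍(Y)),
      show R ⊓ (𝐂(D) ⊓ A₀) = R ⊓ A from le_antisymm (fun x hx => ⟨hx.1, hx.2.2.1⟩)
        (le_inf inf_le_left a1), relIndex_mul_relIndex _ _ _ a1 inf_le_right,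
      relIndex_mul_relIndex _ _ _ (a1.trans inf_le_right) inf_le_left]
  have k4 : 2 ≤ (fx A).relIndex (Hs ⊓ W) := by
    have a1 := ri_pos (fx A) (Hs ⊓ W)
    have a2 : (fx A).relIndex (Hs ⊓ W) ≠ 1 := fun e => hz (relIndex_eq_one.1 e ⟨mem_iInf.2 fun a => by
      by_cases c : (a : MulAut V) ∈ 𝐍(Y)
      · rw [cj_eq_of_mem_normalizer (n0 ⟨a.2, c⟩)]; exact gD.quad d hd v
      · exact fx_anti ((h.out hV hD LK s hl lM (AP a.2) c).1.trans h.YR)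
          (s.UR (s.cm_mem hV hd v)), RW (s.UR (s.cm_mem hV hd v))⟩)
    omega
  have k5 : Hs.relIndex (fx A ⊓ W) ≤ (fx D).relIndex (fx A ⊓ W) := ri_left fun w hw =>
    mem_iInf.2 fun a => by rw [← hw.2.1 a a.2]; exact app_mem_fx_cj.2 hw.1
  have k6 := sf4 hV hf i' hA0 n0 c0
  choose! δ hδ hδ' using fun x (hx : x ∈ 𝐂(D) ⊓ A₀) =>
    h.lC hV hD (A0P hx.2) fun d hd => (hx.1 d hd).symm
  have k7 : (fx D).relIndex (fx A ⊓ W) * R.relIndex (𝐂(D) ⊓ A₀) ≤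
      Nat.card (D ⊓ 𝐂(A₀) : Subgroup _) := by
    by_cases c : 𝐂(D) ⊓ A₀ ≤ R
    · rw [relIndex_eq_one.2 c, mul_one]
      exact (ri_right fun w hw x hx => by rw [hw.1 x hx.1, hV]; exact one_mem _).trans
        (sf1 hV hf hA0 n0 c0)
    obtain ⟨x, hx, xR⟩ := SetLike.not_le_iff_exists.1 c
    have xu : ∀ u ∈ fx R, x u = δ x u := fun u hu => by
      conv_rhs => rw [← hu _ (hδ' x hx), ← MulAut.mul_apply, ← mul_assoc, gD.sq _ (hδ x hx), one_mul]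
    let T : Subgroup V :=
      { carrier := {w | w ∈ fx D ∧ x w * w ∈ fx (cj l D)}
        one_mem' := ⟨one_mem _, by simp⟩
        mul_mem' := fun ha hb => ⟨mul_mem ha.1 hb.1, by rw [cm_mul]; exact mul_mem ha.2 hb.2⟩
        inv_mem' := fun ha => by rw [iv hV]; exact ha }
    have a1 : W ≤ fx R ⊔ T := iSup_le fun a => by
      rintro _ ⟨u, hu, rfl⟩
      by_cases c : (a : MulAut V) ∈ 𝐍(Y)
      · exact mem_sup_left (fx_app (h.sg.Rn (h.sg.syl.le ⟨AP a.2, c⟩)) hu)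
      refine mem_sup_right ⟨?_, ?_⟩
      · have := fx_anti ((h.out hV hD LK s hl lM (AP (inv_mem a.2))
          (mt inv_mem_iff.1 c)).1.trans h.YR) hu
        rwa [mem_fx_cj, inv_inv] at this
      · have := (h.out hV hD LK s hl lM (AP a.2) c).2 _ (hδ x hx) u
        rwa [← xu u hu, map_mul, ← MulAut.mul_apply, comm_of_sq hA a.2 hx.2.1] at this
    have a2 : fx A ⊓ W ≤ fx D := fun w hw => by
      obtain ⟨u, hu, y, hy, rfl⟩ := mem_sup.1 (a1 hw.2)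
      refine mul_mem (by_contra fun k => s.inj l hl lM _ (hδ x hx) (fun e => xR ?_) u k ?_) hy.1
      · simpa [e] using hδ' x hx
      · have := cm_mul x u y
        rw [hw.1 x hx.2.1, hV] at this
        rw [← xu u hu, eq_of_mul hV this.symm]; exact hy.2
    rw [relIndex_eq_one.2 a2, one_mul, ← relIndex_bot_left]
    refine (ri_le (A := D ⊓ 𝐂(A₀)) δ (fun y hy => ⟨hδ y hy, fun z hz => ?_⟩) fun y hy z hz k => ?_).1
    · have b1 := mul_mem (Rn z (A0P hz) _ (hδ' y hy)) (inv_mem (hδ' y hy))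
      rw [mul_assoc z, mul_assoc (δ y), comm_of_sq hA0 hy.2 (inv_mem hz),
        show z * (δ y * (z⁻¹ * y)) * (δ y * y)⁻¹ = z * δ y * z⁻¹ * (δ y)⁻¹ by group] at b1
      have := DR _ (mul_mem (conj_mem_of_mem_normalizer (n0 hz) (hδ y hy)) (inv_mem (hδ y hy))) b1
      rwa [mul_inv_eq_one, mul_inv_eq_iff_eq_mul] at this
    · have := mul_mem (inv_mem (hδ' y hy)) (hδ' z hz)
      rwa [← inv_mul_eq_one.1 (mem_bot.1 k), mul_inv_rev, mul_assoc, inv_mul_cancel_left] at this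
  have k8 := ri_two (fx A) Hs W
  have k9 : 1 < Nat.card D := (one_lt_card_iff_ne_bot _).2 gD.ne
  have k10 := ri_pos (𝐍(Y)) A
  generalize (𝐍(Y)).relIndex A = n at *
  obtain ⟨n, rfl⟩ : ∃ m, n = m + 1 := ⟨n - 1, by omega⟩
  have k11 : Nat.card D ^ (n + 1) * 2 ≤ Nat.card D * (n + 1) :=
    calc _ ≤ Hs.relIndex W * (fx A).relIndex (Hs ⊓ W) := Nat.mul_le_mul k1 k4
      _ ≤ R.relIndex A * (fx D).relIndex (fx A ⊓ W) := k8 ▸ Nat.mul_le_mul k2 k5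
      _ = (𝐂(D)).relIndex A₀ * ((fx D).relIndex (fx A ⊓ W) * R.relIndex (𝐂(D) ⊓ A₀)) * (n + 1) := by
        rw [k3]; ring
      _ ≤ _ := Nat.mul_le_mul_right _ ((Nat.mul_le_mul_left _ k7).trans k6)
  have k12 : n + 1 < 2 ^ n * 2 := by rw [← pow_succ]; exact Nat.lt_two_pow_self
  have k13 : 2 ^ n ≤ Nat.card D ^ n := Nat.pow_le_pow_left k9 n
  rw [pow_succ', mul_assoc] at k11
  have := Nat.le_of_mul_le_mul_left k11 (by omega)
  omega

end Rd

include hV in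
theorem mod_comm {G M P B : Subgroup (MulAut V)} {O : Set (Subgroup (MulAut V))}
    (hP : SylowIn 2 P G) (BP : B ≤ P) (hM : ¬ G ≤ M) (hmax : ∀ H, B ≤ H → H ≤ G → H ≠ G → H ≤ M)
    (ho : ∀ R ≤ P, G ≤ 𝐍(R) → R = ⊥) (hv : ∃ v ∈ fx P, v ∉ fx G)
    (hO : ∀ A ∈ O, A ≤ B ∧ E2 A ∧
      ∀ E ≤ A, Nat.card E * Nat.card (fx E) ≤ Nat.card A * Nat.card (fx A))
    (hne : ∃ A ∈ O, A ≠ ⊥) (hB : ∀ v, (∀ A ∈ O, v ∈ fx A) → v ∈ fx B) :
    (∀ A ∈ O, A ≠ ⊥ → A = B) ∧ ∀ l ∈ G, l ∉ M → R1 B (cj l B) := by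
  have off : ∀ A ∈ O, A ≠ ⊥ → Off A := fun A hA ne => ⟨ne, (hO A hA).2.1, by
    have := (hO A hA).2.2 ⊥ bot_le
    rw [fx_bot, card_bot, one_mul, card_top, ← (fx A).index_mul_card] at this
    exact Nat.le_of_mul_le_mul_right this Nat.card_pos⟩
  obtain ⟨A₀, hA₀, ne₀⟩ := hne
  obtain ⟨Y, K, R, 𝒟, q, h⟩ := exists_rd hV hP hM (fun H a => hmax H (BP.trans a)) ho hv
    ⟨A₀, (hO A₀ hA₀).1.trans BP, off A₀ hA₀ ne₀⟩
  obtain ⟨D, hD⟩ := h.ex
  replace hD : h.Al D := hD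
  obtain ⟨L, U, LK, s⟩ := h.s1 hV hD
  obtain ⟨l, hl, lM⟩ := SetLike.not_le_iff_exists.1 s.nM
  have gD := h.alg hD
  have hN : ∀ d ∈ D, ∀ v, d v * v ∈ fx B := fun d hd v => hB _ fun A hA =>
    h.fixN hV hD LK s hl lM ((hO A hA).1.trans BP) (hO A hA).2.1 ((hO A hA).2.2 _ inf_le_left) hd v
  have hf := s.hf hV gD hl lM
  obtain ⟨d₀, hd₀, d1, v₀, hv₀⟩ := hf.exists_ne
  have B1 : B ≤ P ⊓ 𝐍(Y) := fun b hb => ⟨BP hb, by_contra fun c => s.inj l hl lM d₀ hd₀ d1 v₀ hv₀ (by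
    rw [← hN d₀ hd₀ v₀ b hb]; exact (h.out hV hD LK s hl lM (BP hb) c).2 d₀ hd₀ v₀)⟩
  have KG : K = G := by_contra fun c => h.sg.nM (hmax K (B1.trans h.sg.syl.le) h.KG c)
  have R0 : R = ⊥ := ho R (h.sg.RP.trans inf_le_left) (KG ▸ h.sg.Rn)
  have BD : B ≤ D := fun b hb => by
    have bn := h.nP hV hD (B1 hb)
    obtain ⟨k, hk⟩ := isPGroup_iff_forall_mem.1 hP.isPGroup b (BP hb)
    obtain ⟨u, hu, e⟩ := fix_pow hV (fun v hv => fx_app bn hv) ⟨v₀, hv₀⟩ k hk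
    obtain ⟨d, hd, e'⟩ := h.lC hV hD (B1 hb) fun d hd => by
      have d' := conj_mem_of_mem_normalizer bn hd
      refine mul_inv_eq_iff_eq_mul.1 (uD hV hf hu d' hd ?_)
      rw [← cm_cong hV d' e, conj_app, hN d hd u b hb, hV]; exact one_mem _
    rw [R0, mem_bot] at e'
    rw [eq_inv_of_mul_eq_one_right e']; exact inv_mem hd
  have AD : ∀ A ∈ O, A ≠ ⊥ → A = D := fun A hA ne => by_contra fun c =>
    (gD.min A (lt_of_le_of_ne ((hO A hA).1.trans BD) c) ne).not_ge (off A hA ne).2.2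
  obtain rfl : B = D := le_antisymm BD (AD A₀ hA₀ ne₀ ▸ (hO A₀ hA₀).1)
  have LG : L = G := by_contra fun c => s.nM (hmax L s.DL (LK.trans h.KG) c)
  exact ⟨AD, fun l hl lM => s.r1 hV gD (LG ▸ hl) lM⟩

theorem _root_.Cfsg.Agent.MP.mod : ModStmt.{u} := by
  intro V _ _ hV G M P B O h1 h2 h3 h4 h5 h6 h7 h8 h9
  letI : CommGroup V := { ‹Group V› with mul_comm := comm_two hV }
  exact mod_comm hV h1 h2 h3 h4 h5 h6 h7 h8 h9

end Cfsg.Agent.MP.Rk
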