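import Cfsg.Agent.Lib.Transfer.SylowIn

/-!
Pushing up (Baumann, Niles, Stellmacher), part 0: the abstract hypothesis `PH` on a group with
`SL₂(2ⁿ)`-like quotient, vertices (conjugates in an ambient group), walks and critical pairs.
-/

set_option autoImplicit false

namespace Cfsg.Agent.PU

open Subgroup Cfsg.Agent.Tr

variable {X : Type*} [Group X]

/-- `Ω₁ Z(Q)`. -/
def Om (Q : Subgroup X) : Subgroup X where
  carrier := {z | z ∈ Q ∧ z * z = 1 ∧ ∀ y ∈ Q, Commute z y}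
  one_mem' := ⟨Q.one_mem, one_mul 1, fun y _ => Commute.one_left y⟩
  mul_mem' := fun {a b} ha hb => ⟨Q.mul_mem ha.1 hb.1, by
    rw [(ha.2.2 b hb.1).symm.mul_mul_mul_comm, ha.2.1, hb.2.1, one_mul],
    fun y hy => (ha.2.2 y hy).mul_left (hb.2.2 y hy)⟩
  inv_mem' := fun {a} ha => ⟨Q.inv_mem ha.1, by rw [← mul_inv_rev, ha.2.1, inv_one],
    fun y hy => (ha.2.2 y hy).inv_left⟩

theorem mem_Om {Q : Subgroup X} {z : X} :
    z ∈ Om Q ↔ z ∈ Q ∧ z * z = 1 ∧ ∀ y ∈ Q, Commute z y := Iff.rfl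

theorem Om_le (Q : Subgroup X) : Om Q ≤ Q := fun _ h => h.1

theorem Om_inv {Q : Subgroup X} {z : X} (h : z ∈ Om Q) : z⁻¹ = z :=
  inv_eq_of_mul_eq_one_right h.2.1

theorem commute_conj {a b : X} (g : X) (h : Commute a b) :
    Commute (g * a * g⁻¹) (g * b * g⁻¹) := h.map (MulAut.conj g)

theorem commute_conj' {a b : X} (g : X) (h : Commute a b) :
    Commute (g⁻¹ * a * g) (g⁻¹ * b * g) := by
  simpa using commute_conj g⁻¹ h

theorem commute_of_conj {a b g : X} (h : Commute (g⁻¹ * a * g) (g⁻¹ * b * g)) : Commute a b := by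
  have := commute_conj g h
  simpa [mul_assoc] using this

theorem Om_cj (g : X) (Q : Subgroup X) : Om (cj g Q) = cj g (Om Q) := by
  ext z
  rw [mem_cj, mem_Om, mem_Om, mem_cj]
  refine and_congr_right fun _ => and_congr ⟨fun h => ?_, fun h => ?_⟩
    ⟨fun h y hy => ?_, fun h y hy => commute_of_conj (h _ (mem_cj.1 hy))⟩
  · calc g⁻¹ * z * g * (g⁻¹ * z * g) = g⁻¹ * (z * z) * g := by group
      _ = 1 := by rw [h]; group
  · calc z * z = g * (g⁻¹ * z * g * (g⁻¹ * z * g)) * g⁻¹ := by group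
      _ = 1 := by rw [h]; group
  · simpa [mul_assoc] using commute_conj' g (h _ (conj_mem_cj.2 hy))

theorem conj_mem_Om {Q : Subgroup X} {g z : X} (hg : g ∈ normalizer (Q : Set X)) (hz : z ∈ Om Q) :
    g * z * g⁻¹ ∈ Om Q := by
  rw [← cj_eq_of_mem_normalizer hg, Om_cj]
  exact conj_mem_cj.2 hz

/-- The natural module property of `Ω₁ Z(Q)` modulo its fixed points. -/
def NatM (G Q P : Subgroup X) : Prop :=
  ∀ t ∈ P, t ∉ Q → ∀ z ∈ Om Q, (∀ g ∈ G, Commute (t * z * t⁻¹ * z⁻¹) g) → ∀ s ∈ P, Commute z s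

/-- The properties of `G` and `Q = O₂(G)` used in the pushing up argument. -/
structure PH (G Q : Subgroup X) : Prop where
  le : Q ≤ G
  nrm : G ≤ normalizer (Q : Set X)
  pg : IsPGroup 2 Q
  cc : ∀ g ∈ G, (∀ y ∈ Q, Commute g y) → g ∈ Q
  gen : ∀ P, SylowIn 2 P G → ∃ P', SylowIn 2 P' G ∧ P ⊔ P' = G
  cen : ∀ P, SylowIn 2 P G → ∀ t ∈ P, (∀ z ∈ Om Q, Commute z t) → t ∈ Q
  ff : ∀ P, SylowIn 2 P G → ∀ A ≤ P, ¬ A ≤ Q → (∀ a ∈ A, a * a = 1) →
    (∀ z ∈ Om Q, ∀ a ∈ A, ∀ b ∈ A, Commute (a * z * a⁻¹ * z⁻¹) b) →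
    (centralizer (A : Set X)).relIndex (Om Q) ≤ Q.relIndex A →
    A ⊔ Q = P ∧ Q.relIndex A ≤ (centralizer (A : Set X)).relIndex (Om Q) ∧ NatM G Q P

theorem syl_inv {P G : Subgroup X} {x : X} (h : SylowIn 2 P (cj x G)) :
    SylowIn 2 (cj x⁻¹ P) G := by
  simpa [cj_inv_cj] using h.cj x⁻¹

theorem NatM.cj {G Q P : Subgroup X} (h : NatM G Q P) (x : X) :
    NatM (cj x G) (cj x Q) (cj x P) := by
  intro t ht htQ z hz hc s hs
  rw [Om_cj] at hz
  refine commute_of_conj (h _ (mem_cj.1 ht) (mt mem_cj.2 htQ) _ (mem_cj.1 hz) (fun g hg => ?_) _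
    (mem_cj.1 hs))
  simpa [mul_assoc] using commute_conj' x (hc _ (conj_mem_cj.2 hg))

namespace PH

variable {G Q P : Subgroup X} (h : PH G Q)
include h

theorem cj (x : X) : PH (cj x G) (cj x Q) where
  le := cj_mono x h.le
  nrm := by rw [normalizer_cj]; exact cj_mono x h.nrm
  pg := isPGroup_cj x h.pg
  cc g hg hc := mem_cj.2 (h.cc _ (mem_cj.1 hg) fun y hy => by
    simpa [mul_assoc] using commute_conj' x (hc _ (conj_mem_cj.2 hy)))
  gen P hP := by
    obtain ⟨P', h1, h2⟩ := h.gen _ (syl_inv hP)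
    exact ⟨_, h1.cj x, by rw [← h2, cj_sup, cj_cj_inv]⟩
  cen P hP t ht hc := mem_cj.2 (h.cen _ (syl_inv hP) _ (by simpa [mem_cj, mul_assoc] using ht)
    fun z hz => by
      have := commute_conj' x (hc (x * z * x⁻¹) (by rw [Om_cj]; exact conj_mem_cj.2 hz))
      rwa [show x⁻¹ * (x * z * x⁻¹) * x = z by group] at this)
  ff P hP A hA hAQ h2 hq hr := by
    obtain ⟨A, rfl⟩ : ∃ B, A = Tr.cj x B := ⟨_, (cj_cj_inv x A).symm⟩
    obtain ⟨P, rfl⟩ : ∃ B, P = Tr.cj x B := ⟨_, (cj_cj_inv x P).symm⟩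
    rw [centralizer_cj, Om_cj, relIndex_cj, relIndex_cj] at *
    have k1 : ∀ a ∈ A, a * a = 1 := fun a ha =>
      calc a * a = x⁻¹ * (x * a * x⁻¹ * (x * a * x⁻¹)) * x := by group
        _ = 1 := by rw [h2 _ (conj_mem_cj.2 ha)]; group
    have k2 : ∀ z ∈ Om Q, ∀ a ∈ A, ∀ b ∈ A, Commute (a * z * a⁻¹ * z⁻¹) b :=
      fun z hz a ha b hb => by
        simpa [mul_assoc] using
          commute_conj' x (hq _ (conj_mem_cj.2 hz) _ (conj_mem_cj.2 ha) _ (conj_mem_cj.2 hb))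
    obtain ⟨e1, e2, e3⟩ := h.ff P (by simpa [cj_inv_cj] using syl_inv hP) A (cj_le_cj.1 hA)
      (mt cj_le_cj.2 hAQ) k1 k2 hr
    exact ⟨by rw [← cj_sup, e1], e2, e3.cj x⟩

theorem le_syl (hP : SylowIn 2 P G) : Q ≤ P :=
  hP.le_of_le_normalizer h.pg h.le (hP.le.trans h.nrm)

theorem mem_Om {z : X} (hz : z ∈ G) (h2 : z * z = 1) (hc : ∀ y ∈ Q, Commute z y) : z ∈ Om Q :=
  ⟨h.cc z hz hc, h2, hc⟩

theorem conj_Q {g z : X} (hg : g ∈ G) (hz : z ∈ Q) : g * z * g⁻¹ ∈ Q :=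
  conj_mem_of_mem_normalizer (h.nrm hg) hz

theorem conj_Om {g z : X} (hg : g ∈ G) (hz : z ∈ Om Q) : g * z * g⁻¹ ∈ Om Q :=
  conj_mem_Om (h.nrm hg) hz

/-- Decomposition in `A Q`. -/
theorem dec {A : Subgroup X} (hP : SylowIn 2 P G) (e : A ⊔ Q = P) {x : X} (hx : x ∈ P) :
    ∃ a ∈ A, ∃ c ∈ Q, a * c = x :=
  (mem_sup_of_le_normalizer ((le_sup_left.trans (e.le.trans hP.le)).trans h.nrm)).1 (e ▸ hx)

end PH

/-- Two vertices joined by a common Sylow subgroup. -/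
def Adj (G : Subgroup X) (x : X) (P : Subgroup X) (y : X) : Prop :=
  SylowIn 2 P (cj x G) ∧ SylowIn 2 P (cj y G)

/-- Walks. -/
inductive Near (G : Subgroup X) : ℕ → X → X → Prop
  | refl (x : X) : Near G 0 x x
  | step {k : ℕ} {x y z : X} {P : Subgroup X} : Adj G x P y → Near G k y z → Near G (k + 1) x z

variable {G Q : Subgroup X}

theorem Adj.symm {x y : X} {P : Subgroup X} (h : Adj G x P y) : Adj G y P x := ⟨h.2, h.1⟩

theorem Adj.cj {x y : X} {P : Subgroup X} (h : Adj G x P y) (g : X) :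
    Adj G (g * x) (cj g P) (g * y) := by
  refine ⟨?_, ?_⟩ <;> rw [cj_mul]
  exacts [h.1.cj g, h.2.cj g]

theorem Near.cj {k : ℕ} {x y : X} (h : Near G k x y) (g : X) : Near G k (g * x) (g * y) := by
  induction h with
  | refl x => exact Near.refl _
  | step a _ ih => exact Near.step (a.cj g) ih

theorem Near.snoc {k : ℕ} {x y z : X} {P : Subgroup X} (h : Near G k x y) (a : Adj G y P z) :
    Near G (k + 1) x z := by
  induction h with
  | refl x => exact Near.step a (Near.refl _)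
  | step b _ ih => exact Near.step b (ih a)

theorem Near.symm {k : ℕ} {x y : X} (h : Near G k x y) : Near G k y x := by
  induction h with
  | refl x => exact Near.refl _
  | step a _ ih => exact ih.snoc a.symm

theorem Near.path {k : ℕ} {x y : X} (h : Near G k x y) : ∃ (v : ℕ → X) (P : ℕ → Subgroup X),
    v 0 = x ∧ v k = y ∧ ∀ i < k, Adj G (v i) (P i) (v (i + 1)) := by
  induction h with
  | refl x => exact ⟨fun _ => x, fun _ => ⊥, rfl, rfl, fun i hi => absurd hi (by omega)⟩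
  | @step k x y z P a _ ih =>
    obtain ⟨v, R, h0, h1, h2⟩ := ih
    refine ⟨fun n => Nat.casesOn n x v, fun n => Nat.casesOn n P R, rfl, h1, fun i hi => ?_⟩
    cases i with
    | zero => simpa [h0] using a
    | succ i => exact h2 i (by omega)

theorem near_of_path {v : ℕ → X} {P : ℕ → Subgroup X} {n : ℕ}
    (h : ∀ i < n, Adj G (v i) (P i) (v (i + 1))) {i j : ℕ} (hij : i ≤ j) (hj : j ≤ n) :
    Near G (j - i) (v i) (v j) := by
  induction j, hij using Nat.le_induction with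
  | base => simpa using Near.refl _
  | succ j hij ih =>
    rw [show j + 1 - i = j - i + 1 by omega]
    exact (ih (by omega)).snoc (h j (by omega))

/-- No nontrivial subgroup of a Sylow subgroup `P` is normalized by `G` and `N(P)`. -/
def NoN (G : Subgroup X) : Prop :=
  ∀ P, SylowIn 2 P G → ∀ W ≤ P, G ≤ normalizer (W : Set X) →
    normalizer (P : Set X) ≤ normalizer (W : Set X) → W = ⊥

theorem NoN.cj (h : NoN G) (x : X) : NoN (cj x G) := by
  intro P hP W hW h1 h2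
  rw [← cj_eq_bot (g := x⁻¹)]
  refine h _ (syl_inv hP) _ (cj_mono _ hW) ?_ ?_
  · rw [normalizer_cj, ← cj_inv_cj x G]; exact cj_mono _ h1
  · rw [normalizer_cj, normalizer_cj]; exact cj_mono _ h2

theorem noN_of [Finite X] {T : Subgroup X} (hT : SylowIn 2 T G)
    (h : ∀ W ≤ T, G ≤ normalizer (W : Set X) →
      normalizer (T : Set X) ≤ normalizer (W : Set X) → W = ⊥) : NoN G := by
  intro P hP W hW h1 h2
  obtain ⟨x, hx, rfl⟩ := hP.exists_cj_eq hT
  rw [← cj_eq_of_mem_normalizer (h1 (G.inv_mem hx))]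
  refine cj_eq_bot.2 (cj_eq_bot.1 (h (cj x⁻¹ W) ?_ ?_ ?_))
  · simpa [cj_inv_cj] using cj_mono x⁻¹ hW
  · rwa [cj_eq_of_mem_normalizer (h1 (G.inv_mem hx))]
  · rw [normalizer_cj, ← cj_inv_cj x T, normalizer_cj]; exact cj_mono _ h2

theorem Om_ne_bot [Finite X] (h : PH G Q) (hN : NoN G) (hG : G ≠ ⊥) : Om Q ≠ ⊥ := by
  intro e
  obtain ⟨P, hP⟩ := exists_sylowIn (p := 2) G
  have key : ∀ P, SylowIn 2 P G → P = Q := fun P hP => le_antisymm
    (fun t ht => h.cen P hP t ht fun z hz => by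
      rw [e, mem_bot] at hz; rw [hz]; exact Commute.one_left t) (h.le_syl hP)
  obtain ⟨P', hP', e'⟩ := h.gen P hP
  rw [key P' hP', key P hP, sup_idem] at e'
  exact hG (e' ▸ hN P hP Q (h.le_syl hP) h.nrm (by rw [key P hP]))

/-- A critical pair. -/
def Crit (G Q : Subgroup X) (k : ℕ) : Prop :=
  ∃ x y, Near G k x y ∧ ¬ Om (cj y Q) ≤ cj x Q

theorem exists_crit [Finite X] (h : PH G Q) (hN : NoN G) (hG : G ≠ ⊥) : ∃ k, Crit G Q k := by
  by_contra hc
  simp only [Crit, not_exists, not_and, not_not] at hc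
  obtain ⟨P, hP⟩ := exists_sylowIn (p := 2) G
  set W : Subgroup X := ⨆ x : {x // ∃ k, Near G k 1 x}, Om (cj x.1 Q) with hW
  have key : ∀ g, SylowIn 2 P (cj g G) → g ∈ normalizer (W : Set X) := fun g hg => by
    refine mem_normalizer_of_cj_le ?_
    rw [hW]
    refine (Subgroup.map_iSup _ _).le.trans ?_
    refine iSup_le fun ⟨x, k, hx⟩ => le_iSup_of_le ⟨g * x, k + 1, Near.step (P := P)
      ⟨by rwa [cj_one], by rwa [mul_one]⟩ (hx.cj g)⟩ ?_
    exact (Om_cj g _).symm.le.trans (by rw [← cj_mul])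
  refine Om_ne_bot h hN hG (le_bot_iff.1 (le_trans ?_ (hN P hP W ?_ ?_ ?_).le))
  · exact le_iSup_of_le ⟨1, 0, Near.refl _⟩ (by rw [cj_one])
  · exact iSup_le fun ⟨x, k, hx⟩ => (hc k 1 x hx).trans (by rw [cj_one]; exact h.le_syl hP)
  · exact fun g hg => key g (by rwa [cj_eq_of_mem hg])
  · exact fun g hg => key g (by simpa [cj_eq_of_mem_normalizer hg] using hP.cj g)

end Cfsg.Agent.PU
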