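import Cfsg.Agent.Lib.MP.Pu0

/-!
Pushing up, part 1: critical pairs and long critical paths.
-/

set_option autoImplicit false

namespace Cfsg.Agent.PU

open Subgroup Cfsg.Agent.Tr

variable {X : Type*} [Group X]

section Pair

variable {G₁ Q₁ P₁ G₂ Q₂ P₂ : Subgroup X} (h₁ : PH G₁ Q₁) (h₂ : PH G₂ Q₂)
  (s₁ : SylowIn 2 P₁ G₁) (s₂ : SylowIn 2 P₂ G₂) (l₁ : Om Q₂ ≤ P₁) (l₂ : Om Q₁ ≤ P₂)

include h₁ s₁ l₁ in
theorem nle_symm (hn : ¬ Om Q₂ ≤ Q₁) : ¬ Om Q₁ ≤ Q₂ := fun h =>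
  hn fun t ht => h₁.cen _ s₁ t (l₁ ht) fun _ hz => (ht.2.2 _ (h hz)).symm

include h₂ s₂ l₂ in
theorem ri_eq : (centralizer (Om Q₂ : Set X)).relIndex (Om Q₁) = Q₂.relIndex (Om Q₁) := by
  rw [← inf_relIndex_right, ← inf_relIndex_right Q₂]
  congr 1
  ext z
  exact and_congr_left fun hz => ⟨fun h => h₂.cen _ s₂ z (l₂ hz) fun y hy => h y hy,
    fun h y hy => hy.2.2 z h⟩

include h₁ h₂ s₁ s₂ l₁ l₂ in
theorem pair_aux (hn : ¬ Om Q₂ ≤ Q₁) (hr : Q₂.relIndex (Om Q₁) ≤ Q₁.relIndex (Om Q₂)) :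
    Om Q₂ ⊔ Q₁ = P₁ ∧ Q₁.relIndex (Om Q₂) ≤ Q₂.relIndex (Om Q₁) ∧ NatM G₁ Q₁ P₁ := by
  rw [← ri_eq h₂ s₂ l₂] at hr ⊢
  refine h₁.ff _ s₁ _ l₁ hn (fun a ha => ha.2.1) (fun z hz a ha b hb => ?_) hr
  have : a * z * a⁻¹ * z⁻¹ ∈ Om Q₂ := by
    rw [show a * z * a⁻¹ * z⁻¹ = a * (z * a⁻¹ * z⁻¹) by group]
    exact mul_mem ha (h₂.conj_Om (s₂.le (l₂ hz)) (inv_mem ha))
  exact this.2.2 b hb.1

include h₁ h₂ s₁ s₂ l₁ l₂ in
theorem pair (hn : ¬ Om Q₂ ≤ Q₁) : (Om Q₂ ⊔ Q₁ = P₁ ∧ NatM G₁ Q₁ P₁) ∧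
    (Om Q₁ ⊔ Q₂ = P₂ ∧ NatM G₂ Q₂ P₂) ∧ Q₁.relIndex (Om Q₂) = Q₂.relIndex (Om Q₁) := by
  have hn' := nle_symm h₁ s₁ l₁ hn
  rcases le_total (Q₂.relIndex (Om Q₁)) (Q₁.relIndex (Om Q₂)) with hr | hr
  · obtain ⟨a, b, c⟩ := pair_aux h₁ h₂ s₁ s₂ l₁ l₂ hn hr
    obtain ⟨a', -, c'⟩ := pair_aux h₂ h₁ s₂ s₁ l₂ l₁ hn' b
    exact ⟨⟨a, c⟩, ⟨a', c'⟩, le_antisymm b hr⟩
  · obtain ⟨a', b, c'⟩ := pair_aux h₂ h₁ s₂ s₁ l₂ l₁ hn' hr
    obtain ⟨a, -, c⟩ := pair_aux h₁ h₂ s₁ s₂ l₁ l₂ hn b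
    exact ⟨⟨a, c⟩, ⟨a', c'⟩, le_antisymm hr b⟩

end Pair

/-- A path all of whose subpaths of length `m` are critical. -/
structure Pth (G Q : Subgroup X) (m n : ℕ) (v : ℕ → X) (P : ℕ → Subgroup X) : Prop where
  ph : PH G Q
  non : NoN G
  ne : G ≠ ⊥
  low : ∀ k < m, ¬ Crit G Q k
  pos : 0 < m
  adj : ∀ i < n, Adj G (v i) (P i) (v (i + 1))
  crit : ∀ i, i + m ≤ n → ¬ Om (cj (v (i + m)) Q) ≤ cj (v i) Q
  gen : ∀ i, m ≤ i + 1 → i + 1 < n → P i ⊔ P (i + 1) = cj (v (i + 1)) G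

namespace Pth

variable {G Q : Subgroup X} {m n : ℕ} {v : ℕ → X} {P : ℕ → Subgroup X} (h : Pth G Q m n v P)
include h

theorem le_of_near {k : ℕ} {x y : X} (a : Near G k x y) (hk : k < m) : Om (cj y Q) ≤ cj x Q := by
  by_contra hc
  exact h.low k hk ⟨x, y, a, hc⟩

theorem near {i j : ℕ} (hi : i ≤ n) (hj : j ≤ n) :
    ∃ k, (k + i = j ∨ k + j = i) ∧ Near G k (v i) (v j) := by
  rcases le_total i j with e | e
  · exact ⟨_, Or.inl (by omega), near_of_path h.adj e hj⟩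
  · exact ⟨_, Or.inr (by omega), (near_of_path h.adj e hi).symm⟩

theorem zle (i j : ℕ) (hi : i ≤ n := by omega) (hj : j ≤ n := by omega)
    (h1 : i < j + m := by omega) (h2 : j < i + m := by omega) :
    Om (cj (v i) Q) ≤ cj (v j) Q := by
  obtain ⟨k, e, a⟩ := h.near hj hi
  exact h.le_of_near a (by omega)

theorem pv (i : ℕ) : PH (cj (v i) G) (cj (v i) Q) := h.ph.cj _

theorem sl (i : ℕ) (hi : i < n := by omega) : SylowIn 2 (P i) (cj (v i) G) := (h.adj i hi).1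

theorem sr (i j : ℕ) (hj : j = i + 1 := by omega) (hi : i < n := by omega) :
    SylowIn 2 (P i) (cj (v j) G) := hj ▸ (h.adj i hi).2

theorem ql (i : ℕ) (hi : i < n := by omega) : cj (v i) Q ≤ P i := (h.pv i).le_syl (h.sl i)

theorem qr (i j : ℕ) (hj : j = i + 1 := by omega) (hi : i < n := by omega) :
    cj (v j) Q ≤ P i := (h.pv j).le_syl (h.sr i j)

theorem cr (i j : ℕ) (hj : j = i + m := by omega) (hn : j ≤ n := by omega) :
    ¬ Om (cj (v j) Q) ≤ cj (v i) Q := hj ▸ h.crit i (by omega)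

theorem zP (i j : ℕ) (hj : j = i + m := by omega) (hn : j ≤ n := by omega) :
    Om (cj (v j) Q) ≤ P i :=
  have := h.pos
  (h.zle j (i + 1)).trans (h.qr i (i + 1))

theorem zP' (i j k : ℕ) (hj : j = i + m := by omega) (hk : k + 1 = j := by omega)
    (hn : j ≤ n := by omega) : Om (cj (v i) Q) ≤ P k :=
  have := h.pos
  (h.zle i k).trans (h.ql k)

theorem pr (i j k : ℕ) (hj : j = i + m := by omega) (hk : k + 1 = j := by omega)
    (hn : j ≤ n := by omega) :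
    (Om (cj (v j) Q) ⊔ cj (v i) Q = P i ∧ NatM (cj (v i) G) (cj (v i) Q) (P i)) ∧
    (Om (cj (v i) Q) ⊔ cj (v j) Q = P k ∧ NatM (cj (v j) G) (cj (v j) Q) (P k)) ∧
    (cj (v i) Q).relIndex (Om (cj (v j) Q)) = (cj (v j) Q).relIndex (Om (cj (v i) Q)) :=
  have := h.pos
  pair (h.pv i) (h.pv j) (h.sl i) (h.sr k j) (h.zP i j) (h.zP' i j k) (h.cr i j)

theorem cr' (i j : ℕ) (hj : j = i + m := by omega) (hn : j ≤ n := by omega) :
    ¬ Om (cj (v i) Q) ≤ cj (v j) Q :=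
  have := h.pos
  nle_symm (h.pv i) (h.sl i) (h.zP i j) (h.cr i j)

/-- `P i = Z (i + m) Q i`. -/
theorem dl (i j : ℕ) {x : X} (hx : x ∈ P i) (hj : j = i + m := by omega)
    (hn : j ≤ n := by omega) : ∃ a ∈ Om (cj (v j) Q), ∃ c ∈ cj (v i) Q, a * c = x :=
  have := h.pos
  (h.pv i).dec (h.sl i) (h.pr i j (j - 1)).1.1 hx

/-- `P (i + m - 1) = Z i Q (i + m)`. -/
theorem dr (i j k : ℕ) {x : X} (hx : x ∈ P k) (hj : j = i + m := by omega)
    (hk : k + 1 = j := by omega) (hn : j ≤ n := by omega) :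
    ∃ a ∈ Om (cj (v i) Q), ∃ c ∈ cj (v j) Q, a * c = x :=
  (h.pv j).dec (h.sr k j) (h.pr i j k).2.1.1 hx

theorem ext [Finite X] (hn : m ≤ n) : ∃ v' P', Pth G Q m (n + 1) v' P' := by
  have := h.pos
  obtain ⟨i, rfl⟩ : ∃ i, n = i + m := ⟨n - m, by omega⟩
  obtain ⟨k, hk⟩ : ∃ k, k + 1 = i + m := ⟨i + m - 1, by omega⟩
  obtain ⟨R, hR, e⟩ := (h.pv (i + m)).gen _ (h.sr k (i + m))
  have key : ∃ y, SylowIn 2 R (cj y G) ∧ ¬ Om (cj y Q) ≤ cj (v (i + 1)) Q := by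
    by_contra hc
    simp only [not_exists, not_and, not_not] at hc
    set V : Subgroup X := ⨆ y : {y // SylowIn 2 R (cj y G)}, Om (cj y.1 Q) with hV
    have hz : Om (cj (v (i + m)) Q) ≤ V := le_iSup_of_le ⟨_, hR⟩ le_rfl
    have hVQ : V ≤ cj (v (i + 1)) Q := iSup_le fun y => hc y.1 y.2
    have hN : normalizer (R : Set X) ≤ normalizer (V : Set X) := fun g hg => by
      refine mem_normalizer_of_cj_le ?_
      rw [hV]
      refine (Subgroup.map_iSup _ _).le.trans (iSup_le fun ⟨y, hy⟩ => le_iSup_of_le ⟨g * y, ?_⟩ ?_)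
      · simpa [cj_eq_of_mem_normalizer hg, cj_mul] using hy.cj g
      · exact (Om_cj g _).symm.le.trans (by rw [← cj_mul])
    have hZ : Om (cj (v i) Q) ≤ normalizer (V : Set X) := fun t ht => by
      refine mem_normalizer_of_forall fun w hw => ?_
      obtain ⟨z, hz', c, hc', rfl⟩ := h.dl i (i + m) (h.qr i (i + 1) rfl (by omega) (hVQ hw))
      rw [show t * (z * c) * t⁻¹ = t * z * t⁻¹ * z⁻¹ * (z * (t * c * t⁻¹)) by group,
        (ht.2.2 c hc').eq, mul_inv_cancel_right]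
      exact mul_mem (hz (mul_mem ((h.pv _).conj_Om ((h.sr k (i + m)).le (h.zP' i (i + m) k rfl hk
        le_rfl ht)) hz') (inv_mem hz'))) hw
    refine Om_ne_bot (h.pv (i + m)) (h.non.cj _) (mt cj_eq_bot.1 h.ne) (le_bot_iff.1 (hz.trans
      (h.non.cj _ R hR V (iSup_le fun y => (Om_le _).trans ((h.ph.cj _).le_syl y.2)) ?_ hN).le))
    rw [← e, ← (h.pr i (i + m) k).2.1.1]
    exact sup_le (sup_le hZ (((h.pv _).le_syl hR).trans (le_normalizer.trans hN)))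
      (le_normalizer.trans hN)
  obtain ⟨y, hy, hy'⟩ := key
  refine ⟨Function.update v (i + m + 1) y, Function.update P (i + m) R, h.ph, h.non, h.ne, h.low,
    h.pos, fun j hj => ?_, fun j hj => ?_, fun j hj hj' => ?_⟩
  · rw [Function.update_of_ne (by omega)]
    rcases (show j < i + m ∨ j = i + m by omega) with hj | rfl
    · rw [Function.update_of_ne (by omega), Function.update_of_ne (by omega)]
      exact h.adj j hj
    · rw [Function.update_self, Function.update_self]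
      exact ⟨hR, hy⟩
  · rw [Function.update_of_ne (show j ≠ _ by omega)]
    rcases (show j + m ≤ i + m ∨ j = i + 1 by omega) with hj | rfl
    · rw [Function.update_of_ne (by omega)]
      exact h.crit j hj
    · rwa [show i + 1 + m = i + m + 1 by omega, Function.update_self]
  · rw [Function.update_of_ne (show j ≠ _ by omega), Function.update_of_ne (show j + 1 ≠ i + m + 1
      by omega)]
    rcases (show j + 1 < i + m ∨ j = k by omega) with hj | rfl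
    · rw [Function.update_of_ne (by omega)]
      exact h.gen j (by omega) hj
    · rw [hk, Function.update_self]
      exact e

theorem exists_long [Finite X] (hn : m ≤ n) (N : ℕ) : ∃ v' P', Pth G Q m (n + N) v' P' := by
  induction N with
  | zero => exact ⟨v, P, h⟩
  | succ N ih =>
    obtain ⟨v', P', h'⟩ := ih
    exact h'.ext (by omega)

end Pth

theorem exists_pth [Finite X] {G Q : Subgroup X} (h : PH G Q) (hN : NoN G) (hG : G ≠ ⊥) :
    ∃ m v P, Pth G Q m m v P := by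
  classical
  have hc := exists_crit h hN hG
  obtain ⟨x, y, a, hxy⟩ := Nat.find_spec hc
  obtain ⟨v, P, h0, h1, h2⟩ := a.path
  refine ⟨Nat.find hc, v, P, h, hN, hG, fun k hk => Nat.find_min hc hk, ?_, h2, fun i hi => ?_,
    fun i _ _ => by omega⟩
  · refine Nat.pos_of_ne_zero fun e => hxy ?_
    rw [← h1, e, h0]
    exact Om_le _
  · obtain rfl : i = 0 := by omega
    rwa [zero_add, h0, h1]

end Cfsg.Agent.PU
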