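import Cfsg.Agent.Lib.MP.Pu1

/-!
Pushing up, part 2: the critical distance is one.
-/

set_option autoImplicit false

namespace Cfsg.Agent.PU

open Subgroup Cfsg.Agent.Tr

variable {X : Type*} [Group X]

theorem Adj.cj_left {G P : Subgroup X} {x y g : X} (h : Adj G x P y) (hg : g ∈ Tr.cj y G) :
    Adj G (g * x) (Tr.cj g P) y := ⟨(h.cj g).1, h.2.cj_of_mem hg⟩

theorem conj_mem_Om_cj {Q : Subgroup X} {x z : X} (g : X) (h : z ∈ Om (cj x Q)) :
    g * z * g⁻¹ ∈ Om (cj (g * x) Q) := by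
  rw [cj_mul, Om_cj]; exact conj_mem_cj.2 h

namespace Pth

variable {G Q : Subgroup X} {m n : ℕ} {v : ℕ → X} {P : ℕ → Subgroup X} (h : Pth G Q m n v P)
include h

theorem cP (i j : ℕ) {r : X} (h1 : ∀ y ∈ cj (v i) Q, Commute r y)
    (h2 : ∀ y ∈ Om (cj (v j) Q), Commute r y) (hj : j = i + m := by omega)
    (hn : j ≤ n := by omega) : ∀ y ∈ P i, Commute r y := fun y hy => by
  obtain ⟨a, ha, c, hc, rfl⟩ := h.dl i j hy
  exact (h2 a ha).mul_right (h1 c hc)

theorem cP' (i j k : ℕ) {r : X} (h1 : ∀ y ∈ cj (v j) Q, Commute r y)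
    (h2 : ∀ y ∈ Om (cj (v i) Q), Commute r y) (hj : j = i + m := by omega)
    (hk : k + 1 = j := by omega) (hn : j ≤ n := by omega) : ∀ y ∈ P k, Commute r y :=
  fun y hy => by
    obtain ⟨a, ha, c, hc, rfl⟩ := h.dr i j k hy
    exact (h2 a ha).mul_right (h1 c hc)

theorem r_mem (a b : ℕ) {r : X} (h1 : r ∈ Om (cj (v a) Q)) (h2 : r ∈ Om (cj (v b) Q))
    (hb : b = a + m) (j : ℕ) (hj : a ≤ j) (hj' : j < b) (hn : j + m ≤ n) :
    r ∈ Om (cj (v j) Q) ∧ ∀ y ∈ P j, Commute r y := by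
  have := h.pos
  have key : ∀ j, a ≤ j → j < b → j + m ≤ n → r ∈ Om (cj (v j) Q) → ∀ y ∈ P j, Commute r y :=
    fun j _ _ _ hr => h.cP j (j + m) hr.2.2 fun y hy => h2.2.2 y (h.zle (j + m) b (by omega)
      (by omega) (by omega) (by omega) hy)
  induction j, hj using Nat.le_induction with
  | base => exact ⟨h1, key a le_rfl hj' hn h1⟩
  | succ j hj ih =>
    obtain ⟨i1, i2⟩ := ih (by omega) (by omega)
    have : r ∈ Om (cj (v (j + 1)) Q) := (h.pv _).mem_Om ((h.sr j (j + 1)).le (h.ql j (by omega)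
      i1.1)) i1.2.1 fun y hy => i2 y (h.qr j (j + 1) rfl (by omega) hy)
    exact ⟨this, key _ (by omega) hj' hn this⟩

theorem r_cen (a b : ℕ) {r : X} (h1 : r ∈ Om (cj (v a) Q)) (h2 : r ∈ Om (cj (v b) Q))
    (j : ℕ) (hb : b = a + m := by omega) (hj : a < j := by omega) (hj' : j < b := by omega)
    (ha : m ≤ j := by omega) (hn : j + m ≤ n := by omega) : ∀ g ∈ cj (v j) G, Commute r g := by
  have := h.pos
  obtain ⟨j, rfl⟩ : ∃ k, j = k + 1 := ⟨j - 1, by omega⟩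
  rw [← h.gen j ha (by omega)]
  intro g hg
  have : P j ⊔ P (j + 1) ≤ centralizer {r} := sup_le
    (fun y hy => mem_centralizer_singleton_iff.2
      ((h.r_mem a b h1 h2 hb j (by omega) (by omega) (by omega)).2 y hy).symm)
    (fun y hy => mem_centralizer_singleton_iff.2
      ((h.r_mem a b h1 h2 hb (j + 1) (by omega) (by omega) (by omega)).2 y hy).symm)
  exact (mem_centralizer_singleton_iff.1 (this hg)).symm

theorem comm_mem (i j : ℕ) {x c : X} (hx : x ∈ Om (cj (v i) Q)) (hc : c ∈ P i)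
    (hj : j = i + m := by omega) (hn : j ≤ n := by omega) :
    c * x * c⁻¹ * x⁻¹ ∈ Om (cj (v i) Q) ∧ c * x * c⁻¹ * x⁻¹ ∈ Om (cj (v j) Q) := by
  have := h.pos
  refine ⟨mul_mem ((h.pv i).conj_Om ((h.sl i).le hc) hx) (inv_mem hx), ?_⟩
  obtain ⟨s, hs, c, hc', rfl⟩ := h.dl i j hc
  rw [show s * c * x * (s * c)⁻¹ * x⁻¹ = s * (c * x * c⁻¹ * s⁻¹ * x⁻¹) by group,
    ← (hx.2.2 c hc').eq, mul_inv_cancel_right]
  exact mul_mem hs ((h.pv j).conj_Om ((h.sr (j - 1) j).le (h.zP' i j (j - 1) hj (by omega) hn hx))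
    (inv_mem hs))

theorem star (i : ℕ) (hm : 2 ≤ m) (hi : 2 * m ≤ i) (hn : i + 2 * m ≤ n) {x t : X}
    (hx : x ∈ Om (cj (v i) Q)) (ht : t ∈ Om (cj (v (i + m + 1)) Q)) :
    x * (t * x * t⁻¹) ∈ Om (cj (v (i + 1)) Q) := by
  have xi := Om_inv hx
  have ti := Om_inv ht
  have xQ : x ∈ cj (v (i + 1)) Q := h.zle i (i + 1) (by omega) (by omega) (by omega) (by omega) hx
  have tP : t ∈ P (i + 1) := h.zP (i + 1) (i + m + 1) (by omega) (by omega) ht
  have tG : t ∈ cj (v (i + 1)) G := (h.sl (i + 1)).le tP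
  have xP : x ∈ P (i + m - 1) := h.zP' i (i + m) (i + m - 1) rfl (by omega) (by omega) hx
  have xG : x ∈ cj (v (i + m)) G := (h.sr (i + m - 1) (i + m)).le xP
  have QP : cj (v (i + 1)) Q ≤ P i := h.qr i (i + 1)
  have K : ∀ k ∈ P i, ∀ g ∈ cj (v (i + 1)) G, Commute (k * x * k⁻¹ * x⁻¹) g := fun k hk =>
    h.r_cen i (i + m) (h.comm_mem i (i + m) hx hk).1 (h.comm_mem i (i + m) hx hk).2 (i + 1)
  have K2 : ∀ k ∈ P i, k * x * k⁻¹ * x⁻¹ ∈ Om (cj (v (i + 1)) Q) := fun k hk =>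
    (h.r_mem i (i + m) (h.comm_mem i (i + m) hx hk).1 (h.comm_mem i (i + m) hx hk).2 rfl (i + 1)
      (by omega) (by omega) (by omega)).1
  have x'Q : t * x * t⁻¹ ∈ cj (v (i + 1)) Q := (h.pv _).conj_Q tG xQ
  set y := x * (t * x * t⁻¹) with hy
  have yQ : y ∈ cj (v (i + 1)) Q := mul_mem xQ x'Q
  by_cases htQ : t ∈ cj (v (i + 1)) Q
  · have := (h.pv _).conj_Om ((h.pv _).le xQ) (K2 t (QP htQ))
    rwa [show x * (t * x * t⁻¹ * x⁻¹) * x⁻¹ = x * (t * x * t⁻¹) * (x * x)⁻¹ by group, hx.2.1,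
      inv_one, mul_one] at this
  by_cases hxQ : x ∈ cj (v (i + m)) Q
  · have : x ∈ Om (cj (v (i + 1)) Q) := ⟨xQ, hx.2.1, fun z hz => h.cP i (i + m) hx.2.2
      (fun s hs => (hs.2.2 x hxQ).symm) rfl (by omega) z (QP hz)⟩
    exact mul_mem this ((h.pv _).conj_Om tG this)
  have yt : t * y * t⁻¹ = y⁻¹ := by
    rw [hy, show t * (x * (t * x * t⁻¹)) * t⁻¹ = t * x * t * x * (t * t)⁻¹ by group, ht.2.1,
      show (x * (t * x * t⁻¹))⁻¹ = t * x⁻¹ * t⁻¹ * x⁻¹ by group, xi, ti, inv_one, mul_one]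
  have y' : y = x * t * x⁻¹ * t⁻¹ := by rw [xi, hy]; group
  -- (a)
  have ha : ∀ k ∈ cj (v (i + 1)) Q, Commute k t → Commute y k := fun k hk hkt => by
    have e1 : k * x * k⁻¹ = (k * x * k⁻¹ * x⁻¹) * x := by group
    set r := k * x * k⁻¹ * x⁻¹
    have c1 : Commute r t := K k (QP hk) t tG
    have c2 : Commute r x := K k (QP hk) x ((h.pv _).le xQ)
    have e2 : k * y * k⁻¹ = y := by
      calc k * y * k⁻¹ = k * x * k⁻¹ * (k * t * k⁻¹) * (k * x * k⁻¹) * (k * t * k⁻¹)⁻¹ := by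
            rw [hy]; group
        _ = r * x * (t * r) * x * t⁻¹ := by rw [hkt.eq, mul_inv_cancel_right, e1]; group
        _ = x * (r * r) * (t * x * t⁻¹) := by rw [← c1.eq, c2.eq]; group
        _ = y := by rw [(K2 k (QP hk)).2.1, mul_one]
    exact (show k * y = y * k by rw [← e2]; nth_rewrite 1 [e2]; group).symm
  -- (b)
  have hb : ∀ s ∈ Om (cj (v (i + m + 1)) Q), Commute y s := fun s hs => by
    rcases (show m = 2 ∨ 3 ≤ m by omega) with rfl | hm
    · have y2 : y ∈ cj (v (i + 2)) Q := by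
        have : t ∈ cj (v (i + 2)) Q := h.zle (i + 2 + 1) (i + 2) (by omega) (by omega) (by omega)
          (by omega) ht
        rw [y']; exact mul_mem ((h.pv _).conj_Q xG this) (inv_mem this)
      obtain ⟨z, hz, k, hk, e⟩ := h.dr (i + 1) (i + 2 + 1) (i + 2) (h.ql (i + 2) (by omega) y2)
      have e2 : t * z * t⁻¹ * z⁻¹ = (t * x * t⁻¹ * x * (t * x * t⁻¹)⁻¹ * x⁻¹) := by
        calc t * z * t⁻¹ * z⁻¹ = t * (z * k) * (k⁻¹ * t⁻¹ * k) * (z * k)⁻¹ := by group
          _ = t * y * t⁻¹ * y⁻¹ := by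
            rw [e, mul_assoc k⁻¹, (ht.2.2 k hk).inv_left.eq, inv_mul_cancel_left]
          _ = _ := by
            rw [yt, hy, show (x * (t * x * t⁻¹))⁻¹ = t * x⁻¹ * t⁻¹ * x⁻¹ by group,
              show (t * x * t⁻¹)⁻¹ = t * x⁻¹ * t⁻¹ by group, xi]; group
      have := (h.pr (i + 1) (i + 2 + 1) (i + 2)).1.2 t tP htQ z hz
        (by rw [e2]; exact K _ (QP x'Q)) s (h.zP (i + 1) (i + 2 + 1) (by omega) (by omega) hs)
      rw [← e]
      exact this.mul_left (hs.2.2 k hk).symm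
    · have a : Near G 2 (v (i + m + 1)) (x * v (i + m + 1)) := Near.step
        (h.adj (i + m) (by omega)).symm (Near.step
          ((h.adj (i + m) (by omega)).symm.cj_left xG).symm (Near.refl _))
      rw [y']
      exact (hs.2.2 _ (mul_mem (h.le_of_near a (by omega) (conj_mem_Om_cj x ht))
        (inv_mem ht.1))).symm
  -- (c)
  have hc : ∀ j, i + 3 ≤ j + m → j ≤ i + 1 → ∀ s ∈ Om (cj (v j) Q), Commute y s :=
    fun j h1 h2 s hs => by
      have a : Near G (i + 1 - j + 1) (v j) (t * v i) :=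
        (near_of_path h.adj h2 (by omega)).snoc ((h.adj i (by omega)).cj_left tG).symm
      exact (hs.2.2 _ (mul_mem (h.zle i j (by omega) (by omega) (by omega) (by omega) hx)
        (h.le_of_near a (by omega) (conj_mem_Om_cj t hx)))).symm
  -- (d)
  have hd : ∀ d l, l + d = m + 1 → 2 ≤ l → ∀ k, (∀ j, i + 1 ≤ j → j ≤ i + l → k ∈ cj (v j) Q) →
      Commute y k := by
    intro d
    induction d with
    | zero =>
      exact fun l _ _ k hk => ha k (hk _ le_rfl (by omega))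
        (ht.2.2 k (hk _ (by omega) (by omega))).symm
    | succ d ih =>
      intro l h1 h2 k hk
      obtain ⟨s, hs, c, hc', rfl⟩ := h.dr (i + l + 1 - m) (i + l + 1) (i + l)
        (h.ql (i + l) (by omega) (hk _ (by omega) le_rfl))
      refine (hc _ (by omega) (by omega) s hs).mul_right (ih (l + 1) (by omega) (by omega) c
        fun j j1 j2 => ?_)
      rcases (show j ≤ i + l ∨ j = i + l + 1 by omega) with j2 | rfl
      · exact (mul_mem_cancel_left (h.zle (i + l + 1 - m) j (by omega) (by omega) (by omega)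
          (by omega) hs)).1 (hk j j1 j2)
      · exact hc'
  have hQ2 : ∀ k ∈ cj (v (i + 2)) Q, Commute y k := fun k hk => by
    obtain ⟨s, hs, c, hc', rfl⟩ := h.dl (i + 1) (i + m + 1) (h.qr (i + 1) (i + 2) rfl (by omega) hk)
    refine (hb s hs).mul_right (hd (m - 1) 2 (by omega) le_rfl c fun j j1 j2 => ?_)
    rcases (show j = i + 1 ∨ j = i + 2 by omega) with rfl | rfl
    · exact hc'
    · exact (mul_mem_cancel_left (h.zle (i + m + 1) (i + 2) (by omega) (by omega) (by omega)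
        (by omega) hs)).1 hk
  have y2 : y * y = 1 := by
    rw [← (hb t ht).eq, mul_inv_cancel_right] at yt
    nth_rewrite 1 [yt]; exact inv_mul_cancel y
  have yZ : y ∈ Om (cj (v (i + 2)) Q) := (h.pv _).mem_Om ((h.sr (i + 1) (i + 2)).le
    (h.ql (i + 1) (by omega) yQ)) y2 hQ2
  suffices ∀ s ∈ P (i + 1), Commute y s from
    ⟨yQ, y2, fun s hs => this s (h.ql (i + 1) (by omega) hs)⟩
  rcases (show m = 2 ∨ 3 ≤ m by omega) with rfl | hm
  · refine (h.pr i (i + 2) (i + 1)).2.1.2 x xP hxQ y yZ fun g _ => ?_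
    have : x * y * x⁻¹ * y⁻¹ = 1 := by
      rw [← inv_eq_of_mul_eq_one_right y2, inv_inv, y',
        show x * (x * t * x⁻¹ * t⁻¹)⁻¹ * x⁻¹ * (x * t * x⁻¹ * t⁻¹) = x * t * x * t⁻¹ * x⁻¹ * t * x⁻¹ * t⁻¹ by group,
        ← y2, y', xi, ti]
      group
    rw [this]; exact Commute.one_left g
  · refine h.cP' (i + 2 - m) (i + 2) (i + 1) hQ2 fun a ha' => ?_
    have aQ : a ∈ cj (v (i + 1)) Q := h.zle (i + 2 - m) (i + 1) (by omega) (by omega) (by omega)
      (by omega) ha'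
    have ax : Commute a x := ha'.2.2 x (h.zle i (i + 2 - m) (by omega) (by omega) (by omega)
      (by omega) hx)
    have kQ : t⁻¹ * a * t⁻¹⁻¹ ∈ cj (v (i + 1)) Q := (h.pv _).conj_Q (inv_mem tG) aQ
    set k := t⁻¹ * a * t⁻¹⁻¹ with hk
    have e : a * y * a⁻¹ = x * (k * x * k⁻¹ * x⁻¹) * (t * x * t⁻¹) := by
      calc a * y * a⁻¹ = (a * x * a⁻¹) * (t * (k * x * k⁻¹ * x⁻¹) * t⁻¹) * (t * x * t⁻¹) := by
            rw [hy, hk]; group
        _ = _ := by
          rw [ax.eq, ← (K k (QP kQ) t tG).eq, mul_inv_cancel_right, mul_inv_cancel_right]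
    by_cases hkQ : k ∈ cj (v i) Q
    · rw [← (hx.2.2 k hkQ).eq, mul_inv_cancel_right, mul_inv_cancel, mul_one, ← hy] at e
      exact (show a * y = y * a by rw [← e]; nth_rewrite 1 [e]; group).symm
    · exfalso
      have e' : k * x * k⁻¹ * x⁻¹ = (y * a * y⁻¹ * a⁻¹)⁻¹ := by
        have c := K k (QP kQ) x ((h.pv _).le xQ)
        rw [← c.eq, mul_assoc _ x, ← hy] at e
        rw [eq_mul_inv_of_mul_eq e.symm]
        group
      have cm := h.comm_mem (i + 2 - m) (i + 2) ha'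
        (h.zP (i + 2 - m) (i + 2) (by omega) (by omega) yZ)
      have := (h.pr i (i + m) (i + m - 1)).1.2 k (QP kQ) hkQ x hx
        (by rw [e']; exact h.r_cen _ _ (inv_mem cm.1) (inv_mem cm.2) i)
      exact hxQ ((h.pv _).cen _ (h.sr (i + m - 1) (i + m)) x xP fun z hz =>
        (this z (h.zP i (i + m) rfl (by omega) hz)).symm)

theorem eq_one [Finite X] (hn : m ≤ n) : m = 1 := by
  have := h.pos
  by_contra hm
  obtain ⟨v, P, h⟩ := h.exists_long hn (4 * m)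
  set i := 2 * m
  set W := Om (cj (v i) Q) ⊔ Om (cj (v (i + 1)) Q)
  have hW : ∀ g ∈ cj (v (i + 1)) G, (∀ x ∈ Om (cj (v i) Q), g * x * g⁻¹ ∈ W) →
      g ∈ normalizer (W : Set X) := fun g hg hx => by
    refine mem_normalizer_of_cj_le ?_
    rw [cj_sup]
    exact sup_le (cj_le_iff.2 hx) (cj_le_iff.2 fun x hx => mem_sup_right ((h.pv _).conj_Om hg hx))
  have h1 : P i ≤ normalizer (W : Set X) := fun g hg => hW g ((h.sr i (i + 1)).le hg)
    fun x hx => mem_sup_left ((h.pv _).conj_Om ((h.sl i).le hg) hx)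
  have h2 : P (i + 1) ≤ normalizer (W : Set X) := by
    rw [← (h.pr (i + 1) (i + m + 1) (i + m)).1.1]
    refine sup_le (fun t ht => hW t ((h.sl (i + 1)).le (h.zP (i + 1) (i + m + 1) (by omega)
      (by omega) ht)) fun x hx => ?_) ((h.qr i (i + 1)).trans h1)
    rw [← inv_mul_cancel_left x (t * x * t⁻¹)]
    exact mul_mem (mem_sup_left (inv_mem hx))
      (mem_sup_right (h.star i (by omega) le_rfl (by omega) hx ht))
  obtain ⟨g, hg, e⟩ := (h.sl (i + 1)).exists_cj_eq (h.sr i (i + 1))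
  have hg' : g ∈ normalizer (W : Set X) := by
    rw [← h.gen i (by omega) (by omega)] at hg
    exact sup_le h1 h2 hg
  have a : Near G (i + m - (i + 2) + 1) (g * v i) (v (i + m)) := Near.step (P := P (i + 1))
    ⟨e ▸ ((h.adj i (by omega)).cj g).1, h.sr (i + 1) (i + 2)⟩
    (near_of_path h.adj (by omega) (by omega))
  refine h.cr' i (i + m) rfl (by omega) (le_sup_left.trans (?_ : W ≤ _))
  rw [← cj_eq_of_mem_normalizer hg', cj_sup, ← Om_cj, ← Om_cj, ← cj_mul,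
    cj_eq_of_mem_normalizer ((h.pv _).nrm hg)]
  exact sup_le (h.le_of_near a.symm (by omega)) (h.zle (i + 1) (i + m))

end Pth

end Cfsg.Agent.PU
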