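import Cfsg.Agent.Lib.MP.Pu2

/-!
Pushing up, part 3: the theorem, in an ambient group and for a set of automorphisms of the Sylow
subgroup.
-/

set_option autoImplicit false

namespace Cfsg.Agent.PU

open Subgroup Cfsg.Agent.Tr

variable {X : Type*} [Group X] {G Q T : Subgroup X}

/-- The conclusion of the pushing up theorem: `Ω₁ Z(Q)` is natural modulo fixed points and
contains `[Q, O²(G)]`. -/
structure Blk (G Q T : Subgroup X) : Prop where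
  nat : NatM G Q T
  idx : (centralizer (T : Set X)).relIndex (Om Q) = Q.relIndex T
  dec : ∀ g ∈ G, ∃ c ∈ Q, ∀ y ∈ Q, g * c * y * (g * c)⁻¹ * y⁻¹ ∈ Om Q
  odd : ∀ g ∈ G, Odd (orderOf g) → ∀ y ∈ Q, g * y * g⁻¹ * y⁻¹ ∈ Om Q

theorem ri_sup {A B : Subgroup X} (h : A ≤ normalizer (B : Set X)) :
    B.relIndex (A ⊔ B) = B.relIndex A := by
  have := normal_subgroupOf_sup_of_le_normalizer h
  rw [← relIndex_subgroupOf (le_refl (A ⊔ B)), ← relIndex_subgroupOf (le_sup_left : A ≤ A ⊔ B),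
    subgroupOf_sup le_sup_left le_sup_right, relIndex_sup_right]

/-- The elements of `G` acting trivially on `Q / Ω₁ Z(Q)`. -/
def Tv (h : PH G Q) : Subgroup X where
  carrier := {g | g ∈ G ∧ ∀ y ∈ Q, g * y * g⁻¹ * y⁻¹ ∈ Om Q}
  one_mem' := ⟨one_mem _, fun y _ => by simp⟩
  mul_mem' := fun {a b} ha hb => ⟨mul_mem ha.1 hb.1, fun y hy => by
    rw [show a * b * y * (a * b)⁻¹ * y⁻¹ =
      a * (b * y * b⁻¹ * y⁻¹) * a⁻¹ * (a * y * a⁻¹ * y⁻¹) by group]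
    exact mul_mem (h.conj_Om ha.1 (hb.2 y hy)) (ha.2 y hy)⟩
  inv_mem' := fun {a} ha => ⟨inv_mem ha.1, fun y hy => by
    rw [show a⁻¹ * y * a⁻¹⁻¹ * y⁻¹ = a⁻¹ * (a * y * a⁻¹ * y⁻¹)⁻¹ * a⁻¹⁻¹ by group]
    exact h.conj_Om (inv_mem ha.1) (inv_mem (ha.2 y hy))⟩

theorem conj_Tv (h : PH G Q) {g a : X} (hg : g ∈ G) (ha : a ∈ Tv h) : g * a * g⁻¹ ∈ Tv h :=
  ⟨mul_mem (mul_mem hg ha.1) (inv_mem hg), fun y hy => by
    rw [show g * a * g⁻¹ * y * (g * a * g⁻¹)⁻¹ * y⁻¹ =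
      g * (a * (g⁻¹ * y * g⁻¹⁻¹) * a⁻¹ * (g⁻¹ * y * g⁻¹⁻¹)⁻¹) * g⁻¹ by group]
    exact h.conj_Om hg (ha.2 _ (h.conj_Q (inv_mem hg) hy))⟩

theorem blk_of [Finite X] {G' Q' : Subgroup X} (h : PH G Q) (h' : PH G' Q') (s : SylowIn 2 T G)
    (s' : SylowIn 2 T G') (hn : ¬ Om Q' ≤ Q) : Blk G Q T := by
  have l : Om Q' ≤ T := (Om_le _).trans (h'.le_syl s')
  have l' : Om Q ≤ T := (Om_le _).trans (h.le_syl s)
  obtain ⟨⟨e, nat⟩, ⟨e', -⟩, r⟩ := pair h h' s s' l l' hn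
  have hZ : Om Q' ≤ Tv h := fun t ht => ⟨s.le (l ht), fun y hy => by
    obtain ⟨z, hz, c, hc, rfl⟩ := h'.dec s' e' (h.le_syl s hy)
    rw [show t * (z * c) * t⁻¹ * (z * c)⁻¹ = t * z * (c * t⁻¹ * c⁻¹) * z⁻¹ by group,
      ← (ht.2.2 c hc).inv_left.eq, mul_inv_cancel_right]
    exact mul_mem (h.conj_Om (s.le (l ht)) hz) (inv_mem hz)⟩
  have hn : G ≤ normalizer (Tv h : Set X) := fun g hg =>
    mem_normalizer_of_forall fun a ha => conj_Tv h hg ha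
  have hG : G ≤ Tv h ⊔ Q := by
    obtain ⟨T', s'', e''⟩ := h.gen T s
    obtain ⟨g, hg, rfl⟩ := s''.exists_cj_eq s
    refine e''.symm.le.trans ?_
    rw [← e, cj_sup, cj_eq_of_mem_normalizer (h.nrm hg)]
    exact sup_le (sup_le_sup_right hZ _) (sup_le_sup_right
      (cj_le_iff.2 fun a ha => conj_Tv h hg (hZ ha)) _)
  have dec : ∀ g ∈ G, ∃ a ∈ Tv h, ∃ c ∈ Q, a * c = g := fun g hg =>
    (mem_sup_of_le_normalizer' (h.le.trans hn)).1 (hG hg)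
  refine ⟨nat, ?_, fun g hg => ?_, fun g hg ho => ?_⟩
  · have : Q.relIndex T = Q.relIndex (Om Q') := by
      rw [← e, ri_sup (l.trans (s.le.trans h.nrm))]
    rw [this, r, ← ri_eq h' s' l', ← inf_relIndex_right, ← inf_relIndex_right (centralizer _)]
    congr 1
    ext z
    refine and_congr_left fun hz => ⟨fun hc y hy => hc y (l hy), fun hc y hy => ?_⟩
    obtain ⟨a, ha, c, hc', rfl⟩ := h.dec s e hy
    exact ((show Commute z a from (hc a ha).symm).mul_right (hz.2.2 c hc')).symm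
  · obtain ⟨a, ha, c, hc, rfl⟩ := dec g hg
    exact ⟨c⁻¹, inv_mem hc, by simpa using ha.2⟩
  · obtain ⟨a, ha, c, hc, rfl⟩ := dec g hg
    have key : ∀ n : ℕ, (a * c) ^ n * (c ^ n)⁻¹ ∈ Tv h := fun n => by
      induction n with
      | zero => simp
      | succ n ih =>
        rw [show (a * c) ^ (n + 1) * (c ^ (n + 1))⁻¹ = (a * c) ^ n * (c ^ n)⁻¹ *
          (c ^ n * a * (c ^ n)⁻¹) by rw [pow_succ, pow_succ]; group]
        exact mul_mem ih (conj_Tv h (pow_mem (h.le hc) n) ha)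
    obtain ⟨k, hk⟩ := isPGroup_iff_forall_mem.1 h.pg c hc
    have := key (2 ^ k)
    rw [hk, inv_one, mul_one] at this
    obtain ⟨j, hj⟩ := exists_pow_eq_self_of_coprime (x := a * c) (n := 2 ^ k)
      (Nat.Coprime.pow_left k ((Nat.coprime_two_left).2 ho))
    exact (hj ▸ pow_mem this j : a * c ∈ Tv h).2

/-- Pushing up in an ambient group. -/
theorem pu [Finite X] (h : PH G Q) (hT : SylowIn 2 T G) (hG : G ≠ ⊥)
    (hN : ∀ W ≤ T, G ≤ normalizer (W : Set X) →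
      normalizer (T : Set X) ≤ normalizer (W : Set X) → W = ⊥) :
    Blk G Q T ∧ ∃ n ∈ normalizer (T : Set X), ¬ Om (cj n Q) ≤ Q := by
  obtain ⟨m, v, P, p⟩ := exists_pth h (noN_of hT hN) hG
  obtain rfl := p.eq_one le_rfl
  obtain ⟨g, hg, e⟩ := hT.exists_cj_eq (syl_inv (p.sl 0))
  have s : SylowIn 2 T (cj (g * (v 0)⁻¹ * v 1) G) := by
    rw [← e, ← cj_mul, cj_mul _ (v 1)]; exact (p.sr 0 1).cj _
  obtain ⟨k, hk, e'⟩ := (syl_inv s).exists_cj_eq hT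
  have hn : ¬ Om (cj (g * (v 0)⁻¹ * v 1) Q) ≤ Q := fun hc => p.cr 0 1 (by omega) le_rfl <| by
    rw [cj_mul, Om_cj, cj_le_iff_le_cj_inv, mul_inv_rev, inv_inv, cj_mul,
      cj_eq_of_mem_normalizer (h.nrm (inv_mem hg))] at hc
    exact hc
  refine ⟨blk_of h (h.cj _) hT s hn, g * (v 0)⁻¹ * v 1 * k, ?_, ?_⟩
  · rw [← cj_eq_iff, cj_mul, e', cj_cj_inv]
  · rwa [cj_mul, cj_eq_of_mem_normalizer (h.nrm hk)]

section Map

variable {Y : Type*} [Group Y] {f : X →* Y} (hf : Function.Injective f)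
include hf

theorem commute_map {a b : X} : Commute (f a) (f b) ↔ Commute a b :=
  ⟨fun h => hf (by rw [map_mul, map_mul, h.eq]), fun h => h.map f⟩

theorem Om_map (Q : Subgroup X) : Om (Q.map f) = (Om Q).map f := by
  ext z
  constructor
  · rintro ⟨⟨z, hz, rfl⟩, h2, h3⟩
    exact ⟨z, ⟨hz, hf (by rw [map_mul, h2, map_one]), fun y hy =>
      (commute_map hf).1 (h3 _ ⟨y, hy, rfl⟩)⟩, rfl⟩
  · rintro ⟨z, ⟨h1, h2, h3⟩, rfl⟩
    exact ⟨⟨z, h1, rfl⟩, by rw [← map_mul, h2, map_one], by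
      rintro _ ⟨y, hy, rfl⟩; exact (h3 y hy).map f⟩

theorem ri_map (A Z : Subgroup X) : (centralizer (A.map f : Set Y)).relIndex (Z.map f) =
    (centralizer (A : Set X)).relIndex Z := by
  rw [← relIndex_comap]
  congr 1
  ext z
  exact ⟨fun h a ha => (commute_map hf).1 (h _ ⟨a, ha, rfl⟩), by
    rintro h _ ⟨a, ha, rfl⟩; exact (commute_map hf).2 (h a ha)⟩

theorem syl_map {P G : Subgroup X} : SylowIn 2 (P.map f) (G.map f) ↔ SylowIn 2 P G := by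
  rw [SylowIn, SylowIn, map_le_map_iff_of_injective hf, relIndex_map_map_of_injective _ _ hf]
  exact and_congr_right fun _ => and_congr_left fun _ =>
    ⟨fun h => h.of_equiv (P.equivMapOfInjective f hf).symm, fun h => h.map f⟩

theorem natM_map {P : Subgroup X} : NatM (G.map f) (Q.map f) (P.map f) ↔ NatM G Q P := by
  constructor
  · intro h t ht htQ z hz hc s hs
    refine (commute_map hf).1 (h _ ⟨t, ht, rfl⟩ (mt (mem_map_iff_mem hf).1 htQ) _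
      (by rw [Om_map hf]; exact ⟨z, hz, rfl⟩) ?_ _ ⟨s, hs, rfl⟩)
    rintro _ ⟨g, hg, rfl⟩
    simpa using (hc g hg).map f
  · rintro h _ ⟨t, ht, rfl⟩ htQ z hz hc _ ⟨s, hs, rfl⟩
    rw [Om_map hf] at hz
    obtain ⟨z, hz, rfl⟩ := hz
    refine (h t ht (mt (mem_map_iff_mem hf).2 htQ) z hz (fun g hg => (commute_map hf).1 ?_) s
      hs).map f
    simpa using hc _ ⟨g, hg, rfl⟩

omit hf in
theorem eq_map {A : Subgroup Y} (h : A ≤ G.map f) : ∃ B, A = Subgroup.map f B :=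
  ⟨_, (map_comap_eq_self (h.trans (map_le_range f G))).symm⟩

theorem PH.map (h : PH G Q) : PH (G.map f) (Q.map f) where
  le := map_mono h.le
  nrm := (map_mono h.nrm).trans (le_normalizer_map f)
  pg := h.pg.map f
  cc := by
    rintro _ ⟨g, hg, rfl⟩ hc
    exact ⟨g, h.cc g hg fun y hy => (commute_map hf).1 (hc _ ⟨y, hy, rfl⟩), rfl⟩
  gen P hP := by
    obtain ⟨P, rfl⟩ := eq_map hP.le
    obtain ⟨P', h1, h2⟩ := h.gen P ((syl_map hf).1 hP)
    exact ⟨_, (syl_map hf).2 h1, by rw [← Subgroup.map_sup, h2]⟩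
  cen P hP := by
    obtain ⟨P, rfl⟩ := eq_map hP.le
    rintro _ ⟨t, ht, rfl⟩ hc
    exact ⟨t, h.cen P ((syl_map hf).1 hP) t ht fun z hz => (commute_map hf).1
      (hc _ (by rw [Om_map hf]; exact ⟨z, hz, rfl⟩)), rfl⟩
  ff P hP A hA hAQ h2 hq hr := by
    obtain ⟨A, rfl⟩ := eq_map (hA.trans hP.le)
    obtain ⟨P, rfl⟩ := eq_map hP.le
    rw [Om_map hf, ri_map hf, relIndex_map_map_of_injective _ _ hf] at *
    obtain ⟨e1, e2, e3⟩ := h.ff P ((syl_map hf).1 hP) A ((map_le_map_iff_of_injective hf).1 hA)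
      (mt map_mono hAQ) (fun a ha => hf (by rw [map_mul, h2 _ ⟨a, ha, rfl⟩, map_one]))
      (fun z hz a ha b hb => (commute_map hf).1
        (by simpa using hq _ ⟨z, hz, rfl⟩ _ ⟨a, ha, rfl⟩ _ ⟨b, hb, rfl⟩)) hr
    exact ⟨by rw [← Subgroup.map_sup, e1], e2, (natM_map hf).2 e3⟩

theorem Blk.of_map (h : Blk (G.map f) (Q.map f) (T.map f)) : Blk G Q T where
  nat := (natM_map hf).1 h.nat
  idx := by
    have := h.idx
    rwa [Om_map hf, ri_map hf, relIndex_map_map_of_injective _ _ hf] at this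
  dec g hg := by
    obtain ⟨_, ⟨c, hc, rfl⟩, e⟩ := h.dec _ ⟨g, hg, rfl⟩
    refine ⟨c, hc, fun y hy => (mem_map_iff_mem hf).1 ?_⟩
    simpa [Om_map hf] using e _ ⟨y, hy, rfl⟩
  odd g hg ho y hy := (mem_map_iff_mem hf).1 <| by
    simpa [Om_map hf] using h.odd _ ⟨g, hg, rfl⟩ (by rwa [orderOf_injective f hf]) _ ⟨y, hy, rfl⟩

end Map

/-- Automorphisms of a subgroup are induced in the symmetric group. -/
theorem exists_perm (T : Subgroup X) (α : MulAut T) : ∃ n : Equiv.Perm X, ∀ t : T,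
    n * MulAction.toPermHom X X t * n⁻¹ = MulAction.toPermHom X X (α t) := by
  obtain ⟨R, hR, -⟩ := T.exists_isComplement_right 1
  refine ⟨hR.equiv.trans ((α.toEquiv.prodCongr (Equiv.refl _)).trans hR.equiv.symm), fun t => ?_⟩
  rw [mul_inv_eq_iff_eq_mul]
  ext x
  apply hR.equiv.injective
  simp [hR.equiv_mul_left]

theorem perm_norm [Finite X] {n : Equiv.Perm X} {α : MulAut T} (hn : ∀ t : T,
    n * MulAction.toPermHom X X t * n⁻¹ = MulAction.toPermHom X X (α t)) :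
    n ∈ normalizer (T.map (MulAction.toPermHom X X) : Set (Equiv.Perm X)) := by
  refine mem_normalizer_of_forall ?_
  rintro _ ⟨t, ht, rfl⟩
  exact ⟨_, (α ⟨t, ht⟩).2, (hn ⟨t, ht⟩).symm⟩

/-- Pushing up for a set `𝒜` of automorphisms of the Sylow subgroup. -/
theorem pu_aut [Finite X] (h : PH G Q) (hT : SylowIn 2 T G) (hG : G ≠ ⊥) (𝒜 : Set (MulAut T))
    (hN : ∀ W ≤ T, G ≤ normalizer (W : Set X) →
      (∀ α ∈ 𝒜, ∀ w : T, (w : X) ∈ W → (α w : X) ∈ W) → W = ⊥) : Blk G Q T := by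
  have hf : Function.Injective (MulAction.toPermHom X X) := MulAction.toPerm_injective
  refine (pu (h.map hf) ((syl_map hf).2 hT) (mt (map_eq_bot_iff_of_injective _ hf).1 hG)
    fun W hW h1 h2 => ?_).1.of_map hf
  obtain ⟨W, rfl⟩ := eq_map hW
  have hW' := (map_le_map_iff_of_injective hf).1 hW
  rw [hN W hW' (fun g hg => mem_normalizer_of_forall fun a ha => (mem_map_iff_mem hf).1 ?_)
    fun α _ w hw => (mem_map_iff_mem hf).1 ?_, Subgroup.map_bot]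
  · rw [map_mul, map_mul, map_inv]
    exact conj_mem_of_mem_normalizer (h1 ⟨g, hg, rfl⟩) ⟨a, ha, rfl⟩
  · obtain ⟨n, hn⟩ := exists_perm T α
    rw [← hn]
    exact conj_mem_of_mem_normalizer (h2 (perm_norm hn)) ⟨_, hw, rfl⟩

/-- An automorphism of `T` moving `Z = Ω₁ Z(Q)` out of `Q`: `T = Z^α Q = Z Q^α`. -/
theorem two [Finite X] (h : PH G Q) (hT : SylowIn 2 T G) (α : MulAut T) {z : T}
    (hz : (z : X) ∈ Om Q) (hz' : (α z : X) ∉ Q) (t : T) :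
    (∃ a : T, (a : X) ∈ Om Q ∧ ∃ c : T, (c : X) ∈ Q ∧ α a * c = t) ∧
    ∃ a : T, (a : X) ∈ Om Q ∧ ∃ c : T, (c : X) ∈ Q ∧ a * α c = t := by
  have hf : Function.Injective (MulAction.toPermHom X X) := MulAction.toPerm_injective
  obtain ⟨n, hn⟩ := exists_perm T α
  have s := (syl_map hf).2 hT
  have s' := s.cj n
  rw [cj_eq_of_mem_normalizer (perm_norm hn)] at s'
  have h1 := h.map hf
  have h2 := h1.cj n
  have l := h.le_syl hT
  obtain ⟨⟨e, -⟩, ⟨e', -⟩, -⟩ := pair h1 h2 s s' ((Om_le _).trans (h2.le_syl s'))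
    ((Om_le _).trans (h1.le_syl s)) fun hc => hz' ((mem_map_iff_mem hf).1 (hc (by
      rw [← hn, Om_cj, Om_map hf]; exact conj_mem_cj.2 ⟨_, hz, rfl⟩)))
  constructor
  · obtain ⟨a, ha, _, ⟨c, hc, rfl⟩, e⟩ := h1.dec s e ⟨_, t.2, rfl⟩
    rw [Om_cj, Om_map hf, mem_cj'] at ha
    obtain ⟨_, ⟨a, ha, rfl⟩, rfl⟩ := ha
    refine ⟨⟨a, l ha.1⟩, ha, ⟨c, l hc⟩, hc, Subtype.ext (hf ?_)⟩
    rw [← e, coe_mul, map_mul, ← hn]
  · obtain ⟨a, ha, c, hc, e⟩ := h2.dec s' e' ⟨_, t.2, rfl⟩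
    rw [Om_map hf] at ha
    obtain ⟨a, ha, rfl⟩ := ha
    obtain ⟨_, ⟨c, hc', rfl⟩, rfl⟩ := mem_cj'.1 hc
    refine ⟨⟨a, l ha.1⟩, ha, ⟨c, l hc'⟩, hc', Subtype.ext (hf ?_)⟩
    rw [← e, coe_mul, map_mul, ← hn]

end Cfsg.Agent.PU
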