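import Cfsg.Agent.Lib.MP.Defs

/-!
Basic lemmas on groups of automorphisms of an elementary abelian 2-group.
-/

set_option autoImplicit false
set_option linter.unusedSectionVars false

namespace Cfsg.Agent.MP.Rk

open Subgroup Cfsg.Agent.Tr

section Count

variable {X Y : Type*} [Group X] [Group Y] [Finite X] [Finite Y]

theorem ri_le {D B : Subgroup X} {A C : Subgroup Y} (f : X → Y) (hf : ∀ d ∈ D, f d ∈ A)
    (hi : ∀ d ∈ D, ∀ e ∈ D, (f d)⁻¹ * f e ∈ C → d⁻¹ * e ∈ B) :
    B.relIndex D ≤ C.relIndex A ∧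
      (C.relIndex A ≤ B.relIndex D → ∀ w ∈ A, ∃ d ∈ D, (f d)⁻¹ * w ∈ C) := by
  let g : D ⧸ B.subgroupOf D → A ⧸ C.subgroupOf A := fun q =>
    QuotientGroup.mk ⟨f q.out, hf _ q.out.2⟩
  have hg : Function.Injective g := fun p q h => by
    rw [← p.out_eq, ← q.out_eq]
    have k := QuotientGroup.eq.1 h
    exact QuotientGroup.eq.2 (hi _ p.out.2 _ q.out.2 k)
  refine ⟨Nat.card_le_card_of_injective g hg, fun h w hw => ?_⟩
  obtain ⟨q, hq⟩ := ((Nat.bijective_iff_injective_and_card g).2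
    ⟨hg, le_antisymm (Nat.card_le_card_of_injective g hg) h⟩).2 (QuotientGroup.mk ⟨w, hw⟩)
  have k := QuotientGroup.eq.1 hq
  exact ⟨_, q.out.2, k⟩

theorem ri_pos (A B : Subgroup X) : 0 < A.relIndex B :=
  Nat.pos_of_ne_zero (index_ne_zero_of_finite (H := A.subgroupOf B))

theorem ri_left {A B C : Subgroup X} (h : A ⊓ C ≤ B) : B.relIndex C ≤ A.relIndex C := by
  rw [← inf_relIndex_right A]
  exact relIndex_le_of_le_left h (ri_pos _ _).ne'

theorem ri_right {A B C : Subgroup X} (h : B ≤ C) : A.relIndex B ≤ A.relIndex C :=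
  relIndex_le_of_le_right h (ri_pos _ _).ne'

theorem ri_le_index (A B : Subgroup X) : A.relIndex B ≤ A.index := by
  rw [← relIndex_top_right]; exact ri_right le_top

/-- Equality in `ri_left`. -/
theorem le_of_ri {A B C : Subgroup X} (h : A ⊓ C ≤ B) (e : A.relIndex C ≤ B.relIndex C) :
    B ⊓ C ≤ A := by
  have h1 := card_inf_mul_relIndex A C
  have h2 := card_inf_mul_relIndex B C
  have h3 : A ⊓ C = B ⊓ C := eq_of_le_of_card_ge (le_inf h inf_le_right) (by
    have := ri_pos B C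
    nlinarith [Nat.card_pos (α := (A ⊓ C : Subgroup X))])
  rw [← h3]; exact inf_le_left

/-- Equality in `ri_right`. -/
theorem cover {A B C : Subgroup X} (h : B ≤ C) (e : A.relIndex C ≤ A.relIndex B) :
    ∀ w ∈ C, ∃ b ∈ B, b⁻¹ * w ∈ A := by
  have := (ri_le (D := B) (B := A) (A := C) (C := A) id (fun d hd => h hd)
    (fun _ _ _ _ k => k)).2 e
  exact this

theorem exists_min {α : Type*} [Finite α] [PartialOrder α] (p : α → Prop) {a : α} (h : p a) :
    ∃ b, p b ∧ ∀ c, p c → c ≤ b → c = b := by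
  obtain ⟨b, hb⟩ := exists_minimal_of_wellFoundedLT p ⟨a, h⟩
  exact ⟨b, hb.1, fun c hc k => le_antisymm k (hb.2 hc k)⟩

theorem le_sup_of_pow {F F' P L : Subgroup X} (hP : SylowIn 2 P L) (h1 : F' ≤ L)
    (h2 : P ≤ normalizer (F' : Set X)) (h3 : F ≤ F') (h4 : F' ≤ normalizer (F : Set X))
    (h5 : ∀ x ∈ F', ∃ k, x ^ 2 ^ k ∈ F) : F' ≤ F ⊔ P := by
  haveI : (F.subgroupOf F').Normal := (normal_subgroupOf_iff_le_normalizer h3).2 h4
  have : IsPGroup 2 (F' ⧸ F.subgroupOf F') := fun q => by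
    obtain ⟨x, rfl⟩ := QuotientGroup.mk_surjective q
    obtain ⟨k, hk⟩ := h5 x x.2
    exact ⟨k, by rw [← QuotientGroup.mk_pow, QuotientGroup.eq_one_iff]; exact hk⟩
  obtain ⟨k, hk⟩ := IsPGroup.iff_card.1 this
  intro x hx
  obtain ⟨a, ha, b, hb, rfl⟩ := (hP.inf_of_le_normalizer h1 h2).exists_mul_of_relIndex_pow h3 hk hx
  exact mul_mem (mem_sup_left ha) (mem_sup_right hb.1)

theorem exists_odd_pow (x : X) : ∃ k, Odd (orderOf (x ^ 2 ^ k)) := by
  obtain ⟨k, m, hm, e⟩ := Nat.exists_eq_two_pow_mul_odd (orderOf_pos x).ne'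
  refine ⟨k, ?_⟩
  rw [orderOf_pow_of_dvd (by positivity) ⟨m, e⟩, e, Nat.mul_div_cancel_left _ (by positivity)]
  exact hm

theorem pg_of_sq {D : Subgroup X} (h : ∀ d ∈ D, d * d = 1) : IsPGroup 2 D :=
  isPGroup_iff_forall_mem.2 fun x hx => ⟨1, by simpa [pow_two] using h x hx⟩

theorem comm_of_sq {D : Subgroup X} (h : ∀ d ∈ D, d * d = 1) {a b : X} (ha : a ∈ D) (hb : b ∈ D) :
    a * b = b * a := by
  have := h _ (mul_mem ha hb)
  calc a * b = a * ((a * b * (a * b)) * b) * 1 * 1 * (a * a)⁻¹ * (a * a) := by rw [this]; group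
    _ = (a * a) * b * a * (b * b) := by group
    _ = b * a := by rw [h a ha, h b hb]; group

theorem inv_of_sq {D : Subgroup X} (h : ∀ d ∈ D, d * d = 1) {a : X} (ha : a ∈ D) : a⁻¹ = a :=
  inv_eq_of_mul_eq_one_right (h a ha)

end Count

section Fx

variable {V : Type*} [Group V] {D E : Subgroup (MulAut V)} {g : MulAut V} {v : V}

theorem fx_anti (h : D ≤ E) : fx E ≤ fx D := fun _ hv d hd => hv d (h hd)

theorem mem_fx_cj : v ∈ fx (cj g D) ↔ g⁻¹ v ∈ fx D := by
  constructor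
  · intro h d hd
    have := h _ (conj_mem_cj.2 hd)
    simp only [MulAut.mul_apply] at this
    exact g.injective (this.trans (MulAut.apply_inv_self _ g v).symm)
  · intro h d hd
    have := h _ (mem_cj.1 hd)
    simp only [MulAut.mul_apply, MulAut.apply_inv_self] at this
    exact (g⁻¹).injective this

theorem app_mem_fx_cj : g v ∈ fx (cj g D) ↔ v ∈ fx D := by
  rw [mem_fx_cj, MulAut.inv_apply_self]

theorem fx_cj (g : MulAut V) (D : Subgroup (MulAut V)) :
    fx (cj g D) = (fx D).map g.toMonoidHom := by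
  ext v
  rw [mem_fx_cj, mem_map_equiv]; rfl

theorem index_fx_cj (g : MulAut V) (D : Subgroup (MulAut V)) :
    (fx (cj g D)).index = (fx D).index := by
  rw [fx_cj]; exact index_map_of_bijective g.bijective _

theorem card_fx_cj (g : MulAut V) (D : Subgroup (MulAut V)) :
    Nat.card (fx (cj g D)) = Nat.card (fx D) := by
  rw [fx_cj]; exact card_map_of_injective g.injective

theorem fx_app (h : g ∈ normalizer (D : Set (MulAut V))) (hv : v ∈ fx D) : g v ∈ fx D := by
  rw [← cj_eq_of_mem_normalizer h]; exact app_mem_fx_cj.2 hv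

/-- The pointwise stabilizer. -/
def st (U : Subgroup V) : Subgroup (MulAut V) where
  carrier := {g | ∀ u ∈ U, g u = u}
  one_mem' := fun _ _ => rfl
  mul_mem' := fun ha hb u hu => by rw [MulAut.mul_apply, hb u hu, ha u hu]
  inv_mem' := fun {g} ha u hu => by nth_rewrite 1 [← ha u hu]; exact MulAut.inv_apply_self ..

theorem le_fx_iff {U : Subgroup V} : U ≤ fx D ↔ D ≤ st U :=
  ⟨fun h d hd u hu => h hu d hd, fun h u hu d hd => h hd u hu⟩

theorem fx_sup : fx (D ⊔ E) = fx D ⊓ fx E :=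
  le_antisymm (le_inf (fx_anti le_sup_left) (fx_anti le_sup_right))
    (le_fx_iff.2 (sup_le (le_fx_iff.1 inf_le_left) (le_fx_iff.1 inf_le_right)))

theorem fx_bot : fx (⊥ : Subgroup (MulAut V)) = ⊤ :=
  eq_top_iff.2 fun v _ d hd => by rw [mem_bot.1 hd]; rfl

theorem eq_bot_of_fx (h : ∀ v, v ∈ fx D) : D = ⊥ :=
  eq_bot_iff.2 fun d hd => mem_bot.2 (MulEquiv.ext fun v => h v d hd)

theorem conj_app (g d : MulAut V) (v : V) :
    (g * d * g⁻¹) (g v) * g v = g (d v * v) := by simp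

theorem _root_.Cfsg.Agent.MP.Good.cj (h : Good D) (g : MulAut V) : Good (cj g D) where
  ne := mt cj_eq_bot.1 h.ne
  sq d hd := by
    obtain ⟨a, ha, rfl⟩ := mem_cj'.1 hd
    calc g * a * g⁻¹ * (g * a * g⁻¹) = g * (a * a) * g⁻¹ := by group
      _ = 1 := by rw [h.sq a ha]; group
  quad d hd v := by
    obtain ⟨a, ha, rfl⟩ := mem_cj'.1 hd
    obtain ⟨v, rfl⟩ := g.surjective v
    rw [conj_app]; exact app_mem_fx_cj.2 (h.quad a ha v)
  off := by rw [index_fx_cj, card_cj]; exact h.off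
  min E hE hne := by
    have := h.min (Tr.cj g⁻¹ E) (by rw [← cj_inv_cj g D]; exact cj_lt_cj.2 hE) (mt cj_eq_bot.1 hne)
    rwa [index_fx_cj, card_cj] at this

theorem _root_.Cfsg.Agent.MP.Hf.cj {D' : Subgroup (MulAut V)} (h : Hf D D') (g : MulAut V) :
    Hf (cj g D) (cj g D') where
  ne := mt cj_eq_bot.1 h.ne
  sq d hd := by
    obtain ⟨a, ha, rfl⟩ := mem_cj'.1 hd
    calc g * a * g⁻¹ * (g * a * g⁻¹) = g * (a * a) * g⁻¹ := by group
      _ = 1 := by rw [h.sq a ha]; group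
  quad d hd v := by
    obtain ⟨a, ha, rfl⟩ := mem_cj'.1 hd
    obtain ⟨v, rfl⟩ := g.surjective v
    rw [conj_app]; exact app_mem_fx_cj.2 (h.quad a ha v)
  idx := by rw [index_fx_cj, card_cj]; exact h.idx
  inj d hd h1 v hv := by
    obtain ⟨a, ha, rfl⟩ := mem_cj'.1 hd
    obtain ⟨v, rfl⟩ := g.surjective v
    rw [conj_app, app_mem_fx_cj]
    exact h.inj a ha (by rintro rfl; simp at h1) v (mt app_mem_fx_cj.2 hv)
  surj v hv w hw := by
    obtain ⟨v, rfl⟩ := g.surjective v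
    obtain ⟨w, rfl⟩ := g.surjective w
    obtain ⟨d, hd, e⟩ := h.surj v (mt app_mem_fx_cj.2 hv) w (app_mem_fx_cj.1 hw)
    exact ⟨_, conj_mem_cj.2 hd, by rw [conj_app, ← map_mul]; exact app_mem_fx_cj.2 e⟩

end Fx

section Two

variable {V : Type*} [CommGroup V] (hV : ∀ v : V, v * v = 1)
include hV

theorem sq' (a b : V) : a * (a * b) = b := by rw [← mul_assoc, hV, one_mul]

theorem iv (a : V) : a⁻¹ = a := inv_eq_of_mul_eq_one_right (hV a)

theorem eq_of_mul {a b : V} (h : a * b = 1) : a = b := by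
  rw [← iv hV b]; exact eq_inv_of_mul_eq_one_left h

omit hV in
theorem cm_mul (d : MulAut V) (v w : V) : d (v * w) * (v * w) = (d v * v) * (d w * w) := by
  rw [map_mul, mul_mul_mul_comm]

theorem cm_fix {d : MulAut V} {h : V} (hh : d h = h) (v : V) :
    d (v * h) * (v * h) = d v * v := by rw [cm_mul, hh, hV, mul_one]

theorem cm_comp (g h : MulAut V) (v : V) :
    (g * h) v * v = g (h v * v) * (g v * v) := by
  rw [map_mul, MulAut.mul_apply, mul_assoc, sq' hV]

theorem cm_quad {d e : MulAut V} {v : V} (h : d (e v * v) = e v * v) :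
    (d * e) v * v = (d v * v) * (e v * v) := by rw [cm_comp hV, h, mul_comm]

/-- An element of odd order acting quadratically acts trivially. -/
theorem odd_fix {x : MulAut V} (hx : Odd (orderOf x)) {u : V} (h : x (x u * u) = x u * u) :
    x u = u := by
  have key : ∀ n : ℕ, (x ^ n) u * u = (x u * u) ^ n ∧ x ((x u * u) ^ n) = (x u * u) ^ n := by
    intro n
    refine ⟨?_, by rw [map_pow, h]⟩
    induction n with
    | zero => simp [hV]
    | succ n ih => rw [pow_succ', cm_comp hV, ih, map_pow, h, pow_succ]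
  obtain ⟨k, hk⟩ := hx
  have := (key (orderOf x)).1
  rw [pow_orderOf_eq_one, hk, pow_succ, pow_mul, pow_two, hV] at this
  simp only [MulAut.one_apply, hV, one_pow, one_mul] at this
  exact eq_of_mul hV this.symm

theorem comm_of {d e : MulAut V} (h1 : ∀ v, d (e v * v) = e v * v)
    (h2 : ∀ v, e (d v * v) = d v * v) : d * e = e * d := by
  ext v
  apply mul_right_cancel (b := v)
  rw [cm_quad hV (h1 v), cm_quad hV (h2 v), mul_comm]

/-- `surj` follows from `inj` by counting. -/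
theorem hf_of [Finite V] {D D' : Subgroup (MulAut V)} (hD : Good D)
    (i : (fx D).index = Nat.card D) (i' : (fx D').index = Nat.card D)
    (inj : ∀ d ∈ D, d ≠ 1 → ∀ v, v ∉ fx D → d v * v ∉ fx D') : Hf D D' := by
  haveI : Finite (MulAut V) := Finite.of_injective _ (DFunLike.coe_injective (F := MulAut V))
  refine ⟨hD.ne, hD.sq, hD.quad, i, inj, fun v hv w hw => ?_⟩
  obtain ⟨d, hd, e⟩ := (ri_le (D := D) (B := ⊥) (A := fx D) (C := fx D') (fun d => d v * v)
    (fun d hd => hD.quad d hd v) (fun d hd e he k => by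
      by_contra hne
      refine inj _ (mul_mem (inv_mem hd) he) hne v hv ?_
      rwa [inv_of_sq hD.sq hd, cm_quad hV (hD.quad e he v d hd), ← iv hV (d v * v)])).2
    (by rw [relIndex_bot_left, ← i']; exact ri_le_index _ _) w hw
  exact ⟨d, hd, by rwa [iv hV, mul_comm] at e⟩

end Two

end Cfsg.Agent.MP.Rk
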