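import Cfsg.Agent.Lib.MP.Pu3
import Cfsg.Agent.Lib.MP.Rk0

/-!
Pushing up for a conjugacy class of subgroups in place of the Sylow subgroups, part 0:
hypothesis, walks, critical pairs.
-/

set_option autoImplicit false

namespace Cfsg.Agent.PV

open Subgroup Cfsg.Agent.Tr
open Cfsg.Agent.PU (Om mem_Om Om_le Om_inv commute_conj commute_conj' commute_of_conj Om_cj
  conj_mem_Om NatM conj_mem_Om_cj)

variable {X : Type*} [Group X]

/-- The hypothesis: `Ω₁ Z(Q)` is a natural module modulo fixed points for `G = ⟨B, B^l⟩`. -/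
structure PH (G Q B : Subgroup X) : Prop where
  le : Q ≤ B
  lG : B ≤ G
  nrm : G ≤ normalizer (Q : Set X)
  gen : ∃ l ∈ G, B ⊔ cj l B = G
  ne : ¬ B ≤ Q
  idx : (centralizer (B : Set X)).relIndex (Om Q) = Q.relIndex B
  nat : NatM G Q B

namespace PH

variable {G Q P : Subgroup X} (h : PH G Q P)
include h

theorem cj (x : X) : PH (cj x G) (cj x Q) (cj x P) where
  le := cj_mono x h.le
  lG := cj_mono x h.lG
  nrm := by rw [normalizer_cj]; exact cj_mono x h.nrm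
  gen := by
    obtain ⟨l, hl, e⟩ := h.gen
    exact ⟨x * l * x⁻¹, conj_mem_cj.2 hl, by
      rw [← cj_mul, inv_mul_cancel_right, cj_mul, ← cj_sup, e]⟩
  ne := mt cj_le_cj.1 h.ne
  idx := by rw [centralizer_cj, Om_cj, relIndex_cj, relIndex_cj, h.idx]
  nat := h.nat.cj x

theorem conj_Q {g z : X} (hg : g ∈ G) (hz : z ∈ Q) : g * z * g⁻¹ ∈ Q :=
  conj_mem_of_mem_normalizer (h.nrm hg) hz

theorem conj_Om {g z : X} (hg : g ∈ G) (hz : z ∈ Om Q) : g * z * g⁻¹ ∈ Om Q :=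
  conj_mem_Om (h.nrm hg) hz

theorem cen {t : X} (ht : t ∈ P) (hc : ∀ z ∈ Om Q, Commute z t) : t ∈ Q := by
  by_contra hn
  refine h.ne (relIndex_eq_one.1 (h.idx ▸ relIndex_eq_one.2 fun z hz s hs => ?_))
  refine (h.nat t ht hn z hz (fun g _ => ?_) s hs).symm
  rw [← (hc z hz).eq, mul_inv_cancel_right, mul_inv_cancel]
  exact Commute.one_left g

theorem mem_Om {z : X} (hz : z ∈ P) (h2 : z * z = 1) (hc : ∀ y ∈ Q, Commute z y) : z ∈ Om Q :=
  ⟨h.cen hz fun y hy => (hc y hy.1).symm, h2, hc⟩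

theorem Om_ne_bot : Om Q ≠ ⊥ := fun e => h.ne fun t ht => h.cen ht fun z hz => by
  rw [e, mem_bot] at hz; rw [hz]; exact Commute.one_left t

/-- Decomposition in `A Q`. -/
theorem dec {A : Subgroup X} (e : A ⊔ Q = P) {x : X} (hx : x ∈ P) :
    ∃ a ∈ A, ∃ c ∈ Q, a * c = x :=
  (mem_sup_of_le_normalizer ((le_sup_left.trans (e.le.trans h.lG)).trans h.nrm)).1 (e ▸ hx)

end PH

section Pair

variable {G₁ Q₁ P₁ G₂ Q₂ P₂ : Subgroup X} (h₁ : PH G₁ Q₁ P₁) (h₂ : PH G₂ Q₂ P₂)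
  (l₁ : Om Q₂ ≤ P₁) (l₂ : Om Q₁ ≤ P₂)

include h₁ l₁ in
theorem nle_symm (hn : ¬ Om Q₂ ≤ Q₁) : ¬ Om Q₁ ≤ Q₂ := fun h =>
  hn fun t ht => h₁.cen (l₁ ht) fun _ hz => (ht.2.2 _ (h hz)).symm

include h₁ l₁ l₂ in
theorem ri_pair [Finite X] (hn : ¬ Om Q₂ ≤ Q₁) : Q₁.relIndex P₁ ≤ Q₂.relIndex (Om Q₁) := by
  rw [← h₁.idx]
  obtain ⟨t, ht, htQ⟩ := SetLike.not_le_iff_exists.1 hn
  refine MP.Rk.ri_left fun z hz s hs => (h₁.nat t (l₁ ht) htQ z hz.2 (fun g _ => ?_) s hs).symm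
  rw [(ht.2.2 z hz.1).eq, mul_inv_cancel_right, mul_inv_cancel]
  exact Commute.one_left g

include h₁ h₂ l₁ l₂ in
theorem pair1 [Finite X] (hn : ¬ Om Q₂ ≤ Q₁) : Om Q₂ ⊔ Q₁ = P₁ := by
  refine le_antisymm (sup_le l₁ h₁.le) fun x hx => ?_
  obtain ⟨b, hb, e⟩ := MP.Rk.cover l₁ ((ri_pair h₁ l₁ l₂ hn).trans ((MP.Rk.ri_right l₂).trans
    (ri_pair h₂ l₂ l₁ (nle_symm h₁ l₁ hn)))) x hx
  rw [← mul_inv_cancel_left b x]
  exact mul_mem (mem_sup_left hb) (mem_sup_right e)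

end Pair

/-- `P` belongs to the class of the vertex `x`. -/
def In (G B : Subgroup X) (x : X) (P : Subgroup X) : Prop := ∃ g ∈ G, cj (x * g) B = P

variable {G Q B P : Subgroup X}

theorem In.cj {x : X} (h : In G B x P) (g : X) : In G B (g * x) (cj g P) := by
  obtain ⟨k, hk, rfl⟩ := h
  exact ⟨k, hk, by rw [← cj_mul, mul_assoc]⟩

theorem In.mul {x g : X} (h : In G B x P) (hg : g ∈ G) : In G B (x * g) P := by
  obtain ⟨k, hk, rfl⟩ := h
  exact ⟨g⁻¹ * k, mul_mem (inv_mem hg) hk, by rw [mul_assoc, mul_inv_cancel_left]⟩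

theorem In.of_mem {x g : X} (h : In G B x P) (hg : g ∈ Tr.cj x G) : In G B x (Tr.cj g P) := by
  have := (h.cj g).mul (inv_mem (mem_cj.1 hg))
  rwa [show g * x * (x⁻¹ * g * x)⁻¹ = x by group] at this

theorem In.ph {x : X} (h : In G B x P) (H : PH G Q B) : PH (Tr.cj x G) (Tr.cj x Q) P := by
  obtain ⟨k, hk, rfl⟩ := h
  have := H.cj (x * k)
  rwa [cj_mul x k G, cj_mul x k Q, cj_eq_of_mem hk, cj_eq_of_mem_normalizer (H.nrm hk)] at this

theorem In.conj {x : X} {P' : Subgroup X} (h : In G B x P) (h' : In G B x P') :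
    ∃ g ∈ Tr.cj x G, Tr.cj g P' = P := by
  obtain ⟨k, hk, rfl⟩ := h
  obtain ⟨k', hk', rfl⟩ := h'
  exact ⟨x * (k * k'⁻¹) * x⁻¹, conj_mem_cj.2 (mul_mem hk (inv_mem hk')), by
    rw [← cj_mul]; congr 1; group⟩

theorem in_one : In G B 1 B := ⟨1, one_mem _, by rw [mul_one, cj_one]⟩

/-- Two vertices joined by a common member of the class. -/
def Adj (G B : Subgroup X) (x : X) (P : Subgroup X) (y : X) : Prop := In G B x P ∧ In G B y P

/-- Walks. -/
inductive Near (G B : Subgroup X) : ℕ → X → X → Prop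
  | refl (x : X) : Near G B 0 x x
  | step {k : ℕ} {x y z : X} {P : Subgroup X} :
    Adj G B x P y → Near G B k y z → Near G B (k + 1) x z

theorem Adj.symm {x y : X} (h : Adj G B x P y) : Adj G B y P x := ⟨h.2, h.1⟩

theorem Adj.cj {x y : X} (h : Adj G B x P y) (g : X) : Adj G B (g * x) (cj g P) (g * y) :=
  ⟨h.1.cj g, h.2.cj g⟩

theorem Adj.cj_left {x y g : X} (h : Adj G B x P y) (hg : g ∈ Tr.cj y G) :
    Adj G B (g * x) (Tr.cj g P) y := ⟨(h.cj g).1, h.2.of_mem hg⟩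

theorem Near.cj {k : ℕ} {x y : X} (h : Near G B k x y) (g : X) : Near G B k (g * x) (g * y) := by
  induction h with
  | refl x => exact Near.refl _
  | step a _ ih => exact Near.step (a.cj g) ih

theorem Near.snoc {k : ℕ} {x y z : X} (h : Near G B k x y) (a : Adj G B y P z) :
    Near G B (k + 1) x z := by
  induction h with
  | refl x => exact Near.step a (Near.refl _)
  | step b _ ih => exact Near.step b (ih a)

theorem Near.symm {k : ℕ} {x y : X} (h : Near G B k x y) : Near G B k y x := by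
  induction h with
  | refl x => exact Near.refl _
  | step a _ ih => exact ih.snoc a.symm

theorem Near.path {k : ℕ} {x y : X} (h : Near G B k x y) : ∃ (v : ℕ → X) (P : ℕ → Subgroup X),
    v 0 = x ∧ v k = y ∧ ∀ i < k, Adj G B (v i) (P i) (v (i + 1)) := by
  induction h with
  | refl x => exact ⟨fun _ => x, fun _ => ⊥, rfl, rfl, fun i hi => absurd hi (by omega)⟩
  | @step k x y z P a _ ih =>
    obtain ⟨v, R, h0, h1, h2⟩ := ih
    refine ⟨fun n => Nat.casesOn n x v, fun n => Nat.casesOn n P R, rfl, h1, fun i hi => ?_⟩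
    cases i with
    | zero => simpa [h0] using a
    | succ i => exact h2 i (by omega)

theorem near_of_path {v : ℕ → X} {P : ℕ → Subgroup X} {n : ℕ}
    (h : ∀ i < n, Adj G B (v i) (P i) (v (i + 1))) {i j : ℕ} (hij : i ≤ j) (hj : j ≤ n) :
    Near G B (j - i) (v i) (v j) := by
  induction j, hij using Nat.le_induction with
  | base => simpa using Near.refl _
  | succ j hij ih =>
    rw [show j + 1 - i = j - i + 1 by omega]
    exact (ih (by omega)).snoc (h j (by omega))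

/-- No nontrivial subgroup of `B` is normalized by `G` and `N(B)`. -/
def NoN (G B : Subgroup X) : Prop :=
  ∀ W ≤ B, G ≤ normalizer (W : Set X) → normalizer (B : Set X) ≤ normalizer (W : Set X) → W = ⊥

theorem NoN.cj (h : NoN G B) (x : X) : NoN (cj x G) (cj x B) := by
  intro W hW h1 h2
  rw [← cj_eq_bot (g := x⁻¹)]
  refine h _ (by simpa [cj_inv_cj] using cj_mono x⁻¹ hW) ?_ ?_
  · rw [normalizer_cj, ← cj_inv_cj x G]; exact cj_mono _ h1
  · rw [normalizer_cj, ← cj_inv_cj x B, normalizer_cj]; exact cj_mono _ h2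

theorem In.non {x : X} (h : In G B x P) (H : NoN G B) : NoN (Tr.cj x G) P := by
  obtain ⟨k, hk, rfl⟩ := h
  have := H.cj (x * k)
  rwa [cj_mul x k G, cj_eq_of_mem hk] at this

/-- A critical pair. -/
def Crit (G Q B : Subgroup X) (k : ℕ) : Prop :=
  ∃ x y, Near G B k x y ∧ ¬ Om (cj y Q) ≤ cj x Q

theorem exists_crit [Finite X] (h : PH G Q B) (hN : NoN G B) : ∃ k, Crit G Q B k := by
  by_contra hc
  simp only [Crit, not_exists, not_and, not_not] at hc
  set W : Subgroup X := ⨆ x : {x // ∃ k, Near G B k 1 x}, Om (cj x.1 Q) with hW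
  have key : ∀ g, In G B g B → g ∈ normalizer (W : Set X) := fun g hg => by
    refine mem_normalizer_of_cj_le ?_
    rw [hW]
    refine (Subgroup.map_iSup _ _).le.trans ?_
    refine iSup_le fun ⟨x, k, hx⟩ => le_iSup_of_le ⟨g * x, k + 1, Near.step (P := B)
      ⟨in_one, by rwa [mul_one]⟩ (hx.cj g)⟩ ?_
    exact (Om_cj g _).symm.le.trans (by rw [← cj_mul])
  refine h.Om_ne_bot (le_bot_iff.1 (le_trans ?_ (hN W ?_ ?_ ?_).le))
  · exact le_iSup_of_le ⟨1, 0, Near.refl _⟩ (by rw [cj_one])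
  · exact iSup_le fun ⟨x, k, hx⟩ => (hc k 1 x hx).trans (by rw [cj_one]; exact h.le)
  · exact fun g hg => key g (by simpa using in_one.mul hg)
  · exact fun g hg => key g (by simpa [cj_eq_of_mem_normalizer hg] using (in_one (G := G) (B := B)).cj g)

end Cfsg.Agent.PV
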