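import Cfsg.Agent.Lib.MP.Pv1

/-!
Pushing up for a class of subgroups, part 2: the theorem.
-/

set_option autoImplicit false

namespace Cfsg.Agent.PV

open Subgroup Cfsg.Agent.Tr
open Cfsg.Agent.PU (Om mem_Om Om_le Om_inv commute_conj commute_conj' commute_of_conj Om_cj
  conj_mem_Om NatM conj_mem_Om_cj commute_map Om_map ri_map natM_map eq_map exists_perm)

variable {X : Type*} [Group X] {G Q B : Subgroup X}

/-- The elements of `G` acting trivially on `Q / Ω₁ Z(Q)`. -/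
def Tv (h : PH G Q B) : Subgroup X where
  carrier := {g | g ∈ G ∧ ∀ y ∈ Q, g * y * g⁻¹ * y⁻¹ ∈ Om Q}
  one_mem' := ⟨one_mem _, fun y _ => by simp⟩
  mul_mem' := fun {a b} ha hb => ⟨mul_mem ha.1 hb.1, fun y hy => by
    rw [show a * b * y * (a * b)⁻¹ * y⁻¹ =
      a * (b * y * b⁻¹ * y⁻¹) * a⁻¹ * (a * y * a⁻¹ * y⁻¹) by group]
    exact mul_mem (h.conj_Om ha.1 (hb.2 y hy)) (ha.2 y hy)⟩
  inv_mem' := fun {a} ha => ⟨inv_mem ha.1, fun y hy => by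
    rw [show a⁻¹ * y * a⁻¹⁻¹ * y⁻¹ = a⁻¹ * (a * y * a⁻¹ * y⁻¹)⁻¹ * a⁻¹⁻¹ by group]
    exact h.conj_Om (inv_mem ha.1) (inv_mem (ha.2 y hy))⟩

theorem conj_Tv (h : PH G Q B) {g a : X} (hg : g ∈ G) (ha : a ∈ Tv h) : g * a * g⁻¹ ∈ Tv h :=
  ⟨mul_mem (mul_mem hg ha.1) (inv_mem hg), fun y hy => by
    rw [show g * a * g⁻¹ * y * (g * a * g⁻¹)⁻¹ * y⁻¹ =
      g * (a * (g⁻¹ * y * g⁻¹⁻¹) * a⁻¹ * (g⁻¹ * y * g⁻¹⁻¹)⁻¹) * g⁻¹ by group]
    exact h.conj_Om hg (ha.2 _ (h.conj_Q (inv_mem hg) hy))⟩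

/-- The conclusion: `[Q, G] ≤ Ω₁ Z(Q)` modulo `Q`. -/
def Blk (G Q : Subgroup X) : Prop :=
  ∀ g ∈ G, ∃ c ∈ Q, ∀ y ∈ Q, g * c * y * (g * c)⁻¹ * y⁻¹ ∈ Om Q

theorem blk_of [Finite X] {G' Q' : Subgroup X} (h : PH G Q B) (h' : PH G' Q' B)
    (hn : ¬ Om Q' ≤ Q) : Blk G Q := by
  have l : Om Q' ≤ B := (Om_le _).trans h'.le
  have l' : Om Q ≤ B := (Om_le _).trans h.le
  have e := pair1 h h' l l' hn
  have e' := pair1 h' h l' l (nle_symm h l hn)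
  have hZ : Om Q' ≤ Tv h := fun t ht => ⟨h.lG (l ht), fun y hy => by
    obtain ⟨z, hz, c, hc, rfl⟩ := h'.dec e' (h.le hy)
    rw [show t * (z * c) * t⁻¹ * (z * c)⁻¹ = t * z * (c * t⁻¹ * c⁻¹) * z⁻¹ by group,
      ← (ht.2.2 c hc).inv_left.eq, mul_inv_cancel_right]
    exact mul_mem (h.conj_Om (h.lG (l ht)) hz) (inv_mem hz)⟩
  have hn : G ≤ normalizer (Tv h : Set X) := fun g hg =>
    mem_normalizer_of_forall fun a ha => conj_Tv h hg ha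
  have hG : G ≤ Tv h ⊔ Q := by
    obtain ⟨g, hg, e''⟩ := h.gen
    refine e''.symm.le.trans (sup_le (e.symm.le.trans (sup_le_sup_right hZ _))
      ((cj_mono g e.symm.le).trans ?_))
    rw [cj_sup, cj_eq_of_mem_normalizer (h.nrm hg)]
    exact sup_le_sup_right (cj_le_iff.2 fun a ha => conj_Tv h hg (hZ ha)) _
  intro g hg
  obtain ⟨a, ha, c, hc, rfl⟩ := (mem_sup_of_le_normalizer' ((h.le.trans h.lG).trans hn)).1 (hG hg)
  exact ⟨c⁻¹, inv_mem hc, by simpa using ha.2⟩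

/-- Pushing up in an ambient group. -/
theorem pu [Finite X] (h : PH G Q B) (hN : NoN G B) : Blk G Q := by
  obtain ⟨m, v, P, p⟩ := exists_pth h hN
  obtain rfl := p.eq_one le_rfl
  obtain ⟨g, hg, e⟩ := (p.adj 0 (by omega)).1
  have h' := (p.sr 0 1).cj (v 0 * g)⁻¹
  rw [← e, cj_inv_cj] at h'
  refine blk_of h h' fun hc => p.cr 0 1 (by omega) le_rfl ?_
  rwa [Om_cj, cj_le_iff_le_cj_inv, inv_inv, cj_mul, cj_eq_of_mem_normalizer (h.nrm hg)] at hc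

section Map

variable {Y : Type*} [Group Y] {f : X →* Y} (hf : Function.Injective f)
include hf

theorem PH.map (h : PH G Q B) : PH (G.map f) (Q.map f) (B.map f) where
  le := map_mono h.le
  lG := map_mono h.lG
  nrm := (map_mono h.nrm).trans (le_normalizer_map f)
  gen := by
    obtain ⟨l, hl, e⟩ := h.gen
    refine ⟨f l, ⟨l, hl, rfl⟩, ?_⟩
    rw [← e, Subgroup.map_sup]
    congr 1
    ext y
    simp only [mem_cj', mem_map]
    constructor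
    · rintro ⟨_, ⟨b, hb, rfl⟩, rfl⟩
      exact ⟨_, ⟨b, hb, rfl⟩, by simp⟩
    · rintro ⟨_, ⟨b, hb, rfl⟩, rfl⟩
      exact ⟨_, ⟨b, hb, rfl⟩, by simp⟩
  ne := mt (map_le_map_iff_of_injective hf).1 h.ne
  idx := by rw [Om_map hf, ri_map hf, relIndex_map_map_of_injective _ _ hf, h.idx]
  nat := (natM_map hf).2 h.nat

theorem Blk.of_map (h : Blk (G.map f) (Q.map f)) : Blk G Q := fun g hg => by
  obtain ⟨_, ⟨c, hc, rfl⟩, e⟩ := h _ ⟨g, hg, rfl⟩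
  refine ⟨c, hc, fun y hy => (mem_map_iff_mem hf).1 ?_⟩
  simpa [Om_map hf] using e _ ⟨y, hy, rfl⟩

end Map

variable {T : Subgroup X}

theorem perm_norm [Finite X] {n : Equiv.Perm X} {α : MulAut T} (hn : ∀ t : T,
    n * MulAction.toPermHom X X t * n⁻¹ = MulAction.toPermHom X X (α t)) (hB : B ≤ T)
    (hα : ∀ y : T, (y : X) ∈ B → (α y : X) ∈ B) :
    n ∈ normalizer (B.map (MulAction.toPermHom X X) : Set (Equiv.Perm X)) := by
  refine mem_normalizer_of_forall ?_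
  rintro _ ⟨t, ht, rfl⟩
  exact ⟨_, hα ⟨t, hB ht⟩ ht, (hn ⟨t, hB ht⟩).symm⟩

/-- Pushing up for a set `𝒜` of automorphisms of an overgroup `T` of `B`. -/
theorem pu_aut [Finite X] (h : PH G Q B) (hB : B ≤ T) (𝒜 : Set (MulAut T))
    (hα : ∀ α ∈ 𝒜, ∀ y : T, (y : X) ∈ B → (α y : X) ∈ B)
    (hN : ∀ W ≤ B, G ≤ normalizer (W : Set X) →
      (∀ α ∈ 𝒜, ∀ w : T, (w : X) ∈ W → (α w : X) ∈ W) → W = ⊥) : Blk G Q := by
  have hf : Function.Injective (MulAction.toPermHom X X) := MulAction.toPerm_injective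
  refine (pu (h.map hf) fun W hW h1 h2 => ?_).of_map hf
  obtain ⟨W, rfl⟩ := eq_map hW
  have hW' := (map_le_map_iff_of_injective hf).1 hW
  rw [hN W hW' (fun g hg => mem_normalizer_of_forall fun a ha => (mem_map_iff_mem hf).1 ?_)
    fun α h3 w hw => (mem_map_iff_mem hf).1 ?_, Subgroup.map_bot]
  · rw [map_mul, map_mul, map_inv]
    exact conj_mem_of_mem_normalizer (h1 ⟨g, hg, rfl⟩) ⟨a, ha, rfl⟩
  · obtain ⟨n, hn⟩ := exists_perm T α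
    rw [← hn]
    exact conj_mem_of_mem_normalizer (h2 (perm_norm hn hB (hα α h3))) ⟨_, hw, rfl⟩

/-- An automorphism moving `Z = Ω₁ Z(Q)` out of `Q`: `B = Z^α Q = Z Q^α`. -/
theorem two [Finite X] (h : PH G Q B) (hB : B ≤ T) (α : MulAut T)
    (hα : ∀ y : T, (y : X) ∈ B → (α y : X) ∈ B) {z : T}
    (hz : (z : X) ∈ Om Q) (hz' : (α z : X) ∉ Q) (t : T) (ht : (t : X) ∈ B) :
    (∃ a : T, (a : X) ∈ Om Q ∧ ∃ c : T, (c : X) ∈ Q ∧ α a * c = t) ∧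
    ∃ a : T, (a : X) ∈ Om Q ∧ ∃ c : T, (c : X) ∈ Q ∧ a * α c = t := by
  have hf : Function.Injective (MulAction.toPermHom X X) := MulAction.toPerm_injective
  obtain ⟨n, hn⟩ := exists_perm T α
  have h1 := h.map hf
  have h2 := h1.cj n
  rw [cj_eq_of_mem_normalizer (perm_norm hn hB hα)] at h2
  have l := h.le.trans hB
  have l1 := (Om_le _).trans h1.le
  have l2 := (Om_le _).trans h2.le
  have hc : ¬ _ ≤ _ := fun hc : Om (cj n (Q.map (MulAction.toPermHom X X))) ≤ _ =>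
    hz' ((mem_map_iff_mem hf).1 (hc (by
      rw [← hn, Om_cj, Om_map hf]; exact conj_mem_cj.2 ⟨_, hz, rfl⟩)))
  have e := pair1 h1 h2 l2 l1 hc
  have e' := pair1 h2 h1 l1 l2 (nle_symm h1 l2 hc)
  constructor
  · obtain ⟨a, ha, _, ⟨c, hc, rfl⟩, e⟩ := h1.dec e ⟨_, ht, rfl⟩
    rw [Om_cj, Om_map hf, mem_cj'] at ha
    obtain ⟨_, ⟨a, ha, rfl⟩, rfl⟩ := ha
    refine ⟨⟨a, l ha.1⟩, ha, ⟨c, l hc⟩, hc, Subtype.ext (hf ?_)⟩
    rw [← e, coe_mul, map_mul, ← hn]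
  · obtain ⟨a, ha, c, hc, e⟩ := h2.dec e' ⟨_, ht, rfl⟩
    rw [Om_map hf] at ha
    obtain ⟨a, ha, rfl⟩ := ha
    obtain ⟨_, ⟨c, hc', rfl⟩, rfl⟩ := mem_cj'.1 hc
    refine ⟨⟨a, l ha.1⟩, ha, ⟨c, l hc'⟩, hc', Subtype.ext (hf ?_)⟩
    rw [← e, coe_mul, map_mul, ← hn]

end Cfsg.Agent.PV
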