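import Cfsg.Agent.Lib.MP.Red3

/-!
# Row RED: from the hypotheses of the theorem to the configuration `Cfg`
-/

set_option autoImplicit false

namespace Cfsg.Agent.MP

open Subgroup Fus2 FusionSystem Tr

universe u

namespace Rd

variable {Ω : Type u} [Group Ω] {S : Subgroup Ω} {F N : FusionSystem S} [Finite S]
  {E₁ E₂ : Subgroup Ω} {s : Ω} (p : Pc F N E₁ E₂ s)
include p

omit [Finite S] in
theorem Pc.card : Nat.card E₂ = Nat.card E₁ := by rw [← p.s₁, card_cj]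

omit [Finite S] in
theorem Pc.s_notMem : s ∉ normalizerIn S E₁ := fun h =>
  p.tw.ne₁ ((cj_eq_iff.2 h.2).symm.trans p.s₁).le

omit [Finite S] in
theorem Pc.fx_eq {E : Subgroup (MulAut E₁)} (hE : E ≤ autInducedBy E₂ E₁) (h0 : E ≠ ⊥) :
    fx E = (E₁ ⊓ E₂).subgroupOf E₁ := by
  ext v
  rw [mem_fx, mem_subgroupOf]
  constructor
  · intro hv
    obtain ⟨⟨d, hd⟩, hd1⟩ := ne_bot_iff_exists_ne_one.1 h0
    obtain ⟨b, hb, e⟩ := Fus.mem_autInducedBy_iff.1 (hE hd)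
    refine ⟨v.2, by_contra fun hv2 => (p.tw.nc v v.2 hv2 b hb fun hb1 => hd1 ?_).1 ?_⟩
    · refine Subtype.ext (MulEquiv.ext fun x => Subtype.ext ?_)
      rw [e, e2_comm p.tw.sq₁ hb1 x.2]
      simp
    · have := e v
      rw [hv d hd, eq_mul_inv_iff_mul_eq] at this
      rw [this]; simp
  · intro hv d hd
    obtain ⟨b, hb, e⟩ := Fus.mem_autInducedBy_iff.1 (hE hd)
    exact Subtype.ext (by rw [e, e2_comm p.tw.sq₂ hb hv.2, mul_inv_cancel_right])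

theorem Pc.index_eq : ((E₁ ⊓ E₂).subgroupOf E₁).index = Nat.card (autInducedBy E₂ E₁) := by
  have := finite_of_le p.mx.le
  have h1 := Fus.card_autInducedBy_mul E₂ E₁
  have h2 : centralizerIn E₂ E₁ = E₁ ⊓ E₂ := le_antisymm
    (fun x hx => ⟨p.cen ⟨(p.le₂ hx.1).1, hx.2⟩, hx.1⟩)
    fun x hx => ⟨hx.2, fun y hy => e2_comm p.tw.sq₁ hy hx.1⟩
  have h3 : normalizerIn E₂ E₁ = E₂ := le_antisymm inf_le_left fun x hx => ⟨hx, (p.le₂ hx).2⟩
  have h4 := ((E₁ ⊓ E₂).subgroupOf E₁).index_mul_card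
  rw [Nat.card_congr (subgroupOfEquivOfLe inf_le_left).toEquiv] at h4
  rw [h2, h3, p.card, ← h4] at h1
  have := finite_of_le (inf_le_left (a := E₁) (b := E₂))
  exact (Nat.eq_of_mul_eq_mul_right Nat.card_pos h1).symm

theorem Pc.good : Good (autInducedBy E₂ E₁) := by
  have := finite_of_le p.mx.le
  have := Fus.finite_mulAut E₁
  have h0 : autInducedBy E₂ E₁ ≠ ⊥ := fun e => p.tw.ne₂ fun b hb => p.cen ⟨(p.le₂ hb).1,
    (Fus.conjAut_eq_one_iff (p.le₂ hb).2).1 (mem_bot.1 (e ▸ Fus.conjAut_mem_autInducedBy hb _))⟩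
  refine ⟨h0, fun d hd => ?_, fun d hd v => ?_, by rw [p.fx_eq le_rfl h0, p.index_eq],
    fun E hE h1 => ?_⟩
  · obtain ⟨b, hb, e⟩ := Fus.mem_autInducedBy_iff.1 hd
    refine MulEquiv.ext fun x => Subtype.ext ?_
    rw [MulAut.mul_apply, e, e, MulAut.one_apply]
    calc b * (b * x * b⁻¹) * b⁻¹ = b * b * x * (b * b)⁻¹ := by group
      _ = x := by rw [p.tw.sq₂ b hb]; group
  · obtain ⟨b, hb, e⟩ := Fus.mem_autInducedBy_iff.1 hd
    rw [p.fx_eq le_rfl h0, mem_subgroupOf, coe_mul, e]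
    have := inv_mem (p.tw.cm v v.2 b hb)
    rw [show (v * b * (v : Ω)⁻¹ * b⁻¹)⁻¹ = b * v * b⁻¹ * (v : Ω)⁻¹ by group,
      inv_eq_of_mul_eq_one_right (p.tw.sq₁ v v.2)] at this
    exact this
  · rw [p.fx_eq hE.le h1, p.index_eq]
    exact card_lt_of_lt hE

variable (h : Hy F N)
include h

theorem Pc.centric : F.IsCentric E₁ :=
  have : Fact (Nat.Prime 2) := ⟨Nat.prime_two⟩
  Fus.isCentric_of_isFullyCentralized (Fus.sat_centralized h.pg h.sat (p.mx.fn h)) p.cen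

theorem Pc.not_le : ¬ F.autGroup E₁ ≤ N.autGroup E₁ := fun hle => p.mx.bad
  fun P f hP _ hf hm => by
    have : Fact (Nat.Prime 2) := ⟨Nat.prime_two⟩
    obtain ⟨α, hα, e⟩ := (hf.mono hP).exists_aut' hm
    exact Fus.M_of_restrict_centric h.pg h.sat h.satN h.le (p.centric h) hP hf
      (((mem_autGroup_iff p.mx.le).1 (hle hα)).congr e)

theorem Pc.ext {g : MulAut E₁} (hg : g ∈ F.autGroup E₁)
    (hD : cj g (autInducedBy E₂ E₁) ≤ autInducedBy S E₁) :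
    ∃ k, M F (E₁ ⊔ E₂) k ∧ (∀ x ∈ E₁, k x = afn g x) ∧ ∀ x ∈ E₂, k x ∈ E₂ := by
  have : Fact (Nat.Prime 2) := ⟨Nat.prime_two⟩
  obtain ⟨k, hk, e⟩ := receptive_ext (Fus.sat_receptive h.pg h.sat (p.mx.fn h))
    ((mem_autGroup_iff p.mx.le).1 hg) (img_afn g) p.le₂ fun b hb => by
      obtain ⟨t, ht, e⟩ := Fus2.mem_autInducedBy_iff.1
        (cj_le_iff.1 hD _ (Fus.conjAut_mem_autInducedBy hb (p.le₂ hb).2))
      refine ⟨t, ht, fun x hx => ?_⟩
      rw [← e _ (afn_mem g hx), afn_mul, afn_mul, afn_inv_afn, afn_conjAut _ hx]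
  have h1 : img E₁ k = E₁ := by rw [img_congr e, img_afn]
  have hk₂ := hk.mono le_sup_right
  refine ⟨k, hk, e, ?_⟩
  rcases p.max (img E₂ k) (img_le_iff.2 fun x hx => by
      have := hk.mem_normalizerIn le_sup_left (mem_sup_right hx) (p.le₂ hx).2
      rwa [h1] at this) (fun y hy => by
      obtain ⟨x, hx, rfl⟩ := hk₂.mem_img.1 hy
      rw [← hk₂.map_mul hx hx, p.tw.sq₂ x hx, hk.map_one]) (by rw [hk₂.card_img, p.card])
    with h2 | h2
  · refine absurd (fun b hb => ?_) p.tw.ne₂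
    obtain ⟨a, ha, e⟩ := (hk.mono le_sup_left).mem_img.1
      ((h2.trans h1.symm).le (mem_img_of_mem k hb))
    exact hk.inj a (mem_sup_left ha) b (mem_sup_right hb) e ▸ ha
  · exact img_le_iff.1 h2.le

theorem Pc.cj_eq {g : MulAut E₁} (hg : g ∈ F.autGroup E₁)
    (hD : cj g (autInducedBy E₂ E₁) ≤ autInducedBy S E₁) :
    cj g (autInducedBy E₂ E₁) = autInducedBy E₂ E₁ := by
  have := finite_of_le p.mx.le
  have := Fus.finite_mulAut E₁
  obtain ⟨k, hk, e, m⟩ := p.ext h hg hD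
  refine cj_eq_of_le (cj_le_iff.2 fun d hd => ?_)
  obtain ⟨b, hb, e'⟩ := Fus2.mem_autInducedBy_iff.1 hd
  refine Fus2.mem_autInducedBy_iff.2 ⟨k b, m b hb, fun x hx => ?_⟩
  have h1 := afn_mem g⁻¹ hx
  rw [afn_mul, afn_mul, ← e _ (afn_mem d h1), e' _ h1,
    hk.map_conj (mem_sup_right hb) (mem_sup_left h1), e _ h1, afn_afn_inv]

theorem Pc.mem_of_cj {g : MulAut E₁} (hg : g ∈ F.autGroup E₁)
    (hD : cj g (autInducedBy E₂ E₁) = autInducedBy E₂ E₁) : g ∈ N.autGroup E₁ := by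
  have h₂ : E₂ ≤ S := p.le₂.trans inf_le_left
  obtain ⟨k, hk, e, m⟩ := p.ext h hg (hD.le.trans (Fus.autInducedBy_mono h₂ _))
  have h1 := p.mx.gd (Y := E₁ ⊔ E₂) (fun e => p.mx.ne (le_bot_iff.1 (e ▸ le_sup_left))) hk.le
    (fun t ht => cj_eq_iff.1 (by rw [cj_sup, cj_eq_iff.2 ht.2, cj_eq_iff.2 (p.n₂ ht)])) p.sS
    (cj_eq_iff.1 (by rw [cj_sup, p.s₁, p.s₂, sup_comm])) p.s_notMem
  exact ((h1 _ k le_rfl (Fus.le_normalizerIn hk.le) hk (hk.homOn.mem_of_sup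
    (fun x hx => mem_sup_left (e x hx ▸ afn_mem g hx)) fun x hx =>
      mem_sup_right (m x hx))).mono le_sup_left).mem_autGroup fun x hx => (e x hx).symm

theorem Pc.mem_of_fix {g : MulAut E₁} (hg : g ∈ F.autGroup E₁)
    (hf : ∀ v ∈ fx (autInducedBy S E₁), g v = v) : g ∈ N.autGroup E₁ := by
  have : Fact (Nat.Prime 2) := ⟨Nat.prime_two⟩
  have hT := Fus.le_normalizerIn p.mx.le
  have hY : centralizerIn S (normalizerIn S E₁) ≤ E₁ := (Fus.centralizerIn_anti hT).trans p.cen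
  have hn : ∀ t ∈ S, t ∈ normalizer (normalizerIn S E₁ : Set Ω) →
      t ∈ normalizer (centralizerIn S (normalizerIn S E₁) : Set Ω) := fun t ht hn =>
    Fus.mem_normalizer_of_conj_mem fun y hy =>
      ⟨S.mul_mem (S.mul_mem ht hy.1) (S.inv_mem ht), fun x hx => by
        have := hy.2 _ (Fus.conj_mem_of_mem_normalizer (inv_mem hn) hx)
        calc x * (t * y * t⁻¹) = t * (t⁻¹ * x * t⁻¹⁻¹ * y) * t⁻¹ := by group
          _ = _ := by rw [this]; group⟩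
  have h0 : centralizerIn S (normalizerIn S E₁) ≠ ⊥ := by
    have : Nontrivial (normalizerIn S E₁) :=
      (nontrivial_iff_ne_bot _).2 fun e => p.mx.ne (le_bot_iff.1 (e ▸ hT))
    have h2 : IsPGroup 2 (normalizerIn S E₁) := h.pg.to_le inf_le_left
    have := h2.center_nontrivial
    obtain ⟨z, hz⟩ := exists_ne (1 : center (normalizerIn S E₁))
    refine fun e => hz (Subtype.ext (Subtype.ext (mem_bot.1 (e ▸ ?_))))
    exact ⟨z.1.2.1, fun x hx => congrArg Subtype.val (mem_center_iff.1 z.2 ⟨x, hx⟩)⟩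
  have h1 := p.mx.gd h0 inf_le_left (fun t ht => hn t ht.1 (le_normalizer ht)) p.sS
    (hn s p.sS p.sT) p.s_notMem
  refine (mem_autGroup_iff p.mx.le).2 (h1 _ _ hY (e2_le_normalizerIn p.tw.sq₁ p.mx.le hY)
    ((mem_autGroup_iff p.mx.le).1 hg) fun y hy => ?_)
  rw [afn_apply _ (hY hy), hf _ fun d hd => ?_]
  · exact hy
  · obtain ⟨t, ht, rfl⟩ := Fus.mem_autInducedBy_iff'.1 hd
    refine Subtype.ext ?_
    rw [← afn_apply, afn_conjAut _ (hY hy), hy.2 t ht, mul_inv_cancel_right]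

end Rd

theorem red (hg : GrpStmt.{u}) (hs : SolvStmt.{u}) (hr : Rk1Stmt.{u}) : RedStmt.{u} := by
  intro Ω _ S _ F hS hF _ hmin N hN hle hne hpar
  have : Fact (Nat.Prime 2) := ⟨Nat.prime_two⟩
  have h : Rd.Hy F N := ⟨hS, hF, hN, hle, Rd.ne_bot_of hle hne, fun R => Rd.par_of hpar⟩
  obtain ⟨U, hU⟩ := h.exists_mx hne
  obtain ⟨E₁, E₂, s, p⟩ := Rd.exists_pc hg hs h hmin hU
  have := finite_of_le p.mx.le
  have h1 := Fus.sat_sylow hS hF (p.mx.fn h)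
  obtain ⟨l, hl, h2, h3⟩ := hr E₁ (fun v => Subtype.ext (p.tw.sq₁ v v.2)) (F.autGroup E₁)
    (N.autGroup E₁) (autInducedBy S E₁) (autInducedBy E₂ E₁)
    ⟨h1.le, h1.isPGroup, h1.not_dvd_relIndex⟩
    (Fus.autInducedBy_mono (p.le₂.trans inf_le_left) _) (Fus.autInducedBy_le_autGroup p.mx.le)
    (p.not_le h) p.good (fun g => p.cj_eq h) (fun g => p.mem_of_cj h) fun g => p.mem_of_fix h
  exact ⟨E₁, E₂, s, l, p.mx.le, p.sS, p.s₁, p.s₂, p.tw, p.mx.fn h, p.cen, p.max, hl, h2, h3⟩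

end Cfsg.Agent.MP
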