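import Cfsg.Agent.Lib.MP.Defs
import Cfsg.Agent.Lib.Fus2.Solv
import Cfsg.Agent.Lib.Fus2.NKSat
import Cfsg.Agent.Lib.Fus.Centric
import Cfsg.Agent.Lib.Fus.Chain

/-!
# Row RED, part 1: subgroups whose normalizer system is not contained in `N`
-/

set_option autoImplicit false

namespace Cfsg.Agent.MP.Rd

open Subgroup Fus2 FusionSystem

universe u

variable {Ω : Type u} [Group Ω] {S : Subgroup Ω}

/-- The normalizer system of `U` is contained in `N`. -/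
def Gd (F N : FusionSystem S) (U : Subgroup Ω) : Prop :=
  ∀ P f, U ≤ P → P ≤ normalizerIn S U → M F P f → (∀ x ∈ U, f x ∈ U) → M N P f

/-- The standing hypotheses. -/
structure Hy (F N : FusionSystem S) : Prop where
  pg : IsPGroup 2 S
  sat : F.IsSaturated 2
  satN : N.IsSaturated 2
  le : N ≤ F
  ne : S ≠ ⊥
  par : ∀ R, R ≠ ⊥ → R ≤ S → (∀ f, M F S f → ∀ x ∈ R, f x ∈ R) → Gd F N R

/-- A bad subgroup whose normalizer has maximal order. -/
structure Mx (F N : FusionSystem S) (U : Subgroup Ω) : Prop where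
  ne : U ≠ ⊥
  le : U ≤ S
  bad : ¬ Gd F N U
  max : ∀ Y, Y ≠ ⊥ → Y ≤ S → Nat.card (normalizerIn S U) < Nat.card (normalizerIn S Y) →
    Gd F N Y

variable {F N : FusionSystem S} [Finite S] {U : Subgroup Ω}

theorem par_of
    (hpar : ∀ R : Subgroup Ω, R ≠ ⊥ → R ≤ S → S ≤ normalizer (R : Set Ω) →
      (∀ P : Subgroup Ω, F.normalizerHom S P ⊆ F.normalizerHom R P) →
      ∀ P : Subgroup Ω, F.normalizerHom R P ⊆ N.Hom P) {R : Subgroup Ω} (h0 : R ≠ ⊥) (hR : R ≤ S)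
    (h : ∀ f, M F S f → ∀ x ∈ R, f x ∈ R) : Gd F N R := by
  have := finite_of_le hR
  have hn : S ≤ normalizer (R : Set Ω) := fun s hs =>
    Fus.mem_normalizer_of_conj_mem (h _ (M_conj F le_rfl hs))
  have key := hpar R h0 hR hn fun P φ hφ => by
    obtain ⟨hP, g, hg, e, -⟩ := NK_top_iff.1 (mem_normalizerHom_iff.1 hφ)
    have hPS : P ≤ S := hP.trans inf_le_left
    exact mem_normalizerHom_iff.2 (NK_top_iff.2 ⟨le_inf hPS (hPS.trans hn), g,
      hg.mono (sup_le_sup_left hR P), e, (hg.mono (hR.trans le_sup_right)).img_eq_self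
        (h g (hg.mono le_sup_right))⟩)
  intro P f hRP hP hf hfR
  have h1 : hf.homOn.toHom ∈ F.normalizerHom R P :=
    mem_normalizerHom_iff.2 (NK_top_iff.2 ⟨hP, f, by rwa [sup_eq_left.2 hRP],
      fun x hx => (hf.homOn.fn_toHom hx).symm, (hf.mono hRP).img_eq_self hfR⟩)
  exact ⟨_, key P h1, fun _ => rfl⟩

omit [Finite S] in
theorem ne_bot_of (hle : N ≤ F) (hne : N ≠ F) : S ≠ ⊥ := fun h => by
  refine hne (Fus.fs_le_antisymm hle (isSubsystemOf_iff.2 fun P f hf => ?_))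
  refine (M_id N hf.le).congr fun x hx => ?_
  rw [mem_bot.1 (h ▸ hf.le hx : x ∈ (⊥ : Subgroup Ω)), hf.map_one]

omit [Finite S] in
theorem Hy.top (h : Hy F N) {f : Ω → Ω} (hf : M F S f) : M N S f :=
  h.par S h.ne le_rfl (fun _ hg _ hx => hg.mem hx) S f le_rfl (Fus.le_normalizerIn le_rfl) hf
    fun _ hx => hf.mem hx

omit [Finite S] in
theorem Hy.M_of (h : Hy F N) {P : Subgroup Ω} {f : Ω → Ω} (hf : M N P f) : M F P f :=
  Hom_subset_iff.1 (h.le P) f hf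

omit [Finite S] in
theorem Gd.aut {P : Subgroup Ω} (h : Gd F N P) (hP : P ≤ S) : F.autGroup P ≤ N.autGroup P :=
  fun α hα => (mem_autGroup_iff hP).2 (h P _ le_rfl (Fus.le_normalizerIn hP)
    ((mem_autGroup_iff hP).1 hα) fun _ hx => afn_mem α hx)

omit [Finite S] in
theorem Hy.ne_of_cen (h : Hy F N) {P : Subgroup Ω} (hP : centralizerIn S P ≤ P) : P ≠ ⊥ := by
  rintro rfl
  exact h.ne (le_bot_iff.1 fun s hs => hP ⟨hs, fun x hx => by rw [mem_bot.1 hx]; simp⟩)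

theorem Hy.exists_mx (h : Hy F N) (hne : N ≠ F) : ∃ U, Mx F N U := by
  have : Fact (Nat.Prime 2) := ⟨Nat.prime_two⟩
  have h1 : {U | U ≤ S ∧ U ≠ ⊥ ∧ ¬ Gd F N U}.Nonempty := by
    by_contra h1
    refine hne (Fus.fs_le_antisymm h.le (Fus.alperin_le h.pg h.sat fun P hP => ?_))
    obtain ⟨-, hc, -⟩ := Fus.fcr_of_top_or_essential h.pg h.sat hP
    by_contra h2
    exact h1 ⟨P, hc.1, h.ne_of_cen (Fus.IsCentric_centralizerIn_le hc), fun h3 => h2 (h3.aut hc.1)⟩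
  obtain ⟨U, hU, hm⟩ := Set.exists_max_image _ (fun U => Nat.card (normalizerIn S U))
    (Fus.finite_subgroups_le.subset fun _ h => h.1) h1
  refine ⟨U, hU.2.1, hU.1, hU.2.2, fun Y h0 hY hc => ?_⟩
  by_contra h2
  exact absurd (hm Y ⟨hY, h0, h2⟩) (not_le.2 hc)

theorem Mx.big (h : Hy F N) (hU : Mx F N U) {P : Subgroup Ω} {f : Ω → Ω} (hf : M F P f)
    (hc : Nat.card (normalizerIn S U) ≤ Nat.card P) : M N P f := by
  have : Fact (Nat.Prime 2) := ⟨Nat.prime_two⟩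
  refine ⟨_, Fus.alperin_induction h.pg h.sat (C := fun φ => φ ∈ N.Hom P) Fus.subtype_mem
    (fun φ ψ E α hE hα hφ hC hm e => ?_) hf.toHom_mem, fun _ => rfl⟩
  obtain ⟨-, hcE, -⟩ := Fus.fcr_of_top_or_essential h.pg h.sat hE
  have h1 : α ∈ N.autGroup E := by
    rcases hE with rfl | hE
    · exact (mem_autGroup_iff le_rfl).2 (h.top ((mem_autGroup_iff le_rfl).1 hα))
    refine (hU.max E (h.ne_of_cen (Fus.IsCentric_centralizerIn_le hcE)) hcE.1 ?_).aut hcE.1 hα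
    have h2 := Fus.lt_of_isEssential h.pg h.sat hE
    obtain ⟨g, hg, hn, hg'⟩ := Fus.exists_mem_normalizer_of_not_le h.pg hcE.1 le_rfl
      (hcE.1.trans le_normalizer) h2.not_ge
    refine hc.trans_lt (lt_of_le_of_lt ?_ (Fus.card_lt_of_lt' inf_le_left
      (lt_of_le_of_ne (Fus.le_normalizerIn hcE.1) fun e => hg' (e ▸ ⟨hg, hn⟩))))
    rw [← Fus.card_range_of_mem hφ]
    exact Fus.card_le_of_le' hcE.1 (by rintro _ ⟨x, rfl⟩; exact hm x)
  have h2 := (M_fn hC).comp ((mem_autGroup_iff hcE.1).1 h1) fun x hx => by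
    rw [fn_apply _ hx]; exact hm _
  exact h2.mem_Hom fun x => by rw [e, fn_coe, afn_apply _ (hm x)]

theorem gd_of_push (hU : U ≤ S) {ψ : Ω → Ω} (hψ : M F (normalizerIn S U) ψ)
    (hψN : M N (normalizerIn S U) ψ) (h : Gd F N (img U ψ)) : Gd F N U := by
  intro P f hUP hP hf hfU
  have hUN := Fus.le_normalizerIn hU
  obtain ⟨g, hg, -, e₁, m, -⟩ := (hψ.mono hP).inv' rfl
  obtain ⟨k, hk, e₂⟩ := hψN.inv
  have hm : ∀ x ∈ P, f x ∈ normalizerIn S U := fun x hx => by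
    have := hf.mem_normalizerIn hUP hx (hP hx).2
    rwa [(hf.mono hUP).img_eq_self hfU] at this
  have h1 : M F (img P ψ) fun y => ψ (f (g y)) := (hg.comp hf m).comp hψ fun y hy => hm _ (m y hy)
  have h2 := h _ _ (img_mono _ hUP) (img_le_iff.2 fun y hy =>
    hψ.mem_normalizerIn hUN (hP hy) (hP hy).2) h1 fun y hy => by
      obtain ⟨z, hz, rfl⟩ := (hψ.mono hUN).mem_img.1 hy
      rw [e₁ z (hUP hz)]
      exact mem_img_of_mem _ (hfU z hz)
  refine (((hψN.mono hP).comp h2 fun x hx => mem_img_of_mem _ hx).comp hk fun x hx => ?_).congr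
    fun x hx => ?_
  · rw [e₁ x hx]; exact mem_img_of_mem _ (hm x hx)
  · rw [e₁ x hx, e₂ _ (hm x hx)]

theorem Mx.fn (h : Hy F N) (hU : Mx F N U) : F.IsFullyNormalized U := by
  have : Fact (Nat.Prime 2) := ⟨Nat.prime_two⟩
  have hUN := Fus.le_normalizerIn hU.le
  obtain ⟨φ, hφ, hfn⟩ := Fus.sat_exists_hom_normalizer h.pg h.sat hU.le
  rw [map_subgroupOf_eq_img φ hUN] at hfn
  have hψ := M_fn hφ
  have hc := (hψ.mono hUN).isConj
  refine ⟨hU.le, fun Q hQ => (hfn.2 Q (Fus.isConj_trans (Fus.isConj_symm hc) hQ)).trans ?_⟩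
  by_contra h1
  refine hU.bad (gd_of_push hU.le hψ (hU.big h hψ le_rfl) (hU.max _ (fun e => hU.ne ?_) hfn.1
    (not_le.1 h1)))
  have := finite_of_le hU.le
  rw [← card_eq_one, ← (hψ.mono hUN).card_img, e, card_bot]

theorem Mx.of_le (hU : Mx F N U) {Y : Subgroup Ω} (h0 : Y ≠ ⊥) (hY : Y ≤ S) (hb : ¬ Gd F N Y)
    (hle : normalizerIn S U ≤ normalizerIn S Y) :
    Mx F N Y ∧ normalizerIn S Y = normalizerIn S U := by
  have h1 : normalizerIn S U = normalizerIn S Y :=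
    Fus.eq_of_le_of_card_ge' inf_le_left hle (not_lt.1 fun h => hb (hU.max Y h0 hY h))
  exact ⟨⟨h0, hY, hb, fun Z hZ hZ' h => hU.max Z hZ hZ' (h1 ▸ h)⟩, h1.symm⟩

theorem Mx.gd (hU : Mx F N U) {Y : Subgroup Ω} (h0 : Y ≠ ⊥) (hY : Y ≤ S)
    (hle : normalizerIn S U ≤ normalizer (Y : Set Ω)) {s : Ω} (hs : s ∈ S)
    (hn : s ∈ normalizer (Y : Set Ω)) (hs' : s ∉ normalizerIn S U) : Gd F N Y := by
  by_contra hb
  exact hs' ((hU.of_le h0 hY hb (le_inf inf_le_left hle)).2 ▸ ⟨hs, hn⟩)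

/-- A self-centralizing subgroup containing a fully normalized subgroup `U` and invariant in
`N_F(U)` is centric. -/
theorem centric_of (hS : IsPGroup 2 S) (hF : F.IsSaturated 2) (hU : F.IsFullyNormalized U)
    {Q : Subgroup Ω} (hUQ : U ≤ Q) (hQ : Q ≤ normalizerIn S U)
    (hC : centralizerIn (normalizerIn S U) Q ≤ Q)
    (hinv : ∀ f, M F Q f → (∀ x ∈ U, f x ∈ U) → ∀ x ∈ Q, f x ∈ Q) : F.IsCentric Q := by
  have : Fact (Nat.Prime 2) := ⟨Nat.prime_two⟩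
  have hQS : Q ≤ S := hQ.trans inf_le_left
  refine ⟨hQS, fun R hR => ?_⟩
  obtain ⟨f, hf, rfl⟩ := isConj_iff.1 hR
  have hc := (hf.mono hUQ).isConj
  obtain ⟨φ, hφ, hm, hi⟩ := Fus.exists_normalizer_hom hS (Fus.sat_automized hS hF hU)
    (Fus.sat_receptive hS hF hU) (Fus.isConj_symm hc)
  have hU' := Fus.le_normalizerIn (hf.mono hUQ).img_le
  rw [map_subgroupOf_eq_img φ hU'] at hi
  have hψ := M_fn hφ
  have h1 : ∀ x ∈ Q, f x ∈ normalizerIn S (img U f) := fun x hx =>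
    hf.mem_normalizerIn hUQ hx (hQ hx).2
  have h2 := hf.comp hψ h1
  have h3 := h2.img_eq_self (hinv _ h2 fun x hx =>
    hi.le (mem_img_of_mem _ (mem_img_of_mem _ hx)))
  intro c hc'
  have h4 : c ∈ normalizerIn S (img U f) :=
    Fus.centralizerIn_le_normalizerIn _ (Fus.centralizerIn_anti (img_mono f hUQ) hc')
  have h5 : Fus2.fn φ c ∈ Q := by
    refine hC ⟨by rw [fn_apply _ h4]; exact hm _, fun y hy => ?_⟩
    obtain ⟨x, hx, rfl⟩ := h2.mem_img.1 (h3.symm ▸ hy)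
    rw [← hψ.map_mul (h1 x hx) h4, ← hψ.map_mul h4 (h1 x hx), hc'.2 _ (mem_img_of_mem f hx)]
  obtain ⟨x, hx, e⟩ := h2.mem_img.1 (h3.symm ▸ h5)
  rw [← hψ.inj _ (h1 x hx) _ h4 e]
  exact mem_img_of_mem f hx

end Cfsg.Agent.MP.Rd
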