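import Cfsg.Agent.Lib.MP.Red1
import Cfsg.Agent.Lib.Asch.Model

/-!
# Row RED, part 2: the result of row GRP pulled back from the model of `N_F(U)`
-/

set_option autoImplicit false

namespace Cfsg.Agent.MP.Rd

open Subgroup Fus2 FusionSystem

universe u

variable {Ω : Type u} [Group Ω] {S : Subgroup Ω}

/-- The pulled back configuration. -/
structure Pb (F N : FusionSystem S) (U Q E₁ E₂ C₁ C₂ : Subgroup Ω) (l : Ω → Ω)
    (α : MulAut (normalizerIn S U)) : Prop where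
  UQ : U ≤ Q
  QT : Q ≤ normalizerIn S U
  le₁ : E₁ ≤ normalizerIn S U
  le₂ : E₂ ≤ normalizerIn S U
  αE : ∀ y ∈ normalizerIn S U, afn α y ∈ E₂ ↔ y ∈ E₁
  αC : ∀ y ∈ normalizerIn S U, afn α y ∈ C₂ ↔ y ∈ C₁
  αH : ∀ y ∈ normalizerIn S U, afn α y ∈ E₁ ⊓ E₂ ↔ y ∈ E₁ ⊓ E₂
  tw : Tw E₁ E₂ C₁ C₂
  lF : M F (E₁ ⊔ Q) l
  lE : ∀ x ∈ E₁, l x ∈ E₁
  lU : ∀ x ∈ U, l x ∈ U
  lN : ¬ M N Q l
  lC : ∀ c ∈ C₁, l c = c
  lH : ∀ x ∈ E₁ ⊓ E₂, x ∉ C₁ → l x ∉ E₂
  fin : C₁ ⊓ C₂ = ⊥ → centralizerIn (normalizerIn S U) E₁ ≤ E₁ ∧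
    ∀ A ≤ normalizerIn S U, E2 A → Nat.card E₁ ≤ Nat.card A → A = E₁ ∨ A = E₂

section Pre

variable {G : Type*} [Group G] {T : Subgroup Ω} {ι : T →* G} (hι : Function.Injective ι)
include hι

theorem e2_pre {A : Subgroup G} (h : E2 A) : E2 (preimageAlong ι A) := fun x hx => by
  obtain ⟨h1, h2⟩ := mem_pre.1 hx
  refine Asch.fn_inj hι _ (mul_mem h1 h1) _ (one_mem _) ?_
  rw [(homOn_fn ι).map_mul h1 h1, h _ h2, (homOn_fn ι).map_one]

omit hι in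
theorem pre_inf (ι : T →* G) (A B : Subgroup G) :
    preimageAlong ι (A ⊓ B) = preimageAlong ι A ⊓ preimageAlong ι B := by
  ext x; simp only [mem_pre, mem_inf]; tauto

omit hι in
theorem pre_not_le {A B : Subgroup G} (hA : A ≤ ι.range) (h : ¬ A ≤ B) :
    ¬ preimageAlong ι A ≤ preimageAlong ι B := fun h1 => h fun y hy => by
  obtain ⟨x, hx, rfl⟩ := exists_pre_of_le_range hA y hy
  exact (mem_pre.1 (h1 hx)).2

theorem tw_pre {E₁ E₂ C₁ C₂ : Subgroup G} (h : Tw E₁ E₂ C₁ C₂) (h₁ : E₁ ≤ ι.range)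
    (h₂ : E₂ ≤ ι.range) : Tw (preimageAlong ι E₁) (preimageAlong ι E₂) (preimageAlong ι C₁)
      (preimageAlong ι C₂) := by
  have hc : ∀ a ∈ T, ∀ b ∈ T, fn ι (a * b * a⁻¹ * b⁻¹) =
      fn ι a * fn ι b * (fn ι a)⁻¹ * (fn ι b)⁻¹ := fun a ha b hb => (homOn_fn ι).map_comm ha hb
  refine ⟨e2_pre hι h.sq₁, e2_pre hι h.sq₂, pre_inf ι E₁ E₂ ▸ pre_mono ι h.le₁,
    pre_inf ι E₁ E₂ ▸ pre_mono ι h.le₂, pre_not_le h₁ h.ne₁, pre_not_le h₂ h.ne₂,
    fun a ha b hb => ?_, fun a ha ha' b hb hb' => ?_⟩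
  · obtain ⟨a1, a2⟩ := mem_pre.1 ha
    obtain ⟨b1, b2⟩ := mem_pre.1 hb
    rw [← pre_inf, mem_pre, hc a a1 b b1]
    exact ⟨mul_mem (mul_mem (mul_mem a1 b1) (inv_mem a1)) (inv_mem b1), h.cm _ a2 _ b2⟩
  · obtain ⟨a1, a2⟩ := mem_pre.1 ha
    obtain ⟨b1, b2⟩ := mem_pre.1 hb
    have := h.nc _ a2 (fun e => ha' (mem_pre.2 ⟨a1, e⟩)) _ b2 fun e => hb' (mem_pre.2 ⟨b1, e⟩)
    rw [← hc a a1 b b1] at this
    exact ⟨fun e => this.1 (mem_pre.1 e).2, fun e => this.2 (mem_pre.1 e).2⟩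

theorem card_pre {A : Subgroup G} (hA : A ≤ ι.range) :
    Nat.card (preimageAlong ι A) = Nat.card A := by
  conv_rhs => rw [← img_pre hA]
  exact (((homOn_fn ι).mono (pre_le ι A)).card_img fun x hx y hy =>
    Asch.fn_inj hι x (pre_le _ _ hx) y (pre_le _ _ hy)).symm

theorem pre_img' {A : Subgroup Ω} (hA : A ≤ T) : preimageAlong ι (img A (fn ι)) = A :=
  pre_img hA fun x hx => by
    obtain ⟨h1, h2⟩ := mem_pre_bot.1 hx
    rw [Asch.fn_inj hι x h1 1 (one_mem _) (h2.trans (homOn_fn ι).map_one.symm)]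
    exact one_mem _

end Pre

variable {F N : FusionSystem S} [Finite S] {U : Subgroup Ω}

theorem exists_pb (hg : GrpStmt.{u}) (h : Hy F N) (hmin : Min F) (hU : Mx F N U)
    (W : Subgroup (MulAut (normalizerIn S U))) (hW : ∀ t, MulAut.conj t ∈ W)
    (hY : ∀ Y ≤ normalizerIn S U, Y ≠ ⊥ → (∀ α ∈ W, ∀ y ∈ Y, afn α y ∈ Y) → Gd F N Y) :
    ∃ Q E₁ E₂ C₁ C₂ l, ∃ α ∈ W, Pb F N U Q E₁ E₂ C₁ C₂ l α := by
  have : Fact (Nat.Prime 2) := ⟨Nat.prime_two⟩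
  have hfn := hU.fn h
  have hE := isNormalizerSystem_normalizerSystem F hU.le
  obtain ⟨E, hE'⟩ : ∃ E, E = normalizerSystem F hU.le := ⟨_, rfl⟩
  rw [← hE'] at hE
  have hT : IsPGroup 2 (normalizerIn S U) := h.pg.to_le inf_le_left
  have hEs := normalizer_saturated h.pg h.sat hfn hE
  have hcon := isConstrained_of_abSeries hT hEs
    ((isSolvableSystem_iff hT hEs).1 (hmin U hU.ne hfn E hE))
  obtain ⟨G, _, ι, hG⟩ := Biset.exists_model hT hEs (isNormal_core E) (isConstrained_iff.1 hcon).2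
  have := hG.1
  have hι := hG.2.1.1
  have ha := homOn_fn ι
  obtain ⟨b, hb⟩ := exists_gIso ha (Asch.fn_inj hι) (img_fn ι)
  have hsub := isSubsystemOf_iff.1 (normalizer_isSubsystemOf hE)
  obtain ⟨Q, hQ⟩ : ∃ Q, Q = preimageAlong ι (pCore 2 G) := ⟨_, rfl⟩
  have hQn : E.IsNormal Q := hQ ▸ Asch.model_isNormal_pre hG
  have hQT : Q ≤ normalizerIn S U := hQn.1
  have hUQ : U ≤ Q := hQ ▸ Asch.model_core_eq hG ▸ le_core (isNormal_normalizer hE hU.le)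
  have hQG := Asch.model_pCore_le hG
  have hQm : ∀ x ∈ Q, fn ι x ∈ pCore 2 G := fun x hx => (mem_pre.1 (hQ ▸ hx)).2
  have hcen : F.IsCentric Q := centric_of h.pg h.sat hfn hUQ hQT
    (hQ ▸ Asch.model_centralizerIn_le hG) fun f hf hfU x hx =>
      (M_normalizer_of hE hf hUQ hQT ((hf.mono hUQ).img_eq_self hfU)).mem_of_sc
        (sc_of_isNormal hQn) hx hx
  obtain ⟨c, hc⟩ : ∃ c : G → Ω → Ω, c = fun g x => b (g * fn ι x * g⁻¹) := ⟨_, rfl⟩
  have hca : ∀ g x, g * fn ι x * g⁻¹ ∈ ι.range → fn ι (c g x) = g * fn ι x * g⁻¹ :=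
    fun g x hx => by rw [hc]; exact hb.right _ hx
  have hcT : ∀ g x, g * fn ι x * g⁻¹ ∈ ι.range → c g x ∈ normalizerIn S U :=
    fun g x hx => by rw [hc]; exact hb.mem' _ hx
  have hcM : ∀ g P, P ≤ normalizerIn S U → (∀ x ∈ P, g * fn ι x * g⁻¹ ∈ ι.range) →
      M E P (c g) := fun g P hP hx => (Asch.M_iff_of_realized hG.2.1).2
    ⟨hP, fun x hx' => hcT g x (hx x hx'), g, fun x hx' => hca g x (hx x hx')⟩
  have hcQ' : ∀ g, ∀ x ∈ Q, g * fn ι x * g⁻¹ ∈ pCore 2 G := fun g x hx =>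
    Normal.conj_mem inferInstance _ (hQm x hx) g
  have hcQ : ∀ g, ∀ x ∈ Q, c g x ∈ Q := fun g x hx => hQ ▸ mem_pre.2
    ⟨hcT g x (hQG (hcQ' g x hx)), by rw [hca g x (hQG (hcQ' g x hx))]; exact hcQ' g x hx⟩
  have hcmul : ∀ g k, ∀ x ∈ Q, c g (c k x) = c (g * k) x := fun g k x hx => by
    have := hca k x (hQG (hcQ' k x hx))
    rw [hc] at this ⊢
    simp only at this ⊢
    rw [this]
    congr 1; group
  have hcone : ∀ x ∈ Q, c 1 x = x := fun x hx => by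
    rw [hc]; simpa using hb.left x (hQT hx)
  have hcsup : ∀ g (Y : Subgroup G), Y ≤ ι.range → g ∈ normalizer (Y : Set G) →
      M E (preimageAlong ι Y ⊔ Q) (c g) ∧ ∀ x ∈ preimageAlong ι Y, c g x ∈ preimageAlong ι Y := by
    intro g Y hY hn
    have h1 : ∀ x ∈ preimageAlong ι Y, g * fn ι x * g⁻¹ ∈ Y := fun x hx =>
      Fus.conj_mem_of_mem_normalizer hn (mem_pre.1 hx).2
    have h2 := sup_le (pre_le ι Y) hQT
    refine ⟨hcM g _ h2 (((ha.mono h2).comp (homOn_conj ⊤ g) fun _ _ => mem_top _).mem_of_sup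
      (fun x hx => hY (h1 x hx)) fun x hx => hQG (hcQ' g x hx)), fun x hx =>
      mem_pre.2 ⟨hcT g x (hY (h1 x hx)), by rw [hca g x (hY (h1 x hx))]; exact h1 x hx⟩⟩
  let MG : Subgroup G :=
    { carrier := {g | M N Q (c g)}
      one_mem' := (M_id N hcen.1).congr fun x hx => (hcone x hx).symm
      mul_mem' := fun {g k} hg hk => (M.comp hk hg (hcQ k)).congr (hcmul g k)
      inv_mem' := fun {g} hg => by
        obtain ⟨k, hk, -, e, -, -⟩ := M.inv' hg (M.img_eq_self hg (hcQ g))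
        refine hk.congr fun x hx => ?_
        rw [← e _ (hcQ g⁻¹ x hx), hcmul g g⁻¹ x hx, mul_inv_cancel, hcone x hx] }
  let e : normalizerIn S U ≃* ι.range := MonoidHom.ofInjective hι
  have he : ∀ x, (e x : G) = fn ι x := fun x => (fn_coe ι x).symm
  have hαe : ∀ (α : MulAut (normalizerIn S U)) y (hy : y ∈ normalizerIn S U),
      (MulAut.congr e α ⟨fn ι y, hb.mem y hy⟩ : G) = fn ι (afn α y) := fun α y hy => by
    rw [← afn_apply _ (hb.mem y hy), afn_congr e he α hy]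
  obtain ⟨T, hT'⟩ := hG.2.2.1
  obtain ⟨E₁, E₂, C₁, C₂, l, -, ⟨α, hα, rfl⟩, h₁, h₂, αE, αC, αH, tw, ln, lM, lC, lH, fin⟩ :=
    hg G ι.range MG (pCore 2 G) (W.map (MulAut.congr e).toMonoidHom) (hT' ▸ Tr.SylowIn.top T)
      inferInstance hQG hG.2.2.2
      (by
        rintro _ ⟨t, rfl⟩
        refine (M_conj N hcen.1 t.2.1).congr fun x hx => ?_
        rw [hc, ← fn_coe ι t]
        simp only
        rw [← ha.map_conj t.2 (hQT hx), hb.left _ (mul_mem (mul_mem t.2 (hQT hx)) (inv_mem t.2))])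
      (fun hM => hU.bad fun P f hUP hP hf hfU => by
        obtain ⟨k, hk, e1, -⟩ := isNormal_ext hQn
          (M_normalizer_of hE hf hUP hP ((hf.mono hUP).img_eq_self hfU))
        obtain ⟨-, -, g, hg⟩ := (Asch.M_iff_of_realized hG.2.1).1 hk
        have h1 : M N Q (c g) := (hM ▸ mem_top g : g ∈ MG)
        refine ((Fus.M_of_restrict_centric h.pg h.sat h.satN h.le hcen le_sup_right (hsub _ _ hk)
          (h1.congr fun x hx => ?_)).mono le_sup_left).congr e1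
        rw [hc]
        simp only
        rw [← hg x (mem_sup_right hx), hb.left _ (hk.mem (mem_sup_right hx))])
      (fun t => ⟨MulAut.conj (e.symm t), hW _, MulEquiv.ext fun x => by simp⟩)
      (fun Y hYT h0 hinv g hn => by
        have h1 : ∀ α ∈ W, ∀ y ∈ preimageAlong ι Y, afn α y ∈ preimageAlong ι Y :=
          fun α hα y hy => mem_pre.2 ⟨afn_mem α (pre_le _ _ hy), by
            rw [← hαe α y (pre_le _ _ hy)]
            exact hinv _ ⟨α, hα, rfl⟩ _ (mem_pre.1 hy).2⟩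
        have h2 := hY _ (pre_le ι Y) (fun e => h0 (by rw [← img_pre hYT, e, img_bot ha.map_one])) h1
        obtain ⟨h3, h4⟩ := hcsup g Y hYT hn
        have := finite_of_le (pre_le ι Y)
        refine (h2 _ _ le_sup_left (fun t ht => ?_) (hsub _ _ h3) h4).mono le_sup_right
        have ht' := sup_le (pre_le ι Y) hQT ht
        refine ⟨ht'.1, Fus.mem_normalizer_of_conj_mem fun y hy => ?_⟩
        have := h1 _ (hW ⟨t, ht'⟩) y hy
        rwa [afn_apply _ (pre_le _ _ hy)] at this)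
  have hpre : ∀ {A B : Subgroup G}, (∀ y : ι.range, (MulAut.congr e α y : G) ∈ B ↔ (y : G) ∈ A) →
      ∀ y ∈ normalizerIn S U, afn α y ∈ preimageAlong ι B ↔ y ∈ preimageAlong ι A :=
    fun hAB y hy => by
      rw [mem_pre, mem_pre, ← hαe α y hy, hAB]
      exact and_congr_left' (iff_of_true (afn_mem α hy) hy)
  obtain ⟨l1, l2⟩ := hcsup l E₁ h₁ ln
  have l3 : ∀ x ∈ preimageAlong ι E₁, fn ι (c l x) = l * fn ι x * l⁻¹ := fun x hx =>
    hca l x (h₁ (Fus.conj_mem_of_mem_normalizer ln (mem_pre.1 hx).2))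
  refine ⟨Q, _, _, _, _, c l, α, hα, hUQ, hQT, pre_le _ _, pre_le _ _, hpre αE, hpre αC,
    pre_inf ι E₁ E₂ ▸ hpre αH, tw_pre hι tw h₁ h₂, hsub _ _ l1, l2, fun x hx =>
      l1.mem_of_sc (sc_of_isNormal (isNormal_normalizer hE hU.le)) (mem_sup_right (hUQ hx)) hx,
    lM, fun x hx => ?_, fun x hx hx' e => ?_, fun h0 => ?_⟩
  · have hx' := pre_mono ι (tw.le₁.trans inf_le_left) hx
    refine Asch.fn_inj hι _ (pre_le _ _ (l2 x hx')) _ (pre_le _ _ hx) ?_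
    rw [l3 x hx', (lC _ (mem_pre.1 hx).2).eq, mul_inv_cancel_right]
  · refine lH _ ⟨(mem_pre.1 hx.1).2, (mem_pre.1 hx.2).2⟩
      (fun e => hx' (mem_pre.2 ⟨pre_le _ _ hx.1, e⟩)) ?_
    rw [← l3 x hx.1]
    exact (mem_pre.1 e).2
  · obtain ⟨f1, f2⟩ := fin (by
      rw [← img_pre ((inf_le_left.trans (tw.le₁.trans inf_le_left)).trans h₁ : C₁ ⊓ C₂ ≤ _),
        pre_inf, h0, img_bot ha.map_one])
    refine ⟨fun x hx => mem_pre.2 ⟨hx.1, f1 ⟨hb.mem x hx.1, fun y hy => ?_⟩⟩,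
      fun A hA hA2 hc => ?_⟩
    · obtain ⟨z, hz, rfl⟩ := exists_pre_of_le_range h₁ y hy
      rw [← ha.map_mul (pre_le _ _ hz) hx.1, ← ha.map_mul hx.1 (pre_le _ _ hz), hx.2 z hz]
    · have h3 := f2 _ (img_le_range ι hA) (fun y hy => by
        obtain ⟨z, hz, rfl⟩ := (mem_img_fn hA).1 hy
        rw [← ha.map_mul (hA hz) (hA hz), hA2 z hz, ha.map_one])
        (by rwa [hb.card_img hA, ← card_pre hι h₁])
      rw [← pre_img' hι hA]
      exact h3.imp (congrArg _) (congrArg _)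

end Cfsg.Agent.MP.Rd
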