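import Cfsg.Agent.Lib.MP.Red2

/-!
# Row RED, part 3: the two elementary abelian subgroups are swapped by an element of `S`
-/

set_option autoImplicit false

namespace Cfsg.Agent.MP.Rd

open Subgroup Fus2 FusionSystem Tr

universe u

variable {Ω : Type u} [Group Ω] {S : Subgroup Ω}

theorem e2_comm {A : Subgroup Ω} (h : E2 A) {x y : Ω} (hx : x ∈ A) (hy : y ∈ A) :
    x * y = y * x := by
  rw [← inv_eq_of_mul_eq_one_right (h _ (mul_mem hx hy)), mul_inv_rev,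
    inv_eq_of_mul_eq_one_right (h x hx), inv_eq_of_mul_eq_one_right (h y hy)]

theorem e2_le_normalizerIn {A B : Subgroup Ω} (h : E2 A) (hA : A ≤ S) (hB : B ≤ A) :
    A ≤ normalizerIn S B := fun _ ha =>
  Fus.centralizerIn_le_normalizerIn _ ⟨hA ha, fun _ hx => e2_comm h (hB hx) ha⟩

/-- The automorphism `β` carries `A` onto `B`. -/
def To {T : Subgroup Ω} (β : MulAut T) (A B : Subgroup Ω) : Prop :=
  ∀ y ∈ T, afn β y ∈ B ↔ y ∈ A

theorem To.mul {T A B C : Subgroup Ω} {β γ : MulAut T} (h : To β A B) (h' : To γ B C) :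
    To (γ * β) A C := fun y hy => by rw [afn_mul, h' _ (afn_mem β hy), h y hy]

theorem To.inv_mem {T A B : Subgroup Ω} {β : MulAut T} (h : To β A B) (hB : B ≤ T) {x : Ω}
    (hx : x ∈ B) : afn β⁻¹ x ∈ A := (h _ (afn_mem _ (hB hx))).1 (by rwa [afn_afn_inv])

theorem to_img {T A : Subgroup Ω} (β : MulAut T) (hA : A ≤ T) : To β A (img A (afn β)) :=
  fun y _ => by rw [Fus.mem_img_afn_iff hA, afn_inv_afn]

theorem To.card {T A B : Subgroup Ω} {β : MulAut T} (h : To β A B) (hA : A ≤ T) (hB : B ≤ T) :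
    Nat.card A = Nat.card B := by
  rw [← ((homOn_afn β).mono hA).card_img fun _ _ _ _ e => afn_injective β e]
  congr 2
  ext x
  rw [Fus.mem_img_afn_iff hA]
  exact ⟨fun hx => by simpa using (h _ (hA hx)).2 hx, h.inv_mem hB⟩

theorem To.pow {T A B : Subgroup Ω} {β : MulAut T} (h : To β A B) (h' : To β B A) (k : ℕ) :
    To (β ^ (2 * k + 1)) A B ∧ To (β ^ (2 * k + 1)) B A := by
  induction k with
  | zero => simpa using ⟨h, h'⟩
  | succ k ih =>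
    rw [show 2 * (k + 1) + 1 = 1 + 1 + (2 * k + 1) by ring, pow_add, pow_add, pow_one, mul_assoc]
    exact ⟨(ih.1.mul h').mul h, (ih.2.mul h).mul h'⟩

theorem To.cj {T A B : Subgroup Ω} {β : MulAut T} (h : To β A B) (hA : A ≤ T) (hB : B ≤ T)
    {s : Ω} (hs : ∀ x ∈ T, afn β x = s * x * s⁻¹) : cj s A = B := by
  ext x
  rw [mem_cj']
  constructor
  · rintro ⟨a, ha, rfl⟩
    rw [← hs a (hA ha)]
    exact (h a (hA ha)).2 ha
  · intro hx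
    exact ⟨_, h.inv_mem hB hx, by rw [← hs _ (afn_mem _ (hB hx)), afn_afn_inv]⟩

theorem odd_pow [Finite S] {F : FusionSystem S} (hS : IsPGroup 2 S) (hF : F.IsSaturated 2)
    {T : Subgroup Ω} (hT : T = S) {α : MulAut T} (hα : α ∈ F.autGroup T) :
    ∃ k, α ^ (2 * k + 1) ∈ Inn T := by
  subst hT
  have : Fact (Nat.Prime 2) := ⟨Nat.prime_two⟩
  have := Fus.finite_mulAut T
  have h1 := Fus.sat_sylow_top hS hF
  obtain ⟨k, m, hm, hk⟩ := Nat.exists_eq_pow_mul_and_not_dvd (orderOf_pos α).ne' 2 (by norm_num)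
  obtain ⟨j, rfl⟩ : ∃ j, m = 2 * j + 1 := ⟨m / 2, by omega⟩
  obtain ⟨x, -, hx⟩ := SylowIn.exists_conj_mem ⟨h1.le, h1.isPGroup, h1.not_dvd_relIndex⟩
    (pow_mem hα (2 * j + 1)) (k := k) (by rw [← pow_mul, mul_comm, ← hk, pow_orderOf_eq_one])
  exact ⟨j, (Fus.congr_mem_Inn_iff x).1 hx⟩

/-- The configuration before the application of row RK1. -/
structure Pc (F N : FusionSystem S) (E₁ E₂ : Subgroup Ω) (s : Ω) : Prop where
  mx : Mx F N E₁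
  le₂ : E₂ ≤ normalizerIn S E₁
  sS : s ∈ S
  sT : s ∈ normalizer (normalizerIn S E₁ : Set Ω)
  s₁ : cj s E₁ = E₂
  s₂ : cj s E₂ = E₁
  n₂ : normalizerIn S E₁ ≤ normalizer (E₂ : Set Ω)
  tw : Tw E₁ E₂ ⊥ ⊥
  cen : centralizerIn S E₁ ≤ E₁
  max : ∀ A ≤ normalizerIn S E₁, E2 A → Nat.card E₁ ≤ Nat.card A → A = E₁ ∨ A = E₂

variable {F N : FusionSystem S} [Finite S] {U Q E₁ E₂ C₁ C₂ : Subgroup Ω} {l : Ω → Ω}
  {α : MulAut (normalizerIn S U)} (p : Pb F N U Q E₁ E₂ C₁ C₂ l α)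
include p

theorem Pb.lT {x : Ω} (hx : x ∈ E₁ ⊔ Q) : l x ∈ normalizerIn S U := by
  have h1 := p.UQ.trans (le_sup_right (a := E₁))
  have := p.lF.mem_normalizerIn h1 hx (sup_le p.le₁ p.QT hx).2
  rwa [(p.lF.mono h1).img_eq_self p.lU] at this

theorem Pb.solv (hs : SolvStmt.{u}) (h : Hy F N) (hmin : Min F) {β : MulAut (normalizerIn S U)}
    (hβ : β ∈ F.autGroup _) {C V : Subgroup Ω} (βE : To β E₁ E₂) (βH : To β (E₁ ⊓ E₂) (E₁ ⊓ E₂))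
    (βC : To β C₁ C) (tw : Tw E₁ E₂ C₁ C) (h0 : V ≠ ⊥) (v₁ : V ≤ E₁ ⊔ Q)
    (v₂ : ∀ x ∈ V, afn β⁻¹ x ∈ E₁ ⊔ Q) (v₃ : ∀ x ∈ V, l x ∈ V)
    (v₄ : ∀ x ∈ V, afn β (l (afn β⁻¹ x)) ∈ V) (n₁ : E₁ ≤ normalizerIn S V)
    (n₂ : E₂ ≤ normalizerIn S V) : False := by
  have hT : normalizerIn S U ≤ S := inf_le_left
  have hV := v₁.trans (sup_le p.le₁ p.QT)
  have h1 := sup_le p.le₂ hV
  have h2 : ∀ x ∈ E₂ ⊔ V, afn β⁻¹ x ∈ E₁ ⊔ Q := ((homOn_afn _).mono h1).mem_of_sup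
    (fun x hx => mem_sup_left (βE.inv_mem p.le₂ hx)) v₂
  have h3 : ∀ x ∈ E₂, l (afn β⁻¹ x) ∈ E₁ := fun x hx => p.lE _ (βE.inv_mem p.le₂ hx)
  refine hs F h.pg h.sat hmin V E₁ E₂ C₁ C h0 (hV.trans hT) n₁ n₂ tw l
    (fun x => afn β (l (afn β⁻¹ x))) (p.lF.mono (sup_le le_sup_left v₁))
    (((((mem_autGroup_iff hT).1 (inv_mem hβ)).mono h1).comp p.lF h2).comp
      ((mem_autGroup_iff hT).1 hβ) fun x hx => p.lT (h2 x hx)) v₃ v₄ p.lE
    (fun x hx => (βE _ (p.le₁ (h3 x hx))).2 (h3 x hx)) p.lH fun x hx hx' e => ?_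
  have h4 := βH.inv_mem (inf_le_left.trans p.le₁) hx
  refine p.lH _ h4 (fun e => hx' ?_) ((βH _ (p.le₁ (h3 x hx.2))).1
    ⟨e, (βE _ (p.le₁ (h3 x hx.2))).2 (h3 x hx.2)⟩).2
  simpa using (βC _ (p.le₁ h4.1)).2 e

theorem Pb.bot (hs : SolvStmt.{u}) (h : Hy F N) (hmin : Min F) (hα : α ∈ F.autGroup _) :
    C₁ ⊓ C₂ = ⊥ := by
  by_contra h0
  have h1 : C₁ ⊓ C₂ ≤ E₁ ⊓ E₂ := inf_le_left.trans p.tw.le₁
  have h2 : ∀ x ∈ C₁ ⊓ C₂, afn α⁻¹ x ∈ C₁ := fun x hx =>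
    To.inv_mem p.αC (p.tw.le₂.trans (inf_le_left.trans p.le₁)) hx.2
  refine p.solv hs h hmin hα p.αE p.αH p.αC p.tw h0 ((h1.trans inf_le_left).trans le_sup_left)
    (fun x hx => mem_sup_left (p.tw.le₁ (h2 x hx)).1) (fun x hx => by rwa [p.lC x hx.1])
    (fun x hx => by rwa [p.lC _ (h2 x hx), afn_afn_inv])
    (e2_le_normalizerIn p.tw.sq₁ (p.le₁.trans inf_le_left) (h1.trans inf_le_left))
    (e2_le_normalizerIn p.tw.sq₂ (p.le₂.trans inf_le_left) (h1.trans inf_le_right))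

omit [Finite S] in
theorem Pb.perm (h0 : C₁ ⊓ C₂ = ⊥) (β : MulAut (normalizerIn S U)) :
    (To β E₁ E₁ ∧ To β E₂ E₂) ∨ (To β E₁ E₂ ∧ To β E₂ E₁) := by
  have key : ∀ A ≤ normalizerIn S U, E2 A → Nat.card E₁ = Nat.card A → To β A E₁ ∨ To β A E₂ :=
    fun A hA h2 hc => by
      have h1 := to_img β hA
      have h3 : img A (afn β) ≤ normalizerIn S U := img_le_iff.2 fun x hx => afn_mem β (hA hx)
      rcases (p.fin h0).2 _ h3 (fun x hx => by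
        have h4 := h1.inv_mem h3 hx
        rw [← afn_afn_inv β x, ← (homOn_afn β).map_mul (hA h4) (hA h4), h2 _ h4,
          (homOn_afn β).map_one]) (hc.trans (h1.card hA h3)).le with e | e
      · exact Or.inl (e ▸ h1)
      · exact Or.inr (e ▸ h1)
  have hne : ∀ B, To β E₁ B → To β E₂ B → False := fun B h1 h2 =>
    p.tw.ne₁ fun x hx => (h2 x (p.le₁ hx)).1 ((h1 x (p.le₁ hx)).2 hx)
  rcases key E₁ p.le₁ p.tw.sq₁ rfl with h1 | h1 <;>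
    rcases key E₂ p.le₂ p.tw.sq₂ (To.card p.αE p.le₁ p.le₂) with h2 | h2
  exacts [(hne _ h1 h2).elim, Or.inl ⟨h1, h2⟩, Or.inr ⟨h1, h2⟩, (hne _ h1 h2).elim]

theorem Pb.not_swap (hs : SolvStmt.{u}) (h : Hy F N) (hmin : Min F) (hU : Mx F N U)
    {β : MulAut (normalizerIn S U)} (hβ : β ∈ Inn _) (h₁ : To β E₁ E₂) (h₂ : To β E₂ E₁) :
    False := by
  have hH : To β (E₁ ⊓ E₂) (E₁ ⊓ E₂) := fun y hy => by
    rw [mem_inf, mem_inf, h₁ y hy, h₂ y hy, and_comm]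
  have hC : C₁ ≤ normalizerIn S U := p.tw.le₁.trans (inf_le_left.trans p.le₁)
  have hU' : ∀ γ ∈ Inn (normalizerIn S U), ∀ x ∈ U, afn γ x ∈ U := fun γ hγ x hx => by
    obtain ⟨t, ht, e⟩ := Fus2.mem_Inn_iff.1 hγ
    rw [e x (p.QT (p.UQ hx))]
    exact Fus.conj_mem_of_mem_normalizerIn ht hx
  refine p.solv hs h hmin (Fus.Inn_le_autGroup inf_le_left hβ) h₁ hH (to_img β hC)
    ⟨p.tw.sq₁, p.tw.sq₂, p.tw.le₁, img_le_iff.2 fun x hx => (hH x (hC hx)).2 (p.tw.le₁ hx),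
      p.tw.ne₁, p.tw.ne₂, p.tw.cm, fun a ha ha' b hb hb' => ⟨(p.tw.nc a ha ha' b hb hb').1,
        fun e => ?_⟩⟩ hU.ne (p.UQ.trans le_sup_right)
    (fun x hx => mem_sup_right (p.UQ (hU' _ (inv_mem hβ) x hx))) p.lU
    (fun x hx => hU' _ hβ _ (p.lU _ (hU' _ (inv_mem hβ) x hx))) p.le₁ p.le₂
  rw [Fus.mem_img_afn_iff hC, show afn β⁻¹ (a * b * a⁻¹ * b⁻¹) = _ from
    (homOn_afn β⁻¹).map_comm (p.le₁ ha) (p.le₂ hb)] at e
  refine (p.tw.nc _ (h₁.inv_mem p.le₂ hb) (fun e => hb' ?_) _ (h₂.inv_mem p.le₁ ha)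
    fun e => ha' ?_).1 ?_
  · simpa using (h₂ _ (p.le₂ e)).2 e
  · simpa using (h₁ _ (p.le₁ e)).2 e
  · simpa [commutatorElement_def, mul_assoc] using inv_mem e

theorem Pb.pc (hs : SolvStmt.{u}) (h : Hy F N) (hmin : Min F) (hU : Mx F N U)
    (hα : α ∈ autInducedBy S _) : ∃ s, Pc F N E₁ E₂ s := by
  have hT : normalizerIn S U ≤ S := inf_le_left
  have h0 := p.bot hs h hmin (Fus.autInducedBy_le_autGroup hT hα)
  obtain ⟨s, hsS, e⟩ := Fus2.mem_autInducedBy_iff.1 hα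
  have h₂ : To α E₂ E₁ := by
    rcases p.perm h0 α with h1 | h1
    · exact absurd (fun x hx => (p.αE _ (p.le₂ hx)).1 ((h1.2 x (p.le₂ hx)).2 hx)) p.tw.ne₂
    · exact h1.2
  have hn : ∀ t ∈ normalizerIn S U, t ∈ normalizer (E₁ : Set Ω) ∧ t ∈ normalizer (E₂ : Set Ω) :=
    fun t ht => by
      have e' : ∀ x ∈ normalizerIn S U, afn (MulAut.conj (⟨t, ht⟩ : normalizerIn S U)) x =
        t * x * t⁻¹ := fun x hx => afn_apply _ hx
      rcases p.perm h0 (MulAut.conj ⟨t, ht⟩) with h1 | h1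
      · exact ⟨cj_eq_iff.1 (h1.1.cj p.le₁ p.le₁ e'), cj_eq_iff.1 (h1.2.cj p.le₂ p.le₂ e')⟩
      · exact (p.not_swap hs h hmin hU ⟨_, rfl⟩ h1.1 h1.2).elim
  have hle : normalizerIn S U ≤ normalizerIn S E₁ := fun t ht => ⟨hT ht, (hn t ht).1⟩
  obtain ⟨h1, h2⟩ := hU.of_le (fun e => p.tw.ne₁ (e.le.trans bot_le)) (p.le₁.trans hT)
    (fun hg => p.lN ((hg _ _ le_sup_left ((sup_le p.le₁ p.QT).trans hle) p.lF p.lE).mono
      le_sup_right)) hle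
  refine ⟨s, h1, h2 ▸ p.le₂, hsS, h2 ▸ mem_normalizer_of_afn e, To.cj p.αE p.le₁ p.le₂ e,
    h₂.cj p.le₂ p.le₁ e, h2 ▸ fun t ht => (hn t ht).2, ⟨p.tw.sq₁, p.tw.sq₂, bot_le, bot_le,
      p.tw.ne₁, p.tw.ne₂, p.tw.cm, fun a ha ha' b hb hb' => ?_⟩, fun c hc => (p.fin h0).1
      ⟨h2 ▸ Fus.centralizerIn_le_normalizerIn _ hc, hc.2⟩, h2 ▸ (p.fin h0).2⟩
  exact and_self_iff.2 fun e => (p.tw.nc a ha ha' b hb hb').1 (bot_le (a := C₁) e)

omit p in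
theorem exists_pc (hg : GrpStmt.{u}) (hs : SolvStmt.{u}) (h : Hy F N) (hmin : Min F)
    (hU : Mx F N U) : ∃ E₁ E₂ s, Pc F N E₁ E₂ s := by
  have : Fact (Nat.Prime 2) := ⟨Nat.prime_two⟩
  have hT : normalizerIn S U ≤ S := inf_le_left
  by_cases hTS : normalizerIn S U = S
  · exfalso
    obtain ⟨Q, E₁, E₂, C₁, C₂, l, α, hα, p⟩ := exists_pb hg h hmin hU (F.autGroup _)
      (fun t => Fus.Inn_le_autGroup hT ⟨t, rfl⟩) fun Y hY h0 hinv =>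
        h.par Y h0 (hY.trans hT) fun f hf x hx => by
          obtain ⟨α, hα, e⟩ := (hf.mono hT).exists_aut' fun x hx => hTS.ge (hf.mem (hT hx))
          rw [← e x (hY hx)]
          exact hinv α hα x hx
    have h0 := p.bot hs h hmin hα
    obtain ⟨k, hk⟩ := odd_pow h.pg h.sat hTS hα
    rcases p.perm h0 α with h1 | h1
    · exact p.tw.ne₂ fun x hx => (p.αE _ (p.le₂ hx)).1 ((h1.2 x (p.le₂ hx)).2 hx)
    · exact p.not_swap hs h hmin hU hk (h1.1.pow h1.2 k).1 (h1.1.pow h1.2 k).2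
  obtain ⟨s, hsS, hn, hs'⟩ := Fus.exists_mem_normalizer_of_not_le h.pg hT le_rfl
    (hT.trans le_normalizer) fun e => hTS (le_antisymm hT e)
  obtain ⟨Q, E₁, E₂, C₁, C₂, l, α, hα, p⟩ := exists_pb hg h hmin hU (autInducedBy S _)
    (fun t => Fus.Inn_le_autInducedBy hT ⟨t, rfl⟩) fun Y hY h0 hinv => by
      have := finite_of_le (hY.trans hT)
      have h1 : ∀ g ∈ S, g ∈ normalizer (normalizerIn S U : Set Ω) → g ∈ normalizer (Y : Set Ω) :=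
        fun g hg hn => Fus.mem_normalizer_of_conj_mem fun y hy => by
          rw [← afn_conjAut hn (hY hy)]
          exact hinv _ (Fus.conjAut_mem_autInducedBy hg hn) y hy
      exact hU.gd h0 (hY.trans hT) (fun t ht => h1 t (hT ht) (le_normalizer ht)) hsS
        (h1 s hsS hn) hs'
  obtain ⟨s, hs⟩ := p.pc hs h hmin hU hα
  exact ⟨_, _, s, hs⟩

end Cfsg.Agent.MP.Rd
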