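import Cfsg.Agent.Lib.MP.Rk1

/-!
Steps 2 and 3, and row RK1.
-/

set_option autoImplicit false
set_option linter.unusedSectionVars false

namespace Cfsg.Agent.MP.Rk

open Subgroup Cfsg.Agent.Tr

universe u

variable {V : Type*} [CommGroup V] [Finite V] (hV : ∀ v : V, v * v = 1)

/-- The setting of steps 2 and 3. -/
structure Sg (K R M P : Subgroup (MulAut V)) (𝒢 : Set (Subgroup (MulAut V))) : Prop where
  syl : SylowIn 2 P K
  RP : R ≤ P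
  Rn : K ≤ normalizer (R : Set (MulAut V))
  PM : P ≤ M
  nM : ¬ K ≤ M
  F : ∀ g ∈ K, (∀ v ∈ fx P, g v = v) → g ∈ M
  good : ∀ D ∈ 𝒢, Good D
  le : ∀ D ∈ 𝒢, D ≤ K
  cjm : ∀ D ∈ 𝒢, ∀ g ∈ K, cj g D ∈ 𝒢
  U : ∀ D ∈ 𝒢, D ≤ M → ∀ g ∈ K, cj g D ≤ M → g ∈ M

theorem _root_.Cfsg.Agent.MP.Hf.exists_ne {D D' : Subgroup (MulAut V)} (h : Hf D D') :
    ∃ d ∈ D, d ≠ 1 ∧ ∃ v, v ∉ fx D := by
  obtain ⟨⟨d, hd⟩, d1⟩ := ne_bot_iff_exists_ne_one.1 h.ne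
  refine ⟨d, hd, fun e => d1 (Subtype.ext e), ?_⟩
  by_contra k; push Not at k
  exact h.ne (eq_bot_of_fx k)

include hV

namespace S1

variable {R M D L : Subgroup (MulAut V)} {U : Subgroup V} (h : S1 R M D L U) (hD : Good D)
include h

theorem cm_U {l d : MulAut V} (hl : l ∈ L) (hlM : l ∉ M) (hd : d ∈ D) (v : V) :
    ∃ u ∈ U ⊓ fx (cj l D), v * u ∈ fx D ∧ d v * v = d u * u := by
  obtain ⟨u, hu, e⟩ := h.cov l hl hlM v
  exact ⟨u, hu, e, by rw [← cm_fix hV (e d hd) u, mul_comm v u, sq' hV]⟩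

theorem cm_mem {d : MulAut V} (hd : d ∈ D) (v : V) : d v * v ∈ U := by
  obtain ⟨l, hl, hlM⟩ := SetLike.not_le_iff_exists.1 h.nM
  obtain ⟨u, hu, -, e⟩ := h.cm_U hV hl hlM hd v
  rw [e]; exact mul_mem (h.inv d (h.DL hd) u hu.1) hu.1

/-- `V = U C`. -/
theorem dec {l : MulAut V} (hl : l ∈ L) (hlM : l ∉ M) (v : V) :
    ∃ u ∈ U, ∃ c ∈ fx D ⊓ fx (cj l D), u * c = v := by
  obtain ⟨u, hu, e⟩ := h.cov l hl hlM v
  obtain ⟨w, hw, e'⟩ := h.cov _ (inv_mem hl) (mt inv_mem_iff.1 hlM) (l⁻¹ (v * u))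
  have k : l w ∈ fx D := by simpa using mem_fx_cj.1 hw.2
  refine ⟨u * l w, mul_mem hu.1 (h.inv l hl w hw.1), v * u * l w, ⟨mul_mem e k, ?_⟩, ?_⟩
  · exact mem_fx_cj.2 (by rw [map_mul, MulAut.inv_apply_self]; exact e')
  · rw [mul_assoc v, mul_comm v, sq' hV]

include hD

theorem hf {l : MulAut V} (hl : l ∈ L) (hlM : l ∉ M) : Hf D (cj l D) :=
  hf_of hV hD h.idx (by rw [index_fx_cj, h.idx]) (h.inj l hl hlM)

theorem r1 {l : MulAut V} (hl : l ∈ L) (hlM : l ∉ M) : R1 D (cj l D) :=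
  ⟨h.hf hV hD hl hlM, by
    simpa only [cj_cj_inv] using (h.hf hV hD (inv_mem hl) (mt inv_mem_iff.1 hlM)).cj l⟩

theorem cover {l : MulAut V} (hl : l ∈ L) (hlM : l ∉ M) (v : V) :
    v ∈ fx D ∨ ∃ d ∈ D, v ∈ fx (cj (d * l) D) := by
  refine or_iff_not_imp_left.2 fun hv => ?_
  obtain ⟨u, hu, e⟩ := h.cov l hl hlM v
  obtain ⟨d, hd, e'⟩ := (h.hf hV hD hl hlM).surj u (fun k => hv ((mul_mem_cancel_right k).1 e)) _ e
  refine ⟨d, hd, ?_⟩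
  have : v = d (v * u * (d u * u) * u) := by
    rw [map_mul, mul_mem e (hD.quad d hd u) d hd]
    simp only [mul_comm, mul_left_comm, mul_assoc, hV, sq' hV, mul_one]
  rw [this, cj_mul]
  exact app_mem_fx_cj.2 (mul_mem e' hu.2)

end S1

namespace Sg

variable {K R M P D : Subgroup (MulAut V)} {𝒢 : Set (Subgroup (MulAut V))} (s : Sg K R M P 𝒢)
  (hD : D ∈ 𝒢) (hM : D ≤ M)
include s hD hM

theorem s1 {K₀ : Subgroup (MulAut V)} (h1 : R ⊔ D ≤ K₀) (h2 : K₀ ≤ K) (h3 : ¬ K₀ ≤ M) :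
    ∃ L U, L ≤ K₀ ∧ S1 R M D L U :=
  step1 hV s.syl s.RP s.Rn s.PM hM (s.good D hD) (s.U D hD hM) s.F h1 h2 h3

theorem s1' : ∃ L U, L ≤ K ∧ S1 R M D L U :=
  s.s1 hV hD hM (sup_le (s.RP.trans s.syl.le) (s.le D hD)) le_rfl s.nM

/-- Step 2. -/
theorem c' {E : Subgroup (MulAut V)} (hE : E ≤ K) (hEM : ¬ E ≤ M) {d : MulAut V} (hd : d ∈ D)
    (d1 : d ≠ 1) {v : V} (hv : v ∉ fx D) : d v * v ∉ fx E := fun e => by
  obtain ⟨L, U, h1, h⟩ := s.s1 hV hD hM (K₀ := R ⊔ D ⊔ E) le_sup_left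
    (sup_le (sup_le (s.RP.trans s.syl.le) (s.le D hD)) hE) fun k => hEM (le_sup_right.trans k)
  obtain ⟨l, hl, hlM⟩ := SetLike.not_le_iff_exists.1 h.nM
  refine h.inj l hl hlM d hd d1 v hv (fx_anti ((cj_le_of_mem h.DL hl).trans h1) ?_)
  rw [fx_sup, fx_sup]
  exact ⟨⟨h.UR (h.cm_mem hV hd v), (s.good D hD).quad d hd v⟩, e⟩

theorem cm_fx {E : Subgroup (MulAut V)} (hE : E ∈ 𝒢) (hEM : E ≤ M) {e : MulAut V} (he : e ∈ E)
    (v : V) : e v * v ∈ fx D := by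
  by_cases e1 : e = 1
  · rw [e1, MulAut.one_apply, hV]; exact one_mem _
  by_cases hv : v ∈ fx E
  · rw [hv e he, hV]; exact one_mem _
  obtain ⟨L, U, h1, h⟩ := s.s1' hV hD hM
  obtain ⟨l, hl, hlM⟩ := SetLike.not_le_iff_exists.1 h.nM
  refine (h.cover hV (s.good D hD) hl hlM _).resolve_right ?_
  rintro ⟨d, hd, k⟩
  have dl : d * l ∈ K := h1 (mul_mem (h.DL hd) hl)
  exact s.c' hV hE hEM (cj_le_of_mem (s.le D hD) dl)
    (fun k => hlM ((mul_mem_cancel_left (hM hd)).1 (s.U D hD hM _ dl k))) he e1 hv k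

theorem comm {E : Subgroup (MulAut V)} (hE : E ∈ 𝒢) (hEM : E ≤ M) {d e : MulAut V} (hd : d ∈ D)
    (he : e ∈ E) : d * e = e * d :=
  comm_of hV (fun v => s.cm_fx hV hD hM hE hEM he v d hd) fun v => s.cm_fx hV hE hEM hD hM hd v e he

theorem coset {L : Subgroup (MulAut V)} {U : Subgroup V} (h1 : L ≤ K) (h : S1 R M D L U)
    {l g : MulAut V} (hl : l ∈ L) (hlM : l ∉ M) (hg : g ∈ K) (hgM : g ∉ M) :
    ∃ d ∈ D, g⁻¹ * (d * l) ∈ M := by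
  obtain ⟨e, he, e1, v, hv⟩ := (h.hf hV (s.good D hD) hl hlM).exists_ne
  have key : ∀ k ∈ K, e v * v ∈ fx (cj k D) → k ∈ M := fun k hk e' => by
    by_contra hkM
    exact s.c' hV hD hM (cj_le_of_mem (s.le D hD) hk) (fun j => hkM (s.U D hD hM k hk j)) he e1 hv e'
  rcases h.cover hV (s.good D hD) hl hlM (g (e v * v)) with k | ⟨d, hd, k⟩
  · exact (hgM (inv_mem_iff.1 (key _ (inv_mem hg) (mem_fx_cj.2 (by rwa [inv_inv]))))).elim
  · refine ⟨d, hd, key _ (mul_mem (inv_mem hg) (h1 (mul_mem (h.DL hd) hl))) ?_⟩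
    rw [cj_mul, mem_fx_cj, inv_inv]; exact k

end Sg

theorem rk1_comm {K M P D : Subgroup (MulAut V)} (hP : SylowIn 2 P K) (DP : D ≤ P) (PM : P ≤ M)
    (nM : ¬ K ≤ M) (hD : Good D) (hW : ∀ g ∈ K, cj g D ≤ P → cj g D = D)
    (hN : ∀ g ∈ K, cj g D = D → g ∈ M) (hF : ∀ g ∈ K, (∀ v ∈ fx P, g v = v) → g ∈ M) :
    ∃ l ∈ K, R1 D (cj l D) ∧ ∀ g ∈ K, cj g D = D ∨ ∃ d ∈ D, cj g D = cj (d * l) D := by
  have DK := DP.trans hP.le
  have hU : ∀ g ∈ K, cj g D ≤ M → g ∈ M := fun g hg k => by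
    obtain ⟨m, hm, e⟩ := (hP.mono (le_inf hP.le PM) inf_le_left).exists_cj_le
      (isPGroup_cj g (pg_of_sq hD.sq)) (le_inf (cj_le_of_mem DK hg) k)
    rw [← cj_mul] at e
    exact (mul_mem_cancel_left (mem_inf.1 hm).2).1 (hN _ (mul_mem hm.1 hg) (hW _ (mul_mem hm.1 hg) e))
  have s : Sg K ⊥ M P {E | ∃ g ∈ K, E = cj g D} :=
    ⟨hP, bot_le, fun g _ => mem_normalizer_of_cj_le (cj_bot g).le, PM, nM, hF,
      by rintro _ ⟨g, -, rfl⟩; exact hD.cj g, by rintro _ ⟨g, hg, rfl⟩; exact cj_le_of_mem DK hg,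
      by rintro _ ⟨g, hg, rfl⟩ k hk; exact ⟨k * g, mul_mem hk hg, (cj_mul _ _ _).symm⟩, by
        rintro _ ⟨g, hg, rfl⟩ h1 k hk h2
        rw [← cj_mul] at h2
        exact (mul_mem_cancel_right (hU g hg h1)).1 (hU _ (mul_mem hk hg) h2)⟩
  have h0 : D ∈ {E | ∃ g ∈ K, E = cj g D} := ⟨1, one_mem _, (cj_one D).symm⟩
  have DM := DP.trans PM
  have key : ∀ g ∈ K, g ∈ M → cj g D = D := fun g hg gM => by
    obtain ⟨m, hm, e⟩ := hP.exists_cj_le (Q := D ⊔ cj g D) (isPGroup_sup_of_le_normalizer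
      (pg_of_sq hD.sq) (isPGroup_cj g (pg_of_sq hD.sq)) fun d hd =>
        mem_normalizer_of_forall fun e he => by
          rwa [s.comm hV h0 DM ⟨g, hg, rfl⟩ (cj_le_of_mem DM gM) hd he, mul_inv_cancel_right])
      (sup_le DK (cj_le_of_mem DK hg))
    have e1 := hW m hm ((cj_mono m le_sup_left).trans e)
    have e2 := hW _ (mul_mem hm hg) (by rw [cj_mul]; exact (cj_mono m le_sup_right).trans e)
    rw [cj_mul, ← e1] at e2
    rw [← e1]; exact cj_inj.1 (e2.trans (by rw [e1, e1]))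
  obtain ⟨L, U, h1, h⟩ := s.s1' hV h0 DM
  obtain ⟨l, hl, hlM⟩ := SetLike.not_le_iff_exists.1 h.nM
  refine ⟨l, h1 hl, h.r1 hV hD hl hlM, fun g hg => ?_⟩
  by_cases gM : g ∈ M
  · exact .inl (key g hg gM)
  obtain ⟨d, hd, e⟩ := s.coset hV h0 DM h1 h hl hlM hg gM
  refine .inr ⟨d, hd, ?_⟩
  have := key _ (mul_mem (inv_mem hg) (h1 (mul_mem (h.DL hd) hl))) e
  rw [cj_mul, cj_eq_iff_eq_cj_inv, inv_inv] at this
  exact this.symm

omit hV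

theorem comm_two {V : Type*} [Group V] (hV : ∀ v : V, v * v = 1) (a b : V) : a * b = b * a := by
  have i : ∀ x : V, x⁻¹ = x := fun x => inv_eq_of_mul_eq_one_right (hV x)
  rw [← i (a * b), mul_inv_rev, i, i]

theorem _root_.Cfsg.Agent.MP.rk1 : Rk1Stmt.{u} := by
  intro V _ _ hV K M P D h1 h2 h3 h4 h5 h6 h7 h8
  letI : CommGroup V := { ‹Group V› with mul_comm := comm_two hV }
  exact rk1_comm hV h1 h2 h3 h4 h5 h6 h7 h8

end Cfsg.Agent.MP.Rk
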