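import Cfsg.Agent.Lib.MP.Defs
import Cfsg.Agent.Lib.Fus2.Solv
import Cfsg.Agent.Lib.Fus2.NKSat

/-!
# Row SOLV: the configuration `Tw` does not occur in a solvable normalizer system
-/

set_option autoImplicit false

namespace Cfsg.Agent.MP

open Subgroup Fus2 FusionSystem
open scoped commutatorElement

universe u

namespace Sv

variable {Ω : Type u} [Group Ω] {S : Subgroup Ω} {F : FusionSystem S}

theorem step {E₁ E₂ C₁ C₂ : Subgroup Ω} (h : Tw E₁ E₂ C₁ C₂) {a₁ a₂ : Ω → Ω}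
    (m₁ : ∀ x ∈ E₁, a₁ x ∈ E₁) (m₂ : ∀ x ∈ E₂, a₂ x ∈ E₂)
    (o₁ : ∀ x ∈ E₁ ⊓ E₂, x ∉ C₁ → a₁ x ∉ E₂) (o₂ : ∀ x ∈ E₁ ⊓ E₂, x ∉ C₂ → a₂ x ∉ E₁)
    {A B : Ω → Prop} (b₁ : ∀ x ∈ E₁, B x → B (a₁ x)) (b₂ : ∀ x ∈ E₂, B x → B (a₂ x))
    (n : ∀ x ∈ E₁, ∀ y ∈ E₂, B x ∨ B y → B (x * y * x⁻¹ * y⁻¹))
    (c : ∀ x ∈ E₁, ∀ y ∈ E₂, B x → B y → A (x * y * x⁻¹ * y⁻¹))
    (hA : ∀ x ∈ E₁, A x → x ∈ C₁) : ∀ x ∈ E₁, B x → x ∈ C₁ := by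
  intro x hx hB
  by_contra hC
  obtain ⟨e, he, he', hBe⟩ : ∃ e ∈ E₁, e ∉ E₂ ∧ B e := by
    by_cases h2 : x ∈ E₂
    · exact ⟨a₁ x, m₁ x hx, o₁ x ⟨hx, h2⟩ hC, b₁ x hx hB⟩
    · exact ⟨x, hx, h2, hB⟩
  obtain ⟨b, hb, hb'⟩ := SetLike.not_le_iff_exists.1 h.ne₂
  have h1 := h.cm e he b hb
  have h2 := m₂ _ h1.2
  exact (h.nc e he he' _ h2 (o₂ _ h1 (h.nc e he he' b hb hb').2)).1
    (hA _ (h.cm e he _ h2).1 (c e he _ h2 hBe (b₂ _ h1.2 (n e he b hb (Or.inl hBe)))))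

theorem push [Finite S] {U : Subgroup Ω} (hU : U ≤ S) {ψ : Ω → Ω} (hψ : M F (normalizerIn S U) ψ)
    {N : FusionSystem (normalizerIn S (img U ψ))} (hN : F.IsNormalizerSystem (img U ψ) N)
    {E : Subgroup Ω} (hE : E ≤ normalizerIn S U) {a : Ω → Ω} (ha : M F (E ⊔ U) a)
    (hU' : ∀ x ∈ U, a x ∈ U) (hE' : ∀ x ∈ E, a x ∈ E) {B : Subgroup Ω} (hB : N.StronglyClosed B) :
    ∀ x ∈ E, ψ x ∈ B → ψ (a x) ∈ B := by
  intro x hx hxB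
  have hUN := Fus.le_normalizerIn hU
  have hle : E ⊔ U ≤ normalizerIn S U := sup_le hE hUN
  obtain ⟨g, hg, -, e₁, m, -⟩ := (hψ.mono hle).inv' rfl
  have hm : ∀ y ∈ E ⊔ U, a y ∈ E ⊔ U := ha.homOn.mem_of_sup
    (fun y hy => mem_sup_left (hE' y hy)) fun y hy => mem_sup_right (hU' y hy)
  have h1 : M F (img (E ⊔ U) ψ) fun y => ψ (a (g y)) :=
    (hg.comp ha m).comp (hψ.mono hle) fun y hy => hm _ (m y hy)
  have hle' : img U ψ ≤ img (E ⊔ U) ψ := img_mono _ le_sup_right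
  have h2 := M_normalizer_of hN h1 hle' (img_le_iff.2 fun y hy =>
    hψ.mem_normalizerIn hUN (hle hy) (hle hy).2) ((h1.mono hle').img_eq_self fun y hy => by
      obtain ⟨z, hz, rfl⟩ := (hψ.mono hUN).mem_img.1 hy
      rw [e₁ z (mem_sup_right hz)]
      exact mem_img_of_mem _ (hU' z hz))
  have := h2.mem_of_sc hB (mem_img_of_mem _ (mem_sup_left hx)) hxB
  rwa [e₁ x (mem_sup_left hx)] at this

end Sv

theorem solv : SolvStmt.{u} := by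
  intro Ω _ S _ F hS hF hmin U E₁ E₂ C₁ C₂ h0 hU hE₁ hE₂ h a₁ a₂ ha₁ ha₂ u₁ u₂ m₁ m₂ o₁ o₂
  have : Fact (Nat.Prime 2) := ⟨Nat.prime_two⟩
  have hUN := Fus.le_normalizerIn hU
  obtain ⟨φ, hφ, hfn⟩ := Fus.sat_exists_hom_normalizer hS hF hU
  rw [map_subgroupOf_eq_img φ hUN] at hfn
  have hψ := M_fn hφ
  obtain ⟨ψ, hψ'⟩ : ∃ ψ, ψ = fn φ := ⟨_, rfl⟩
  rw [← hψ'] at hψ hfn
  have hN := isNormalizerSystem_normalizerSystem F hfn.1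
  obtain ⟨N, hN'⟩ : ∃ N, N = normalizerSystem F hfn.1 := ⟨_, rfl⟩
  rw [← hN'] at hN
  have : Finite (normalizerIn S (img U ψ)) := finite_of_le inf_le_left
  have hs := (isSolvableSystem_iff (S := normalizerIn S (img U ψ)) (hS.to_le inf_le_left)
    (normalizer_saturated hS hF hfn hN)).1 (hmin _ (fun e => h0 (eq_bot_iff.2 fun x hx =>
      hψ.inj x (hUN hx) 1 (one_mem _) (by
        rw [hψ.map_one]; exact mem_bot.1 (e ▸ mem_img_of_mem ψ hx)))) hfn N hN)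
  have hmem : ∀ x ∈ normalizerIn S U, ψ x ∈ normalizerIn S (img U ψ) := fun x hx =>
    hψ.mem_normalizerIn hUN hx hx.2
  have hc : ∀ x ∈ E₁, ∀ y ∈ E₂, ψ (x * y * x⁻¹ * y⁻¹) = ⁅ψ x, ψ y⁆ := fun x hx y hy =>
    hψ.homOn.map_comm (hE₁ hx) (hE₂ hy)
  have main : ∀ B, AbSeries N ⊥ B → ∀ x ∈ E₁, ψ x ∈ B → x ∈ C₁ := by
    intro B hB
    induction hB with
    | refl =>
      intro x hx e
      rw [hψ.inj x (hE₁ hx) 1 (one_mem _) ((mem_bot.1 e).trans hψ.map_one.symm)]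
      exact one_mem _
    | @tail A B _ h₁ ih =>
      refine Sv.step h m₁ m₂ o₁ o₂ (A := fun x => ψ x ∈ A) (Sv.push hU hψ hN hE₁ ha₁ u₁ m₁ h₁.1)
        (Sv.push hU hψ hN hE₂ ha₂ u₂ m₂ h₁.1) (fun x hx y hy hB => ?_)
        (fun x hx y hy h1 h2 => ?_) ih
      · rw [hc x hx y hy, commutatorElement_def]
        rcases hB with hB | hB
        · rw [mul_assoc, mul_assoc, ← mul_assoc (ψ y)]
          exact mul_mem hB (sc_conj_mem h₁.1 (hmem y (hE₂ hy)) (inv_mem hB))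
        · exact mul_mem (sc_conj_mem h₁.1 (hmem x (hE₁ hx)) hB) (inv_mem hB)
      · rw [hc x hx y hy]
        exact h₁.2.2 (commutator_mem_commutator h1 h2)
  exact h.ne₁ fun x hx => (h.le₁ (main _ hs x hx (hmem x (hE₁ hx)))).2

end Cfsg.Agent.MP
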