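import Cfsg.Agent.Lib.MP.SpgH
import Cfsg.Agent.Lib.MP.A6
import Cfsg.Agent.Lib.MP.L33
import Cfsg.Agent.Lib.MP.Mc

/-!
Row SP: the symplectic branch.
-/

set_option autoImplicit false
set_option linter.unusedVariables false
set_option linter.style.haveILetI false
set_option linter.unusedSectionVars false

namespace Cfsg.Agent.MP.Spg

open Cfsg.Agent.Fus Cfsg.Agent.Ess Cfsg.Agent.SP4 Subgroup
open Cfsg.FusionSystem (normalizerIn centralizerIn)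
open Cfsg.Agent.Fus2 (M afn img HomOn)

universe u v

variable {Ω : Type u} [Group Ω] {S T : Subgroup Ω} [Finite S] [Finite T] {F : FusionSystem S}

section Gen

variable {K : Type v} [Field K] [Fintype K] [CharP K 2] {D : Ce T K}

/-- Comparison of two systems, allowing essential subgroups outside `T`. -/
theorem St.cmp' (h : St S T D.A₁ D.A₂) (hS : IsPGroup 2 S) {s : Ω} {x y : K} {σ : K ≃+* K}
    (hs : Ns S D s x y σ) (hF : F.IsSaturated 2) (hN : NF D F) {E : FusionSystem S}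
    (hE : E.IsSaturated 2) (hN' : NF D E) (H : ∀ f, M F T f → (∀ x ∈ T, f x ∈ T) → M E T f)
    (H' : ∀ P, F.IsEssential 2 P → ¬ P ≤ T → F.autGroup P ≤ E.autGroup P) : F ≤ E := by
  refine alperin_le hS hF ?_
  rintro P (rfl | hP)
  · intro α hα
    have hg := M_afn le_rfl hα
    have hm := h.charT hs hg
    have hg' := H _ (hg.mono h.le) hm
    obtain ⟨f, hf, e⟩ := Fus2.receptive_ext (sat_receptive hS hE
      (isFullyNormalized_of_normal h.le h.norT)) hg' (hg'.img_eq_self hm) (R := P)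
      (le_inf le_rfl h.norT) fun g hg₁ => ⟨_, hg.mem hg₁, fun x hx => hg.map_conj hg₁ (h.le hx)⟩
    replace hf := hf.mono le_sup_right
    obtain ⟨z, hz, e'⟩ := h.inner hs (hf.homOn.comp (Fus2.homOn_afn α⁻¹) fun x => hf.mem)
      (fun x hx => Fus2.afn_mem _ (hf.mem hx)) fun x hx => by rw [e x hx, Fus2.afn_inv_afn]
    refine ((Fus2.M_conj E le_rfl (inv_mem (h.le hz))).comp hf fun x hx =>
      mul_mem (mul_mem (inv_mem (h.le hz)) hx) (inv_mem (inv_mem (h.le hz)))).mem_autGroup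
        fun x hx => ?_
    have := congrArg (afn α) (e' _ (mul_mem (mul_mem (inv_mem (h.le hz)) hx)
      (inv_mem (inv_mem (h.le hz)))))
    rw [Fus2.afn_afn_inv] at this
    rw [this]
    simp [mul_assoc]
  by_cases hT : P ≤ T
  swap
  · exact H' P hP hT
  rcases h.ess hS hF hP fun α _ x hx _ => hT (Fus2.afn_mem α hx) with rfl | rfl | rfl
  · exact fun α hα => (H _ (M_afn h.le hα) fun x => Fus2.afn_mem α).mem_autGroup fun _ _ => rfl
  · exact Sy.aut_le ⟨hS, hF, h.le, h.nle₁, hP.2.1, fun a e => by simpa [sd₃] using e⟩ hN.wf₁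
      hN'.wf₁ H
  · exact Sy.aut_le ⟨hS, hF, h.le, h.nle₂, hP.2.1, fun a e => by simpa [Ce.sd₂] using e⟩ hN.wf₂
      hN'.wf₂ H

/-- Change of the field along an isomorphism. -/
def re (D : Ce T K) {K' : Type} [Field K'] (e : K' ≃+* K) : Ce T K' where
  f t a b c := D.f (e t) (e a) (e b) (e c)
  mem_iff x := (D.mem_iff x).trans ⟨fun ⟨t, a, b, c, h⟩ =>
    ⟨e.symm t, e.symm a, e.symm b, e.symm c, by simpa⟩, fun ⟨_, _, _, _, h⟩ => ⟨_, _, _, _, h⟩⟩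
  mul t a b c t' a' b' c' := by simp [D.mul]
  inj h := by simpa using D.inj h

theorem re₁ (D : Ce T K) {K' : Type} [Field K'] [CharP K' 2] (e : K' ≃+* K) :
    (re D e).A₁ = D.A₁ := by
  ext x
  exact ⟨by rintro ⟨a, b, c, rfl⟩; simp [re], by
    rintro ⟨a, b, c, rfl⟩; exact ⟨e.symm a, e.symm b, e.symm c, by simp [re]⟩⟩

end Gen

namespace Two

variable {D : Ce T (ZMod 2)} {s : Ω} (hs : Ns S D s 1 1 (RingEquiv.refl _))
include hs

theorem autT (H : Hy D F) (h : NF D F) (E : FusionSystem S) (f : Ω → Ω) (hf : M F T f)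
    (hm : ∀ x ∈ T, f x ∈ T) : M E T f := by
  have k : ∀ f, ∀ hf : M F T f, ∀ hm : ∀ x ∈ T, f x ∈ T,
      (tr D hf hm).A₁ = D.A₁ ∧ (tr D hf hm).A₂ = D.A₂ → M E T f := fun f hf hm hA => by
    obtain ⟨u, hu, x, hx, y, hy, σ, -, e⟩ := H.std h hf hm hA
    have k₁ : ∀ x : ZMod 2, x ≠ 0 → x = 1 := by decide
    obtain rfl := k₁ x hx
    obtain rfl := k₁ y hy
    refine (Fus2.M_conj E H.le (inv_mem (H.le hu))).congr fun z hz => ?_
    obtain ⟨t, a, b, c, rfl⟩ := (D.mem_iff z).1 hz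
    have := e t a b c
    simp only [dg, one_mul, one_pow, show ∀ x, σ x = x from fun x => by
      rw [← ZMod.natCast_zmod_val x, map_natCast]] at this
    conv_lhs => rw [← this]
    group
  rcases swap_or' (D := D) hf hm with hA | hA
  · exact k f hf hm hA
  have hc := H.nor s hs.mem
  have := k _ ((Fus2.M_conj F H.le hs.mem).comp hf hc) (fun x hx => hm _ (hc x hx))
    (pres₁ _ _ (by
      obtain ⟨a, b, c, e⟩ := H.sw₁ s hs.mem hs.nmem (D.f 1 0 0 0) (by simp)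
      rw [e]
      exact hA.2.le ((tr D hf hm).f_mem₂.2 rfl)))
  exact ((Fus2.M_conj E H.le (inv_mem hs.mem)).comp this (H.nor _ (inv_mem hs.mem))).congr
    fun x _ => by simp [mul_assoc]

/-- The pull-back of the system of a model. -/
theorem model (H : Hy D F) (h : NF D F) {Y : Type} [Group Y] [Finite Y] {G S₀ U : Subgroup Y}
    {D₀ : Ce U (ZMod 2)} {γ : Y} (m : Mo₂ G S₀ D₀ γ) :
    ∃ ι : Ω → Y, HomOn S ι ∧ (∀ x ∈ S, ∀ y ∈ S, ι x = ι y → x = y) ∧ img S ι = S₀ ∧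
      (∀ x, ι (ph D s x) = ph D₀ γ x) ∧ ∃ E : FusionSystem S, Hy D E ∧ NF D E ∧ ∀ P f, M E P f ↔
        P ≤ S ∧ (∀ x ∈ P, f x ∈ S) ∧ ∃ g ∈ G, ∀ x ∈ P, ι (f x) = g * ι x * g⁻¹ := by
  obtain ⟨ι, ι', hι, e⟩ := Tr.exists_gIso_of_param (S := S) (S' := S₀) mu (ph D s) (ph D₀ γ)
    (fun i j => (ph_mu hs ..).symm) (fun i j => (ph_mu m.ns ..).symm) (ph_inj hs) (ph_inj m.ns)
    (fun x => ⟨ph_surj hs H.toSt, by rintro ⟨x, rfl⟩; exact ph_mem hs H.toSt x⟩) fun x => by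
      rw [m.mem]
      constructor
      · rintro (hx | hx)
        · obtain ⟨t, a, b, c, rfl⟩ := (D₀.mem_iff x).1 hx
          exact ⟨(t, a, b, c, 0), by simp [ph]⟩
        · obtain ⟨t, a, b, c, e⟩ := (D₀.mem_iff _).1 hx
          exact ⟨(t, a, b, c, 1), by simp [ph, ← e, mul_assoc, m.ns.sq]⟩
      · rintro ⟨x, rfl⟩
        unfold ph
        split_ifs
        · exact .inl (by simpa using D₀.f_mem ..)
        · exact .inr (by simpa [mul_assoc, m.ns.sq] using D₀.f_mem ..)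
  have hf : ∀ t a b c, ι (D.f t a b c) = D₀.f t a b c := fun t a b c => by
    simpa [ph] using e (t, a, b, c, 0)
  obtain ⟨E, hE, key⟩ := exists_system m.syl hι.hom hι.inj hι.img_top
  refine ⟨ι, hι.hom, hι.inj, hι.img_top, e, E,
    ⟨H.toSt, H.pg, hE, H.fn hs D.sd₁ E, H.fn hs D.sd₂ E⟩, ?_, key⟩
  obtain ⟨f₁, hf₁, e₁⟩ := h.w₁
  obtain ⟨f₂, hf₂, e₂⟩ := h.w₂
  obtain ⟨w₁, hw₁, v₁⟩ := m.w₁
  obtain ⟨w₂, hw₂, v₂⟩ := m.w₂
  refine ⟨⟨f₁, (key _ _).2 ⟨hf₁.le, fun x => hf₁.mem, w₁, hw₁, ?_⟩, e₁⟩,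
    ⟨f₂, (key _ _).2 ⟨hf₂.le, fun x => hf₂.mem, w₂, hw₂, ?_⟩, e₂⟩⟩
  · rintro _ ⟨t, b, c, rfl⟩
    rw [e₁, hf, hf, v₁]
  · rintro _ ⟨t, b, c, rfl⟩
    rw [e₂, hf, hf, v₂]

theorem concl (H : Hy D F) (h : NF D F) : Concl F := by
  by_cases hE : ∀ P, F.IsEssential 2 P → P ≤ T
  · obtain ⟨S₀, U, D₀, γ, m, sc⟩ := a6
    obtain ⟨ι, hι, hi, hS, e, E, H', h', key⟩ := model hs H h m
    have hS₀ : ∀ z ∈ S, ι z ∈ S₀ := fun z hz => hS ▸ Fus2.mem_img_of_mem ι hz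
    have hU : ∀ z ∈ S, ι z ∈ U ↔ z ∈ T := fun z hz => by
      obtain ⟨x, rfl⟩ := ph_surj hs H.toSt hz
      rw [e, ph_T hs, ph_T m.ns]
    obtain rfl : F = E := fs_le_antisymm
      (H.cmp' H.pg hs H.sat h H'.sat h' (autT hs H h E) fun P hP hT => (hT (hE P hP)).elim)
      (H.cmp' H.pg hs H'.sat h' H.sat h (autT hs H' h' F) fun P hP hT => by
        rcases H.ess H.pg H'.sat hP fun α hα z hz hz' => by
          obtain ⟨-, h₁, g, -, e⟩ := (key _ _).1 (M_afn hP.1.1 hα)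
          exact (hU _ (h₁ z hz)).1 (e z hz ▸ sc g _ ((hU z (hP.1.1 hz)).2 hz')
            (e z hz ▸ hS₀ _ (h₁ z hz))) with rfl | rfl | rfl
        exacts [(hT le_rfl).elim, (hT D.le₁).elim, (hT D.le₂).elim])
    obtain ⟨R, hR⟩ := isSylowIn_top_iff.1 m.syl
    obtain ⟨G, _, _, κ, r₁, r₂, r₃⟩ := Mc.lift (F := F) ⟨hι.toHom, ⟨fun x y hxy =>
      Subtype.ext (hi _ x.2 _ y.2 hxy), fun P hP φ hφ => by
        rw [Fus2.mem_Hom_iff, key]
        exact ⟨fun ⟨_, _, g, _, H⟩ => ⟨g, fun x => by simpa using H x x.2⟩, fun ⟨g, hg⟩ =>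
          ⟨hP, fun x hx => by rw [Fus2.fn_apply _ hx]; exact hφ _, g, trivial, fun x hx => by
            rw [Fus2.fn_apply _ hx]; exact hg ⟨x, hx⟩⟩⟩⟩, R, by
      rw [hR, ← hS]
      ext x
      rw [hι.mem_img]
      exact ⟨fun ⟨y, hy, e⟩ => ⟨⟨y, hy⟩, e⟩, fun ⟨y, e⟩ => ⟨y, y.2, e⟩⟩⟩
    exact ⟨G, _, inferInstance, κ, r₁, r₂, .inr (.inr (.inr (.inl ⟨card_S hs H.toSt, .inl r₃⟩)))⟩
  push Not at hE
  obtain ⟨P, hP, hT⟩ := hE
  obtain rfl := eq_Ps hs H.toSt H.pg H.sat hP hT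
  have hψ := psi hs H.toSt H.pg H.sat hP
  obtain ⟨Y, _, _, L, Γ, T₀, γ', hX, ⟨eL⟩, U, D₀, γ, m, g, hg, g₁, g₂, g₃⟩ := l33
  obtain ⟨ι, hι, hi, hS, e, E, H', h', key⟩ := model hs H h m
  have hψ' : Fn hs E (W pa gb pc) := by
    obtain ⟨f, hf, e₁⟩ := hψ
    refine ⟨f, (key _ _).2 ⟨hf.le, fun x => hf.mem, g, hg, ext hs
      (hf.homOn.comp hι fun x => hf.mem)
      ((hι.mono hf.le).comp (Fus2.homOn_conj ⊤ g) fun _ _ => trivial) ?_ ?_ ?_⟩, e₁⟩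
    · rw [(e₁ _ rfl).2, e, e, show W pa gb pc ga = pa by decide]
      simpa [ph, pa, ga] using g₁.symm
    · rw [(e₁ _ rfl).2, e, e, show W pa gb pc gb = gb by decide]
      simpa [ph, gb, D₀.f_zero] using g₂.symm
    · rw [(e₁ _ rfl).2, e, e, show W pa gb pc gc = pc by decide]
      simpa [ph, pc, gc] using g₃.symm
  obtain rfl : F = E := fs_le_antisymm
    (H.cmp' H.pg hs H.sat h H'.sat h' (autT hs H h E) fun P hP hT => by
      obtain rfl := eq_Ps hs H.toSt H.pg H.sat hP hT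
      exact aut_le hs H.toSt H.pg H.sat hψ')
    (H.cmp' H.pg hs H'.sat h' H.sat h (autT hs H' h' F) fun P hP hT => by
      obtain rfl := eq_Ps hs H.toSt H.pg H'.sat hP hT
      exact aut_le hs H.toSt H.pg H'.sat hψ)
  obtain ⟨G, _, _, κ, r₁, r₂, ⟨r₃⟩, r₄⟩ := hX.realize hι hi hS key
  exact ⟨G, _, inferInstance, κ, r₁, r₂, .inr (.inr (.inr (.inr (.inr
    ⟨ZMod 3, _, inferInstance, .inl ⟨r₃.trans eL⟩, r₄⟩))))⟩

end Two

theorem setup {K : Type} [Field K] [Fintype K] [CharP K 2] (D : Ce T K) (hS : IsPGroup 2 S)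
    (hF : F.IsSaturated 2) (hm : Min F) (hle : T ≤ S) (hi : T.relIndex S = 2)
    (hn : ¬ S ≤ normalizer (D.A₁ : Set Ω)) (h₁ : F.IsEssential 2 D.A₁) :
    ∃ D' : Ce T K, Hy D' F ∧ NF D' F ∧ F.IsEssential 2 D'.A₁ := by
  have h := st_of D hle hi hn
  have H : Hy D F := ⟨h, hS, hF, h₁.2.1, (h.ess₂ h₁).2.1⟩
  obtain ⟨D', e₁, e₂, hN⟩ := H.exists_nf' h₁ (h.ess₂ h₁) hm
  exact ⟨D', H.of_eq e₁ e₂, hN, e₁ ▸ h₁⟩

end Spg

universe u

open Spg SP4 in
/-- Row SP. -/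
theorem sp : SpStmt.{u} := by
  intro Ω _ S _ F hS hF _ hm K _ _ _ T E D hle hi hE hn h₁
  haveI := Fus.finite_of_le hle
  obtain rfl : E = (Ce.ofCo D).graph.A₁ := by
    rw [graph₁]
    exact Subgroup.ext hE
  by_cases hq : Fintype.card K = 2
  · have e := ZMod.ringEquiv K hq
    obtain ⟨D', H, h, -⟩ := setup (re (Ce.ofCo D).graph e) hS hF hm hle hi (by rwa [re₁])
      (by rwa [re₁])
    obtain ⟨s, x, y, σ, hs⟩ := H.exists_ns h
    have k₁ : ∀ x : ZMod 2, x ≠ 0 → x = 1 := by decide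
    obtain rfl := k₁ x hs.x0
    obtain rfl := k₁ y hs.y0
    obtain rfl : σ = RingEquiv.refl _ := RingEquiv.ext fun x => by
      rw [← ZMod.natCast_zmod_val x, map_natCast, map_natCast]
    exact Two.concl hs H h
  replace hq : 2 < Fintype.card K := lt_of_le_of_ne Fintype.one_lt_card (Ne.symm hq)
  obtain ⟨D', H, h, h₁⟩ := setup _ hS hF hm hle hi hn h₁
  obtain ⟨s, x, y, σ, hs⟩ := H.exists_ns h
  obtain ⟨G, _, _, κ, r₁, r₂, r₃, r₄⟩ := main hq H h (H.ti h₁ fun P hP => by_contra fun hT =>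
    hq.not_ge (Nat.card_eq_fintype_card (α := K) ▸ (H.out hs hS hF hP hT).1))
  exact ⟨G, _, inferInstance, κ, r₁, r₂, .inr (.inr (.inr (.inr (.inr
    ⟨K, _, inferInstance, .inr r₃, r₄⟩))))⟩

end Cfsg.Agent.MP
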