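import Cfsg.Agent.Lib.SP4.Even4

/-!
Elementary abelian groups of order `q³` with a quadratic Sylow subgroup of automorphisms: an
invariant axis exists, and the swapping involution is unique.
-/

set_option autoImplicit false
set_option linter.unusedVariables false
set_option linter.style.haveILetI false
set_option linter.unusedSectionVars false

namespace Cfsg.Agent.MP.Spg

open Cfsg.Agent.Fus Cfsg.Agent.Ess Cfsg.Agent.SP4 Subgroup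

universe u v

theorem axes {K : Type*} [AddGroup K] [Finite K] (H : AddSubgroup (K × K))
    (h : ∀ x ∈ H, x.1 = 0 ∨ x.2 = 0) (hc : Nat.card K ≤ Nat.card H) :
    (∀ c, (0, c) ∈ H) ∨ ∀ b, (b, 0) ∈ H := by
  by_cases h₁ : ∀ x ∈ H, x.1 = 0
  · have hi : Function.Injective fun x : H => x.1.2 := fun x y e =>
      Subtype.ext (Prod.ext ((h₁ _ x.2).trans (h₁ _ y.2).symm) e)
    refine .inl fun c => ?_
    obtain ⟨x, rfl⟩ := (hi.bijective_of_nat_card_le hc).2 c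
    rw [← h₁ _ x.2]
    exact x.2
  · push Not at h₁
    obtain ⟨x, hx, hx₁⟩ := h₁
    have h₂ : ∀ y ∈ H, y.2 = 0 := fun y hy => by
      by_contra hy₂
      rcases h _ (add_mem hx hy) with e | e
      · exact hx₁ (by simpa [(h y hy).resolve_right hy₂] using e)
      · exact hy₂ (by simpa [(h x hx).resolve_left hx₁] using e)
    have hi : Function.Injective fun x : H => x.1.1 := fun x y e =>
      Subtype.ext (Prod.ext e ((h₂ _ x.2).trans (h₂ _ y.2).symm))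
    refine .inr fun b => ?_
    obtain ⟨y, rfl⟩ := (hi.bijective_of_nat_card_le hc).2 b
    rw [← h₂ _ y.2]
    exact y.2

variable {G : Type u} [Group G] {K : Type v} [Field K] (m : Md G K) [CharP K 2] [Finite G]
  [Fintype K] {A T : Subgroup (MulAut G)} (hT : IsSylowIn 2 T A) (hτ : ∀ t, t ∈ T ↔ ∃ s, t = m.τ s)
include hT hτ

theorem axis' {α : MulAut G} (hα : α ∈ A) (h : ∃ x, m.k₁ x = 0 ∧ m.k₁ (α x) ≠ 0) {n : G}
    (h₁ : m.k₁ n = 0) (h₂ : m.k₁ (α n) = 0) : m.k₂ n = 0 ∨ m.k₃ n = 0 := by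
  refine m.axis hT hτ (inv_mem hα) ?_ h₁ (by simpa using h₂)
  by_contra h'
  push Not at h'
  obtain ⟨x, hx, hx'⟩ := h
  exact hx' (by simpa [Md.mem_Z] using (stabSub m.Z).inv_mem (x := α⁻¹) h' x hx)

theorem ax_or {α : MulAut G} (hα : α ∈ A) :
    (∀ c, m.k₁ (α (m.v 0 0 c)) = 0) ∨ ∀ b, m.k₁ (α (m.v 0 b 0)) = 0 := by
  by_cases h : ∃ x, m.k₁ x = 0 ∧ m.k₁ (α x) ≠ 0
  swap
  · push Not at h
    exact .inl fun c => h _ (by simp)
  refine axes (m.ψ α).ker (fun x hx => by simpa using axis' m hT hτ hα h (by simp) hx) ?_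
  refine Nat.le_of_mul_le_mul_right ?_ (Nat.card_pos (α := K))
  rw [← m.card_ψ α]
  exact Nat.mul_le_mul_left _ (AddSubgroup.card_le_card_addGroup _)

/-- One of the two axes stays in `Z` under all automorphisms in `A`. -/
theorem ax (hβ : ∀ a, m.β 1 a = 0 → a = 0) :
    (∀ α ∈ A, ∀ c, m.k₁ (α (m.v 0 0 c)) = 0) ∨ ∀ α ∈ A, ∀ b, m.k₁ (α (m.v 0 b 0)) = 0 := by
  by_contra hc
  push Not at hc
  obtain ⟨⟨α₂, h₂, c, hc⟩, α₁, h₁, b, hb⟩ := hc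
  have p₁ := (ax_or m hT hτ h₁).resolve_right fun h => hb (h b)
  have p₂ := (ax_or m hT hτ h₂).resolve_left fun h => hc (h c)
  have k₁ : ∀ y, m.k₁ y = 0 → m.k₁ (α₁ y) = 0 → m.k₂ y = 0 := fun y hy hy' => by
    rcases axis' m hT hτ h₁ ⟨_, by simp, hb⟩ (n := y * m.v 0 0 (m.k₃ y + 1))
      (by simp [m.k₁_mul, hy]) (by rw [map_mul, m.k₁_mul, hy', p₁, add_zero]) with e | e
    · simpa [m.k₂_mul] using e
    · simp [m.k₃_mul, ← add_assoc, CharTwo.add_self_eq_zero] at e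
  have k₂ : ∀ y, m.k₁ y = 0 → m.k₁ (α₂ y) = 0 → m.k₃ y = 0 := fun y hy hy' => by
    rcases axis' m hT hτ h₂ ⟨_, by simp, hc⟩ (n := y * m.v 0 (m.k₂ y + 1) 0)
      (by simp [m.k₁_mul, hy]) (by rw [map_mul, m.k₁_mul, hy', p₂, add_zero]) with e | e
    · simp [m.k₂_mul, ← add_assoc, CharTwo.add_self_eq_zero] at e
    · simpa [m.k₃_mul] using e
  have q₁ : ∀ n, n ≠ 1 → m.k₁ n = 0 → m.k₁ (α₁⁻¹ n) = 0 → m.k₁ (α₂ (α₁⁻¹ n)) ≠ 0 :=
    fun n hn e e₁ e₂ => hn (by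
      have : α₁⁻¹ n = 1 := m.ext (by simpa using e₁) (by simpa using k₁ _ e₁ (by simpa using e))
        (by simpa using k₂ _ e₁ e₂)
      simpa using this)
  have q : ∀ n, n ≠ 1 → m.k₁ n = 0 →
      ¬ (m.k₁ (α₁⁻¹ n) = 0 ∧ m.k₁ ((α₂ * α₁⁻¹) n) = 0) ∧
      ¬ (m.k₁ (α₁⁻¹ n) = 0 ∧ m.k₁ ((α₂ * m.τ 1 * α₁⁻¹) n) = 0) ∧
      ¬ (m.k₁ ((α₂ * α₁⁻¹) n) = 0 ∧ m.k₁ ((α₂ * m.τ 1 * α₁⁻¹) n) = 0) := fun n hn e => by
    simp only [MulAut.mul_apply]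
    refine ⟨fun h => q₁ n hn e h.1 h.2, fun h => q₁ n hn e h.1 (by
      have := h.2; rwa [m.τ_fix 1 h.1] at this), fun h => q₁ n hn e (hβ _ ?_) h.1⟩
    have := h.2
    rw [m.τ_eq, map_mul, m.k₁_mul, h.1, zero_add] at this
    simpa using k₂ _ (by simp) this
  have q₂ := q (m.v 0 1 0) (fun e => by simpa using congrArg m.k₂ e) (by simp)
  have q₃ := q (m.v 0 0 1) (fun e => by simpa using congrArg m.k₃ e) (by simp)
  have r₀ := ax_or m hT hτ (inv_mem h₁)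
  have r₁ := ax_or m hT hτ (mul_mem h₂ (inv_mem h₁))
  have r₂ := ax_or m hT hτ (mul_mem (mul_mem h₂ (m.τ_mem hT hτ 1)) (inv_mem h₁))
  rcases r₀ with r₀ | r₀ <;> rcases r₁ with r₁ | r₁ <;> rcases r₂ with r₂ | r₂ <;>
    first
    | exact q₂.1 ⟨r₀ 1, r₁ 1⟩
    | exact q₃.1 ⟨r₀ 1, r₁ 1⟩
    | exact q₂.2.1 ⟨r₀ 1, r₂ 1⟩
    | exact q₃.2.1 ⟨r₀ 1, r₂ 1⟩
    | exact q₂.2.2 ⟨r₁ 1, r₂ 1⟩
    | exact q₃.2.2 ⟨r₁ 1, r₂ 1⟩

theorem uniq (hR : m.RInv A) {w : MulAut G} (hw : w ∈ A) (hv : ∀ a b c, w (m.v a b c) = m.v b a c)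
    (hβ : ∀ r s b, r * s = 1 → m.β r b = m.β s (r * b)) {w' : MulAut G} (hw' : w' ∈ A)
    {n μ e : K → K} {r : K} (hr : r ≠ 0) (hn : Function.Surjective n) (hμ : Function.Surjective μ)
    (n₀ : n 0 = 0) (μ₀ : μ 0 = 0) (e₀ : e 0 = 0)
    (h : ∀ a b c, w' (m.v (r * n a) (n b) (μ c + e a)) = m.v (r * n b) (n a) (μ c + e b)) (a : K) :
    e a = 0 := by
  obtain ⟨ν, hν, e₁, e₂⟩ := m.exists_n hT hτ hR hw hv hβ hr
  have key : ∀ x, m.k₁ (ν⁻¹ (w' x)) = m.k₁ x ∧ m.k₂ (ν⁻¹ (w' x)) = m.k₂ x := fun x => by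
    obtain ⟨a', b', c', rfl⟩ := m.surj x
    obtain ⟨a, ha⟩ := hn (a' / r)
    obtain ⟨b, rfl⟩ := hn b'
    obtain ⟨c, hc⟩ := hμ (c' - e a)
    obtain rfl : a' = r * n a := by rw [ha]; field_simp
    obtain rfl : c' = μ c + e a := by rw [hc]; ring
    obtain ⟨h₃, h₄⟩ := e₁ (ν⁻¹ (w' (m.v (r * n a) (n b) (μ c + e a))))
    rw [MulAut.apply_inv_self, h] at h₃ h₄
    rw [h]
    simp only [Md.k₁_v, Md.k₂_v] at h₃ h₄ ⊢
    exact ⟨((eq_inv_mul_iff_mul_eq₀ hr).1 h₄).symm, (mul_left_cancel₀ hr h₃).symm⟩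
  have h1 := m.faith hT hτ (mul_mem (inv_mem hν.1) hw') (fun y => (key y).1) (fun y => (key y).2)
    fun c => by
      obtain ⟨c, rfl⟩ := hμ c
      have := h 0 0 c
      simp only [n₀, e₀, mul_zero, add_zero] at this
      rw [MulAut.mul_apply, this, (inv_mem hν).2]
  rw [inv_mul_eq_one] at h1
  have := h 0 a 0
  simp only [n₀, e₀, μ₀, mul_zero, add_zero, zero_add, ← h1, e₂] at this
  exact (m.inj this).2.2.symm

end Cfsg.Agent.MP.Spg
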