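import Cfsg.Agent.Lib.MP.SpgA

/-!
One side `A ⊴ T` of a Sylow subgroup `T` of `Sp₄(2ⁿ)` inside a larger 2-group `S` with
`N_S(A) = T`.
-/

set_option autoImplicit false
set_option linter.unusedVariables false
set_option linter.style.haveILetI false
set_option linter.unusedSectionVars false

namespace Cfsg.Agent.MP.Spg

open Cfsg.Agent.Fus Cfsg.Agent.Ess Cfsg.Agent.SP4 Subgroup
open Cfsg.FusionSystem (normalizerIn centralizerIn)
open Cfsg.Agent.Fus2 (M afn img HomOn)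

universe u v

variable {Ω : Type u} [Group Ω] {S T A : Subgroup Ω} {K : Type v} [Field K] [Fintype K] [CharP K 2]

/-- The standing hypotheses on one side. -/
structure Sy (P : Sd T A K) (F : FusionSystem S) : Prop where
  pg : IsPGroup 2 S
  sat : F.IsSaturated 2
  le : T ≤ S
  nle : normalizerIn S A ≤ T
  fn : F.IsFullyNormalized A
  β₁ : ∀ a, P.β 1 a = 0 → a = 0

/-- The swapping involution is a map of `F`. -/
def Wf (P : Sd T A K) (F : FusionSystem S) : Prop :=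
  ∃ w, M F A w ∧ ∀ a b c, w (P.v a b c) = P.v b a c

variable [Finite S] {P : Sd T A K} {F : FusionSystem S}

theorem Wf.aut (hw : Wf P F) : ∃ w ∈ F.autGroup A, ∀ a b c, w (P.v a b c) = P.v b a c := by
  obtain ⟨f, hf, e⟩ := hw
  obtain ⟨α, hα, e'⟩ := hf.exists_aut' fun x hx => by
    obtain ⟨a, b, c, h⟩ := P.surj ⟨x, hx⟩
    rw [show x = P.v a b c from congrArg Subtype.val h, e]
    exact Subtype.property _
  exact ⟨α, hα, fun a b c => Subtype.ext (by rw [← Fus2.afn_coe, e' _ (Subtype.property _), e])⟩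

namespace Sy

variable (h : Sy P F)
include h

theorem fin : Finite A := finite_of_le (P.le.trans h.le)

theorem syl : IsSylowIn 2 (autInducedBy T A) (F.autGroup A) := by
  have := sat_sylow h.pg h.sat h.fn
  rwa [show autInducedBy S A = autInducedBy T A from le_antisymm (fun α hα => by
    obtain ⟨g, hg, e⟩ := Fus2.mem_autInducedBy_iff.1 hα
    exact Fus2.mem_autInducedBy_iff.2 ⟨g, h.nle ⟨hg, Fus2.mem_normalizer_of_afn e⟩, e⟩)
    (autInducedBy_mono h.le A)] at this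

theorem exists_ext {α : MulAut A} (hα : α ∈ F.autGroup A)
    (hZ : ∀ x, P.k₁ x = 0 → P.k₁ (α x) = 0) :
    ∃ f, M F T f ∧ (∀ x ∈ T, f x ∈ T) ∧ ∀ x ∈ A, f x = afn α x := by
  haveI := h.fin
  have e : autInducedBy S A = autInducedBy T A :=
    (h.syl.eq_of_le (sat_sylow h.pg h.sat h.fn).isPGroup (autInducedBy_mono h.le A)
      (sat_sylow h.pg h.sat h.fn).le)
  obtain ⟨f, hf, e₁, e₂⟩ := exists_ext_normalizerIn h.pg h.sat h.fn hα
    (e ▸ P.mem_norm h.syl P.hτ hα hZ)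
  have hT : T ≤ normalizerIn S A := fun x hx => ⟨h.le hx, P.norm hx⟩
  exact ⟨f, hf.mono hT, fun x hx => h.nle (e₁ x (hT hx)), e₂⟩

theorem ax : (∀ α ∈ F.autGroup A, ∀ c, P.k₁ (α (P.v 0 0 c)) = 0) ∨
    ∀ α ∈ F.autGroup A, ∀ b, P.k₁ (α (P.v 0 b 0)) = 0 :=
  haveI := h.fin
  Spg.ax P.toMd h.syl P.hτ h.β₁

theorem rinv_of (h₁ : ∀ α ∈ F.autGroup A, ∀ c, P.k₁ (α (P.v 0 0 c)) = 0)
    (h₂ : ∃ γ ∈ F.autGroup A, ∃ x, P.k₁ x = 0 ∧ P.k₁ (γ x) ≠ 0) : P.RInv (F.autGroup A) :=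
  haveI := h.fin
  P.rinv h.syl P.hτ (n := P.v 0 0 1) (fun e => by simpa using congrArg P.k₃ e) (by simp)
    (fun α hα => h₁ α hα 1) h₂

variable (hw : Wf P F)
include hw

theorem rinv : P.RInv (F.autGroup A) := by
  obtain ⟨w, hw, hv⟩ := hw.aut
  exact h.rinv_of (h.ax.resolve_right fun e => by simpa [hv] using e w hw 1)
    ⟨w, hw, P.v 0 1 0, by simp, by simp [hv]⟩

theorem aut_le {F' : FusionSystem S} (hw' : Wf P F')
    (H : ∀ f, M F T f → (∀ x ∈ T, f x ∈ T) → M F' T f) : F.autGroup A ≤ F'.autGroup A := by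
  haveI := h.fin
  have hR := h.rinv hw
  obtain ⟨w, hw, hv⟩ := hw.aut
  obtain ⟨w', hw', hv'⟩ := hw'.aut
  obtain rfl : w = w' := MulEquiv.ext fun x => by rw [← P.v_k x, hv, hv']
  have key : ∀ α ∈ F.autGroup A, (∀ x, P.k₁ x = 0 → P.k₁ (α x) = 0) → α ∈ F'.autGroup A :=
    fun α hα hZ => by
      obtain ⟨f, hf, hm, e⟩ := h.exists_ext hα hZ
      exact ((H f hf hm).mono P.le).mem_autGroup fun x hx => (e x hx).symm
  intro α hα
  rcases P.orbit h.syl P.hτ hR hw hv hα with e | ⟨s, e⟩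
  · exact key α hα e
  · have hs := (P.hτ _).2 ⟨s, rfl⟩
    have := key (w * P.τ s * α) (mul_mem (mul_mem hw (h.syl.le hs)) hα) e
    exact (mul_mem_cancel_left (mul_mem hw'
      (autInducedBy_le_autGroup (P.le.trans h.le) (autInducedBy_mono h.le A hs)))).1 this

/-- A map of `F` that moves `Z` carries it to `W` up to an element of `T`. -/
theorem orbit {g : Ω → Ω} (hg : M F A g) (hm : ∀ x ∈ A, g x ∈ A)
    (hZ : ∃ b c a' b' c', a' ≠ 0 ∧ g (P.v 0 b c) = P.v a' b' c') :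
    ∃ s, ∀ b c a' b' c', g (P.v 0 b c) = P.v a' b' c' → b' = s * a' := by
  haveI := h.fin
  have hR := h.rinv hw
  obtain ⟨w, hw, hv⟩ := hw.aut
  obtain ⟨α, hα, e⟩ := hg.exists_aut' hm
  have e' : ∀ {x y : A}, g x = y → α x = y := fun {x y} e₁ =>
    Subtype.ext (by rw [← Fus2.afn_coe, e _ x.2, e₁])
  rcases P.orbit h.syl P.hτ hR hw hv hα with e₁ | ⟨s, e₁⟩
  · obtain ⟨b, c, a', b', c', h₁, h₂⟩ := hZ
    exact (h₁ (by simpa [e' h₂] using e₁ (P.v 0 b c) (by simp))).elim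
  · refine ⟨s, fun b c a' b' c' h₂ => ?_⟩
    have := e₁ (P.v 0 b c) (by simp)
    rw [e' h₂, P.τ_v, hv, Md.k₁_v] at this
    exact CharTwo.add_eq_zero.1 this

variable (hβ : ∀ r s b, r * s = 1 → P.β r b = P.β s (r * b))
include hβ

theorem uniq {g : Ω → Ω} (hg : M F A g) {n μ e : K → K} {r : K} (hr : r ≠ 0)
    (hn : Function.Surjective n) (hμ : Function.Surjective μ) (n₀ : n 0 = 0) (μ₀ : μ 0 = 0)
    (e₀ : e 0 = 0) (H : ∀ a b c, g (P.v (r * n a) (n b) (μ c + e a)) =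
      P.v (r * n b) (n a) (μ c + e b)) (a : K) : e a = 0 := by
  haveI := h.fin
  have hR := h.rinv hw
  obtain ⟨w, hw, hv⟩ := hw.aut
  obtain ⟨α, hα, e'⟩ := hg.exists_aut' fun x hx => by
    obtain ⟨a', b', c', h⟩ := P.surj ⟨x, hx⟩
    obtain ⟨a, ha⟩ := hn (a' / r)
    obtain ⟨b, rfl⟩ := hn b'
    obtain ⟨c, hc⟩ := hμ (c' - e a)
    obtain rfl : a' = r * n a := by rw [ha]; field_simp
    obtain rfl : c' = μ c + e a := by rw [hc]; ring
    rw [show x = P.v _ _ _ from congrArg Subtype.val h, H]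
    exact Subtype.property _
  exact Spg.uniq P.toMd h.syl P.hτ hR hw hv hβ hα hr hn hμ n₀ μ₀ e₀
    (fun a b c => Subtype.ext (by rw [← Fus2.afn_coe, e' _ (Subtype.property _), H])) a

theorem torus {r : K} (hr : r ≠ 0) : ∃ f, M F T f ∧ (∀ x ∈ T, f x ∈ T) ∧
    ∀ a b c, ∃ c', f (P.v a b c) = P.v (r * a) (r⁻¹ * b) c' := by
  haveI := h.fin
  have hR := h.rinv hw
  obtain ⟨w, hw, hv⟩ := hw.aut
  obtain ⟨n, hn, e, -⟩ := P.exists_n h.syl P.hτ hR hw hv hβ hr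
  obtain ⟨f, hf, hm, e'⟩ := h.exists_ext (mul_mem hn.1 hw) fun y hy => by
    rw [MulAut.mul_apply, (e _).1, (P.k_w hv y).2.1, hy, mul_zero]
  refine ⟨f, hf, hm, fun a b c => ⟨P.k₃ (n (P.v b a c)), ?_⟩⟩
  rw [e' _ (Subtype.property _), Fus2.afn_coe, MulAut.mul_apply, hv]
  exact congrArg _ (P.ext (by simp [(e _).1]) (by simp [(e _).2]) (by simp))

end Sy

end Cfsg.Agent.MP.Spg
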