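import Cfsg.Agent.Lib.MP.SpgB

/-!
Normal coordinates on a Sylow subgroup `T` of `Sp₄(2ⁿ)` of index two in `S` and their uniqueness.
-/

set_option autoImplicit false
set_option linter.unusedVariables false
set_option linter.style.haveILetI false
set_option linter.unusedSectionVars false

namespace Cfsg.Agent.MP.Spg

open Cfsg.Agent.Fus Cfsg.Agent.Ess Cfsg.Agent.SP4 Subgroup
open Cfsg.FusionSystem (normalizerIn centralizerIn)
open Cfsg.Agent.Fus2 (M afn img HomOn)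
open scoped commutatorElement

universe u v

variable {Ω : Type u} [Group Ω] {S T A B : Subgroup Ω} {K : Type v} [Field K] [Fintype K]
  [CharP K 2]

/-- `T` has index two in `S`, and the elements outside `T` interchange `A` and `B`. -/
structure St (S T A B : Subgroup Ω) : Prop where
  le : T ≤ S
  nor : ∀ g ∈ S, ∀ x ∈ T, g * x * g⁻¹ ∈ T
  two : ∀ g ∈ S, ∀ g' ∈ S, g ∉ T → g' ∉ T → g * g' ∈ T
  sw₁ : ∀ g ∈ S, g ∉ T → ∀ x ∈ A, g * x * g⁻¹ ∈ B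
  sw₂ : ∀ g ∈ S, g ∉ T → ∀ x ∈ B, g * x * g⁻¹ ∈ A
  ex : ∃ s ∈ S, s ∉ T

theorem St.symm (h : St S T A B) : St S T B A := ⟨h.le, h.nor, h.two, h.sw₂, h.sw₁, h.ex⟩

section Co

variable (D : Ce T K)

theorem not_comm {g : Ω} : ¬ Commute (g * D.f 1 0 0 0 * g⁻¹) (g * D.f 0 1 0 0 * g⁻¹) := fun h => by
  have : Commute (D.f 1 0 0 0) (D.f 0 1 0 0) := by
    simpa [mul_assoc] using h.map (MulAut.conj g⁻¹)
  simp [D.commute_iff] at this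

theorem comm₁ {x y : Ω} (hx : x ∈ D.A₁) (hy : y ∈ D.A₁) : Commute x y := by
  obtain ⟨_, _, _, rfl⟩ := hx
  obtain ⟨_, _, _, rfl⟩ := hy
  simp [D.commute_iff]

theorem comm₂ {x y : Ω} (hx : x ∈ D.A₂) (hy : y ∈ D.A₂) : Commute x y := by
  obtain ⟨_, _, _, rfl⟩ := hx
  obtain ⟨_, _, _, rfl⟩ := hy
  simp [D.commute_iff]

variable {D}

theorem St.nle₁ (h : St S T D.A₁ D.A₂) : normalizerIn S D.A₁ ≤ T := fun g hg => by
  by_contra hT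
  exact not_comm D (comm₁ D (conj_mem_of_mem_normalizerIn hg (by simp))
    (h.sw₂ g hg.1 hT _ (by simp)))

theorem St.nle₂ (h : St S T D.A₁ D.A₂) : normalizerIn S D.A₂ ≤ T := fun g hg => by
  by_contra hT
  exact not_comm D (comm₂ D (h.sw₁ g hg.1 hT _ (by simp))
    (conj_mem_of_mem_normalizerIn hg (by simp)))

theorem eq₁_of_le {D' : Ce T K} (h : D'.A₁ ≤ D.A₁) : D'.A₁ = D.A₁ :=
  le_antisymm h fun x hx => by
    obtain ⟨t, a, b, c, rfl⟩ := (D'.mem_iff x).1 (D.le₁ hx)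
    simpa using (D'.commute_iff.1 (comm₁ D (h (D'.f_mem₁.2 rfl : D'.f 1 0 0 0 ∈ _)) hx)).1

theorem eq₂_of_le {D' : Ce T K} (h : D'.A₂ ≤ D.A₂) : D'.A₂ = D.A₂ :=
  le_antisymm h fun x hx => by
    obtain ⟨t, a, b, c, rfl⟩ := (D'.mem_iff x).1 (D.le₂ hx)
    simpa using (D'.commute_iff.1 (comm₂ D hx (h (D'.f_mem₂.2 rfl : D'.f 0 1 0 0 ∈ _)))).1

variable (D) [Finite T]

/-- The first side with the axis `R₂`. -/
noncomputable def sd₃ : Sd T D.A₁ K where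
  v a b c := ⟨D.f a 0 b c, by simp⟩
  mul a b c a' b' c' := Subtype.ext (by simp [D.mul])
  inj e := by
    obtain ⟨e₁, -, e₂, e₃⟩ := D.inj (congrArg Subtype.val e)
    exact ⟨e₁, e₂, e₃⟩
  surj := by
    rintro ⟨_, t, b, c, rfl⟩
    exact ⟨t, b, c, rfl⟩
  β s a := s * a ^ 2
  τ s := conjAut D.A₁ (D.f 0 s 0 0) (D.norm₁ (D.f_mem ..))
  τ_v s a b c := Subtype.ext (by
    show D.f 0 s 0 0 * D.f a 0 b c * (D.f 0 s 0 0)⁻¹ = _
    simp [D.conj, mul_comm])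
  β_add s s' a := add_mul ..
  zero_β s := by simp
  β_surj b c hb hc := ⟨b ^ 2 / c, c / b, by field_simp, by field_simp⟩
  le := D.le₁
  norm := D.norm₁
  hτ := D.sd₁.hτ

theorem graph₁ : D.graph.A₁ = D.A₂ := by
  ext x
  refine ⟨?_, fun hx => ?_⟩
  · rintro ⟨t, b, c, rfl⟩
    simp [Ce.graph]
  · obtain ⟨t, a, b, c, rfl⟩ := (D.graph.mem_iff x).1 (D.le₂ hx)
    simpa [Ce.graph] using hx

theorem graph₂ : D.graph.A₂ = D.A₁ := by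
  ext x
  refine ⟨?_, fun hx => ?_⟩
  · rintro ⟨t, b, c, rfl⟩
    simp [Ce.graph]
  · obtain ⟨t, a, b, c, rfl⟩ := (D.graph.mem_iff x).1 (D.le₁ hx)
    simpa [Ce.graph] using hx

/-- Normal coordinates. -/
structure NF (F : FusionSystem S) : Prop where
  w₁ : ∃ w, M F D.A₁ w ∧ ∀ t b c, w (D.f t 0 b c) = D.f b 0 t c
  w₂ : ∃ w, M F D.A₂ w ∧ ∀ a b c, w (D.f 0 a b c) = D.f 0 c b a

/-- The diagonal-field automorphism with parameters `x`, `y`, `σ`. -/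
def dg (x y : K) (σ : K ≃+* K) (t a b c : K) : Ω :=
  D.f (x * σ t) (y * σ a) (x * y * σ b) (x ^ 2 * y * σ c)

variable {D} {F : FusionSystem S}

theorem NF.wf₁ (h : NF D F) : Wf (sd₃ D) F := h.w₁

theorem NF.wf₂ (h : NF D F) : Wf D.sd₂ F := h.w₂.imp fun w hw => ⟨hw.1, fun a b c => hw.2 a c b⟩

theorem NF.graph (h : NF D F) : NF D.graph F := by
  obtain ⟨w₁, h₁, e₁⟩ := h.w₁
  obtain ⟨w₂, h₂, e₂⟩ := h.w₂
  exact ⟨⟨w₂, graph₁ D ▸ h₂, fun t b c => by simp [Ce.graph, e₂]⟩,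
    ⟨w₁, graph₂ D ▸ h₁, fun t b c => by simp [Ce.graph, e₁]⟩⟩

variable [Finite S] {g : Ω → Ω} (hg : M F T g) (hm : ∀ x ∈ T, g x ∈ T)

variable (D) in
/-- Transport of coordinates along an automorphism of `T`. -/
def tr : Ce T K where
  f t a b c := g (D.f t a b c)
  mem_iff x := ⟨fun hx => by
    obtain ⟨y, hy, rfl⟩ := hg.mem_img.1 ((hg.img_eq_self hm).ge hx)
    obtain ⟨t, a, b, c, rfl⟩ := (D.mem_iff y).1 hy
    exact ⟨t, a, b, c, rfl⟩, by rintro ⟨t, a, b, c, rfl⟩; exact hm _ (D.f_mem ..)⟩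
  mul t a b c t' a' b' c' := by rw [← hg.map_mul (D.f_mem ..) (D.f_mem ..), D.mul]
  inj e := D.inj (hg.inj _ (D.f_mem ..) _ (D.f_mem ..) e)

theorem NF.tr (h : NF D F) : NF (tr D hg hm) F := by
  obtain ⟨g', hg', -, e, -⟩ := hg.inv' (hg.img_eq_self hm)
  obtain ⟨w₁, h₁, e₁⟩ := h.w₁
  obtain ⟨w₂, h₂, e₂⟩ := h.w₂
  refine ⟨⟨_, ((hg'.mono (Spg.tr D hg hm).le₁).comp h₁ ?_).comp hg ?_, fun t b c => ?_⟩,
    ⟨_, ((hg'.mono (Spg.tr D hg hm).le₂).comp h₂ ?_).comp hg ?_, fun t b c => ?_⟩⟩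
  all_goals first | rintro _ ⟨t, b, c, rfl⟩ | skip
  all_goals simp [Spg.tr, e _ (D.f_mem ..), e₁, e₂, D.f_mem]

end Co

/-- The standing hypotheses. -/
structure Hy (D : Ce T K) (F : FusionSystem S) : Prop extends St S T D.A₁ D.A₂ where
  pg : IsPGroup 2 S
  sat : F.IsSaturated 2
  fn₁ : F.IsFullyNormalized D.A₁
  fn₂ : F.IsFullyNormalized D.A₂

variable [Finite S] [Finite T] {D : Ce T K} {F : FusionSystem S}

namespace Hy

variable (H : Hy D F)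
include H

theorem sy₁ : Sy D.sd₁ F :=
  ⟨H.pg, H.sat, H.le, H.nle₁, H.fn₁, fun a e => by simpa [Ce.sd₁] using e⟩

theorem sy₂ : Sy D.sd₂ F :=
  ⟨H.pg, H.sat, H.le, H.nle₂, H.fn₂, fun a e => by simpa [Ce.sd₂] using e⟩

theorem sy₃ : Sy (sd₃ D) F :=
  ⟨H.pg, H.sat, H.le, H.nle₁, H.fn₁, fun a e => by simpa [sd₃] using e⟩

theorem of_eq {D' : Ce T K} (h₁ : D'.A₁ = D.A₁) (h₂ : D'.A₂ = D.A₂) : Hy D' F :=
  ⟨h₁ ▸ h₂ ▸ H.toSt, H.pg, H.sat, h₁ ▸ H.fn₁, h₂ ▸ H.fn₂⟩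

theorem graph : Hy D.graph F :=
  ⟨by rw [graph₁, graph₂]; exact H.toSt.symm, H.pg, H.sat, graph₁ D ▸ H.fn₂, graph₂ D ▸ H.fn₁⟩

end Hy

theorem hβ₃ (r s b : K) (h : r * s = 1) : (sd₃ D).β r b = (sd₃ D).β s (r * b) := by
  show r * b ^ 2 = s * (r * b) ^ 2
  linear_combination (-r * b ^ 2) * h

theorem hβ₂ (r s b : K) (h : r * s = 1) : D.sd₂.β r b = D.sd₂.β s (r * b) := by
  show rt K r * b = rt K s * (r * b)
  have e : rt K r * rt K s = 1 := by rw [← map_mul, h, map_one]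
  linear_combination (-rt K r * b) * e + rt K s * b * rt_sq r

theorem Hy.uniq₀ (H : Hy D F) (h : NF D F) {D' : Ce T K} (h' : NF D' F) (h₁ : D'.A₁ = D.A₁)
    (h₂ : D'.A₂ = D.A₂) (W₁ : ∀ t c, ∃ t' c', D'.f t 0 0 c = D.f t' 0 0 c')
    (W₂ : ∀ a b, ∃ a' b', D'.f 0 a b 0 = D.f 0 a' b' 0) :
    ∃ x ≠ 0, ∃ y ≠ 0, ∃ σ, ∀ t a b c, D'.f t a b c = dg D x y σ t a b c := by
  choose l e₁ hl using fun t => W₁ t 0
  choose n e₂ hn using fun a => W₂ a 0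
  have hZ₁ : ∀ c, ∃ c', D'.f 0 0 0 c = D.f 0 0 0 c' := fun c => by
    obtain ⟨t', c', e⟩ := W₁ 0 c
    obtain rfl := D.f_mem₂.1 (e ▸ h₂.le (D'.f_mem₂.2 rfl))
    exact ⟨_, e⟩
  have hZ₂ : ∀ b, ∃ b', D'.f 0 0 b 0 = D.f 0 0 b' 0 := fun b => by
    obtain ⟨t', c', e⟩ := W₂ 0 b
    obtain rfl := D.f_mem₁.1 (e ▸ h₁.le (D'.f_mem₁.2 rfl))
    exact ⟨_, e⟩
  choose μ hμ using hZ₁
  choose m hm using hZ₂
  have all : ∀ t a b c, D'.f t a b c = D.f (l t) (n a) (m b + e₂ a) (μ c + e₁ t) :=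
    fun t a b c => by
      rw [show D'.f t a b c = D'.f 0 0 b 0 * D'.f 0 0 0 c * D'.f 0 a 0 0 * D'.f t 0 0 0 by
        simp [D'.mul], hl, hn, hm, hμ]
      simp [D.mul]
  obtain ⟨l₀, -, -, e₁₀⟩ := D.eq_one_iff.1 ((hl 0).symm.trans D'.f_zero)
  obtain ⟨-, n₀, e₂₀, -⟩ := D.eq_one_iff.1 ((hn 0).symm.trans D'.f_zero)
  have hc : ∀ t a, m (t * a) = l t * n a ∧ μ (t ^ 2 * a) = l t ^ 2 * n a := fun t a => by
    have e := D'.comm t 0 0 0 0 a 0 0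
    rw [hl, hn, D.comm, all, l₀, n₀, e₁₀, e₂₀] at e
    simpa using And.intro (D.inj e).2.2.1.symm (D.inj e).2.2.2.symm
  have mi : Function.Injective m := fun b b' e =>
    (D'.inj ((hm b).trans (e ▸ (hm b').symm))).2.2.1
  have m₀ : m 0 = 0 := (D.eq_one_iff.1 ((hm 0).symm.trans D'.f_zero)).2.2.1
  have h11 : l 1 * n 1 ≠ 0 := fun e => by
    simpa using mi (((hc 1 1).1.trans e).trans m₀.symm)
  have hx := left_ne_zero_of_mul h11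
  have hy := right_ne_zero_of_mul h11
  have ml : ∀ t, m t = l t * n 1 := fun t => by simpa using (hc t 1).1
  have mn : ∀ a, m a = l 1 * n a := fun a => by simpa using (hc 1 a).1
  let σ₀ : K →+* K :=
    { toFun := fun b => m b / (l 1 * n 1)
      map_one' := by rw [ml, div_self h11]
      map_mul' := fun t a => by rw [(hc t a).1, ml t, mn a]; field_simp
      map_zero' := by rw [m₀, zero_div]
      map_add' := fun b b' => by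
        have := D'.mul 0 0 b 0 0 0 b' 0
        simp only [hm, D.mul, add_zero, mul_zero] at this
        rw [← (D.inj this).2.2.1, add_div] }
  let σ := RingEquiv.ofBijective σ₀ (Finite.injective_iff_bijective.1 σ₀.injective)
  have hσ : ∀ b, m b = l 1 * n 1 * σ b := fun b => by
    show _ = _ * (m b / _); field_simp
  have kl : ∀ t, l t = l 1 * σ t := fun t =>
    mul_right_cancel₀ hy (by linear_combination hσ t - ml t)
  have kn : ∀ a, n a = n 1 * σ a := fun a =>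
    mul_left_cancel₀ hx (by linear_combination hσ a - mn a)
  have kμ : ∀ c, μ c = l 1 ^ 2 * n 1 * σ c := fun c => by
    have := (hc 1 c).2
    rw [one_pow, one_mul, kn c] at this
    rw [this]; ring
  have sm : Function.Surjective m := Finite.injective_iff_surjective.1 mi
  have sμ : Function.Surjective μ := fun c =>
    ⟨σ.symm (c / (l 1 ^ 2 * n 1)), by rw [kμ, σ.apply_symm_apply]; field_simp⟩
  have μ₀ : μ 0 = 0 := by rw [kμ, map_zero, mul_zero]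
  obtain ⟨w₁, hw₁, v₁⟩ := h'.w₁
  obtain ⟨w₂, hw₂, v₂⟩ := h'.w₂
  have z₁ := H.sy₃.uniq h.wf₁ hβ₃ (h₁ ▸ hw₁) (inv_ne_zero hy) sm sμ m₀ μ₀ e₁₀ (e := e₁)
    fun a b c => by
      have := v₁ a b c
      rw [all, all, n₀, e₂₀, add_zero, add_zero] at this
      have e : ∀ t, (n 1)⁻¹ * m t = l t := fun t => by rw [ml]; field_simp
      rw [e, e]; exact this
  have z₂ := H.sy₂.uniq h.wf₂ hβ₂ (h₂ ▸ hw₂) (inv_ne_zero (pow_ne_zero 2 hx)) sμ sm μ₀ m₀ e₂₀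
    (e := e₂) fun a b c => by
      have := v₂ a c b
      rw [all, all, l₀, e₁₀, add_zero, add_zero] at this
      have e : ∀ t, (l 1 ^ 2)⁻¹ * μ t = n t := fun t => by rw [kμ, kn t]; field_simp
      rw [e, e]; exact this
  exact ⟨l 1, hx, n 1, hy, σ, fun t a b c => by
    rw [all, z₁, z₂, add_zero, add_zero, kl t, kn a, hσ, kμ, dg]⟩

/-- Normal coordinates are unique up to inner, diagonal and field automorphisms. -/
theorem Hy.uniq (H : Hy D F) (h : NF D F) {D' : Ce T K} (h' : NF D' F) (h₁ : D'.A₁ ≤ D.A₁)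
    (h₂ : D'.A₂ ≤ D.A₂) : ∃ u ∈ T, ∃ x ≠ 0, ∃ y ≠ 0, ∃ σ, ∀ t a b c,
      u * D'.f t a b c * u⁻¹ = dg D x y σ t a b c := by
  have k₁ := eq₁_of_le h₁
  have k₂ := eq₂_of_le h₂
  obtain ⟨w₁, hw₁, v₁⟩ := h'.w₁
  obtain ⟨w₂, hw₂, v₂⟩ := h'.w₂
  have hZ : ∀ b c, ∃ b' c', D.f 0 0 b c = D'.f 0 0 b' c' := fun b c =>
    D'.mem_cen_iff.1 (D.mem_cen_iff.2 ⟨_, _, rfl⟩)
  have hZ' : ∀ b c, ∃ b' c', D'.f 0 0 b c = D.f 0 0 b' c' := fun b c =>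
    D.mem_cen_iff.1 (D'.mem_cen_iff.2 ⟨_, _, rfl⟩)
  obtain ⟨s, hs⟩ := H.sy₃.orbit h.wf₁ (k₁ ▸ hw₁) (by
      rw [← k₁]; rintro _ ⟨t, b, c, rfl⟩; simp [v₁]) (by
    obtain ⟨b, c, e⟩ := hZ' 1 0
    obtain ⟨t, b', c', e'⟩ := h₁ (D'.f_mem₁.2 rfl : D'.f 1 0 0 0 ∈ _)
    refine ⟨b, c, t, b', c', ?_, (congrArg w₁ e.symm).trans ((v₁ ..).trans e')⟩
    rintro rfl
    obtain ⟨_, _, e''⟩ := hZ b' c'
    simpa using (D'.inj (e'.trans e'')).1)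
  obtain ⟨r, hr⟩ := H.sy₂.orbit h.wf₂ (k₂ ▸ hw₂) (by
      rw [← k₂]; rintro _ ⟨t, b, c, rfl⟩; simp [v₂]) (by
    obtain ⟨b, c, e⟩ := hZ' 0 1
    obtain ⟨t, b', c', e'⟩ := h₂ (D'.f_mem₂.2 rfl : D'.f 0 1 0 0 ∈ _)
    refine ⟨c, b, t, c', b', ?_, (congrArg w₂ e.symm).trans ((v₂ ..).trans e')⟩
    rintro rfl
    obtain ⟨_, _, e''⟩ := hZ b' c'
    simpa using (D'.inj (e'.trans e'')).2.1)
  have hu := D.f_mem (rt K r) s 0 0
  have hg := Fus2.M_conj F H.le (H.le hu)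
  have hm : ∀ x ∈ T, D.f (rt K r) s 0 0 * x * (D.f (rt K r) s 0 0)⁻¹ ∈ T := fun x hx =>
    mul_mem (mul_mem hu hx) (inv_mem hu)
  refine ⟨_, hu, H.uniq₀ h (h'.tr hg hm) (eq₁_of_le ?_) (eq₂_of_le ?_) (fun t c => ?_)
    fun a b => ?_⟩
  · rintro _ ⟨t, b, c, rfl⟩
    exact Fus.conj_mem_of_mem_normalizer (D.norm₁ hu) (h₁ (D'.f_mem₁.2 rfl))
  · rintro _ ⟨t, b, c, rfl⟩
    exact Fus.conj_mem_of_mem_normalizer (D.norm₂ hu) (h₂ (D'.f_mem₂.2 rfl))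
  · obtain ⟨b₁, c₁, e⟩ := hZ' t c
    obtain ⟨t', b', c', e'⟩ := h₁ (D'.f_mem₁.2 rfl : D'.f t 0 0 c ∈ _)
    have := hs b₁ c₁ t' b' c' ((congrArg w₁ e.symm).trans ((v₁ ..).trans e'))
    refine ⟨t', c' + t' ^ 2 * s, ?_⟩
    simp [tr, e', D.conj, this, mul_comm s, CharTwo.add_self_eq_zero]
  · obtain ⟨b₁, c₁, e⟩ := hZ' b a
    obtain ⟨t', b', c', e'⟩ := h₂ (D'.f_mem₂.2 rfl : D'.f 0 a b 0 ∈ _)
    have := hr c₁ b₁ t' c' b' ((congrArg w₂ e.symm).trans ((v₂ ..).trans e'))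
    refine ⟨t', b' + rt K r * t', ?_⟩
    simp [tr, e', D.conj, this, CharTwo.add_self_eq_zero]

end Cfsg.Agent.MP.Spg
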