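import Cfsg.Agent.Lib.MP.SpgC
import Cfsg.Agent.Lib.F4.Tool

/-!
Essential subgroups and the existence of normal coordinates.
-/

set_option autoImplicit false
set_option linter.unusedVariables false
set_option linter.style.haveILetI false
set_option linter.unusedSectionVars false

namespace Cfsg.Agent.MP.Spg

open Cfsg.Agent.Fus Cfsg.Agent.Ess Cfsg.Agent.SP4 Subgroup
open Cfsg.FusionSystem (normalizerIn centralizerIn)
open Cfsg.Agent.Fus2 (M afn img HomOn)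
open scoped commutatorElement

universe u v

variable {Ω : Type u} [Group Ω] {S T A B : Subgroup Ω} {K : Type v} [Field K] [Fintype K]
  [CharP K 2] [Finite S] [Finite T] {F : FusionSystem S}

/-- `T` is invariant under the automizers of `S` and of the essential subgroups. -/
def TI (F : FusionSystem S) (T : Subgroup Ω) : Prop :=
  ∀ E, (E = S ∨ F.IsEssential 2 E) → F4.Iv (F.autGroup E) T

theorem TI.mem (h : TI F T) (hT : T ≤ S) {f : Ω → Ω} (hf : M F S f) : ∀ x ∈ T, f x ∈ T :=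
  fun x hx => by
    obtain ⟨α, hα, e⟩ := hf.exists_aut' fun x => hf.mem
    exact e x (hT hx) ▸ h S (.inl rfl) α hα x (hT hx) hx

theorem St.cen (h : St S T A B) {g x : Ω} (hg : g ∈ S) (hx : x ∈ centralizerIn T T) :
    g * x * g⁻¹ ∈ centralizerIn T T := mem_cen.2 ⟨h.nor g hg x hx.1, fun y hy => by
  simpa [mul_assoc] using ((mem_cen.1 hx).2 _ (h.nor _ (inv_mem hg) y hy)).map (MulAut.conj g)⟩

theorem M_cen {g : Ω → Ω} (hg : M F T g) (hm : ∀ x ∈ T, g x ∈ T) {x : Ω}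
    (hx : x ∈ centralizerIn T T) : g x ∈ centralizerIn T T := by
  obtain ⟨α, -, e⟩ := hg.exists_aut' hm
  exact e x hx.1 ▸ afn_mem_cen α hx

variable {D : Ce T K}

theorem mem_cen_of {x : Ω} (hx : x ∈ D.A₁) (hx' : x ∈ D.A₂) : x ∈ centralizerIn T T := by
  obtain ⟨t, b, c, rfl⟩ := hx
  obtain rfl := D.f_mem₂.1 hx'
  exact D.mem_cen_iff.2 ⟨_, _, rfl⟩

theorem cen_le₁ : centralizerIn T T ≤ D.A₁ := fun x hx => by
  obtain ⟨_, _, rfl⟩ := D.mem_cen_iff.1 hx; simp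

theorem cen_le₂ : centralizerIn T T ≤ D.A₂ := fun x hx => by
  obtain ⟨_, _, rfl⟩ := D.mem_cen_iff.1 hx; simp

section Ess

variable (h : St S T D.A₁ D.A₂) (hS : IsPGroup 2 S) (hF : F.IsSaturated 2) {E : Subgroup Ω}
  (hE : F.IsEssential 2 E)
include h hS hF hE

theorem St.le_of_inv (hI : F4.Iv (F.autGroup E) T)
    (hZ : F4.Iv (F.autGroup E) (centralizerIn T T)) : T ≤ E := by
  refine F4.chain hS hF hE h.le
    (fun g hg => Fus.mem_normalizer_of_conj_mem (h.nor g (hE.1.1 hg))) [T, centralizerIn T T]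
    (by simp [hI, hZ]) ⟨fun g hg x hx _ => ?_, fun g hg x _ hx => ?_,
      fun g hg x _ hx => ((mem_cen.1 hx).2 g hg).eq.symm⟩
  · simpa [mul_assoc] using mul_mem (h.nor _ (inv_mem (hE.1.1 hx)) g hg) (inv_mem hg)
  · obtain ⟨t, a, b, c, rfl⟩ := (D.mem_iff g).1 hg
    obtain ⟨t', a', b', c', rfl⟩ := (D.mem_iff x).1 hx
    rw [D.conj, D.inv, D.mul, CharTwo.add_self_eq_zero, CharTwo.add_self_eq_zero]
    exact D.mem_cen_iff.2 ⟨_, _, rfl⟩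

theorem St.ess (hI : F4.Iv (F.autGroup E) T) : E = T ∨ E = D.A₁ ∨ E = D.A₂ := by
  haveI : Finite (centralizerIn T T) := finite_of_le (inf_le_left : centralizerIn T T ≤ T)
  have hZ : centralizerIn T T ≤ E := F4.chain hS hF hE (inf_le_left.trans h.le)
    (fun g hg => Fus.mem_normalizer_of_conj_mem fun x => h.cen (hE.1.1 hg)) [T] (by simp [hI])
    ⟨fun g hg x hx _ => by
      simpa [mul_assoc] using mul_mem (h.nor _ (inv_mem (hE.1.1 hx)) g hg.1) (inv_mem hg.1),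
      fun g hg x _ hx => ((mem_cen.1 hg).2 x hx).eq⟩
  by_cases hc : F4.Iv (F.autGroup E) (centralizerIn T T)
  · have hT := h.le_of_inv hS hF hE hI hc
    refine .inl (le_antisymm (fun x hx => by_contra fun hx' =>
      (lt_of_isEssential hS hF hE).not_ge fun g hg => ?_) hT)
    by_cases hg' : g ∈ T
    · exact hT hg'
    · exact (mul_mem_cancel_right hx).1 (hT (h.two g hg x (hE.1.1 hx) hg' hx'))
  unfold F4.Iv at hc
  push Not at hc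
  obtain ⟨α, hα, x, hxE, hx, hx'⟩ := hc
  have hy := Fus2.afn_mem α hxE
  have hc : ∀ y ∈ E, y ∈ T → Commute (afn α x) y := fun y hy hy' => by
    have := (mem_cen.1 hx).2 _ (hI _ (inv_mem hα) y hy hy')
    rw [commute_iff_eq, ← Fus2.afn_afn_inv α y, ← Fus2.homOn_afn α _ hxE _ (Fus2.afn_mem _ hy),
      ← Fus2.homOn_afn α _ (Fus2.afn_mem _ hy) _ hxE, this.eq]
  have h2 : afn α x * afn α x = 1 := by
    obtain ⟨b, c, e⟩ := D.mem_cen_iff.1 hx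
    rw [← Fus2.homOn_afn α _ hxE _ hxE, show x * x = 1 by
      simp [e, D.mul, CharTwo.add_self_eq_zero, D.f_zero], (Fus2.homOn_afn α).map_one]
  obtain ⟨t, a, b, c, e⟩ := (D.mem_iff _).1 (hI α hα x hxE hx.1)
  rw [e] at hc h2 hx' hy
  rw [D.mul, D.eq_one_iff] at h2
  have h3 : t * a = 0 := by simpa [CharTwo.add_self_eq_zero] using h2.2.2.1
  have h4 : ¬ (t = 0 ∧ a = 0) := by
    rintro ⟨rfl, rfl⟩; exact hx' (D.mem_cen_iff.2 ⟨_, _, rfl⟩)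
  have key : ∀ A B : Subgroup Ω, St S T A B → (∀ y ∈ E, y ∈ T → y ∈ A) → A ≤ T →
      (∀ y ∈ A, y ∈ B → y ∈ centralizerIn T T) → (∀ y ∈ A, ∀ z ∈ A, Commute y z) → E = A :=
    fun A B hs h₁ h₂ h₃ h₄ => by
      have hle : E ≤ A := fun p hp => h₁ p hp (by_contra fun hp' => hx' (by
        have hT := D.f_mem t a b c
        simpa [mul_assoc] using h.cen (inv_mem (hE.1.1 hp)) (h₃ _ (h₁ _ (mul_mem (mul_mem hp hy)
          (inv_mem hp)) (h.nor p (hE.1.1 hp) _ hT)) (hs.sw₁ p (hE.1.1 hp) hp' _ (h₁ _ hy hT)))))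
      exact le_antisymm hle fun y hy => mem_of_commute hE.1 (h.le (h₂ hy)) fun z hz =>
        h₄ y hy z (hle hz)
  rcases mul_eq_zero.1 h3 with rfl | rfl
  · refine .inr (.inr (key _ _ h.symm (fun y hy hy' => ?_) D.le₂
      (fun y h₁ h₂ => mem_cen_of h₂ h₁) fun y hy z => comm₂ D hy))
    obtain ⟨t', a', b', c', rfl⟩ := (D.mem_iff y).1 hy'
    simpa [show a ≠ 0 by simpa using h4] using (D.commute_iff.1 (hc _ hy hy')).1
  · refine .inr (.inl (key _ _ h (fun y hy hy' => ?_) D.le₁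
      (fun y h₁ h₂ => mem_cen_of h₁ h₂) fun y hy z => comm₁ D hy))
    obtain ⟨t', a', b', c', rfl⟩ := (D.mem_iff y).1 hy'
    simpa [show t ≠ 0 by simpa using h4] using (D.commute_iff.1 (hc _ hy hy')).1

theorem St.moves (P : Sd T E K) (hP : ∀ x, P.k₁ x = 0 ↔ (x : Ω) ∈ centralizerIn T T)
    (hT : ¬ T ≤ E) : ∃ γ ∈ F.autGroup E, ∃ x, P.k₁ x = 0 ∧ P.k₁ (γ x) ≠ 0 := by
  by_contra hc
  push Not at hc
  refine hT (h.le_of_inv hS hF hE (fun α _ x hx _ => P.le (Fus2.afn_mem α hx))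
    fun α hα x hx hx' => ?_)
  rw [Fus2.afn_apply α hx, ← hP]
  exact hc α hα _ ((hP ⟨x, hx⟩).2 hx')

end Ess

theorem not_le₁ : ¬ T ≤ D.A₁ := fun h => by simpa using h (D.f_mem 0 1 0 0)

theorem not_le₂ : ¬ T ≤ D.A₂ := fun h => by simpa using h (D.f_mem 1 0 0 0)

theorem k₁_eq₃ (x : D.A₁) : (sd₃ D).k₁ x = 0 ↔ (x : Ω) ∈ centralizerIn T T := by
  obtain ⟨a, b, c, rfl⟩ := (sd₃ D).surj x
  rw [Md.k₁_v, D.mem_cen_iff]
  exact ⟨by rintro rfl; exact ⟨_, _, rfl⟩, fun ⟨_, _, e⟩ => (D.inj e).1⟩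

/-- The family `r` stays in `Z(T)` under the automizer of `A`. -/
def Sty (F : FusionSystem S) (T A : Subgroup Ω) (r : K → Ω) : Prop :=
  ∀ g, M F A g → (∀ x ∈ A, g x ∈ A) → ∀ b, g (r b) ∈ centralizerIn T T

theorem sty_iff {P : Sd T A K} (hP : ∀ x, P.k₁ x = 0 ↔ (x : Ω) ∈ centralizerIn T T) (hA : A ≤ S)
    {r : K → A} : Sty F T A (fun b => r b) ↔ ∀ α ∈ F.autGroup A, ∀ b, P.k₁ (α (r b)) = 0 :=
  ⟨fun h α hα b => (hP _).2 (by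
    simpa using h _ (M_afn hA hα) (fun x => Fus2.afn_mem α) b), fun h g hg hm b => by
    obtain ⟨α, hα, e⟩ := hg.exists_aut' hm
    rw [← e _ (r b).2, Fus2.afn_coe, ← hP]
    exact h α hα b⟩

/-- An element that stays in `Z(T)` lies on the invariant axis. -/
theorem Sy.on_axis {P : Sd T A K} (h : Sy P F)
    (hP : ∀ x, P.k₁ x = 0 ↔ (x : Ω) ∈ centralizerIn T T)
    (h₁ : Sty F T A fun c => P.v 0 0 c)
    (h₂ : ∃ γ ∈ F.autGroup A, ∃ x, P.k₁ x = 0 ∧ P.k₁ (γ x) ≠ 0) {z : Ω} (hz : z ∈ A)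
    (h₃ : Sty F T A fun _ : K => z) : ∃ c, z = P.v 0 0 c := by
  haveI := h.fin
  have hA := P.le.trans h.le
  rw [sty_iff hP hA] at h₁
  replace h₃ := (sty_iff hP hA (r := fun _ => ⟨z, hz⟩)).1 h₃
  obtain ⟨γ, hγ, h₂⟩ := h₂
  have e₁ : P.k₁ ⟨z, hz⟩ = 0 := h₃ 1 (one_mem _) 0
  have e₂ : P.k₂ ⟨z, hz⟩ = 0 := by
    rcases axis' P.toMd h.syl P.hτ hγ h₂ (n := ⟨z, hz⟩ * P.v 0 0 (P.k₃ ⟨z, hz⟩ + 1))
      (by simp [P.k₁_mul, e₁]) (by rw [map_mul, P.k₁_mul, h₃ γ hγ 0, h₁ γ hγ, add_zero]) with e | e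
    · simpa [P.k₂_mul] using e
    · simp [P.k₃_mul, ← add_assoc, CharTwo.add_self_eq_zero] at e
  have := P.v_k ⟨z, hz⟩
  rw [e₁, e₂] at this
  exact ⟨_, congrArg Subtype.val this.symm⟩

theorem Sty.map {g : Ω → Ω} (hg : M F T g) (hm : ∀ x ∈ T, g x ∈ T) (hA : A ≤ T) (hB : B ≤ T)
    (h₁ : ∀ x ∈ A, g x ∈ B) (h₂ : ∀ x ∈ T, g x ∈ B → x ∈ A) {r : K → Ω} (hr : ∀ b, r b ∈ A)
    (h : Sty F T A r) : Sty F T B fun b => g (r b) := fun k hk hk' b => by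
  obtain ⟨g', hg', -, e₁, e₂, e₃⟩ := hg.inv' (hg.img_eq_self hm)
  have := h _ (((hg.mono hA).comp hk h₁).comp hg' fun x hx => hB (hk' _ (h₁ x hx)))
    (fun x hx => h₂ _ (e₂ _ (hB (hk' _ (h₁ x hx)))) (by
      rw [e₃ _ (hB (hk' _ (h₁ x hx)))]; exact hk' _ (h₁ x hx))) b
  simpa [e₃ _ (hB (hk' _ (h₁ _ (hr b))))] using M_cen hg hm this

theorem swap_or' {g : Ω → Ω} (hg : M F T g) (hm : ∀ x ∈ T, g x ∈ T) :
    ((tr D hg hm).A₁ = D.A₁ ∧ (tr D hg hm).A₂ = D.A₂) ∨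
      ((tr D hg hm).A₁ = D.A₂ ∧ (tr D hg hm).A₂ = D.A₁) := by
  refine (D.swap_or hg.homOn hm hg.inj).imp (fun h => ⟨eq₁_of_le ?_, eq₂_of_le ?_⟩)
    fun h => ⟨graph₁ D ▸ eq₁_of_le (graph₁ D ▸ ?_), graph₂ D ▸ eq₂_of_le (graph₂ D ▸ ?_)⟩
  all_goals rintro _ ⟨t, b, c, rfl⟩
  exacts [h.1 _ (by simp), h.2 _ (by simp), h.1 _ (by simp), h.2 _ (by simp)]

variable (H : Hy D F) (h₁ : F.IsEssential 2 D.A₁) (h₂ : F.IsEssential 2 D.A₂)
include H h₁ h₂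

theorem Hy.core_ne (hI : TI F T) (s₁ : Sty F T D.A₁ fun b => D.f 0 0 b 0)
    (s₂ : Sty F T D.A₂ fun b => D.f 0 0 b 0) : F.core ≠ ⊥ := fun hc => by
  let R : Subgroup Ω :=
    { carrier := {x | ∃ b, x = D.f 0 0 b 0}
      one_mem' := ⟨0, D.f_zero.symm⟩
      mul_mem' := by
        rintro _ _ ⟨b, rfl⟩ ⟨b', rfl⟩
        exact ⟨b + b', by simp [D.mul]⟩
      inv_mem' := by
        rintro _ ⟨b, rfl⟩
        exact ⟨b, by simp [D.inv]⟩ }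
  have a₁ : ∀ z ∈ D.A₁, (Sty F T D.A₁ fun _ : K => z) → z ∈ R := fun z hz h =>
    (H.sy₁.on_axis (fun _ => D.k₁_eq₁) (by simpa [Ce.sd₁] using s₁)
      (H.moves H.pg H.sat h₁ _ (fun _ => D.k₁_eq₁) not_le₁) hz h).imp fun c e => by
        simpa [Ce.sd₁] using e
  have a₂ : ∀ z ∈ D.A₂, (Sty F T D.A₂ fun _ : K => z) → z ∈ R := fun z hz h =>
    H.sy₂.on_axis (fun _ => D.k₁_eq₂) s₂
      (H.moves H.pg H.sat h₂ _ (fun _ => D.k₁_eq₂) not_le₂) hz h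
  have key : ∀ g, M F T g → (∀ x ∈ T, g x ∈ T) → ∀ x ∈ R, g x ∈ R := by
    rintro g hg hm _ ⟨b, rfl⟩
    have s₁' : Sty F T D.A₁ fun _ : K => D.f 0 0 b 0 := fun k hk hk' _ => s₁ k hk hk' b
    rcases swap_or' (D := D) hg hm with ⟨e, -⟩ | ⟨e, -⟩
    · refine a₁ _ (e.le ((tr D hg hm).f_mem₁.2 rfl)) (s₁'.map hg hm D.le₁ D.le₁ ?_ ?_ (by simp))
      · rintro _ ⟨t, b, c, rfl⟩
        exact e.le ((tr D hg hm).f_mem₁.2 rfl)
      · intro x hx hx'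
        obtain ⟨t, a, b, c, rfl⟩ := (D.mem_iff x).1 hx
        exact D.f_mem₁.2 ((tr D hg hm).f_mem₁.1 (e.ge hx'))
    · refine a₂ _ (e.le ((tr D hg hm).f_mem₁.2 rfl)) (s₁'.map hg hm D.le₁ D.le₂ ?_ ?_ (by simp))
      · rintro _ ⟨t, b, c, rfl⟩
        exact e.le ((tr D hg hm).f_mem₁.2 rfl)
      · intro x hx hx'
        obtain ⟨t, a, b, c, rfl⟩ := (D.mem_iff x).1 hx
        exact D.f_mem₁.2 ((tr D hg hm).f_mem₁.1 (e.ge hx'))
  have hT : R ≤ T := by rintro _ ⟨b, rfl⟩; exact D.f_mem ..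
  have hN : F.IsNormal R := isNormal_of_essential H.pg H.sat fun E hE => by
    rcases hE with rfl | hE
    · exact ⟨hT.trans H.le, fun α hα => key _ ((M_afn le_rfl hα).mono H.le)
        (hI.mem H.le (M_afn le_rfl hα))⟩
    rcases H.ess H.pg H.sat hE (hI E (.inr hE)) with rfl | rfl | rfl
    · exact ⟨hT, fun α hα => key _ (M_afn H.le hα) fun x => Fus2.afn_mem α⟩
    · refine ⟨by rintro _ ⟨b, rfl⟩; simp, ?_⟩
      rintro α hα _ ⟨b, rfl⟩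
      exact a₁ _ (Fus2.afn_mem α (by simp)) fun k hk hk' _ => s₁ _ ((M_afn hE.1.1 hα).comp hk
        fun x => Fus2.afn_mem α) (fun x hx => hk' _ (Fus2.afn_mem α hx)) b
    · refine ⟨by rintro _ ⟨b, rfl⟩; simp, ?_⟩
      rintro α hα _ ⟨b, rfl⟩
      exact a₂ _ (Fus2.afn_mem α (by simp)) fun k hk hk' _ => s₂ _ ((M_afn hE.1.1 hα).comp hk
        fun x => Fus2.afn_mem α) (fun x hx => hk' _ (Fus2.afn_mem α hx)) b
  simpa [D.eq_one_iff] using (eq_bot_of_isNormal hc hN).le (⟨1, rfl⟩ : D.f 0 0 1 0 ∈ R)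

theorem Hy.nf_of (s₁ : Sty F T D.A₁ fun c => D.f 0 0 0 c)
    (s₂ : Sty F T D.A₂ fun b => D.f 0 0 b 0) :
    ∃ D' : Ce T K, D'.A₁ = D.A₁ ∧ D'.A₂ = D.A₂ ∧ NF D' F := by
  haveI := H.sy₂.fin
  haveI := H.sy₃.fin
  have m₁ := H.moves H.pg H.sat h₁ _ k₁_eq₃ not_le₁
  have m₂ := H.moves H.pg H.sat h₂ _ (fun _ => D.k₁_eq₂) not_le₂
  obtain ⟨φ₁, ρ₁, w₁, hw₁, e₁⟩ := (sd₃ D).adapt H.sy₃.syl (sd₃ D).hτ
    (H.sy₃.rinv_of ((sty_iff k₁_eq₃ h₁.1.1).1 s₁) m₁) m₁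
  obtain ⟨φ₂, ρ₂, w₂, hw₂, e₂⟩ := D.sd₂.adapt H.sy₂.syl D.sd₂.hτ
    (H.sy₂.rinv_of ((sty_iff (fun _ => D.k₁_eq₂) h₂.1.1).1 s₂) m₂) m₂
  let D' := D.shear (φ₁.comp (rt K).toAddMonoidHom) ρ₂ (ρ₁.comp (rt K).toAddMonoidHom) φ₂
  have hf : ∀ t a b c, D'.f t a b c = D.f t a (b + φ₁ t + ρ₂ a) (c + ρ₁ t + φ₂ a) :=
    fun t a b c => by simp [D', Ce.shear]
  have k₁ : D'.A₁ = D.A₁ := eq₁_of_le (by rintro _ ⟨t, b, c, rfl⟩; simp [hf])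
  have k₂ : D'.A₂ = D.A₂ := eq₂_of_le (by rintro _ ⟨t, b, c, rfl⟩; simp [hf])
  refine ⟨D', k₁, k₂, ⟨afn w₁, by rw [k₁]; exact M_afn h₁.1.1 hw₁, fun t b c => ?_⟩,
    ⟨afn w₂, by rw [k₂]; exact M_afn h₂.1.1 hw₂, fun a b c => ?_⟩⟩
  · simp only [hf, map_zero, add_zero]
    exact (Fus2.afn_coe w₁ ((sd₃ D).v ..)).trans (congrArg Subtype.val (e₁ t b c))
  · simp only [hf, map_zero, add_zero]
    exact (Fus2.afn_coe w₂ (D.sd₂.v ..)).trans (congrArg Subtype.val (e₂ a c b))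

theorem Hy.pow_four (s₁ : Sty F T D.A₁ fun b => D.f 0 0 b 0) (x : K) : x ^ 4 = x := by
  haveI := H.sy₁.fin
  have m₁ := H.moves H.pg H.sat h₁ _ (fun _ => D.k₁_eq₁) not_le₁
  have hR₁ := H.sy₁.rinv_of ((sty_iff (fun _ => D.k₁_eq₁) h₁.1.1).1
    (by simpa [Ce.sd₁] using s₁)) m₁
  by_cases hx : x = 0
  · simp [hx]
  obtain ⟨l, hl⟩ := D.sd₁.tor H.sy₁.syl D.sd₁.hτ hR₁ m₁ (pow_ne_zero 2 hx)
  replace hl : ∀ s a, l (s * a ^ 2) = (x ^ 3 + 1) * s * a := fun s a => by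
    rw [hl]
    show (x ^ 2) ^ 2 * s * rt K (a ^ 2 / x ^ 2) + s * rt K (a ^ 2) = _
    rw [← div_pow, rt_sq', rt_sq']
    field_simp
  have e₁ := hl (x ^ 2) 1
  have e₂ := hl 1 x
  rw [one_pow, mul_one] at e₁
  rw [one_mul, e₁] at e₂
  have : (x ^ 3 + 1) * (x * (x - 1)) = 0 := by linear_combination e₂
  rcases mul_eq_zero.1 this with e | e
  · linear_combination x * CharTwo.add_eq_zero.1 e
  · linear_combination (x ^ 2 + x + 1) * e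

theorem Hy.exists_nf (hI : TI F T) (hc : F.core = ⊥) :
    ∃ D' : Ce T K, D'.A₁ = D.A₁ ∧ D'.A₂ = D.A₂ ∧ NF D' F := by
  rcases H.sy₃.ax with s₁ | s₁ <;> rw [← sty_iff k₁_eq₃ h₁.1.1] at s₁ <;>
    rcases H.sy₂.ax with s₂ | s₂ <;> rw [← sty_iff (fun _ => D.k₁_eq₂) h₂.1.1] at s₂
  · exact H.nf_of h₁ h₂ s₁ s₂
  · refine (H.graph.core_ne (graph₁ D ▸ h₂) (graph₂ D ▸ h₁) hI ?_ ?_ hc).elim
    · rw [graph₁]
      exact fun g hg hm b => by simpa [Ce.graph, Ce.sd₂] using s₂ g hg hm (b ^ 2)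
    · rw [graph₂]
      exact fun g hg hm b => by simpa [Ce.graph, sd₃] using s₁ g hg hm (b ^ 2)
  · exact (H.core_ne h₁ h₂ hI s₁ s₂ hc).elim
  have h4 := H.pow_four h₁ h₂ s₁
  let D' : Ce T K :=
    { f := fun t a b c => D.f (t ^ 2) a c b
      mem_iff := fun x => (D.mem_iff x).trans
        ⟨fun ⟨t, a, b, c, e⟩ => ⟨rt K t, a, c, b, by rw [e, rt_sq]⟩,
          fun ⟨_, _, _, _, e⟩ => ⟨_, _, _, _, e⟩⟩
      mul := fun t a b c t' a' b' c' => by rw [D.mul, CharTwo.add_sq, ← pow_mul, h4]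
      inj := fun e => by
        obtain ⟨e₁, e₂, e₃, e₄⟩ := D.inj e
        exact ⟨CharTwo.sq_inj.1 e₁, e₂, e₄, e₃⟩ }
  have k₁ : D'.A₁ = D.A₁ := eq₁_of_le (by rintro _ ⟨t, b, c, rfl⟩; simp [D'])
  have k₂ : D'.A₂ = D.A₂ := eq₂_of_le (by rintro _ ⟨t, b, c, rfl⟩; simp [D'])
  obtain ⟨D'', e₁, e₂, h⟩ := (H.of_eq k₁ k₂).nf_of (k₁ ▸ h₁) (k₂ ▸ h₂)
    (by rw [k₁]; simpa [D', sd₃] using s₁) (by rw [k₂]; simpa [D', Ce.sd₂] using s₂)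
  exact ⟨D'', e₁.trans k₁, e₂.trans k₂, h⟩

end Cfsg.Agent.MP.Spg
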