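import Cfsg.Agent.Lib.MP.SpgD
import Cfsg.Agent.Lib.MP.X2

/-!
The automizer of `T`, the normal form of the swapping element, and the comparison with a model.
-/

set_option autoImplicit false
set_option linter.unusedVariables false
set_option linter.style.haveILetI false
set_option linter.unusedSectionVars false

namespace Cfsg.Agent.MP.Spg

open Cfsg.Agent.Fus Cfsg.Agent.Ess Cfsg.Agent.SP4 Subgroup
open Cfsg.FusionSystem (normalizerIn centralizerIn)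
open Cfsg.Agent.Fus2 (M afn img HomOn)
open scoped commutatorElement

universe u v

variable {Ω : Type u} [Group Ω] {S T A B : Subgroup Ω} {K : Type v} [Field K] [Fintype K]
  [CharP K 2] [Finite S] [Finite T] {F : FusionSystem S} {D : Ce T K}

/-- The diagonal-field automorphism is a map of `F`. -/
def Dg (F : FusionSystem S) (D : Ce T K) (x y : K) (σ : K ≃+* K) : Prop :=
  ∃ f, M F T f ∧ ∀ t a b c, f (D.f t a b c) = dg D x y σ t a b c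

theorem mem_of_dg {f : Ω → Ω} {x y : K} {σ : K ≃+* K}
    (e : ∀ t a b c, f (D.f t a b c) = dg D x y σ t a b c) : ∀ z ∈ T, f z ∈ T := fun z hz => by
  obtain ⟨t, a, b, c, rfl⟩ := (D.mem_iff z).1 hz
  exact e t a b c ▸ D.f_mem ..

theorem Dg.mul {x y x' y' : K} {σ σ' : K ≃+* K} (h₁ : Dg F D x y σ) (h₂ : Dg F D x' y' σ') :
    Dg F D (x * σ x') (y * σ y') (σ'.trans σ) := by
  obtain ⟨f, hf, e⟩ := h₁
  obtain ⟨g, hg, e'⟩ := h₂
  refine ⟨_, hg.comp hf (mem_of_dg e'), fun t a b c => ?_⟩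
  rw [e', dg, e, dg, dg]
  simp only [map_mul, map_pow, RingEquiv.trans_apply]
  congr 1 <;> ring

theorem pres₁ {g : Ω → Ω} (hg : M F T g) (hm : ∀ x ∈ T, g x ∈ T) (h : g (D.f 1 0 0 0) ∈ D.A₁) :
    (tr D hg hm).A₁ = D.A₁ ∧ (tr D hg hm).A₂ = D.A₂ :=
  (swap_or' hg hm).resolve_right fun e => by
    simpa using (tr D hg hm).f_mem₂.1 (e.2.ge h : (tr D hg hm).f 1 0 0 0 ∈ _)

theorem pres₂ {g : Ω → Ω} (hg : M F T g) (hm : ∀ x ∈ T, g x ∈ T) (h : g (D.f 0 1 0 0) ∈ D.A₂) :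
    (tr D hg hm).A₁ = D.A₁ ∧ (tr D hg hm).A₂ = D.A₂ :=
  (swap_or' hg hm).resolve_right fun e => by
    simpa using (tr D hg hm).f_mem₁.1 (e.1.ge h : (tr D hg hm).f 0 1 0 0 ∈ _)

/-- The normal form of the swapping involution. -/
structure Ns (S : Subgroup Ω) (D : Ce T K) (s : Ω) (x y : K) (σ : K ≃+* K) : Prop where
  mem : s ∈ S
  sq : s * s = 1
  x0 : x ≠ 0
  y0 : y ≠ 0
  act : ∀ t a b c, s * D.graph.f t a b c * s⁻¹ = dg D x y σ t a b c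

theorem coh {s : Ω} {x y : K} {σ : K ≃+* K}
    (act : ∀ t a b c, s * D.graph.f t a b c * s⁻¹ = dg D x y σ t a b c) {w : Ω}
    (hw : w ∈ centralizerIn T T) (h : s * w * s⁻¹ = w) :
    ∃ z ∈ centralizerIn T T, z * z = 1 ∧ z * (s * z * s⁻¹) = w := by
  obtain ⟨b, c, rfl⟩ := D.mem_cen_iff.1 hw
  have e₁ := act 0 0 (rt K c) b
  have e₂ := act 0 0 0 b
  simp only [Ce.graph, dg, map_zero, mul_zero, add_zero, rt_sq, ne_eq, OfNat.ofNat_ne_zero,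
    not_false_eq_true, zero_pow] at e₁ e₂
  refine ⟨D.f 0 0 b 0, D.mem_cen_iff.2 ⟨_, _, rfl⟩,
    by simp [D.mul, CharTwo.add_self_eq_zero, D.f_zero], ?_⟩
  rw [e₂, ← (D.inj (h.symm.trans e₁)).2.2.2]
  simp [D.mul]

omit [Finite S] in
theorem Ns.nmem {s : Ω} {x y : K} {σ : K ≃+* K} (h : Ns S D s x y σ) : s ∉ T := fun hs => by
  obtain ⟨t, a, b, c, rfl⟩ := (D.mem_iff s).1 hs
  have := h.act 1 0 0 0
  simp [Ce.graph, D.conj, dg, D.eq_iff, h.x0.symm] at this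

theorem Ns.rel {s : Ω} {x y : K} {σ : K ≃+* K} (h : Ns S D s x y σ) (t : K) :
    y * σ (x * σ t) = t ^ 2 := by
  have e₁ := h.act t 0 0 0
  have e₂ := h.act 0 (x * σ t) 0 0
  simp only [Ce.graph, dg, map_zero, mul_zero, add_zero, ne_eq, OfNat.ofNat_ne_zero,
    not_false_eq_true, zero_pow, zero_mul] at e₁ e₂
  rw [← e₁, ← mul_assoc, ← mul_assoc, h.sq, mul_assoc, ← mul_inv_rev, h.sq] at e₂
  exact (D.inj (by simpa using e₂)).2.1.symm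

theorem St.inner (h : St S T D.A₁ D.A₂) {s : Ω} {x y : K} {σ : K ≃+* K} (hs : Ns S D s x y σ)
    {k : Ω → Ω} (hk : HomOn S k) (hm : ∀ x ∈ S, k x ∈ S) (e : ∀ x ∈ T, k x = x) :
    ∃ z ∈ T, ∀ x ∈ S, k x = z * x * z⁻¹ := by
  have hi : s⁻¹ = s := inv_eq_of_mul_eq_one_right hs.sq
  have hc : ∀ t ∈ T, s * k s * t * (s * k s)⁻¹ = t := fun t ht => by
    have := hk.map_conj hs.mem (h.le ht)
    rw [e _ (h.nor s hs.mem t ht), e t ht] at this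
    rw [mul_inv_rev, mul_assoc s, mul_assoc s, ← mul_assoc (k s * t), ← this, hi]
    simp [← mul_assoc, hs.sq, mul_assoc _ s s]
  have hw := mul_mem hs.mem (hm s hs.mem)
  have hT : s * k s ∈ T := by_contra fun h' => by
    have := h.sw₁ _ hw h' (D.f 1 0 0 0) (by simp)
    rw [hc _ (D.f_mem ..)] at this
    simp at this
  have hZ : s * k s ∈ centralizerIn T T :=
    mem_cen.2 ⟨hT, fun t ht => mul_inv_eq_iff_eq_mul.1 (hc t ht)⟩
  have h2 : k s * k s = 1 := by rw [← hk s hs.mem s hs.mem, hs.sq, hk.map_one]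
  obtain ⟨z, hz, e₁, e₂⟩ := coh hs.act hZ (by
    obtain ⟨b, c, e'⟩ := D.mem_cen_iff.1 hZ
    have : s * k s * (s * k s) = 1 := by simp [e', D.mul, CharTwo.add_self_eq_zero, D.f_zero]
    rw [← mul_assoc, hs.sq, one_mul, eq_inv_of_mul_eq_one_left this, mul_inv_rev,
      inv_eq_of_mul_eq_one_right h2])
  have hzi : z⁻¹ = z := inv_eq_of_mul_eq_one_right e₁
  have e₃ : k s = z * s * z⁻¹ := by
    rw [← ((mem_cen.1 hz).2 _ (h.nor s hs.mem z hz.1)).eq.symm, hi, mul_assoc, mul_assoc,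
      mul_left_cancel_iff] at e₂
    rw [← e₂, hzi, mul_assoc]
  refine ⟨z, hz.1, fun x hx => ?_⟩
  have e₄ : ∀ t ∈ T, z * t * z⁻¹ = t := fun t ht =>
    mul_inv_eq_iff_eq_mul.2 ((mem_cen.1 hz).2 t ht)
  by_cases hx' : x ∈ T
  · rw [e x hx', e₄ x hx']
  · have := h.two x hx s hs.mem hx' hs.nmem
    rw [show x = x * s * s by rw [mul_assoc, hs.sq, mul_one], hk _ (h.le this) _ hs.mem,
      e _ this, e₃]
    conv_lhs => rw [← e₄ _ this]
    group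

theorem St.norT (h : St S T A B) : S ≤ normalizer (T : Set Ω) := fun g hg =>
  Fus.mem_normalizer_of_conj_mem (h.nor g hg)

/-- Comparison of two systems. -/
theorem St.cmp (h : St S T D.A₁ D.A₂) (hS : IsPGroup 2 S) {s : Ω} {x y : K} {σ : K ≃+* K}
    (hs : Ns S D s x y σ) (hF : F.IsSaturated 2) (hI : TI F T) (hN : NF D F) {E : FusionSystem S}
    (hE : E.IsSaturated 2) (hN' : NF D E) (H : ∀ f, M F T f → (∀ x ∈ T, f x ∈ T) → M E T f) :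
    F ≤ E := by
  refine alperin_le hS hF ?_
  rintro P (rfl | hP)
  · intro α hα
    have hg := M_afn le_rfl hα
    have hm := hI.mem h.le hg
    have hg' := H _ (hg.mono h.le) hm
    obtain ⟨f, hf, e⟩ := Fus2.receptive_ext (sat_receptive hS hE
      (isFullyNormalized_of_normal h.le h.norT)) hg' (hg'.img_eq_self hm) (R := P)
      (le_inf le_rfl h.norT) fun g hg₁ => ⟨_, hg.mem hg₁, fun x hx => hg.map_conj hg₁ (h.le hx)⟩
    replace hf := hf.mono le_sup_right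
    obtain ⟨z, hz, e'⟩ := h.inner hs (hf.homOn.comp (Fus2.homOn_afn α⁻¹) fun x => hf.mem)
      (fun x hx => Fus2.afn_mem _ (hf.mem hx)) fun x hx => by rw [e x hx, Fus2.afn_inv_afn]
    refine ((Fus2.M_conj E le_rfl (inv_mem (h.le hz))).comp hf fun x hx =>
      mul_mem (mul_mem (inv_mem (h.le hz)) hx) (inv_mem (inv_mem (h.le hz)))).mem_autGroup
        fun x hx => ?_
    have := congrArg (afn α) (e' _ (mul_mem (mul_mem (inv_mem (h.le hz)) hx)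
      (inv_mem (inv_mem (h.le hz)))))
    rw [Fus2.afn_afn_inv] at this
    rw [this]
    simp [mul_assoc]
  rcases h.ess hS hF hP (hI P (.inr hP)) with rfl | rfl | rfl
  · exact fun α hα => (H _ (M_afn h.le hα) fun x => Fus2.afn_mem α).mem_autGroup fun _ _ => rfl
  · exact Sy.aut_le ⟨hS, hF, h.le, h.nle₁, hP.2.1, fun a e => by simpa [sd₃] using e⟩ hN.wf₁
      hN'.wf₁ H
  · exact Sy.aut_le ⟨hS, hF, h.le, h.nle₂, hP.2.1, fun a e => by simpa [Ce.sd₂] using e⟩ hN.wf₂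
      hN'.wf₂ H

namespace Hy

variable (H : Hy D F) (h : NF D F)
include H h

theorem std {g : Ω → Ω} (hg : M F T g) (hm : ∀ x ∈ T, g x ∈ T)
    (hA : (tr D hg hm).A₁ = D.A₁ ∧ (tr D hg hm).A₂ = D.A₂) :
    ∃ u ∈ T, ∃ x ≠ 0, ∃ y ≠ 0, ∃ σ, Dg F D x y σ ∧
      ∀ t a b c, u * g (D.f t a b c) * u⁻¹ = dg D x y σ t a b c := by
  obtain ⟨u, hu, x, hx, y, hy, σ, e⟩ := H.uniq h (h.tr hg hm) hA.1.le hA.2.le
  exact ⟨u, hu, x, hx, y, hy, σ, ⟨_, hg.comp (Fus2.M_conj F H.le (H.le hu)) hm, e⟩, e⟩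

theorem torus₁ {r : K} (hr : r ≠ 0) : Dg F D r (r ^ 2)⁻¹ (RingEquiv.refl K) := by
  obtain ⟨f, hf, hm, e⟩ := H.sy₃.torus h.wf₁ hβ₃ hr
  replace e : ∀ a b c, ∃ c', f (D.f a 0 b c) = D.f (r * a) 0 (r⁻¹ * b) c' := e
  obtain ⟨u, hu, x, hx, y, hy, σ, hd, e'⟩ := H.std h hf hm (pres₁ hf hm (by
    obtain ⟨c, e⟩ := e 1 0 0; simp [e]))
  obtain ⟨t, a, b, c, rfl⟩ := (D.mem_iff u).1 hu
  have k₁ : ∀ z, r * z = x * σ z := fun z => by
    obtain ⟨c, e⟩ := e z 0 0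
    have := e' z 0 0 0
    rw [e, D.conj] at this
    exact (D.inj this).1
  obtain rfl : r = x := by simpa using k₁ 1
  obtain rfl : σ = RingEquiv.refl K := RingEquiv.ext fun z => (mul_left_cancel₀ hr (k₁ z)).symm
  obtain ⟨c', e⟩ := e 0 1 0
  have := e' 0 0 1 0
  rw [e, D.conj] at this
  replace this := (D.inj this).2.2.1
  obtain rfl : y = (r ^ 2)⁻¹ := by
    simp only [mul_zero, zero_mul, add_zero, mul_one, map_one] at this
    field_simp at this ⊢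
    linear_combination -this
  exact hd

theorem torus₂ {r : K} (hr : r ≠ 0) : Dg F D r⁻¹ r (RingEquiv.refl K) := by
  obtain ⟨f, hf, hm, e⟩ := H.sy₂.torus h.wf₂ hβ₂ hr
  replace e : ∀ a b c, ∃ c', f (D.f 0 a c b) = D.f 0 (r * a) c' (r⁻¹ * b) := e
  obtain ⟨u, hu, x, hx, y, hy, σ, hd, e'⟩ := H.std h hf hm (pres₂ hf hm (by
    obtain ⟨c, e⟩ := e 1 0 0; simp [e]))
  obtain ⟨t, a, b, c, rfl⟩ := (D.mem_iff u).1 hu
  have k₁ : ∀ z, r * z = y * σ z := fun z => by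
    obtain ⟨c, e⟩ := e z 0 0
    have := e' 0 z 0 0
    rw [e, D.conj] at this
    exact (D.inj this).2.1
  obtain rfl : r = y := by simpa using k₁ 1
  obtain rfl : σ = RingEquiv.refl K := RingEquiv.ext fun z => (mul_left_cancel₀ hr (k₁ z)).symm
  obtain ⟨c', e⟩ := e 0 1 0
  have := e' 0 0 0 1
  rw [e, D.conj] at this
  replace this := (D.inj this).2.2.2
  obtain rfl : x = r⁻¹ := by
    simp only [mul_zero, zero_mul, add_zero, mul_one, map_one, ne_eq, OfNat.ofNat_ne_zero,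
      not_false_eq_true, zero_pow] at this
    refine CharTwo.sq_inj.1 ?_
    field_simp at this ⊢
    linear_combination -this
  exact hd

theorem torus {x y : K} (hx : x ≠ 0) (hy : y ≠ 0) : Dg F D x y (RingEquiv.refl K) := by
  have := (H.torus₁ h (inv_ne_zero (mul_ne_zero hx hy))).mul
    (H.torus₂ h (inv_ne_zero (mul_ne_zero (pow_ne_zero 2 hx) hy)))
  simp only [RingEquiv.refl_apply] at this
  rwa [show (x * y)⁻¹ * (x ^ 2 * y)⁻¹⁻¹ = x by field_simp,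
    show ((x * y)⁻¹ ^ 2)⁻¹ * (x ^ 2 * y)⁻¹ = y by field_simp] at this

theorem exists_ns : ∃ s x y σ, Ns S D s x y σ := by
  obtain ⟨s₀, hs₀, hs₀'⟩ := H.ex
  have hg := Fus2.M_conj F H.le hs₀
  obtain ⟨u, hu, x, hx, y, hy, σ, e⟩ := H.uniq h (h.graph.tr hg (H.nor s₀ hs₀)) (by
    rintro _ ⟨t, b, c, rfl⟩
    exact H.sw₂ s₀ hs₀ hs₀' _ (by simp [Ce.graph])) (by
    rintro _ ⟨t, b, c, rfl⟩
    exact H.sw₁ s₀ hs₀ hs₀' _ (by simp [Ce.graph]))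
  have hs : u * s₀ ∈ S := mul_mem (H.le hu) hs₀
  have hs' : u * s₀ ∉ T := fun e => hs₀' ((mul_mem_cancel_left hu).1 e)
  replace e : ∀ t a b c, u * s₀ * D.graph.f t a b c * (u * s₀)⁻¹ = dg D x y σ t a b c :=
    fun t a b c => by rw [← e]; simp [tr, mul_assoc]
  generalize u * s₀ = s at hs hs' e
  obtain ⟨t, a, b, c, e₀⟩ := (D.mem_iff _).1 (H.two s hs s hs hs' hs')
  have k₁ : ∀ t, s * D.f 0 (t ^ 2) 0 0 * s⁻¹ = D.f (x * σ t) 0 0 0 := fun t => by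
    simpa [Ce.graph, dg] using e t 0 0 0
  have k₂ : ∀ t, s * D.f t 0 0 0 * s⁻¹ = D.f 0 (y * σ t) 0 0 := fun t => by
    simpa [Ce.graph, dg] using e 0 t 0 0
  have k : ∀ w, s * (s * w * s⁻¹) * s⁻¹ = D.f t a b c * w * (D.f t a b c)⁻¹ := fun w => by
    rw [← e₀]; group
  have k₃ := k (D.f 0 (1 ^ 2) 0 0)
  have k₄ := k (D.f 1 0 0 0)
  rw [k₁, k₂, D.conj] at k₃
  rw [k₂, ← rt_sq (y * σ 1), k₁, D.conj] at k₄
  obtain rfl : t = 0 := by simpa using (D.inj k₃).2.2.1.symm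
  obtain rfl : a = 0 := by simpa using (D.inj k₄).2.2.1.symm
  obtain ⟨z, hz, e₁, e₂⟩ := coh e (D.mem_cen_iff.2 ⟨b, c, rfl⟩) (by rw [← e₀]; group)
  refine ⟨z * s, x, y, σ, mul_mem (H.le hz.1) hs, ?_, hx, hy, fun t a b c => ?_⟩
  · rw [show z * s * (z * s) = z * (s * z * s⁻¹) * (s * s) by group, e₂, e₀]
    simp [D.mul, CharTwo.add_self_eq_zero, D.f_zero]
  · rw [show z * s * D.graph.f t a b c * (z * s)⁻¹ = z * (s * D.graph.f t a b c * s⁻¹) * z⁻¹ by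
      group, e]
    exact mul_inv_eq_iff_eq_mul.2 ((mem_cen.1 hz).2 _ (D.f_mem ..))

omit h in
theorem odd {g : Ω → Ω} (hg : M F T g) {x y : K} {σ : K ≃+* K} (hx : x ≠ 0)
    (e : ∀ t a b c, g (D.f t a b c) = dg D x y σ t a b c) (h2 : ∀ z ∈ T, g (g z) = z) :
    x = 1 ∧ y = 1 ∧ σ = RingEquiv.refl K := by
  obtain ⟨α, hα, e₁⟩ := hg.exists_aut' (mem_of_dg e)
  obtain ⟨β, hβ, e₂⟩ := (sat_sylow H.pg H.sat (isFullyNormalized_of_normal H.le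
    H.norT)).exists_conj_mem_of_pow hα (k := 1) (Fus2.aut_ext fun z hz => by
      rw [pow_one, sq, Fus2.afn_mul, e₁ z hz, e₁ _ (mem_of_dg e z hz), h2 z hz, Fus2.afn_one])
  obtain ⟨k, hk, e₃⟩ := Fus2.mem_autInducedBy_iff.1 e₂
  have e₄ : ∀ z ∈ T, afn β (g z) = k * afn β z * k⁻¹ := fun z hz => by
    rw [← e₃ _ (Fus2.afn_mem β hz), Fus2.afn_mul, Fus2.afn_mul, Fus2.afn_inv_afn, e₁ z hz]
  have hb := M_afn H.le hβ
  have hm : ∀ z ∈ T, afn β z ∈ T := fun z => Fus2.afn_mem β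
  have hT : k ∈ T := by_contra fun hT => by
    have e₅ := e₄ _ (D.f_mem 1 0 0 0)
    rw [e, dg] at e₅
    have m₁ : afn β (D.f 1 0 0 0) ∈ (tr D hb hm).A₁ := (tr D hb hm).f_mem₁.2 rfl
    have : k * afn β (D.f 1 0 0 0) * k⁻¹ ∈ (tr D hb hm).A₂ := by
      rcases swap_or' (D := D) hb hm with ⟨k₁, k₂⟩ | ⟨k₁, k₂⟩
      · exact k₂.ge (H.sw₁ k hk hT _ (k₁.le m₁))
      · exact k₂.ge (H.sw₂ k hk hT _ (k₁.le m₁))
    have := (tr D hb hm).f_mem₂.1 (e₅ ▸ this)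
    exact hx (by simpa using this)
  obtain ⟨t, a, b, c, rfl⟩ := ((tr D hb hm).mem_iff k).1 hT
  have k₁ : ∀ t' a', x * σ t' = t' ∧ y * σ a' = a' := fun t' a' => by
    have := e₄ _ (D.f_mem t' a' 0 0)
    rw [e] at this
    have := (tr D hb hm).inj (this.trans ((tr D hb hm).conj ..))
    exact ⟨this.1, this.2.1⟩
  obtain rfl : x = 1 := by simpa using (k₁ 1 1).1
  exact ⟨rfl, by simpa using (k₁ 1 1).2, RingEquiv.ext fun z => by simpa using (k₁ z z).1⟩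

end Hy

/-- A model: a group `G` with Sylow subgroup `U⟨γ⟩` in the same normal form. -/
structure Mo {X : Type*} [Group X] (G S₀ : Subgroup X) {U : Subgroup X} (D₀ : Ce U K) (γ : X)
    (x y : K) (σ : K ≃+* K) (Φ : K → K → (K ≃+* K) → Prop) : Prop where
  ns : Ns S₀ D₀ γ x y σ
  mem : ∀ g, g ∈ S₀ ↔ g ∈ U ∨ g * γ ∈ U
  syl : IsSylowIn 2 S₀ G
  sc : ∀ g ∈ G, ∀ t ∈ U, g * t * g⁻¹ ∈ S₀ → g * t * g⁻¹ ∈ U
  w₁ : ∃ w ∈ G, ∀ t b c, w * D₀.f t 0 b c * w⁻¹ = D₀.f b 0 t c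
  w₂ : ∃ w ∈ G, ∀ a b c, w * D₀.f 0 a b c * w⁻¹ = D₀.f 0 c b a
  dgm : ∀ x ≠ 0, ∀ y ≠ 0, ∀ σ, Φ x y σ →
    ∃ g ∈ G, ∀ t a b c, g * D₀.f t a b c * g⁻¹ = dg D₀ x y σ t a b c
  nrm : ∀ g ∈ G, (∀ t ∈ U, g * t * g⁻¹ ∈ U) → ∃ u ∈ S₀, ∃ x y σ, Φ x y σ ∧
    ∀ t a b c, g * D₀.f t a b c * g⁻¹ = u * dg D₀ x y σ t a b c * u⁻¹

theorem exists_system {X : Type*} [Group X] [Finite X] {G S₀ : Subgroup X} (h : IsSylowIn 2 S₀ G)
    {ι : Ω → X} (hι : HomOn S ι) (hi : ∀ x ∈ S, ∀ y ∈ S, ι x = ι y → x = y) (hS : img S ι = S₀) :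
    ∃ E : FusionSystem S, E.IsSaturated 2 ∧ ∀ P f, M E P f ↔
      P ≤ S ∧ (∀ x ∈ P, f x ∈ S) ∧ ∃ g ∈ G, ∀ x ∈ P, ι (f x) = g * ι x * g⁻¹ := by
  obtain ⟨b, hb⟩ := Fus2.exists_gIso hι hi hS
  obtain ⟨E, hE⟩ := hb.symm.exists_isoM (fusionSystemOfSubgroup G S₀ h.le)
  refine ⟨E, hE.saturated h.isPGroup (sub_isSaturated h), fun P f => ⟨fun hf => ?_, ?_⟩⟩
  · obtain ⟨-, -, g, hg, e⟩ := Fus2.M_sub_iff.1 (hE.symm.push P f hf)
    refine ⟨hf.le, fun x hx => hf.mem hx, g, hg, fun x hx => ?_⟩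
    have := e _ (Fus2.mem_img_of_mem ι hx)
    rwa [hb.left x (hf.le hx)] at this
  · rintro ⟨h1, h2, g, hg, e⟩
    have := hE.symm.pull' h1 (g := fun y => g * y * g⁻¹) (Fus2.M_sub_iff.2 ⟨hb.img_le h1,
      fun y hy => by
        obtain ⟨x, hx, rfl⟩ := ((hι.mono h1).mem_img).1 hy
        exact e x hx ▸ hb.mem _ (h2 x hx), g, hg, fun _ _ => rfl⟩)
    exact this.congr fun x hx => by rw [← e x hx, hb.left _ (h2 x hx)]

theorem St.exists_emb (h : St S T D.A₁ D.A₂) {s : Ω} {x y : K} {σ : K ≃+* K} (hs : Ns S D s x y σ)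
    {X : Type*} [Group X] {S₀ U : Subgroup X} {D₀ : Ce U K} {γ : X} [Finite U]
    (hγ : Ns S₀ D₀ γ x y σ) (hm : ∀ g, g ∈ S₀ ↔ g ∈ U ∨ g * γ ∈ U) :
    ∃ ι : Ω → X, HomOn S ι ∧ (∀ x ∈ S, ∀ y ∈ S, ι x = ι y → x = y) ∧ img S ι = S₀ ∧
      (∀ t a b c, ι (D.f t a b c) = D₀.f t a b c) ∧ ∀ z ∈ S, ι z ∈ U → z ∈ T := by
  classical
  obtain ⟨a, b, hab, ha⟩ := Tr.exists_gIso_of_param (S := T) (S' := U)
    (fun i j : K × K × K × K => (i.1 + j.1, i.2.1 + j.2.1, i.2.2.1 + j.2.2.1 + i.1 * j.2.1,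
      i.2.2.2 + j.2.2.2 + i.1 ^ 2 * j.2.1)) (fun i => D.f i.1 i.2.1 i.2.2.1 i.2.2.2)
    (fun i => D₀.f i.1 i.2.1 i.2.2.1 i.2.2.2) (fun i j => D.mul ..) (fun i j => D₀.mul ..)
    (fun i j e => by obtain ⟨h₁, h₂, h₃, h₄⟩ := D.inj e; ext <;> assumption)
    (fun i j e => by obtain ⟨h₁, h₂, h₃, h₄⟩ := D₀.inj e; ext <;> assumption)
    (fun x => by simp [D.mem_iff]) fun x => by simp [D₀.mem_iff]
  replace ha : ∀ t a' b c, a (D.f t a' b c) = D₀.f t a' b c := fun t a' b c => ha (t, a', b, c)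
  have hi : s⁻¹ = s := inv_eq_of_mul_eq_one_right hs.sq
  have hi' : γ⁻¹ = γ := inv_eq_of_mul_eq_one_right hγ.sq
  have hn : ∀ t ∈ T, s * t * s ∈ T := fun t ht => by simpa [hi] using h.nor s hs.mem t ht
  have key : ∀ t ∈ T, a (s * t * s) = γ * a t * γ := fun t ht => by
    obtain ⟨t, a', b, c, rfl⟩ := (D.graph.mem_iff t).1 ht
    have e₁ := hs.act t a' b c
    have e₂ := hγ.act t a' b c
    rw [hi] at e₁
    rw [hi'] at e₂
    rw [e₁, dg, ha, ← dg, ← e₂]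
    exact congrArg (fun w => γ * w * γ) (ha ..).symm
  have h₂ : ∀ x ∈ S, x ∉ T → x * s ∈ T := fun x hx hx' => h.two x hx s hs.mem hx' hs.nmem
  have ss : ∀ w, s * (s * w) = w := fun w => by rw [← mul_assoc, hs.sq, one_mul]
  have γγ : ∀ w, γ * (γ * w) = w := fun w => by rw [← mul_assoc, hγ.sq, one_mul]
  let ι : Ω → X := fun x => if x ∈ T then a x else a (x * s) * γ
  have hU : ∀ z ∈ S, ι z ∈ U → z ∈ T := fun z hz hz' => by_contra fun h' => by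
    simp only [ι, h', if_false] at hz'
    exact hγ.nmem ((mul_mem_cancel_left (hab.mem _ (h₂ z hz h'))).1 hz')
  have hι : HomOn S ι := fun x hx y hy => by
    by_cases hx' : x ∈ T <;> by_cases hy' : y ∈ T
    · simp only [ι, hx', hy', mul_mem hx' hy', if_true, hab.hom x hx' y hy']
    · simp only [ι, hx', hy', (mul_mem_cancel_left hx').not.2 hy', if_true, if_false, mul_assoc,
        hab.hom x hx' _ (h₂ y hy hy')]
    · simp only [ι, hx', hy', (mul_mem_cancel_right hy').not.2 hx', if_true, if_false]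
      rw [show x * y * s = x * s * (s * y * s) by simp [mul_assoc, ss],
        hab.hom _ (h₂ x hx hx') _ (hn y hy'), key y hy']
      simp [mul_assoc, hγ.sq]
    · simp only [ι, hx', hy', h.two x hx y hy hx' hy', if_true, if_false]
      rw [show x * y = x * s * (s * (y * s) * s) by simp [mul_assoc, ss, hs.sq],
        hab.hom _ (h₂ x hx hx') _ (hn _ (h₂ y hy hy')), key _ (h₂ y hy hy')]
      simp [mul_assoc]
  refine ⟨ι, hι, fun x hx y hy e => ?_, le_antisymm (Fus2.img_le_iff.2 fun x hx => (hm _).2 ?_)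
    fun g hg => ?_, fun t a' b c => by simp only [ι, D.f_mem, if_true, ha], hU⟩
  · have e₁ : ι (x⁻¹ * y) = 1 := by rw [hι _ (inv_mem hx) _ hy, hι.map_inv hx, e, inv_mul_cancel]
    have e₂ := hU _ (mul_mem (inv_mem hx) hy) (e₁ ▸ one_mem U)
    simp only [ι, e₂, if_true] at e₁
    exact inv_mul_eq_one.1 (hab.inj _ e₂ _ (one_mem T) (e₁.trans hab.hom.map_one.symm))
  · by_cases hx' : x ∈ T
    · exact .inl (by simpa only [ι, hx', if_true] using hab.mem x hx')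
    · exact .inr (by simpa [ι, hx', mul_assoc, hγ.sq] using hab.mem _ (h₂ x hx hx'))
  · rcases (hm g).1 hg with hg | hg
    · exact hι.mem_img.2 ⟨_, h.le (hab.mem' g hg), by
        simp only [ι, hab.mem' g hg, if_true, hab.right g hg]⟩
    · refine hι.mem_img.2 ⟨b (g * γ) * s, mul_mem (h.le (hab.mem' _ hg)) hs.mem, ?_⟩
      simp [ι, (mul_mem_cancel_left (hab.mem' _ hg)).not.2 hs.nmem, mul_assoc, hs.sq,
        hab.right _ hg, hγ.sq]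

/-- The system is the pull-back of the system of the model. -/
theorem Hy.ident (H : Hy D F) (h : NF D F) (hI : TI F T) {s : Ω} {x y : K} {σ : K ≃+* K}
    (hs : Ns S D s x y σ) {X : Type*} [Group X] [Finite X] {G S₀ U : Subgroup X} {D₀ : Ce U K}
    {γ : X} (m : Mo G S₀ D₀ γ x y σ (Dg F D)) :
    ∃ ι : Ω → X, HomOn S ι ∧ (∀ x ∈ S, ∀ y ∈ S, ι x = ι y → x = y) ∧ img S ι = S₀ ∧
      ∀ P f, M F P f ↔ P ≤ S ∧ (∀ x ∈ P, f x ∈ S) ∧ ∃ g ∈ G, ∀ x ∈ P, ι (f x) = g * ι x * g⁻¹ := by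
  obtain ⟨ι, hι, hi, hS, hf, hU⟩ := H.exists_emb hs m.ns m.mem
  obtain ⟨E, hE, key⟩ := exists_system m.syl hι hi hS
  have hS₀ : ∀ z ∈ S, ι z ∈ S₀ := fun z hz => hS ▸ Fus2.mem_img_of_mem ι hz
  have hT : ∀ z ∈ T, ι z ∈ U := fun z hz => by
    obtain ⟨t, a, b, c, rfl⟩ := (D.mem_iff z).1 hz
    exact hf .. ▸ D₀.f_mem ..
  have hI' : TI E T := fun P hP α hα z hz hz' => by
    have hP' : P ≤ S := hP.elim le_of_eq fun h => h.1.1
    obtain ⟨-, h₁, g, hg, e⟩ := (key _ _).1 (M_afn hP' hα)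
    exact hU _ (h₁ z hz) (e z hz ▸ m.sc g hg _ (hT z hz') (e z hz ▸ hS₀ _ (h₁ z hz)))
  have hN : NF D E := by
    obtain ⟨f₁, hf₁, e₁⟩ := h.w₁
    obtain ⟨f₂, hf₂, e₂⟩ := h.w₂
    obtain ⟨w₁, hw₁, v₁⟩ := m.w₁
    obtain ⟨w₂, hw₂, v₂⟩ := m.w₂
    refine ⟨⟨f₁, (key _ _).2 ⟨hf₁.le, fun x => hf₁.mem, w₁, hw₁, ?_⟩, e₁⟩,
      ⟨f₂, (key _ _).2 ⟨hf₂.le, fun x => hf₂.mem, w₂, hw₂, ?_⟩, e₂⟩⟩
    · rintro _ ⟨t, b, c, rfl⟩
      rw [e₁, hf, hf, v₁]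
    · rintro _ ⟨t, b, c, rfl⟩
      rw [e₂, hf, hf, v₂]
  have k₁ : ∀ f, ∀ hf : M F T f, ∀ hm : ∀ x ∈ T, f x ∈ T,
      (tr D hf hm).A₁ = D.A₁ ∧ (tr D hf hm).A₂ = D.A₂ → M E T f := fun f hf' hm hA => by
    obtain ⟨u, hu, x, hx, y, hy, σ, hd, e⟩ := H.std h hf' hm hA
    obtain ⟨g, hg, e'⟩ := m.dgm x hx y hy σ hd
    refine (key _ _).2 ⟨H.le, fun x => hf'.mem, (ι u)⁻¹ * g,
      mul_mem (inv_mem (m.syl.le (hS₀ u (H.le hu)))) hg, fun z hz => ?_⟩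
    obtain ⟨t, a, b, c, rfl⟩ := (D.mem_iff z).1 hz
    have := congrArg ι (e t a b c)
    rw [hι.map_conj (H.le hu) (hf'.mem hz), dg, hf, ← dg, ← e', ← hf] at this
    rw [show ι (f (D.f t a b c)) = (ι u)⁻¹ * (ι u * ι (f (D.f t a b c)) * (ι u)⁻¹) * ι u by group,
      this]
    group
  refine ⟨ι, hι, hi, hS, ?_⟩
  rw [fs_le_antisymm (H.cmp H.pg hs H.sat hI h hE hN fun f hf' hm => ?_)
    (H.cmp H.pg hs hE hI' hN H.sat h fun f hf' hm => ?_)]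
  · exact key
  · rcases swap_or' (D := D) hf' hm with hA | hA
    · exact k₁ f hf' hm hA
    have hc := H.nor s hs.mem
    have := k₁ _ ((Fus2.M_conj F H.le hs.mem).comp hf' hc) (fun x hx => hm _ (hc x hx))
      (pres₁ _ _ (by
        obtain ⟨a, b, c, e⟩ := H.sw₁ s hs.mem hs.nmem (D.f 1 0 0 0) (by simp)
        rw [e]
        exact hA.2.le ((tr D hf' hm).f_mem₂.2 rfl)))
    exact ((Fus2.M_conj E H.le (inv_mem hs.mem)).comp this (H.nor _ (inv_mem hs.mem))).congr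
      fun x _ => by simp [mul_assoc]
  · obtain ⟨-, -, g, hg, e⟩ := (key _ _).1 hf'
    obtain ⟨u, hu, x, y, σ, ⟨k, hk, e₁⟩, e₂⟩ := m.nrm g hg fun z hz => by
      obtain ⟨t, a, b, c, rfl⟩ := (D₀.mem_iff z).1 hz
      rw [← hf, ← e _ (D.f_mem ..)]
      exact hT _ (hm _ (D.f_mem ..))
    obtain ⟨u, hu', rfl⟩ := hι.mem_img.1 (hS.ge hu)
    replace hu := hu'
    refine (hk.comp (Fus2.M_conj F H.le hu) (mem_of_dg e₁)).congr fun z hz => ?_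
    obtain ⟨t, a, b, c, rfl⟩ := (D.mem_iff z).1 hz
    refine hi _ (mul_mem (mul_mem hu (hk.mem hz)) (inv_mem hu)) _ (hf'.mem hz) ?_
    rw [hι.map_conj hu (hk.mem hz), e _ hz, hf, e₂, e₁, dg, hf, dg]

end Cfsg.Agent.MP.Spg
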