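import Cfsg.Agent.Lib.SP4.Even4
import Cfsg.Agent.Lib.Solv.Coprime2

/-!
The group `Sp₄(K)` in characteristic two: diagonal, field and graph automorphisms, the Borel
subgroup and simplicity.
-/

set_option autoImplicit false
set_option linter.unusedVariables false
set_option linter.style.haveILetI false
set_option linter.unusedSectionVars false
set_option linter.unusedSimpArgs false

namespace Cfsg.Agent.MP.Spg

open Cfsg.Agent.Fus Cfsg.Agent.Ess Cfsg.Agent.SP4 Subgroup Matrix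

/-- The index set. -/
abbrev I4 := Fin 2 ⊕ Fin 2

/-- The symplectic group. -/
abbrev Sp (K : Type*) [Field K] := symplecticGroup (Fin 2) K

theorem I4.forall {p : I4 → Prop} : (∀ i, p i) ↔ p (.inl 0) ∧ p (.inl 1) ∧ p (.inr 0) ∧ p (.inr 1) := by
  simp [Sum.forall, Fin.forall_fin_two, and_assoc]

variable {K : Type*} [Field K] [CharP K 2]

theorem Sp.ext {g h : Sp K} (e : ∀ i j, g.1 i j = h.1 i j) : g = h := Subtype.ext (Matrix.ext e)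

theorem Sp.mul_apply (g h : Sp K) (i j : I4) : (g * h).1 i j = g.1 i (.inl 0) * h.1 (.inl 0) j +
    g.1 i (.inl 1) * h.1 (.inl 1) j + g.1 i (.inr 0) * h.1 (.inr 0) j +
    g.1 i (.inr 1) * h.1 (.inr 1) j := by
  simp [Matrix.mul_apply, add_assoc]

/-- First row of a minor. -/
def p₁ : I4 → I4 := Sum.elim ![.inl 0, .inl 0] ![.inr 0, .inl 1]

/-- Second row of a minor. -/
def p₂ : I4 → I4 := Sum.elim ![.inl 1, .inr 1] ![.inr 1, .inr 0]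

/-- The minors of two rows. -/
def mn (r s : I4 → K) (L : I4) : K := r (p₁ L) * s (p₂ L) + r (p₂ L) * s (p₁ L)

/-- The symplectic form. -/
def om (r s : I4 → K) : K :=
  r (.inl 0) * s (.inr 0) + r (.inl 1) * s (.inr 1) + r (.inr 0) * s (.inl 0) +
    r (.inr 1) * s (.inl 1)

theorem cb {r s c d : I4 → K} (h₁ : om r s = 0) (h₂ : om c d = 0) :
    (r ⬝ᵥ c) * (s ⬝ᵥ d) + (r ⬝ᵥ d) * (s ⬝ᵥ c) = mn r s ⬝ᵥ mn c d := by
  simp only [om] at h₁ h₂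
  simp [dotProduct, mn, p₁, p₂]
  grind

theorem om_row (g : Sp K) (i j : I4) : om (g.1 i) (g.1 j) = J (Fin 2) K i j := by
  rw [← congrFun (congrFun (SymplecticGroup.mem_iff.1 g.2) i) j]
  simp [om, Matrix.mul_apply, J, CharTwo.neg_eq]
  ring

theorem om_p (g : Sp K) (I : I4) : om (g.1 (p₁ I)) (g.1 (p₂ I)) = 0 := by
  rw [om_row]
  revert I
  simp [I4.forall, p₁, p₂, J]

/-- The matrix of minors. -/
def gm (g : Matrix I4 I4 K) : Matrix I4 I4 K := of fun I => mn (g (p₁ I)) (g (p₂ I))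

theorem gm_mul (g h : Sp K) : gm (g * h).1 = gm g.1 * gm h.1 := Matrix.ext fun I L => by
  have := cb (om_p g I) (om_p ⟨h.1ᵀ, SymplecticGroup.transpose_mem h.2⟩ L)
  refine Eq.trans ?_ (this.trans ?_)
  · rfl
  · simp [Matrix.mul_apply, dotProduct, gm, mn, mul_comm]

theorem gm_transpose (g : Matrix I4 I4 K) : gm gᵀ = (gm g)ᵀ := Matrix.ext fun I L => by
  simp [gm, mn, mul_comm]

theorem gm_J : gm (J (Fin 2) K) = J (Fin 2) K := Matrix.ext (by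
  simp [I4.forall, gm, mn, p₁, p₂, J, CharTwo.neg_eq])

theorem gm_sq (g : Sp K) (i j : I4) : gm (gm g.1) i j = g.1 i j ^ 2 := by
  have h1 := om_row g (.inl 0) (.inl 1)
  have h2 := om_row g (.inl 0) (.inr 0)
  have h3 := om_row g (.inl 0) (.inr 1)
  have h4 := om_row g (.inl 1) (.inr 0)
  have h5 := om_row g (.inl 1) (.inr 1)
  have h6 := om_row g (.inr 0) (.inr 1)
  simp [om, J, CharTwo.neg_eq] at h1 h2 h3 h4 h5 h6
  rcases i with i | i <;> rcases j with j | j <;> fin_cases i <;> fin_cases j <;>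
    simp [gm, mn, p₁, p₂] <;> grind

/-- The graph endomorphism. -/
def gh : Sp K →* Sp K := MonoidHom.mk' (fun g => ⟨gm g.1, SymplecticGroup.mem_iff.2 (by
    have e := gm_mul (g * SymplecticGroup.symJ _ _) ⟨g.1ᵀ, SymplecticGroup.transpose_mem g.2⟩
    rw [gm_mul g, SymplecticGroup.coe_J, gm_J, gm_transpose] at e
    rw [← e]
    exact (congrArg gm (SymplecticGroup.mem_iff.1 g.2)).trans gm_J)⟩)
  fun g h => Subtype.ext (gm_mul g h)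

theorem gh_sp4 (t a b c : K) :
    gh (sp4 t a b c) = sp4 a (t ^ 2) (c + t ^ 2 * a) (b ^ 2 + t ^ 2 * a ^ 2) := Sp.ext (by
  simp [I4.forall, gh, gm, mn, p₁, p₂, coe_sp4]
  grind)

variable [Fintype K]

/-- The graph automorphism. -/
noncomputable def γ₀ : MulAut (Sp K) := MulEquiv.ofBijective gh
  (Finite.injective_iff_bijective.1 fun g h e => Sp.ext fun i j => CharTwo.sq_inj.1 (by
    rw [← gm_sq, ← gm_sq]
    exact congrArg (fun x : Sp K => gm x.1 i j) e))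

theorem γ₀_apply (g : Sp K) : γ₀ g = gh g := rfl

/-- The diagonal entries. -/
def dv (d₁ d₂ : K) : I4 → K := Sum.elim ![d₁, d₂] ![d₁⁻¹, d₂⁻¹]

/-- `φ` is the diagonal-field automorphism with the given parameters. -/
def IsD (φ : MulAut (Sp K)) (d₁ d₂ : K) (σ : K ≃+* K) : Prop :=
  d₁ ≠ 0 ∧ d₂ ≠ 0 ∧ ∀ g i j, (φ g).1 i j = dv d₁ d₂ i * σ (g.1 i j) * (dv d₁ d₂ j)⁻¹

/-- The diagonal matrices. -/
def hd (d₁ d₂ : K) (h₁ : d₁ ≠ 0) (h₂ : d₂ ≠ 0) : Sp K :=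
  ⟨diagonal (dv d₁ d₂), SymplecticGroup.mem_iff.2 (Matrix.ext (by
    simp [I4.forall, dv, J, h₁, h₂]))⟩

theorem dv_ne {d₁ d₂ : K} (h₁ : d₁ ≠ 0) (h₂ : d₂ ≠ 0) (i : I4) : dv d₁ d₂ i ≠ 0 := by
  revert i; simp [I4.forall, dv, h₁, h₂]

theorem isD_hd {d₁ d₂ : K} (h₁ : d₁ ≠ 0) (h₂ : d₂ ≠ 0) :
    IsD (MulAut.conj (hd d₁ d₂ h₁ h₂)) d₁ d₂ (RingEquiv.refl K) := ⟨h₁, h₂, fun g i j => by
  have := congrArg (fun x : Sp K => x.1 i j)
    (inv_mul_cancel_right (hd d₁ d₂ h₁ h₂ * g) (hd d₁ d₂ h₁ h₂))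
  simp only [Submonoid.coe_mul, hd, mul_diagonal, diagonal_mul] at this
  exact (eq_mul_inv_iff_mul_eq₀ (dv_ne h₁ h₂ j)).2 this⟩

/-- The field automorphisms. -/
def fr (σ : K ≃+* K) : MulAut (Sp K) where
  toFun g := ⟨g.1.map σ, SymplecticGroup.map_mem g.2 σ⟩
  invFun g := ⟨g.1.map σ.symm, SymplecticGroup.map_mem g.2 σ.symm⟩
  left_inv g := Sp.ext fun i j => by simp
  right_inv g := Sp.ext fun i j => by simp
  map_mul' g h := Subtype.ext Matrix.map_mul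

theorem IsD.mul {φ ψ : MulAut (Sp K)} {d₁ d₂ e₁ e₂ : K} {σ τ : K ≃+* K} (h : IsD φ d₁ d₂ σ)
    (h' : IsD ψ e₁ e₂ τ) : IsD (φ * ψ) (d₁ * σ e₁) (d₂ * σ e₂) (τ.trans σ) :=
  ⟨by simp [h.1, h'.1], by simp [h.2.1, h'.2.1], fun g i j => by
    have : ∀ i, dv (d₁ * σ e₁) (d₂ * σ e₂) i = dv d₁ d₂ i * σ (dv e₁ e₂ i) := by
      simp [I4.forall, dv, mul_comm]
    rw [MulAut.mul_apply, h.2.2, h'.2.2, this, this]
    simp only [map_mul, map_inv₀, RingEquiv.trans_apply, _root_.mul_inv_rev]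
    ring⟩

theorem exists_isD {d₁ d₂ : K} (h₁ : d₁ ≠ 0) (h₂ : d₂ ≠ 0) (σ : K ≃+* K) : ∃ φ, IsD φ d₁ d₂ σ := by
  have := (isD_hd h₁ h₂).mul (ψ := fr σ) (e₁ := 1) (e₂ := 1) (τ := σ)
    ⟨one_ne_zero, one_ne_zero, fun g => by simp [I4.forall, dv, fr]⟩
  rw [map_one, mul_one, mul_one] at this
  exact ⟨_, this⟩

theorem IsD.sp4 {φ : MulAut (Sp K)} {d₁ d₂ : K} {σ : K ≃+* K} (h : IsD φ d₁ d₂ σ) (t a b c : K) :
    φ (sp4 t a b c) = sp4 (d₁ / d₂ * σ t) (d₂ ^ 2 * σ a) (d₁ / d₂ * d₂ ^ 2 * σ b)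
      ((d₁ / d₂) ^ 2 * d₂ ^ 2 * σ c) := Sp.ext (by
  have h₁ := h.1
  have h₂ := h.2.1
  simp [I4.forall, h.2.2, dv, coe_sp4, h₁, h₂]
  field_simp
  simp)

/-- The diagonal-field automorphisms. -/
def Fr (K : Type*) [Field K] [CharP K 2] [Fintype K] : Subgroup (MulAut (Sp K)) := Lie.toSub
  { carrier := {φ | ∃ d₁ d₂ σ, IsD φ d₁ d₂ σ}
    one_mem' := ⟨1, 1, RingEquiv.refl K, one_ne_zero, one_ne_zero, fun g => by
      simp [I4.forall, dv]⟩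
    mul_mem' := fun ⟨_, _, _, h⟩ ⟨_, _, _, h'⟩ => ⟨_, _, _, h.mul h'⟩ }

theorem Fr.eq_one {φ : MulAut (Sp K)} (h : φ ∈ Fr K)
    (e : ∀ t a, ∃ b c, φ (sp4 t a 0 0) = sp4 t a b c) : φ = 1 := by
  obtain ⟨d₁, d₂, σ, h⟩ := h
  have k : ∀ t a, d₁ / d₂ * σ t = t ∧ d₂ ^ 2 * σ a = a := fun t a => by
    obtain ⟨b, c, e⟩ := e t a
    exact ⟨(sp4_inj ((h.sp4 ..).symm.trans e)).1, (sp4_inj ((h.sp4 ..).symm.trans e)).2.1⟩
  obtain rfl : d₂ = 1 := CharTwo.sq_inj.1 (by simpa using (k 1 1).2)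
  obtain rfl : d₁ = 1 := by simpa using (k 1 1).1
  have hσ : ∀ t, σ t = t := fun t => by simpa using (k t t).1
  exact MulEquiv.ext fun g => Sp.ext (by simp [I4.forall, h.2.2, dv, hσ])

theorem γ₀_norm : γ₀ ∈ normalizer (Fr K : Set (MulAut (Sp K))) := mem_normalizer_fintype (by
  rintro φ ⟨d₁, d₂, σ, h₁, h₂, h⟩
  refine ⟨d₁ * d₂, d₁ / d₂, σ, mul_ne_zero h₁ h₂, div_ne_zero h₁ h₂, fun g => ?_⟩
  obtain ⟨g, rfl⟩ := γ₀.surjective g
  simp only [MulAut.mul_apply, MulAut.inv_apply_self]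
  simp only [γ₀_apply]
  simp [I4.forall, gh, gm, mn, p₁, p₂, h, dv]
  field_simp
  simp)

theorem γ₀_sq : γ₀ * γ₀ ∈ Fr K :=
  ⟨1, 1, frobeniusEquiv K 2, one_ne_zero, one_ne_zero, fun g i j => (gm_sq g i j).trans (by
    revert i j; simp [I4.forall, dv, frobenius_def])⟩

/-- The first Weyl element. -/
def w₁ : Sp K := ⟨fromBlocks !![1, 0; 0, 0] !![0, 0; 0, 1] !![0, 0; 0, 1] !![1, 0; 0, 0],
  SymplecticGroup.mem_iff.2 (Matrix.ext (by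
    simp [I4.forall, J, Matrix.mul_apply, CharTwo.neg_eq]))⟩

/-- The second Weyl element. -/
def w₂ : Sp K := ⟨fromBlocks !![0, 1; 1, 0] 0 0 !![0, 1; 1, 0],
  SymplecticGroup.mem_iff.2 (Matrix.ext (by
    simp [I4.forall, J, Matrix.mul_apply, CharTwo.neg_eq]))⟩

theorem w₁_conj (t b c : K) : w₁ * sp4 t 0 b c * w₁⁻¹ = sp4 b 0 t c :=
  mul_inv_eq_iff_eq_mul.2 (Sp.ext (by
    simp [I4.forall, Sp.mul_apply, w₁, coe_sp4, CharTwo.neg_eq, mul_comm]))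

theorem w₂_conj (a b c : K) : w₂ * sp4 0 a b c * w₂⁻¹ = sp4 0 c b a :=
  mul_inv_eq_iff_eq_mul.2 (Sp.ext (by simp [I4.forall, Sp.mul_apply, w₂, coe_sp4]))

variable (K) in
/-- The unitriangular group. -/
noncomputable def Up : Subgroup (Sp K) := (exists_sylow_sp4 (p := 2) K).choose

theorem mem_Up {x : Sp K} : x ∈ Up K ↔ ∃ t a b c, x = sp4 t a b c :=
  (exists_sylow_sp4 (p := 2) K).choose_spec x

theorem syl_Up : IsSylowIn 2 (Up K) ⊤ := isSylowIn_top _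

variable (K) in
/-- Coordinates on the unitriangular group. -/
noncomputable def Dp : Ce (Up K) K := Ce.ofCo ⟨sp4, fun _ => mem_Up, sp4_mul, sp4_inj⟩

theorem borel {g : Sp K} (hg : g ∈ normalizer (Up K : Set (Sp K))) :
    ∃ u ∈ Up K, ∃ d₁ d₂ h₁ h₂, g = u * hd d₁ d₂ h₁ h₂ := by
  obtain ⟨t, a, b, c, e⟩ := mem_Up.1 ((mem_normalizer_iff''.1 hg _).1
    (mem_Up.2 ⟨1, 1, 0, 0, rfl⟩))
  rw [mul_assoc, inv_mul_eq_iff_eq_mul] at e
  have k := fun i j => congrArg (fun x : Sp K => x.1 i j) e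
  have k₁ := k (.inl 0) (.inl 0)
  have k₂ := k (.inl 1) (.inl 0)
  have k₃ := k (.inr 1) (.inl 0)
  have k₄ := k (.inl 1) (.inl 1)
  have k₅ := k (.inr 1) (.inl 1)
  simp [Sp.mul_apply, coe_sp4, CharTwo.neg_eq] at k₁ k₂ k₃ k₄ k₅
  have z₁ : g.1 (.inr 1) (.inl 0) = 0 := by grind
  have z₂ : g.1 (.inr 0) (.inl 1) = 0 := by grind
  have z₃ : g.1 (.inr 1) (.inl 1) = 0 := by grind
  have h1 := om_row g (.inl 0) (.inl 1)
  have h2 := om_row g (.inl 0) (.inr 0)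
  have h3 := om_row g (.inl 0) (.inr 1)
  have h4 := om_row g (.inl 1) (.inr 0)
  have h5 := om_row g (.inl 1) (.inr 1)
  simp [om, J, CharTwo.neg_eq, k₁, k₃, z₁, z₂, z₃] at h1 h2 h3 h4 h5
  have n₂ : g.1 (.inl 1) (.inl 1) ≠ 0 := left_ne_zero_of_mul_eq_one h5
  have z₄ := h4.resolve_left n₂
  rw [z₄, mul_zero, add_zero] at h2
  have n₁ : g.1 (.inl 0) (.inl 0) ≠ 0 := left_ne_zero_of_mul_eq_one h2
  refine ⟨_, mem_Up.2 ⟨g.1 (.inl 0) (.inl 1) / g.1 (.inl 1) (.inl 1),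
    g.1 (.inl 1) (.inr 1) * g.1 (.inl 1) (.inl 1), g.1 (.inl 0) (.inr 1) * g.1 (.inl 1) (.inl 1),
    g.1 (.inl 0) (.inr 0) * g.1 (.inl 0) (.inl 0) +
      g.1 (.inl 0) (.inr 1) * g.1 (.inl 0) (.inl 1), rfl⟩, _, _, n₁, n₂, Sp.ext ?_⟩
  simp [I4.forall, hd, dv, coe_sp4, k₁, k₃, z₁, z₂, z₃, z₄, n₁, n₂]
  grind

theorem hd_conj {d₁ d₂ : K} (h₁ : d₁ ≠ 0) (h₂ : d₂ ≠ 0) (t a b c : K) :
    hd d₁ d₂ h₁ h₂ * sp4 t a b c * (hd d₁ d₂ h₁ h₂)⁻¹ =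
      sp4 (d₁ / d₂ * t) (d₂ ^ 2 * a) (d₁ / d₂ * d₂ ^ 2 * b) ((d₁ / d₂) ^ 2 * d₂ ^ 2 * c) :=
  (isD_hd h₁ h₂).sp4 t a b c

theorem center_eq : center (Sp K) = ⊥ := eq_bot_iff.2 fun g hg => by
  have k := fun x i j => congrArg (fun y : Sp K => y.1 i j) (mem_center_iff.1 hg x)
  have k₁ := k (sp4 0 0 0 1)
  have k₂ := k w₁
  have k₃ := k w₂
  have h := om_row g (.inl 0) (.inr 0)
  simp [I4.forall, Sp.mul_apply, coe_sp4, w₁, w₂, om, J, CharTwo.neg_eq] at k₁ k₂ k₃ h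
  have e : g.1 (.inl 0) (.inl 0) = 1 := CharTwo.sq_inj.1 (by grind)
  refine Sp.ext ?_
  simp [I4.forall]
  grind

theorem comm_long {g : Sp K} {c : K} (hc : c ≠ 0) (h : g * sp4 0 0 0 c = sp4 0 0 0 c * g) (c' : K) :
    g * sp4 0 0 0 c' = sp4 0 0 0 c' * g := by
  have k := fun i j => congrArg (fun y : Sp K => y.1 i j) h
  simp [I4.forall, Sp.mul_apply, coe_sp4, hc] at k
  refine Sp.ext ?_
  simp [I4.forall, Sp.mul_apply, coe_sp4]
  grind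

theorem Up_le_of_cen {N : Subgroup (Sp K)} [hN : N.Normal] (h : ∀ b c, sp4 0 0 b c ∈ N) :
    Up K ≤ N := fun x hx => by
  obtain ⟨t, a, b, c, rfl⟩ := mem_Up.1 hx
  have := mul_mem (mul_mem (h b c) (w₂_conj 0 0 a ▸ hN.conj_mem _ (h 0 a) w₂))
    (w₁_conj 0 t 0 ▸ hN.conj_mem _ (h t 0) w₁)
  simpa [sp4_mul] using this

omit [CharP K 2] in
theorem exists_ne_two (hq : 2 < Fintype.card K) : ∃ ω : K, ω ≠ 0 ∧ ω ≠ 1 := by
  obtain ⟨a, b, c, h₁, h₂, h₃⟩ := Fintype.two_lt_card_iff.1 hq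
  by_contra! h'
  by_cases ha : a = 0 <;> by_cases hb : b = 0 <;> by_cases hc : c = 0 <;>
    simp_all [h' a, h' b, h' c]

theorem Up_le (hq : 2 < Fintype.card K) {N : Subgroup (Sp K)} [hN : N.Normal]
    (h : N ⊓ Up K ≠ ⊥) : Up K ≤ N := by
  have cm : ∀ {t a b c : K} (t' a' : K), sp4 t a b c ∈ N →
      sp4 0 0 (t * a' + t' * a) (t ^ 2 * a' + t' ^ 2 * a) ∈ N := fun {t a b c} t' a' h =>
    (congrArg (· ∈ N) ((Dp K).comm t a b c t' a' 0 0)).mp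
      (commutator_le_left N ⊤ (commutator_mem_commutator h trivial))
  have k₁ : ∀ {t a b c : K}, sp4 t a b c ∈ N → t ≠ 0 ∨ a ≠ 0 →
      ∃ b ≠ 0, ∃ c ≠ 0, sp4 0 0 b c ∈ N := by
    rintro t a b c h (e | e)
    · exact ⟨t, e, t ^ 2, pow_ne_zero 2 e, by simpa using cm 0 1 h⟩
    · exact ⟨a, e, a, e, by simpa using cm 1 0 h⟩
  obtain ⟨b, hb, c, hc, hm⟩ : ∃ b ≠ 0, ∃ c ≠ 0, sp4 0 0 b c ∈ N := by
    obtain ⟨⟨x, hx, hx'⟩, h1⟩ := ne_bot_iff_exists_ne_one.1 h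
    obtain ⟨t, a, b, c, rfl⟩ := mem_Up.1 hx'
    by_cases h₁ : t ≠ 0 ∨ a ≠ 0
    · exact k₁ hx h₁
    obtain ⟨rfl, rfl⟩ : t = 0 ∧ a = 0 := by simpa using h₁
    by_cases h₂ : b = 0
    · refine k₁ (w₂_conj 0 b c ▸ hN.conj_mem _ hx w₂) (.inr ?_)
      rintro rfl
      exact h1 (Subtype.ext ((Dp K).eq_one_iff.2 ⟨rfl, rfl, h₂, rfl⟩))
    · exact k₁ (w₁_conj 0 b c ▸ hN.conj_mem _ hx w₁) (.inl h₂)
  have k₂ : ∀ b' ≠ 0, ∀ c' ≠ 0, sp4 0 0 b' c' ∈ N := fun b' hb' c' hc' => by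
    have h₁ : rt K (c' / c) ≠ 0 := by simp [hc, hc']
    have h₂ : b' / b / rt K (c' / c) ≠ 0 := by simp [hb, hb', hc, hc']
    have := hN.conj_mem _ hm (hd _ _ h₁ h₂)
    rw [hd_conj, mul_zero, mul_zero] at this
    convert this using 2
    · field_simp
    · rw [div_pow, rt_sq]; field_simp
  obtain ⟨ω, h₀, h₁⟩ := exists_ne_two hq
  have k₃ : ∀ x ≠ 0, ∃ y ≠ 0, ∃ z ≠ (0 : K), x = y + z := fun x hx =>
    ⟨ω * x, mul_ne_zero h₀ hx, (ω + 1) * x, mul_ne_zero (mt CharTwo.add_eq_zero.1 h₁) hx, by grind⟩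
  have k₄ : ∀ x, ∃ y ≠ 0, ∃ z ≠ (0 : K), x = y + z := fun x => by
    by_cases hx : x = 0
    · exact ⟨1, one_ne_zero, 1, one_ne_zero, by grind⟩
    · exact k₃ x hx
  refine Up_le_of_cen fun b c => ?_
  obtain ⟨b₁, _, b₂, _, rfl⟩ := k₄ b
  obtain ⟨c₁, _, c₂, _, rfl⟩ := k₄ c
  simpa [sp4_mul] using mul_mem (k₂ b₁ ‹_› c₁ ‹_›) (k₂ b₂ ‹_› c₂ ‹_›)

theorem eq_top_of_Up_le {N : Subgroup (Sp K)} [hN : N.Normal] (h : Up K ≤ N) : N = ⊤ := by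
  have m : ∀ t a b c : K, sp4 t a b c ∈ N := fun t a b c => h (mem_Up.2 ⟨_, _, _, _, rfl⟩)
  have n₁ : ∀ r : K, ∀ hr : r ≠ 0, hd 1 r one_ne_zero hr * w₁ ∈ N := fun r hr => by
    have : hd 1 r one_ne_zero hr * w₁ =
        sp4 0 r 0 0 * (w₁ * sp4 0 r⁻¹ 0 0 * w₁⁻¹) * sp4 0 r 0 0 := by
      rw [show (w₁ : Sp K)⁻¹ = w₁ from inv_eq_of_mul_eq_one_right (Sp.ext (by
        simp [I4.forall, Matrix.mul_apply, w₁]))]
      refine Sp.ext ?_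
      simp [I4.forall, Matrix.mul_apply, w₁, coe_sp4, hd, dv, hr, CharTwo.add_self_eq_zero]
    exact this ▸ mul_mem (mul_mem (m ..) (hN.conj_mem _ (m ..) _)) (m ..)
  have n₂ : ∀ r : K, ∀ hr : r ≠ 0, hd 1 r one_ne_zero hr ∈ N := fun r hr => by
    have e : hd (1 : K) 1 one_ne_zero one_ne_zero = 1 := Sp.ext (by simp [I4.forall, hd, dv])
    have := n₁ 1 one_ne_zero
    rw [e, one_mul] at this
    exact (mul_mem_cancel_right this).1 (n₁ r hr)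
  refine eq_top_iff.2 fun g _ => ?_
  obtain ⟨n, hn, e⟩ := (syl_Up.of_le h le_top).frattini (g := g) (by simp [normalizer_eq_top])
  obtain ⟨u, hu, d₁, d₂, h₁, h₂, e'⟩ := borel e
  have : hd d₁ d₂ h₁ h₂ = w₂ * hd 1 d₁ one_ne_zero h₁ * w₂⁻¹ * hd 1 d₂ one_ne_zero h₂ := by
    rw [show (w₂ : Sp K)⁻¹ = w₂ from inv_eq_of_mul_eq_one_right (Sp.ext (by
      simp [I4.forall, Matrix.mul_apply, w₂]))]
    refine Sp.ext ?_
    simp [I4.forall, Matrix.mul_apply, w₂, hd, dv]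
  exact (mul_mem_cancel_left hn).1 (e' ▸ mul_mem (h hu)
    (this ▸ mul_mem (hN.conj_mem _ (n₂ _ h₁) _) (n₂ _ h₂)))

theorem simple (hq : 2 < Fintype.card K) : IsSimpleGroup (Sp K) := by
  have h1 : (sp4 0 0 0 1 : Sp K) ≠ 1 := fun e => by simpa using (Dp K).eq_one_iff.1 e
  haveI : Nontrivial (Sp K) := ⟨_, _, h1⟩
  refine ⟨fun N hN => or_iff_not_imp_right.2 fun h => ?_⟩
  have hU : N ⊓ Up K = ⊥ := by_contra fun e => h (eq_top_of_Up_le (Up_le hq e))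
  let R : Subgroup (Sp K) :=
    { carrier := {x | ∃ c, x = sp4 0 0 0 c}
      one_mem' := ⟨0, (Dp K).f_zero.symm⟩
      mul_mem' := by
        rintro _ _ ⟨b, rfl⟩ ⟨b', rfl⟩
        exact ⟨b + b', by simp [sp4_mul]⟩
      inv_mem' := by
        rintro _ ⟨b, rfl⟩
        exact ⟨b, ((Dp K).inv 0 0 0 b).trans (by simp [Dp, Ce.ofCo])⟩ }
  have hR : R ≤ Up K := by rintro _ ⟨c, rfl⟩; exact mem_Up.2 ⟨_, _, _, _, rfl⟩
  haveI : IsMulCommutative R := ⟨⟨by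
    rintro ⟨_, b, rfl⟩ ⟨_, c, rfl⟩
    exact Subtype.ext (by simp [sp4_mul, add_comm])⟩⟩
  have hc : ¬ IsCyclic R := fun hc => by
    obtain ⟨⟨_, c, rfl⟩, hg⟩ := hc.exists_generator
    have h2 : (⟨_, c, rfl⟩ : R) ^ 2 = 1 :=
      Subtype.ext (by
        simpa [sq, sp4_mul, CharTwo.add_self_eq_zero, Dp, Ce.ofCo] using (Dp K).f_zero)
    have := Nat.card_le_card_of_injective (fun c : K => (⟨_, c, rfl⟩ : R)) fun x y e =>
      (sp4_inj (congrArg Subtype.val e)).2.2.2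
    rw [← orderOf_eq_card_of_forall_mem_zpowers hg, Nat.card_eq_fintype_card] at this
    exact absurd (this.trans (orderOf_le_of_pow_eq_one two_pos h2)) hq.not_ge
  have hodd : (Nat.card R).Coprime (Nat.card N) := by
    obtain ⟨k, hk⟩ := (syl_Up.isPGroup.to_le hR).exists_card_eq
    have := (syl_Up.inf_of_normal (N := N) le_top fun g _ n hn => hN.conj_mem n hn g).card_eq
    rw [inf_comm, hU, card_bot, eq_comm, Nat.pow_eq_one, or_iff_right (by norm_num),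
      Nat.factorization_eq_zero_iff] at this
    rw [hk]
    exact Nat.Coprime.pow_left _ ((Nat.Prime.coprime_iff_not_dvd Nat.prime_two).2
      (by simpa [Nat.prime_two, Nat.card_pos.ne'] using this))
  have hC : N ≤ centralizer {sp4 0 0 0 1} := by
    rw [← Solv.generated_by_centralizers hc (A := R) (K := N) (by simp [normalizer_eq_top]) hodd]
    refine iSup₂_le ?_
    rintro _ ⟨⟨c, rfl⟩, hc⟩ g hg
    exact mem_centralizer_singleton_iff.2 (comm_long (fun e => hc (by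
      rw [e]; exact (Dp K).f_zero)) (mem_centralizer_singleton_iff.1 hg.2) 1)
  have := eq_top_of_Up_le (Up_le hq (N := centralizer (N : Set (Sp K))) fun e => h1
    (e.le ⟨fun g hg => mem_centralizer_singleton_iff.1 (hC hg), hR ⟨1, rfl⟩⟩))
  exact eq_bot_iff.2 ((centralizer_eq_top_iff_subset.1 this).trans center_eq.le)

end Cfsg.Agent.MP.Spg
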