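import Cfsg.Agent.Lib.MP.SpgE
import Cfsg.Agent.Lib.MP.SpgM

/-!
Identification of the systems over `T.2`, `T` a Sylow 2-subgroup of `Sp₄(2ⁿ)`, `n > 1`.
-/

set_option autoImplicit false
set_option linter.unusedVariables false
set_option linter.style.haveILetI false
set_option linter.unusedSectionVars false

namespace Cfsg.Agent.MP.Spg

open Cfsg.Agent.Fus Cfsg.Agent.Ess Cfsg.Agent.SP4 Subgroup
open Cfsg.FusionSystem (normalizerIn centralizerIn)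
open Cfsg.Agent.Fus2 (M afn img HomOn)

universe u v

section Inner

variable {L : Type*} [Group L]

theorem cj_conj (φ : MulAut L) (g : L) : φ * MulAut.conj g * φ⁻¹ = MulAut.conj (φ g) := by
  ext1 x
  simp

theorem cj_inj (h : center L = ⊥) : Function.Injective (MulAut.conj : L →* MulAut L) :=
  (injective_iff_map_eq_one _).2 fun g e => h.le (mem_center_iff.2 fun x =>
    (mul_inv_eq_iff_eq_mul.1 (congrArg (fun φ : MulAut L => φ x) e)).symm)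

theorem range_normal : (MulAut.conj : L →* MulAut L).range.Normal :=
  ⟨by rintro _ ⟨g, rfl⟩ φ; exact ⟨φ g, (cj_conj ..).symm⟩⟩

theorem cen_range (h : center L = ⊥) :
    centralizer ((MulAut.conj : L →* MulAut L).range : Set (MulAut L)) = ⊥ :=
  eq_bot_iff.2 fun φ hφ => MulEquiv.ext fun g => cj_inj h (by
    rw [← cj_conj, ← hφ _ ⟨g, rfl⟩, mul_inv_cancel_right]; rfl)

end Inner

theorem odd_exp {K : Type*} [Field K] [Fintype K] [CharP K 2] {σ : K ≃+* K}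
    (h : ∀ t, σ (σ t) = t ^ 2) : ∃ e, Odd e ∧ Fintype.card K = 2 ^ e := by
  obtain ⟨n, -, hn⟩ := FiniteField.card K 2
  refine ⟨n, Nat.not_even_iff_odd.1 fun ⟨k, hk⟩ => ?_, hn⟩
  classical
  haveI : Fact (Nat.Prime 3) := ⟨Nat.prime_three⟩
  obtain ⟨ω, hω⟩ := exists_prime_orderOf_dvd_card (G := Kˣ) 3 (by
    rw [Fintype.card_units, hn, hk, ← two_mul, pow_mul]
    simpa using Nat.sub_dvd_pow_sub_pow 4 1 k)
  obtain ⟨h₁, h₂⟩ := orderOf_eq_prime_iff.1 hω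
  replace h₁ : (ω : K) ^ 3 = 1 := by simpa using congrArg Units.val h₁
  replace h₂ : (ω : K) ≠ 1 := by simpa using h₂
  generalize (ω : K) = w at h₁ h₂
  have e₁ : w ^ 2 + w + 1 = 0 := by grind
  have e₂ : σ w ^ 2 + σ w + 1 = 0 := by simpa using congrArg σ e₁
  have e₃ := h w
  rcases (by grind : σ w = w ∨ σ w = w ^ 2) with e | e
  · rw [e, e] at e₃; grind
  · rw [e, map_pow, e] at e₃; grind

variable {Ω : Type u} [Group Ω] {S T : Subgroup Ω} [Finite S] [Finite T] {F : FusionSystem S}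

theorem st_of {K : Type v} [Field K] [Fintype K] [CharP K 2] (D : Ce T K) (hle : T ≤ S)
    (hi : T.relIndex S = 2) (hn : ¬ S ≤ normalizer (D.A₁ : Set Ω)) : St S T D.A₁ D.A₂ := by
  have two : ∀ x ∈ S, ∀ y ∈ S, x ∉ T → y ∉ T → x * y ∈ T := fun x hx y hy h1 h2 =>
    (mul_mem_iff_of_index_two hi (a := ⟨x, hx⟩) (b := ⟨y, hy⟩)).2 (iff_of_false h1 h2)
  have nor : ∀ g ∈ S, ∀ x ∈ T, g * x * g⁻¹ ∈ T := fun g hg x hx => by
    by_cases h : g ∈ T
    · exact mul_mem (mul_mem h hx) (inv_mem h)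
    · exact two _ (mul_mem hg (hle hx)) _ (inv_mem hg) ((mul_mem_cancel_right hx).not.2 h)
        (by simpa using h)
  haveI := finite_of_le D.le₁
  obtain ⟨s, hs, hs'⟩ := SetLike.not_le_iff_exists.1 hn
  have hsT : s ∉ T := fun h => hs' (D.norm₁ h)
  have sw : ∀ g ∈ S, g ∉ T → _ := fun g hg hgT =>
    (D.swap_or (Fus2.homOn_conj T g) (nor g hg) fun x _ y _ e => by simpa using e).resolve_left
      fun h => hs' (Fus.mem_normalizer_of_conj_mem fun x hx => by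
        simpa [mul_assoc] using Fus.conj_mem_of_mem_normalizer
          (D.norm₁ (two s hs g⁻¹ (inv_mem hg) hsT (by simpa using hgT))) (h.1 x hx))
  exact ⟨hle, nor, two, fun g hg h => (sw g hg h).1, fun g hg h => (sw g hg h).2, s, hs, hsT⟩

theorem St.ess₂ {K : Type v} [Field K] [Fintype K] [CharP K 2] {D : Ce T K}
    (h : St S T D.A₁ D.A₂) (h₁ : F.IsEssential 2 D.A₁) : F.IsEssential 2 D.A₂ := by
  obtain ⟨s, hs, hs'⟩ := h.ex
  obtain ⟨E, hE, e⟩ := F4.ess_conj h₁ hs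
  rwa [show E = D.A₂ from Subgroup.ext fun x => (e x).trans ⟨fun hx => by
    simpa [mul_assoc] using h.sw₁ s hs hs' _ hx, fun hx => by
    simpa using h.sw₂ _ (inv_mem hs) (by simpa using hs') _ hx⟩] at hE

theorem St.ti {K : Type v} [Field K] [Fintype K] [CharP K 2] {D : Ce T K}
    (h : St S T D.A₁ D.A₂) (h₁ : F.IsEssential 2 D.A₁) (hE : ∀ E, F.IsEssential 2 E → E ≤ T) :
    TI F T := by
  rintro E (rfl | h₀) α hα x hx hx'
  · have hf := M_afn le_rfl hα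
    obtain ⟨t, a, b, c, rfl⟩ := (D.mem_iff x).1 hx'
    rw [show D.f t a b c = D.f 0 a b c * D.f t 0 0 0 by simp [D.mul],
      hf.map_mul (h.le (D.f_mem ..)) (h.le (D.f_mem ..))]
    exact mul_mem (hE _ (isEssential_img (h.ess₂ h₁) hf) (Fus2.mem_img_of_mem _ (by simp)))
      (hE _ (isEssential_img h₁ hf) (Fus2.mem_img_of_mem _ (by simp)))
  · exact hE E h₀ (Fus2.afn_mem α hx)

variable {K : Type} [Field K] [Fintype K] [CharP K 2] {D : Ce T K}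

variable (K) in
/-- Coordinates on the inner automorphisms induced by the unitriangular group. -/
noncomputable def Dc : Ce ((Up K).map (MulAut.conj : Sp K →* MulAut (Sp K))) K where
  f t a b c := MulAut.conj (sp4 t a b c)
  mem_iff x := ⟨by
    rintro ⟨y, hy, rfl⟩
    obtain ⟨t, a, b, c, rfl⟩ := mem_Up.1 hy
    exact ⟨t, a, b, c, rfl⟩, by
    rintro ⟨t, a, b, c, rfl⟩
    exact ⟨_, mem_Up.2 ⟨t, a, b, c, rfl⟩, rfl⟩⟩
  mul t a b c t' a' b' c' := (map_mul ..).symm.trans (congrArg _ ((Dp K).mul ..))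
  inj e := sp4_inj (cj_inj center_eq e)

/-- `φ` and `f` act in the same way on coordinates. -/
def Rel (D : Ce T K) (φ : MulAut (Sp K)) (f : Ω → Ω) : Prop :=
  ∀ t a b c, ∃ t' a' b' c', φ (sp4 t a b c) = sp4 t' a' b' c' ∧ f (D.f t a b c) = D.f t' a' b' c'

theorem Rel.mul {φ ψ : MulAut (Sp K)} {f g : Ω → Ω} (h : Rel D φ f) (h' : Rel D ψ g) :
    Rel D (φ * ψ) fun x => f (g x) := fun t a b c => by
  obtain ⟨t', a', b', c', e₁, e₂⟩ := h' t a b c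
  obtain ⟨_, _, _, _, e₃, e₄⟩ := h t' a' b' c'
  exact ⟨_, _, _, _, by rw [MulAut.mul_apply, e₁, e₃], (congrArg f e₂).trans e₄⟩

theorem Rel.mem {φ : MulAut (Sp K)} {f : Ω → Ω} (h : Rel D φ f) : ∀ x ∈ T, f x ∈ T := fun x hx => by
  obtain ⟨t, a, b, c, rfl⟩ := (D.mem_iff x).1 hx
  obtain ⟨_, _, _, _, -, e⟩ := h t a b c
  exact e ▸ D.f_mem ..

theorem Rel.norm {φ : MulAut (Sp K)} {f : Ω → Ω} (h : Rel D φ f) :
    φ ∈ normalizer (((Up K).map (MulAut.conj : Sp K →* MulAut (Sp K)) : Subgroup _) :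
      Set (MulAut (Sp K))) := Fus.mem_normalizer_of_conj_mem fun x hx => by
  obtain ⟨t, a, b, c, rfl⟩ := ((Dc K).mem_iff x).1 hx
  obtain ⟨_, _, _, _, e, -⟩ := h t a b c
  exact ((cj_conj ..).trans (congrArg _ e)).symm ▸ (Dc K).f_mem ..

theorem Rel.eq_one {φ : MulAut (Sp K)} {f : Ω → Ω} (h : Rel D φ f) (hφ : φ ∈ Fr K)
    (e : ∀ x ∈ T, f x = x) : φ = 1 := Fr.eq_one hφ fun t a => by
  obtain ⟨_, _, _, _, e₁, e₂⟩ := h t a 0 0
  obtain ⟨rfl, rfl, -⟩ := D.inj ((e _ (D.f_mem ..)).symm.trans e₂)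
  exact ⟨_, _, e₁⟩

theorem Rel.dg {φ : MulAut (Sp K)} {f : Ω → Ω} (h : Rel D φ f) {d₁ d₂ : K} {σ : K ≃+* K}
    (e : IsD φ d₁ d₂ σ) (t a b c : K) : f (D.f t a b c) = dg D (d₁ / d₂) (d₂ ^ 2) σ t a b c := by
  obtain ⟨_, _, _, _, e₁, e₂⟩ := h t a b c
  obtain ⟨rfl, rfl, rfl, rfl⟩ := sp4_inj ((e.sp4 ..).symm.trans e₁)
  exact e₂

theorem exists_isD' {x y : K} (hx : x ≠ 0) (hy : y ≠ 0) (σ : K ≃+* K) : ∃ φ ∈ Fr K,
    ∀ t a b c, φ (sp4 t a b c) = sp4 (x * σ t) (y * σ a) (x * y * σ b) (x ^ 2 * y * σ c) := by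
  have h : rt K y ≠ 0 := by simpa using hy
  obtain ⟨φ, e⟩ := exists_isD (mul_ne_zero hx h) h σ
  exact ⟨φ, ⟨_, _, _, e⟩, fun t a b c => by rw [e.sp4, mul_div_cancel_right₀ _ h, rt_sq]⟩

/-- The diagonal-field automorphisms that induce a map of `F`. -/
def Gam (F : FusionSystem S) (D : Ce T K) (hT : T ≤ S) : Subgroup (MulAut (Sp K)) := Lie.toSub
  { carrier := {φ | φ ∈ Fr K ∧ ∃ f, M F T f ∧ Rel D φ f}
    one_mem' := ⟨one_mem _, _, Fus2.M_id F hT, fun _ _ _ _ => ⟨_, _, _, _, rfl, rfl⟩⟩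
    mul_mem' := fun ⟨h₁, _, h₂, h₃⟩ ⟨k₁, _, k₂, k₃⟩ =>
      ⟨mul_mem h₁ k₁, _, k₂.comp h₂ k₃.mem, h₃.mul k₃⟩ }

theorem main (hq : 2 < Fintype.card K) (H : Hy D F) (h : NF D F) (hI : TI F T) :
    ∃ (G : Type u) (_ : Group G) (_ : Finite G) (κ : S →* G), F.IsRealizedBy κ ∧
      (∃ T : Sylow 2 G, (T : Subgroup G) = κ.range) ∧
      (Nonempty (generalizedFittingSubgroup G ≃* PSp 2 K) ∧
        ∃ e : ℕ, Odd e ∧ Fintype.card K = 2 ^ e) ∧
      generalizedFittingSubgroup G ≤ pResidual 2 G ∧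
      Odd ((generalizedFittingSubgroup G).subgroupOf (pResidual 2 G)).index ∧
      (pResidual 2 G).index = 2 := by
  obtain ⟨s, x, y, σ, hs⟩ := H.exists_ns h
  obtain ⟨δ, hδ, eδ⟩ := exists_isD' hs.x0 hs.y0 σ
  obtain ⟨γ, hγ⟩ : ∃ γ, γ = δ * γ₀⁻¹ := ⟨_, rfl⟩
  have act : ∀ t a b c, γ ((Dp K).graph.f t a b c) =
      sp4 (x * σ t) (y * σ a) (x * y * σ b) (x ^ 2 * y * σ c) := fun t a b c => by
    rw [← eδ, hγ]
    exact congrArg δ ((congrArg _ (gh_sp4 t a b c).symm).trans (MulAut.inv_apply_self _ γ₀ _))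
  have rγ : Rel D γ fun z => s * z * s⁻¹ := fun t a b c => by
    have e₁ := act (rt K a) t (rt K (c + a * t ^ 2)) (b + a * t)
    have e₂ := hs.act (rt K a) t (rt K (c + a * t ^ 2)) (b + a * t)
    simp only [Ce.graph, rt_sq, add_assoc, CharTwo.add_self_eq_zero, add_zero] at e₁ e₂
    exact ⟨_, _, _, _, e₁, e₂⟩
  have nγ : γ ∈ normalizer (Fr K : Set (MulAut (Sp K))) :=
    hγ ▸ mul_mem (le_normalizer hδ) (inv_mem γ₀_norm)
  have sq : γ * γ = 1 := (rγ.mul rγ).eq_one (by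
    have := mul_mem (mul_mem hδ ((inv_mem γ₀_norm δ).1 hδ)) (inv_mem γ₀_sq)
    simpa [hγ, mul_assoc] using this) fun z _ => by
      rw [← mul_assoc, ← mul_assoc, hs.sq, one_mul, mul_assoc, ← mul_inv_rev, hs.sq]; simp
  have hi : γ⁻¹ = γ := inv_eq_of_mul_eq_one_right sq
  have e₀ := MonoidHom.ofInjective (cj_inj (center_eq (K := K)))
  haveI := simple hq
  have hs' := Fus2.M_conj F H.le hs.mem
  have nsγ : ∀ S₀ : Subgroup (MulAut (Sp K)), γ ∈ S₀ → Ns S₀ (Dc K) γ x y σ := fun S₀ h₀ =>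
    ⟨h₀, sq, hs.x0, hs.y0, fun t a b c => (cj_conj ..).trans (congrArg _ (act t a b c))⟩
  have hX : X2.Ext (MulAut.conj : Sp K →* MulAut (Sp K)).range (Gam F D H.le)
      ((Up K).map MulAut.conj) γ := by
    refine ⟨range_normal, e₀.symm.isSimpleGroup, ?_, cen_range center_eq, ?_, sq, ?_,
      by rw [MonoidHom.range_eq_map]; exact syl_Up.map _, fun t ht => ?_, (nsγ ⊤ trivial).nmem⟩
    · haveI : Group.IsPerfect (Sp K) := ⟨(IsSimpleGroup.eq_bot_or_eq_top_of_normal _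
        inferInstance).resolve_left fun e => by
          have := e.le (commutator_mem_commutator (mem_top (sp4 1 0 0 0)) (mem_top (sp4 0 1 0 0)))
          simpa using (Dp K).eq_one_iff.1 (((Dp K).comm ..).symm.trans this)⟩
      exact Group.IsPerfect.ofSurjective (f := e₀.toMonoidHom) e₀.surjective
    · refine Nat.not_even_iff_odd.1 fun he => ?_
      obtain ⟨⟨φ, hφ, f, hf, r⟩, ho⟩ := exists_prime_orderOf_dvd_card' 2 (even_iff_two_dvd.1 he)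
      rw [← orderOf_coe, orderOf_eq_prime_iff] at ho
      obtain ⟨d₁, d₂, τ, e⟩ := id hφ
      obtain ⟨k₁, k₂, rfl⟩ := H.odd hf (div_ne_zero e.1 e.2.1) (r.dg e) fun z hz => by
        obtain ⟨t, a, b, c, rfl⟩ := (D.mem_iff z).1 hz
        obtain ⟨_, _, _, _, e₁, e₂⟩ := r.mul r t a b c
        rw [show φ * φ = 1 by simpa [_root_.sq] using ho.1] at e₁
        obtain ⟨rfl, rfl, rfl, rfl⟩ := sp4_inj e₁
        exact e₂
      refine ho.2 (r.eq_one hφ fun z hz => ?_)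
      obtain ⟨t, a, b, c, rfl⟩ := (D.mem_iff z).1 hz
      simp [r.dg e, dg, k₁, k₂]
    · rintro φ ⟨hφ, f, hf, r⟩
      exact ⟨by simpa [hi] using (nγ φ).1 hφ, _, (hs'.comp hf rγ.mem).comp hs' (r.mul rγ).mem,
        by simpa [mul_assoc] using rγ.mul (r.mul rγ)⟩
    · simpa [hi] using (rγ.norm t).1 ht
  have hL : ∀ g, MulAut.conj g ∈ hX.G := fun g => hX.le₀ (mem_sup_left ⟨g, rfl⟩)
  have k₀ : ∀ g : Sp K, ∀ φ ∈ Gam F D H.le, MulAut.conj g * φ ∈ normalizer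
      (((Up K).map (MulAut.conj : Sp K →* MulAut (Sp K)) : Subgroup _) : Set (MulAut (Sp K))) →
      ∃ u ∈ (Up K).map MulAut.conj, ∃ x y σ, Dg F D x y σ ∧ ∀ t a b c,
        MulAut.conj g * φ * (Dc K).f t a b c * (MulAut.conj g * φ)⁻¹ =
          u * dg (Dc K) x y σ t a b c * u⁻¹ := by
    rintro g φ ⟨hφ, f, hf, r⟩ hn
    obtain ⟨u, hu, d₁, d₂, h₁, h₂, rfl⟩ := borel (g := g) (Fus.mem_normalizer_of_conj_mem
      fun z hz => by
        obtain ⟨w, hw, e⟩ := ((mul_mem_cancel_right r.norm).1 hn _).1 ⟨z, hz, rfl⟩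
        rw [cj_conj] at e
        exact (show w = g * z * g⁻¹ from cj_inj center_eq e) ▸ hw)
    obtain ⟨k, hk, ek⟩ := H.torus h (div_ne_zero h₁ h₂) (pow_ne_zero 2 h₂)
    have r' : Rel D (MulAut.conj (hd d₁ d₂ h₁ h₂)) k := fun t a b c =>
      ⟨_, _, _, _, hd_conj h₁ h₂ t a b c, ek t a b c⟩
    obtain ⟨_, _, τ, e⟩ := mul_mem (show _ ∈ Fr K from ⟨_, _, _, isD_hd h₁ h₂⟩) hφ
    refine ⟨_, ⟨u, hu, rfl⟩, _, _, τ, ⟨_, hf.comp hk r.mem, (r'.mul r).dg e⟩, fun t a b c => ?_⟩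
    rw [map_mul, mul_assoc (MulAut.conj u), mul_assoc (MulAut.conj u), mul_inv_rev,
      ← mul_assoc _ _ (MulAut.conj u)⁻¹, mul_assoc (MulAut.conj u)]
    exact congrArg (fun w => MulAut.conj u * w * _) ((cj_conj ..).trans (congrArg _ (e.sp4 ..)))
  obtain ⟨ι, hι, hi', hS, key⟩ := H.ident h hI hs (G := hX.G) (S₀ := hX.S) (D₀ := Dc K)
    ⟨nsγ _ X2.self_mem_dbl, fun _ => hX.mem_S, hX.sylS, fun g hg t => hX.conj_mem hg,
      ⟨_, hL w₁, fun t b c => (cj_conj ..).trans (congrArg _ (w₁_conj ..))⟩,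
      ⟨_, hL w₂, fun t b c => (cj_conj ..).trans (congrArg _ (w₂_conj ..))⟩,
      fun x hx y hy σ ⟨f, hf, e⟩ => by
        obtain ⟨φ, hφ, e'⟩ := exists_isD' hx hy σ
        exact ⟨φ, hX.le₀ (mem_sup_right ⟨hφ, f, hf, fun t a b c => ⟨_, _, _, _, e' .., e ..⟩⟩),
          fun t a b c => (cj_conj ..).trans (congrArg _ (e' ..))⟩,
      fun g hg hn => by
        replace hn := Fus.mem_normalizer_of_conj_mem hn
        obtain ⟨_, ⟨l, rfl⟩, φ, hφ, rfl | rfl⟩ := hX.mem_G.1 hg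
        · obtain ⟨u, hu, r⟩ := k₀ l φ hφ hn
          exact ⟨u, X2.le_dbl hu, r⟩
        have e : MulAut.conj l * φ * γ = γ * (MulAut.conj (γ l) * (γ * φ * γ)) := by
          rw [← cj_conj, hi]
          simp [← mul_assoc, sq, mul_assoc _ γ γ]
        obtain ⟨u, hu, x, y, σ, r₁, r₂⟩ := k₀ (γ l) _ (hX.nΓ φ hφ)
          ((mul_mem_cancel_left rγ.norm).1 (e ▸ hn))
        refine ⟨γ * u, mul_mem X2.self_mem_dbl (X2.le_dbl hu), x, y, σ, r₁, fun t a b c => ?_⟩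
        rw [e, mul_assoc γ u, mul_inv_rev γ u, mul_assoc γ (u * _), ← mul_assoc (u * _), ← r₂]
        group⟩
  obtain ⟨G, _, _, κ, r₁, r₂, ⟨r₃⟩, r₄⟩ := hX.realize hι hi' hS key
  refine ⟨G, _, inferInstance, κ, r₁, r₂, ⟨⟨r₃.trans (e₀.symm.trans ((QuotientGroup.quotientBot).symm.trans
    (QuotientGroup.quotientMulEquivOfEq center_eq.symm)))⟩, odd_exp (σ := σ) fun t => ?_⟩, r₄⟩
  have e₁ := hs.rel t
  have e₂ := hs.rel 1
  simp only [map_mul, map_one, mul_one, one_pow] at e₁ e₂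
  rw [← e₁, ← mul_assoc, e₂, one_mul]

end Cfsg.Agent.MP.Spg
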