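import Cfsg.Agent.Lib.MP.SpgF
import Cfsg.Agent.Lib.MP.Solv

/-!
Normal coordinates under the minimality hypothesis, and the essential subgroups outside `T`.
-/

set_option autoImplicit false
set_option linter.unusedVariables false
set_option linter.style.haveILetI false
set_option linter.unusedSectionVars false

namespace Cfsg.Agent.MP.Spg

open Cfsg.Agent.Fus Cfsg.Agent.Ess Cfsg.Agent.SP4 Subgroup
open Cfsg.FusionSystem (normalizerIn centralizerIn)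
open Cfsg.Agent.Fus2 (M afn img HomOn)
open Cfsg.Agent.U5 (SEd sed_of_ess)
open scoped commutatorElement

universe u v

variable {Ω : Type u} [Group Ω] {S T A B : Subgroup Ω} {K : Type v} [Field K] [Fintype K]
  [CharP K 2] [Finite S] [Finite T] {F : FusionSystem S} {D : Ce T K}

theorem Sy.mover {P : Sd T A K} (h : Sy P F)
    (hP : ∀ x, P.k₁ x = 0 ↔ (x : Ω) ∈ centralizerIn T T) (h₁ : Sty F T A fun c => P.v 0 0 c)
    (h₂ : ∃ γ ∈ F.autGroup A, ∃ x, P.k₁ x = 0 ∧ P.k₁ (γ x) ≠ 0) :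
    ∃ g, M F A g ∧ (∀ x ∈ A, g x ∈ A) ∧ (∀ c, ∃ c', g (P.v 0 0 c) = P.v 0 0 c') ∧
      ∀ x ∈ centralizerIn T T, x ∈ A → g x ∈ centralizerIn T T → ∃ c, x = P.v 0 0 c := by
  haveI := h.fin
  have hA := P.le.trans h.le
  rw [sty_iff hP hA] at h₁
  obtain ⟨γ, hγ, h₂⟩ := h₂
  have key : ∀ z, P.k₁ z = 0 → P.k₁ (γ z) = 0 → ∃ c, z = P.v 0 0 c := fun z e₁ e => by
    have e₂ : P.k₂ z = 0 := by
      rcases axis' P.toMd h.syl P.hτ hγ h₂ (n := z * P.v 0 0 (P.k₃ z + 1))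
        (by simp [P.k₁_mul, e₁]) (by rw [map_mul, P.k₁_mul, e, h₁ γ hγ, add_zero]) with e | e
      · simpa [P.k₂_mul] using e
      · simp [P.k₃_mul, ← add_assoc, CharTwo.add_self_eq_zero] at e
    have := P.v_k z
    rw [e₁, e₂] at this
    exact ⟨_, this.symm⟩
  refine ⟨_, M_afn hA hγ, fun x => Fus2.afn_mem γ, fun c => ?_, fun x hx hx' e => ?_⟩
  · obtain ⟨c', e⟩ := key _ (h₁ γ hγ c) (h₁ _ (mul_mem hγ hγ) c)
    exact ⟨c', by rw [Fus2.afn_coe, e]⟩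
  · rw [Fus2.afn_apply γ hx', ← hP] at e
    exact (key ⟨x, hx'⟩ ((hP _).2 hx) e).imp fun c e => congrArg Subtype.val e

section Nf

variable (H : Hy D F) (h₁ : F.IsEssential 2 D.A₁) (h₂ : F.IsEssential 2 D.A₂) (hm : Min F)
include H h₁ h₂ hm

theorem Hy.not_same (s₁ : Sty F T D.A₁ fun b => D.f 0 0 b 0)
    (s₂ : Sty F T D.A₂ fun b => D.f 0 0 b 0) : False := by
  let R : Subgroup Ω :=
    { carrier := {x | ∃ b, x = D.f 0 0 b 0}
      one_mem' := ⟨0, D.f_zero.symm⟩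
      mul_mem' := by
        rintro _ _ ⟨b, rfl⟩ ⟨b', rfl⟩
        exact ⟨b + b', by simp [D.mul]⟩
      inv_mem' := by
        rintro _ ⟨b, rfl⟩
        exact ⟨b, by simp [D.inv]⟩ }
  haveI : Finite R := finite_of_le (show R ≤ T by rintro _ ⟨b, rfl⟩; exact D.f_mem ..)
  obtain ⟨g₁, a₁, b₁, c₁, d₁⟩ := H.sy₁.mover (fun _ => D.k₁_eq₁) (by simpa [Ce.sd₁] using s₁)
    (H.moves H.pg H.sat h₁ _ (fun _ => D.k₁_eq₁) not_le₁)
  obtain ⟨g₂, a₂, b₂, c₂, d₂⟩ := H.sy₂.mover (fun _ => D.k₁_eq₂) s₂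
    (H.moves H.pg H.sat h₂ _ (fun _ => D.k₁_eq₂) not_le₂)
  simp only [Ce.sd₁, map_zero] at c₁ d₁
  have hR : R ≤ D.A₁ ⊓ D.A₂ := by rintro _ ⟨b, rfl⟩; simp
  have hN : T ≤ normalizerIn S R := fun g hg => ⟨H.le hg, Fus.mem_normalizer_of_conj_mem (by
    obtain ⟨t, a, b, c, rfl⟩ := (D.mem_iff g).1 hg
    rintro _ ⟨b', rfl⟩
    exact ⟨b', by simp [D.conj]⟩)⟩
  refine solv F H.pg H.sat hm R D.A₁ D.A₂ R R (fun e => ?_) ((hR.trans inf_le_left).trans h₁.1.1)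
    (D.le₁.trans hN) (D.le₂.trans hN) ⟨?_, ?_, hR, hR, fun e => ?_, fun e => ?_, ?_, ?_⟩ g₁ g₂
    (by rwa [sup_eq_left.2 (hR.trans inf_le_left)]) (by rwa [sup_eq_left.2 (hR.trans inf_le_right)])
    (by rintro _ ⟨b, rfl⟩; exact c₁ b) (by rintro _ ⟨b, rfl⟩; exact c₂ b) b₁ b₂
    (fun x hx hx' e => hx' (d₁ x (mem_cen_of hx.1 hx.2) hx.1 (mem_cen_of (b₁ x hx.1) e)))
    fun x hx hx' e => hx' (d₂ x (mem_cen_of hx.1 hx.2) hx.2 (mem_cen_of e (b₂ x hx.2)))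
  · simpa [D.eq_one_iff] using e.le (⟨1, rfl⟩ : D.f 0 0 1 0 ∈ R)
  · rintro _ ⟨t, b, c, rfl⟩
    simp [D.mul, CharTwo.add_self_eq_zero, D.f_zero]
  · rintro _ ⟨t, b, c, rfl⟩
    simp [D.mul, CharTwo.add_self_eq_zero, D.f_zero]
  · simpa using e (D.f_mem₁.2 rfl : D.f 1 0 0 0 ∈ _)
  · simpa using e (D.f_mem₂.2 rfl : D.f 0 1 0 0 ∈ _)
  · rintro _ ⟨t, b, c, rfl⟩ _ ⟨a, b', c', rfl⟩
    rw [← commutatorElement_def, D.comm]
    simp
  · rintro _ ⟨t, b, c, rfl⟩ ht _ ⟨a, b', c', rfl⟩ ha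
    rw [← commutatorElement_def, D.comm, and_self]
    rintro ⟨b, e⟩
    simpa [show t ≠ 0 by simpa using ht, show a ≠ 0 by simpa using ha] using (D.inj e).2.2.2

theorem Hy.exists_nf' : ∃ D' : Ce T K, D'.A₁ = D.A₁ ∧ D'.A₂ = D.A₂ ∧ NF D' F := by
  rcases H.sy₃.ax with s₁ | s₁ <;> rw [← sty_iff k₁_eq₃ h₁.1.1] at s₁ <;>
    rcases H.sy₂.ax with s₂ | s₂ <;> rw [← sty_iff (fun _ => D.k₁_eq₂) h₂.1.1] at s₂
  · exact H.nf_of h₁ h₂ s₁ s₂
  · refine (H.graph.not_same (graph₁ D ▸ h₂) (graph₂ D ▸ h₁) hm ?_ ?_).elim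
    · rw [graph₁]
      exact fun g hg hm b => by simpa [Ce.graph, Ce.sd₂] using s₂ g hg hm (b ^ 2)
    · rw [graph₂]
      exact fun g hg hm b => by simpa [Ce.graph, sd₃] using s₁ g hg hm (b ^ 2)
  · exact (H.not_same h₁ h₂ hm s₁ s₂).elim
  have h4 := H.pow_four h₁ h₂ s₁
  let D' : Ce T K :=
    { f := fun t a b c => D.f (t ^ 2) a c b
      mem_iff := fun x => (D.mem_iff x).trans
        ⟨fun ⟨t, a, b, c, e⟩ => ⟨rt K t, a, c, b, by rw [e, rt_sq]⟩,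
          fun ⟨_, _, _, _, e⟩ => ⟨_, _, _, _, e⟩⟩
      mul := fun t a b c t' a' b' c' => by rw [D.mul, CharTwo.add_sq, ← pow_mul, h4]
      inj := fun e => by
        obtain ⟨e₁, e₂, e₃, e₄⟩ := D.inj e
        exact ⟨CharTwo.sq_inj.1 e₁, e₂, e₄, e₃⟩ }
  have k₁ : D'.A₁ = D.A₁ := eq₁_of_le (by rintro _ ⟨t, b, c, rfl⟩; simp [D'])
  have k₂ : D'.A₂ = D.A₂ := eq₂_of_le (by rintro _ ⟨t, b, c, rfl⟩; simp [D'])
  obtain ⟨D'', e₁, e₂, h⟩ := (H.of_eq k₁ k₂).nf_of (k₁ ▸ h₁) (k₂ ▸ h₂)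
    (by rw [k₁]; simpa [D', sd₃] using s₁) (by rw [k₂]; simpa [D', Ce.sd₂] using s₂)
  exact ⟨D'', e₁.trans k₁, e₂.trans k₂, h⟩

end Nf

theorem sq_cen {z : Ω} (hz : z ∈ centralizerIn T T) (D : Ce T K) : z * z = 1 := by
  obtain ⟨b, c, rfl⟩ := D.mem_cen_iff.1 hz
  simp [D.mul, CharTwo.add_self_eq_zero, D.f_zero]

theorem sq_mem_cen {z : Ω} (hz : z ∈ T) (D : Ce T K) : z * z ∈ centralizerIn T T := by
  obtain ⟨t, a, b, c, rfl⟩ := (D.mem_iff z).1 hz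
  rw [D.mul, CharTwo.add_self_eq_zero, CharTwo.add_self_eq_zero]
  exact D.mem_cen_iff.2 ⟨_, _, rfl⟩

theorem St.actZ (h : St S T A B) {g g' z : Ω} (hg : g ∈ S) (hg' : g' ∈ S) (hT : g ∉ T)
    (hT' : g' ∉ T) (hz : z ∈ centralizerIn T T) : g * z * g⁻¹ = g' * z * g'⁻¹ := by
  have := ((mem_cen.1 hz).2 _ (h.two _ (inv_mem hg') _ hg (by simpa using hT') hT)).eq
  rw [show g * z * g⁻¹ = g' * (g'⁻¹ * g * z) * g⁻¹ by group, ← this]
  group

theorem St.sq_mem (h : St S T A B) {g : Ω} (hg : g ∈ S) : g * g ∈ T :=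
  (em (g ∈ T)).elim (fun e => mul_mem e e) fun e => h.two g hg g hg e e

theorem St.cenS (h : St S T A B) {p z : Ω} (hp : p ∈ S) (hT : p ∉ T) (hz : z ∈ centralizerIn T T)
    (e : p * z * p⁻¹ = z) {g : Ω} (hg : g ∈ S) : Commute z g := by
  by_cases hg' : g ∈ T
  · exact (mem_cen.1 hz).2 g hg'
  · exact (mul_inv_eq_iff_eq_mul.1 ((h.actZ hg hp hg' hT hz).trans e)).symm

theorem St.ncen (h : St S T A B) {p z : Ω} (hp : p ∈ S) (hT : p ∉ T)
    (hz : z ∈ centralizerIn T T) {g : Ω} (hg : g ∈ S) : Commute (z * (p * z * p⁻¹)) g :=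
  h.cenS hp hT (mul_mem hz (h.cen hp hz)) (by
    rw [← conj_mul, h.actZ hp (inv_mem hp) hT (by simpa using hT) (h.cen hp hz),
      ((mem_cen.1 hz).2 _ (h.cen hp hz).1).eq]
    simp [mul_assoc]) hg

variable (h : St S T D.A₁ D.A₂)
include h

theorem St.inZ {y p : Ω} (hy : y ∈ T) (h2 : y * y = 1) (hp : p ∈ S) (hT : p ∉ T)
    (hc : Commute y (p * y * p⁻¹)) : y ∈ centralizerIn T T := by
  obtain ⟨t, a, b, c, rfl⟩ := (D.mem_iff y).1 hy
  rw [D.mul, D.eq_one_iff] at h2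
  have h3 : t * a = 0 := by simpa [CharTwo.add_self_eq_zero] using h2.2.2.1
  have back : ∀ b' c', p * D.f t a b c * p⁻¹ = D.f 0 0 b' c' → D.f t a b c ∈ centralizerIn T T :=
    fun b' c' e => by
      simpa [mul_assoc] using h.cen (inv_mem hp) (e ▸ D.mem_cen_iff.2 ⟨_, _, rfl⟩ :
        p * D.f t a b c * p⁻¹ ∈ _)
  rcases mul_eq_zero.1 h3 with rfl | rfl
  · obtain ⟨t', b', c', e⟩ := h.sw₂ p hp hT (D.f 0 a b c) (by simp)
    rw [e, D.commute_iff] at hc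
    rcases mul_eq_zero.1 (show t' * a = 0 by simpa using hc.1.symm) with rfl | rfl
    exacts [back _ _ e, D.mem_cen_iff.2 ⟨_, _, rfl⟩]
  · obtain ⟨t', b', c', e⟩ := h.sw₁ p hp hT (D.f t 0 b c) (by simp)
    rw [e, D.commute_iff] at hc
    rcases mul_eq_zero.1 (show t * t' = 0 by simpa using hc.1) with rfl | rfl
    exacts [D.mem_cen_iff.2 ⟨_, _, rfl⟩, back _ _ e]

variable {s : Ω} {x y : K} {σ : K ≃+* K} (hs : Ns S D s x y σ)
include hs

theorem St.coh' {p w : Ω} (hp : p ∈ S) (hT : p ∉ T) (hw : w ∈ centralizerIn T T)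
    (e : p * w * p⁻¹ = w) : ∃ z ∈ centralizerIn T T, z * (p * z * p⁻¹) = w := by
  obtain ⟨z, hz, -, e⟩ := coh hs.act hw ((h.actZ hs.mem hp hs.nmem hT hw).trans e)
  exact ⟨z, hz, by rw [h.actZ hp hs.mem hT hs.nmem hz, e]⟩

theorem St.fixed {w p : Ω} (hw : w ∈ T) (h2 : w * w = 1) (hp : p ∈ S) (hT : p ∉ T)
    (hc : Commute p w) : ∃ b, w = D.f 0 0 b (x ^ 2 * y * σ b) := by
  have e : p * w * p⁻¹ = w := mul_inv_eq_iff_eq_mul.2 hc
  have hz := h.inZ hw h2 hp hT (by rw [e])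
  rw [h.actZ hp hs.mem hT hs.nmem hz] at e
  obtain ⟨b, c, rfl⟩ := D.mem_cen_iff.1 hz
  have e₁ := hs.act 0 0 (rt K c) b
  simp only [Ce.graph, dg, map_zero, mul_zero, add_zero, rt_sq, ne_eq, OfNat.ofNat_ne_zero,
    not_false_eq_true, zero_pow] at e₁
  exact ⟨b, by rw [← (D.inj (e.symm.trans e₁)).2.2.2]⟩

theorem St.ea {I : Type*} (r : I → Ω) (hi : Function.Injective r) (hm : ∀ i, r i ∈ S)
    (h2 : ∀ i, r i * r i = 1) (hc : ∀ i j, Commute (r i) (r j)) {i₀ : I} (h₀ : r i₀ ∉ T) :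
    Nat.card I ≤ 2 * Nat.card K := by
  classical
  have : ∀ i, ∃ b, (if r i ∈ T then r i else r i * r i₀) = D.f 0 0 b (x ^ 2 * y * σ b) :=
    fun i => by
      split_ifs with e
      · exact h.fixed hs e (h2 i) (hm i₀) h₀ (hc ..)
      · exact h.fixed hs (h.two _ (hm i) _ (hm i₀) e h₀)
          (by rw [(hc i₀ i).mul_mul_mul_comm, h2, h2, one_mul]) (hm i₀) h₀
          ((hc ..).mul_right (hc ..))
  choose b hb using this
  refine (Nat.card_le_card_of_injective (fun i => (decide (r i ∈ T), b i)) fun i j e => ?_).trans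
    (by simp)
  obtain ⟨e₁, e₂⟩ := Prod.ext_iff.1 e
  have e₃ := hb i
  rw [show b i = b j from e₂, ← hb j] at e₃
  simp only [decide_eq_decide] at e₁
  by_cases e : r j ∈ T <;> simp only [e₁, e, if_true, if_false, mul_left_inj] at e₃ <;>
    exact hi e₃

theorem St.imgT (P : Sd T A K) {g : Ω → Ω} (hg : M F A g) : ∀ z ∈ A, g z ∈ T := fun z hz => by
  by_contra hT
  obtain ⟨a, b, c, e⟩ := P.surj ⟨z, hz⟩
  have := h.ea hs (fun i : K × K × K => g (P.v i.1 i.2.1 i.2.2)) (fun i j e => by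
      obtain ⟨e₁, e₂, e₃⟩ := P.inj (Subtype.ext (hg.inj _ (Subtype.property _) _
        (Subtype.property _) e))
      exact Prod.ext e₁ (Prod.ext e₂ e₃)) (fun i => hg.mem (Subtype.property _))
    (fun i => by
      rw [← hg.map_mul (Subtype.property _) (Subtype.property _), ← coe_mul, P.mul_self,
        OneMemClass.coe_one, hg.homOn.map_one])
    (fun i j => by
      rw [commute_iff_eq, ← hg.map_mul (Subtype.property _) (Subtype.property _),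
        ← hg.map_mul (Subtype.property _) (Subtype.property _), ← coe_mul, ← coe_mul, P.mul, P.mul,
        add_comm i.1, add_comm i.2.1, add_comm i.2.2])
    (i₀ := (a, b, c)) (by rw [← e]; exact hT)
  simp only [Nat.card_prod] at this
  have := Finite.one_lt_card (α := K)
  nlinarith

theorem St.charT {g : Ω → Ω} (hg : M F S g) : ∀ z ∈ T, g z ∈ T := fun z hz => by
  obtain ⟨t, a, b, c, rfl⟩ := (D.mem_iff z).1 hz
  rw [show D.f t a b c = D.f 0 a b c * D.f t 0 0 0 by simp [D.mul],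
    hg.map_mul (h.le (D.f_mem ..)) (h.le (D.f_mem ..))]
  exact mul_mem (h.imgT hs D.sd₂ (hg.mono (D.le₂.trans h.le)) _ (by simp))
    (h.imgT hs D.sd₁ (hg.mono (D.le₁.trans h.le)) _ (by simp))

theorem St.fn (P : Sd T A K) (F : FusionSystem S) : F.IsFullyNormalized A := by
  refine ⟨P.le.trans h.le, fun Q hQ => ?_⟩
  obtain ⟨g, hg, rfl⟩ := Fus2.isConj_iff.1 hQ
  haveI : Finite (normalizerIn S A) := finite_of_le (inf_le_left : normalizerIn S A ≤ S)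
  refine card_le_of_le (le_trans (fun n hn => by_contra fun hT => ?_)
    (fun x hx => ⟨h.le hx, P.norm hx⟩ : T ≤ normalizerIn S A))
  have key : ∀ i : K × K × K, ∃ j : K × K, g (P.v i.1 i.2.1 i.2.2) = D.f 0 0 j.1 j.2 := fun i => by
    have hv := (P.v i.1 i.2.1 i.2.2).2
    obtain ⟨w, hw, e⟩ := hg.mem_img.1 (conj_mem_of_mem_normalizerIn hn (Fus2.mem_img_of_mem g hv))
    obtain ⟨b, c, e⟩ := D.mem_cen_iff.1 (h.inZ (h.imgT hs P hg _ hv) (by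
      rw [← hg.map_mul hv hv, ← coe_mul, P.mul_self, OneMemClass.coe_one, hg.homOn.map_one])
      hn.1 hT (by
        obtain ⟨a, b, c, e'⟩ := P.surj ⟨w, hw⟩
        rw [← e, commute_iff_eq, ← hg.map_mul hv hw, ← hg.map_mul hw hv,
          show w = P.v a b c from congrArg Subtype.val e', ← coe_mul, ← coe_mul, P.mul, P.mul,
          add_comm a, add_comm b, add_comm c]))
    exact ⟨(b, c), e⟩
  choose j hj using key
  have := Nat.card_le_card_of_injective j fun i i' e => by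
    obtain ⟨e₁, e₂, e₃⟩ := P.inj (Subtype.ext (hg.inj _ (Subtype.property _) _
      (Subtype.property _) ((hj i).trans (e ▸ (hj i').symm))))
    exact Prod.ext e₁ (Prod.ext e₂ e₃)
  simp only [Nat.card_prod] at this
  have := Finite.one_lt_card (α := K)
  nlinarith

section Out

variable (hS : IsPGroup 2 S) (hF : F.IsSaturated 2) {P : Subgroup Ω} (hP : F.IsEssential 2 P)
include hS hF hP

omit hs hF in
theorem St.tv {Mx : Subgroup (MulAut P)}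
    (hM : SEd 2 (F.autGroup P) (autInducedBy S P) (Inn P) Mx) {γ : MulAut P}
    (hγ : γ ∈ F.autGroup P) (hγ' : γ ∉ Mx) {p z : Ω} (hp : p ∈ S) (hT : p ∉ T)
    (hz : z ∈ centralizerIn T T) (hzP : z ∉ P) (hn : z * (p * z * p⁻¹) ∈ P) :
    afn γ (z * (p * z * p⁻¹)) ∉ T := fun hc => by
  haveI := Fus.finite_of_le hP.1.1
  have zi : z⁻¹ = z := inv_eq_of_mul_eq_one_right (sq_cen hz D)
  have hZ := mul_mem hz (h.cen hp hz)
  have hc' : ∀ g ∈ S, Commute (z * (p * z * p⁻¹)) g := fun g hg => h.ncen hp hT hz hg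
  have e₀ : ∀ w ∈ T, z * w * z⁻¹ = w := fun w hw =>
    mul_inv_eq_iff_eq_mul.2 ((mem_cen.1 hz).2 w hw)
  have e₁ : ∀ w ∈ P, w⁻¹ * (z * w * z⁻¹) ∈ zpowers (z * (p * z * p⁻¹)) := fun w hw => by
    by_cases hw' : w ∈ T
    · simp [e₀ w hw']
    · rw [zi, show z * w * z = z * (w * z * w⁻¹) * w by group, h.actZ (hP.1.1 hw) hp hw' hT hz,
        (hc' w (hP.1.1 hw)).eq, inv_mul_cancel_left]
      exact mem_zpowers _
  have hN : z ∈ normalizer (P : Set Ω) := Fus.mem_normalizer_of_conj_mem fun w hw => by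
    simpa using mul_mem hw (zpowers_le.2 hn (e₁ w hw))
  have ha := conjAut_mem_autInducedBy (P := P) (h.le hz.1) hN
  have hi := mt (mem_iff_conjAut_mem_Inn hP.1 (h.le hz.1) hN).1 hzP
  have e₂ : ∀ w : P, w⁻¹ * conjAut P z hN w ∈ zpowers (⟨_, hn⟩ : P) := fun w => by
    obtain ⟨k, hk⟩ := e₁ w w.2
    exact ⟨k, Subtype.ext (by simpa using hk)⟩
  have e₃ : ∀ w : P, (w : Ω) ∈ T → conjAut P z hN w = w := fun w hw => Subtype.ext (e₀ w hw)
  rw [Fus2.afn_apply γ hn] at hc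
  have hD : zpowers (⟨_, hn⟩ : P) ≤ (T.subgroupOf P).comap γ := zpowers_le.2 hc
  have hD' : zpowers (⟨_, hn⟩ : P) ≤ T.subgroupOf P := zpowers_le.2 hZ.1
  have e₄ : ∀ w ∈ (T.subgroupOf P).comap γ, (γ⁻¹ * conjAut P z hN * γ⁻¹⁻¹) w = w := fun w hw => by
    simp [e₃ (γ w) hw]
  refine hM.conj_notMem (inv_mem hγ) (by simpa using hγ') ha hi
    (hM.le_of_isPGroup (X := closure {conjAut P z hN, γ⁻¹ * conjAut P z hN * γ⁻¹⁻¹})
      ((closure_le _).2 (by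
        rintro _ (rfl | rfl)
        exacts [hM.syl.le ha, mul_mem (mul_mem (inv_mem hγ) (hM.syl.le ha)) (inv_mem (inv_mem hγ))]))
      (Ctl.trans_bot (hS.to_le hP.1.1) (ctl_pair le_top (fun w _ => hD (e₂ w)) fun w _ => ?_)
        (Ctl.trans_bot (hS.to_le hP.1.1) (ctl_pair hD (fun w _ => e₂ w) fun w hw => ?_)
          (ctl_pair bot_le (trivOn_bot_iff.2 fun w hw => e₃ w (hD' hw))
            (trivOn_bot_iff.2 fun w hw => e₄ w (hD hw))))).isPGroup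
      (subset_closure (.inl rfl)) ha hi (subset_closure (.inr rfl)))
  · simpa using hD' (e₂ (γ w))
  · rw [e₄ w hw, inv_mul_cancel]
    exact one_mem _

theorem St.cen_le (hT : ¬ P ≤ T) : centralizerIn T T ≤ P := by
  haveI : Finite (centralizerIn T T) := finite_of_le (inf_le_left : centralizerIn T T ≤ T)
  by_contra hc
  obtain ⟨z, hz, hN, hzP⟩ := exists_mem_normalizer_of_not_le hS hP.1.1
    (inf_le_left.trans h.le : centralizerIn T T ≤ S)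
    (fun g hg => Fus.mem_normalizer_of_conj_mem (P := centralizerIn T T)
      fun x => h.cen (hP.1.1 hg)) hc
  obtain ⟨p₀, hp₀, hT₀⟩ := SetLike.not_le_iff_exists.1 hT
  obtain ⟨Mx, hM⟩ := sed_of_ess hS hF hP
  obtain ⟨γ, hγ, hγ'⟩ := hM.exists_notMem
  have hn : z * (p₀ * z * p₀⁻¹) ∈ P := by
    simpa [inv_eq_of_mul_eq_one_right (sq_cen hz D), mul_assoc] using
      mul_mem (Fus.conj_mem_of_mem_normalizer hN hp₀) (inv_mem hp₀)
  have hpT := h.tv hS hP hM hγ hγ' (hP.1.1 hp₀) hT₀ hz hzP hn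
  have hZ := mul_mem hz (h.cen (hP.1.1 hp₀) hz)
  have hp := Fus2.afn_mem γ hn
  have p2 : afn γ (z * (p₀ * z * p₀⁻¹)) * afn γ (z * (p₀ * z * p₀⁻¹)) = 1 := by
    rw [← Fus2.homOn_afn γ _ hn _ hn, sq_cen hZ D, (Fus2.homOn_afn γ).map_one]
  have pc : ∀ w ∈ P, Commute (afn γ (z * (p₀ * z * p₀⁻¹))) w := fun w hw => by
    have := h.ncen (hP.1.1 hp₀) hT₀ hz (hP.1.1 (Fus2.afn_mem γ⁻¹ hw))
    rw [commute_iff_eq, ← Fus2.afn_afn_inv γ w, ← Fus2.homOn_afn γ _ hn _ (Fus2.afn_mem _ hw),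
      this.eq, Fus2.homOn_afn γ _ (Fus2.afn_mem _ hw) _ hn]
  generalize afn γ (z * (p₀ * z * p₀⁻¹)) = p at hpT hp p2 pc
  have hS' := hP.1.1 hp
  have hP₀ : ∀ w ∈ P, w ∈ T → w ∈ centralizerIn T T := fun w hw hw' => by
    have e : p * w * p⁻¹ = w := mul_inv_eq_iff_eq_mul.2 (pc w hw)
    refine h.inZ hw' (by_contra fun h2 => ?_) hS' hpT (by rw [e])
    obtain ⟨z', hz', e'⟩ := h.coh' hs hS' hpT (sq_mem_cen hw' D) (by rw [← conj_mul, e])
    refine h.tv hS hP hM hγ hγ' hS' hpT hz' (fun hz'' => h2 ?_) (e' ▸ mul_mem hw hw) ?_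
    · rw [← e', (pc _ hz'').eq, mul_inv_cancel_right, sq_cen hz' D]
    · rw [e', Fus2.homOn_afn γ _ hw _ hw]
      exact h.sq_mem (hP.1.1 (Fus2.afn_mem γ hw))
  obtain ⟨a, b, c, e⟩ := h.sw₁ p hS' hpT (D.f 1 0 0 0) (by simp)
  have pi : p⁻¹ = p := inv_eq_of_mul_eq_one_right p2
  have e' : p * D.f 0 a b c * p⁻¹ = D.f 1 0 0 0 := by
    rw [← e, pi]; simp [← mul_assoc, p2, mul_assoc _ p p]
  have hw : D.f 0 0 a a = ⁅D.f 1 0 0 0, D.f 0 a b c⁆ := by simp [D.comm]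
  obtain ⟨z', hz', e''⟩ := h.coh' hs hS' hpT (D.mem_cen_iff.2 ⟨a, a, rfl⟩) (by
    rw [hw, ← MulAut.conj_apply, map_commutatorElement, MulAut.conj_apply, MulAut.conj_apply, e, e']
    simp [D.comm])
  have hu : p * (D.f 1 0 0 0 * D.f 0 a b c * z') * p⁻¹ = D.f 1 0 0 0 * D.f 0 a b c * z' := by
    rw [← conj_mul, ← conj_mul, e, e', eq_inv_mul_of_mul_eq e'',
      inv_eq_of_mul_eq_one_right (sq_cen hz' D), ((mem_cen.1 hz').2 _ (D.f_mem ..)).eq,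
      ← mul_assoc]
    simp [D.mul]
  have huT := mul_mem (mul_mem (D.f_mem 1 0 0 0) (D.f_mem 0 a b c)) hz'.1
  have := hP₀ _ (mem_of_commute hP.1 (h.le huT) fun w hw => by
    by_cases hw' : w ∈ T
    · exact ((mem_cen.1 (hP₀ w hw hw')).2 _ huT).symm
    · rw [show w = w * p * p by rw [mul_assoc, p2, mul_one]]
      exact Commute.mul_right ((mem_cen.1 (hP₀ _ (mul_mem hw hp)
        (h.two _ (hP.1.1 hw) _ hS' hw' hpT))).2 _ huT).symm (mul_inv_eq_iff_eq_mul.1 hu).symm) huT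
  simpa [D.mul] using cen_le₂ (D := D) ((mul_mem_cancel_right hz').1 this)

theorem St.out (hT : ¬ P ≤ T) : Nat.card K ≤ 2 ∧ centralizerIn T T ≤ P ∧ ∃ p ∈ P, p ∉ T ∧
    p * p = 1 ∧ ∀ g ∈ P, g ∈ T → g * (p * g⁻¹ * p⁻¹) ∈ centralizerIn T T := by
  have hZ := h.cen_le hs hS hF hP hT
  obtain ⟨p₀, hp₀, hT₀⟩ := SetLike.not_le_iff_exists.1 hT
  have hI : ¬ F4.Iv (F.autGroup P) T := fun hI => by
    rcases h.ess hS hF hP hI with rfl | rfl | rfl
    exacts [hT le_rfl, hT D.le₁, hT D.le₂]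
  unfold F4.Iv at hI
  push Not at hI
  obtain ⟨α, hα, w, hw, hwT, hw'⟩ := hI
  have hf := Fus2.homOn_afn α
  have h2 : ∀ z ∈ centralizerIn T T, afn α z * afn α z = 1 := fun z hz => by
    rw [← hf _ (hZ hz) _ (hZ hz), sq_cen hz D, hf.map_one]
  have hc : ∀ z ∈ centralizerIn T T, ∀ y ∈ P, y ∈ T → Commute (afn α z) (afn α y) :=
    fun z hz y hy hy' => by
      rw [commute_iff_eq, ← hf _ (hZ hz) _ hy, ((mem_cen.1 hz).2 y hy').eq, hf _ hy _ (hZ hz)]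
  have hn : ∀ g ∈ P, ∀ z ∈ centralizerIn T T, ∃ z' ∈ centralizerIn T T,
      g * afn α z * g⁻¹ = afn α z' := fun g hg z hz =>
    ⟨_, h.cen (hP.1.1 (Fus2.afn_mem α⁻¹ hg)) hz, by
      rw [hf.map_conj (Fus2.afn_mem _ hg) (hZ hz), Fus2.afn_afn_inv]⟩
  obtain ⟨z, hz, hzT⟩ : ∃ z ∈ centralizerIn T T, afn α z ∉ T := by
    by_contra! H
    have H' : ∀ z ∈ P, z ∈ centralizerIn T T → afn α z ∈ centralizerIn T T := fun z _ hz =>
      h.inZ (H z hz) (h2 z hz) (hP.1.1 hp₀) hT₀ (by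
        obtain ⟨z', hz', e⟩ := hn p₀ hp₀ z hz
        exact e ▸ hc z hz z' (hZ hz') hz'.1)
    haveI := Fus.finite_of_le hP.1.1
    have H'' := (stabSub ((centralizerIn T T).subgroupOf P)).inv_mem (x := α) fun z hz => by
      simpa [mem_subgroupOf] using H' z z.2 hz
    have hz₀ : D.f 0 0 1 0 ∈ centralizerIn T T := D.mem_cen_iff.2 ⟨_, _, rfl⟩
    have := hc _ (show afn α⁻¹ _ ∈ _ by
      rw [Fus2.afn_apply _ (hZ hz₀)]; exact H'' ⟨_, hZ hz₀⟩ hz₀) w hw hwT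
    rw [Fus2.afn_afn_inv] at this
    obtain ⟨b, e⟩ := h.fixed hs hz₀.1 (sq_cen hz₀ D) (hP.1.1 (Fus2.afn_mem α hw)) hw' this.symm
    obtain ⟨-, -, rfl, e⟩ := D.inj e
    simp [hs.x0, hs.y0] at e
  refine ⟨?_, hZ, _, Fus2.afn_mem α (hZ hz), hzT, h2 z hz, fun g hg hg' => ?_⟩
  · obtain ⟨b, c, rfl⟩ := D.mem_cen_iff.1 hz
    have m : ∀ i : K × K, D.f 0 0 i.1 i.2 ∈ centralizerIn T T := fun i =>
      D.mem_cen_iff.2 ⟨_, _, rfl⟩
    have := h.ea hs (fun i : K × K => afn α (D.f 0 0 i.1 i.2)) (fun i j e => by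
      obtain ⟨-, -, e₁, e₂⟩ := D.inj (Fus2.afn_injective α e)
      exact Prod.ext e₁ e₂) (fun i => hP.1.1 (Fus2.afn_mem α (hZ (m i)))) (fun i => h2 _ (m i))
      (fun i j => hc _ (m i) _ (hZ (m j)) (m j).1) (i₀ := (b, c)) hzT
    rw [Nat.card_prod] at this
    exact Nat.le_of_mul_le_mul_right this Nat.card_pos
  · obtain ⟨z', hz', e⟩ := hn g hg z hz
    have hp := hP.1.1 (Fus2.afn_mem α (hZ hz))
    have hm := mul_mem hg' (h.nor _ hp _ (inv_mem hg'))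
    have e' : g * (afn α z * g⁻¹ * (afn α z)⁻¹) = afn α (z' * z) := by
      rw [hf _ (hZ hz') _ (hZ hz), ← e, inv_eq_of_mul_eq_one_right (h2 z hz)]
      group
    rw [e'] at hm ⊢
    refine h.inZ hm (h2 _ (mul_mem hz' hz)) hp hzT ?_
    rw [(hc z hz _ (hZ (mul_mem hz' hz)) (mul_mem hz' hz).1).eq, mul_inv_cancel_right]

end Out

end Cfsg.Agent.MP.Spg
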