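import Cfsg.Agent.Lib.MP.SpgE

/-!
Row statements for the two models over the field with two elements.
-/

set_option autoImplicit false

namespace Cfsg.Agent.MP.Spg

open Cfsg.Agent.Fus Cfsg.Agent.SP4

/-- The data common to both models: `S₀ = U⟨γ⟩` is Sylow in `G`, and `G` contains the two Weyl
elements. -/
structure Mo₂ {X : Type} [Group X] [Finite X] (G S₀ : Subgroup X) {U : Subgroup X}
    (D₀ : Ce U (ZMod 2)) (γ : X) : Prop where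
  ns : Ns S₀ D₀ γ 1 1 (RingEquiv.refl _)
  mem : ∀ g, g ∈ S₀ ↔ g ∈ U ∨ g * γ ∈ U
  syl : IsSylowIn 2 S₀ G
  w₁ : ∃ w ∈ G, ∀ t b c, w * D₀.f t 0 b c * w⁻¹ = D₀.f b 0 t c
  w₂ : ∃ w ∈ G, ∀ a b c, w * D₀.f 0 a b c * w⁻¹ = D₀.f 0 c b a

/-- The model `Aut(A₆)`; `U` is a Sylow subgroup of the image of `S₆`. -/
def A6Stmt : Prop :=
  ∃ (S₀ U : Subgroup (MulAut (alternatingGroup (Fin 6)))) (D₀ : Ce U (ZMod 2))
    (γ : MulAut (alternatingGroup (Fin 6))), Mo₂ ⊤ S₀ D₀ γ ∧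
      ∀ g, ∀ t ∈ U, g * t * g⁻¹ ∈ S₀ → g * t * g⁻¹ ∈ U

/-- The model `L₃(3)` extended by the graph automorphism. -/
def L33Stmt : Prop :=
  ∃ (X : Type) (_ : Group X) (_ : Finite X) (L Γ T : Subgroup X) (γ' : X) (h : X2.Ext L Γ T γ'),
    Nonempty (L ≃* Matrix.ProjectiveSpecialLinearGroup (Fin 3) (ZMod 3)) ∧
      ∃ (U : Subgroup X) (D₀ : Ce U (ZMod 2)) (γ : X), Mo₂ h.G h.S D₀ γ ∧
        ∃ g ∈ h.G, g * D₀.f 0 0 1 0 * g⁻¹ = D₀.f 1 1 0 0 * γ ∧ g * γ * g⁻¹ = γ ∧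
          g * D₀.f 1 1 1 0 * g⁻¹ = D₀.f 1 1 0 1

end Cfsg.Agent.MP.Spg
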