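import Cfsg.Agent.Lib.MP.SpgG
import Cfsg.Agent.Lib.MP.SpgS

/-!
The field with two elements: the essential subgroup `C₄ ∘ Q₈` and its automizer.
-/

set_option autoImplicit false
set_option linter.unusedVariables false
set_option linter.style.haveILetI false
set_option linter.unusedSectionVars false
set_option synthInstance.maxSize 8192

namespace Cfsg.Agent.MP.Spg

open Cfsg.Agent.Fus Cfsg.Agent.Ess Cfsg.Agent.SP4 Subgroup
open Cfsg.FusionSystem (normalizerIn centralizerIn)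
open Cfsg.Agent.Fus2 (M afn img HomOn)

universe u v

namespace Two

/-- Coordinates on the group of order `32`. -/
abbrev X := ZMod 2 × ZMod 2 × ZMod 2 × ZMod 2 × ZMod 2

def mu (x y : X) : X :=
  if x.2.2.2.2 = 0 then (x.1 + y.1, x.2.1 + y.2.1, x.2.2.1 + y.2.2.1 + x.1 * y.2.1,
    x.2.2.2.1 + y.2.2.2.1 + x.1 ^ 2 * y.2.1, y.2.2.2.2)
  else (x.1 + y.2.1, x.2.1 + y.1, x.2.2.1 + (y.2.2.2.1 + y.1 * y.2.1) + x.1 * y.1,
    x.2.2.2.1 + (y.2.2.1 + y.1 * y.2.1) + x.1 ^ 2 * y.1, 1 + y.2.2.2.2)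

def iv (x : X) : X := let y := mu x x; mu x (mu y (mu y y))
def cj (g x : X) : X := mu (mu g x) (iv g)
def o : X := (0, 0, 0, 0, 0)
def ga : X := (0, 0, 1, 0, 0)
def gb : X := (0, 0, 0, 0, 1)
def gc : X := (1, 1, 1, 0, 0)
def pa : X := (1, 1, 0, 0, 1)
def pc : X := (1, 1, 0, 1, 0)
def z : X := (0, 0, 1, 1, 0)
def op (e : ZMod 2) (x : X) : X := if e = 0 then o else x

/-- The word in `a`, `b`, `c` that expresses `x` in the standard generators. -/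
def W (a b c x : X) : X := mu (mu (mu (op (x.1 + x.2.2.1 + x.2.2.2.1) a) (op x.2.2.2.1 (mu c c)))
  (op x.1 c)) (op x.2.2.2.2 b)

theorem d₀ : ∀ x : X, x.1 = x.2.1 → W ga gb gc x = x := by decide +kernel

theorem d₁ : ∀ x : X, mu x (iv x) = o := by decide +kernel

theorem d₂ : ∀ c : X, c.1 = c.2.1 → mu c c ≠ o → ∀ a : X, a.1 = a.2.1 → mu a a = o →
    mu a c = mu c a → ∀ b : X, b.1 = b.2.1 → mu b b = o → mu b c = mu c b →
    mu a b = mu (mu b a) (mu c c) → ((∃ g, a = cj g ga ∧ b = cj g gb ∧ c = cj g gc) ∨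
    (∃ g, cj g (W a b c (cj g (W a b c (cj g (W a b c ga))))) = mu ga z ∧
      cj g (W a b c (cj g (W a b c (cj g (W a b c gb))))) = mu gb z ∧
      cj g (W a b c (cj g (W a b c (cj g (W a b c gc))))) = mu gc z) ∨
    ∃ h ∈ [o, (1, 0, 0, 0, 0)], (∃ g, a = cj g (W pa gb pc (cj h ga)) ∧
      b = cj g (W pa gb pc (cj h gb)) ∧ c = cj g (W pa gb pc (cj h gc))) ∧
      ∃ g, cj g (W a b c (cj h ga)) = pa ∧ cj g (W a b c (cj h gb)) = gb ∧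
        cj g (W a b c (cj h gc)) = pc) ∧
    ∀ g, cj g c = W a b c (mu gc z) → cj g a = W a b c (mu ga z) →
      cj g b ≠ W a b c (mu gb z) := by decide +kernel

theorem d₃ : ∀ x : X, x.1 = x.2.1 → (∀ y : X, y.1 = y.2.1 → (mu x y).1 = (mu x y).2.1) ∧
    (iv x).1 = (iv x).2.1 ∧ (∀ g, (cj g x).1 = (cj g x).2.1) ∧ mu gc x = mu x gc ∧
    W (mu ga z) (mu gb z) (mu gc z) (W (mu ga z) (mu gb z) (mu gc z) x) = x := by decide +kernel

theorem d₄ : ∀ p : X, p.2.2.2.2 ≠ 0 → mu p p = o → p.1 = p.2.1 ∧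
    (∀ x : X, x.2.2.2.2 = 0 → (mu x (cj p (iv x))).1 = 0 → x.1 = x.2.1) ∧
    ∀ x : X, x.1 = x.2.1 → ∃ b c, x = mu (mu (0, 0, b, c, 0) (op x.1 gc)) (op x.2.2.2.2 p) ∨
      x = mu (mu (0, 0, b, c, 0) (op (x.1 + 1) gc)) (op x.2.2.2.2 p) := by decide +kernel

variable {Ω : Type u} [Group Ω] {S T : Subgroup Ω} [Finite S] [Finite T]

/-- The element with the given coordinates. -/
def ph (D : Ce T (ZMod 2)) (s : Ω) (x : X) : Ω :=
  D.f x.1 x.2.1 x.2.2.1 x.2.2.2.1 * if x.2.2.2.2 = 0 then 1 else s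

variable {D : Ce T (ZMod 2)} {s : Ω}

theorem ph_o : ph D s o = 1 := by simp [ph, o, D.f_zero]

variable (hs : Ns S D s 1 1 (RingEquiv.refl _))
include hs

theorem sf (t a b c : ZMod 2) : s * D.f t a b c = D.f a t (c + t * a) (b + t * a) * s := by
  have := hs.act t a b c
  simp only [Ce.graph, dg, one_mul, RingEquiv.refl_apply, ZMod.pow_card, one_pow, mul_comm t] at this
  rw [← this, mul_comm t, inv_eq_of_mul_eq_one_right hs.sq]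
  simp [← mul_assoc, hs.sq]

theorem ph_mu (x y : X) : ph D s (mu x y) = ph D s x * ph D s y := by
  obtain ⟨t, a, b, c, e⟩ := x
  obtain ⟨t', a', b', c', e'⟩ := y
  have k : ∀ e : ZMod 2, e = 0 ∨ e = 1 := by decide
  have e₁ : ∀ t a b c w, s * (D.f t a b c * w) = D.f a t (c + t * a) (b + t * a) * (s * w) :=
    fun t a b c w => by rw [← mul_assoc, sf hs, mul_assoc]
  have e₂ : ∀ t a b c t' a' b' c' w, D.f t a b c * (D.f t' a' b' c' * w) = _ :=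
    fun t a b c t' a' b' c' w => by rw [← mul_assoc, D.mul]
  rcases k e with rfl | rfl <;> rcases k e' with rfl | rfl <;>
    simp [ph, mu, D.mul, mul_assoc, sf hs, e₁, e₂, hs.sq, CharTwo.add_self_eq_zero]

theorem ph_T {x : X} : ph D s x ∈ T ↔ x.2.2.2.2 = 0 := by
  unfold ph
  split_ifs with e
  · simp [e, D.f_mem]
  · simp [e, mul_mem_cancel_left (D.f_mem ..), hs.nmem]

theorem ph_inj : Function.Injective (ph D s) := fun x y e => by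
  have e₁ : x.2.2.2.2 = y.2.2.2.2 := (by decide : ∀ e e' : ZMod 2, (e = 0 ↔ e' = 0) → e = e') _ _
    (by rw [← ph_T hs, e, ph_T hs])
  simp only [ph, e₁, mul_left_inj] at e
  obtain ⟨h₁, h₂, h₃, h₄⟩ := D.inj e
  ext <;> assumption

theorem ph_iv (x : X) : ph D s (iv x) = (ph D s x)⁻¹ :=
  eq_inv_of_mul_eq_one_right (by rw [← ph_mu hs, d₁, ph_o])

theorem ph_cj (g x : X) : ph D s (cj g x) = ph D s g * ph D s x * (ph D s g)⁻¹ := by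
  rw [cj, ph_mu hs, ph_mu hs, ph_iv hs]

/-- The subgroup `C₄ ∘ Q₈`. -/
def Ps : Subgroup Ω where
  carrier := {g | ∃ x : X, x.1 = x.2.1 ∧ g = ph D s x}
  one_mem' := ⟨o, rfl, ph_o.symm⟩
  mul_mem' := by
    rintro _ _ ⟨x, hx, rfl⟩ ⟨y, hy, rfl⟩
    exact ⟨_, (d₃ x hx).1 y hy, (ph_mu hs ..).symm⟩
  inv_mem' := by
    rintro _ ⟨x, hx, rfl⟩
    exact ⟨_, (d₃ x hx).2.1, (ph_iv hs ..).symm⟩

theorem mem_Ps {x : X} : ph D s x ∈ Ps hs ↔ x.1 = x.2.1 :=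
  ⟨fun ⟨y, hy, e⟩ => ph_inj hs e ▸ hy, fun h => ⟨x, h, rfl⟩⟩

theorem ext {Y : Type*} [Group Y] {f g : Ω → Y} (hf : HomOn (Ps hs) f) (hg : HomOn (Ps hs) g)
    (ha : f (ph D s ga) = g (ph D s ga)) (hb : f (ph D s gb) = g (ph D s gb))
    (hc : f (ph D s gc) = g (ph D s gc)) : ∀ w ∈ Ps hs, f w = g w := by
  let E : Subgroup Ω :=
    { carrier := {w | w ∈ Ps hs ∧ f w = g w}
      one_mem' := ⟨one_mem _, hf.map_one.trans hg.map_one.symm⟩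
      mul_mem' := fun h h' => ⟨mul_mem h.1 h'.1, by rw [hf _ h.1 _ h'.1, hg _ h.1 _ h'.1, h.2, h'.2]⟩
      inv_mem' := fun h => ⟨inv_mem h.1, by rw [hf.map_inv h.1, hg.map_inv h.1, h.2]⟩ }
  have k : ∀ e x, ph D s x ∈ E → ph D s (op e x) ∈ E := fun e x hx => by
    unfold op
    split_ifs
    exacts [ph_o (D := D) (s := s) ▸ one_mem E, hx]
  have c₀ : ph D s gc ∈ E := ⟨(mem_Ps hs).2 rfl, hc⟩
  rintro _ ⟨x, hx, rfl⟩
  refine (?_ : _ ∈ E).2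
  rw [← d₀ x hx, W, ph_mu hs, ph_mu hs, ph_mu hs]
  exact mul_mem (mul_mem (mul_mem (k _ _ ⟨(mem_Ps hs).2 rfl, ha⟩)
    (k _ _ (ph_mu hs .. ▸ mul_mem c₀ c₀))) (k _ _ c₀)) (k _ _ ⟨(mem_Ps hs).2 rfl, hb⟩)

theorem word {f : Ω → Ω} (hf : HomOn (Ps hs) f) {a b c : X} (ha : f (ph D s ga) = ph D s a)
    (hb : f (ph D s gb) = ph D s b) (hc : f (ph D s gc) = ph D s c) {x : X} (hx : x.1 = x.2.1) :
    f (ph D s x) = ph D s (W a b c x) := by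
  have k : ∀ e x y, x.1 = x.2.1 → f (ph D s x) = ph D s y →
      ph D s (op e x) ∈ Ps hs ∧ f (ph D s (op e x)) = ph D s (op e y) := fun e x y hx h => by
    unfold op
    split_ifs
    exacts [⟨(mem_Ps hs).2 rfl, by rw [ph_o, hf.map_one]⟩, ⟨(mem_Ps hs).2 hx, h⟩]
  have k₁ := k (x.1 + x.2.2.1 + x.2.2.2.1) _ _ rfl ha
  have k₂ := k x.2.2.2.1 (mu gc gc) (mu c c) rfl (by
    rw [ph_mu hs, hf _ ((mem_Ps hs).2 rfl) _ ((mem_Ps hs).2 rfl), hc, ph_mu hs])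
  have k₃ := k x.1 _ _ rfl hc
  have k₄ := k x.2.2.2.2 _ _ rfl hb
  conv_lhs => rw [← d₀ x hx]
  simp only [W, ph_mu hs]
  rw [hf _ (mul_mem (mul_mem k₁.1 k₂.1) k₃.1) _ k₄.1, hf _ (mul_mem k₁.1 k₂.1) _ k₃.1,
    hf _ k₁.1 _ k₂.1, k₁.2, k₂.2, k₃.2, k₄.2]

/-- The map `k` on coordinates is induced by a map of `F`. -/
def Fn (F : FusionSystem S) (k : X → X) : Prop :=
  ∃ f, M F (Ps hs) f ∧ ∀ x : X, x.1 = x.2.1 → (k x).1 = (k x).2.1 ∧ f (ph D s x) = ph D s (k x)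

variable {hs} {F : FusionSystem S}

theorem Fn.comp {k k' : X → X} (h : Fn hs F k) (h' : Fn hs F k') : Fn hs F fun x => k (k' x) := by
  obtain ⟨f, hf, e⟩ := h
  obtain ⟨f', hf', e'⟩ := h'
  exact ⟨_, hf'.comp hf (by rintro _ ⟨x, hx, rfl⟩; exact ⟨_, (e' x hx).1, (e' x hx).2⟩),
    fun x hx => ⟨(e _ (e' x hx).1).1, by rw [(e' x hx).2, (e _ (e' x hx).1).2]⟩⟩

theorem Fn.norm {k : X → X} (h : Fn hs F k) {a b c : X} (ha : k ga = a) (hb : k gb = b)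
    (hc : k gc = c) : Fn hs F (W a b c) := by
  obtain ⟨f, hf, e⟩ := h
  refine ⟨f, hf, fun x hx => ?_⟩
  have := word hs hf.homOn (ha ▸ (e _ rfl).2) (hb ▸ (e _ rfl).2) (hc ▸ (e _ rfl).2) hx
  exact ⟨ph_inj hs ((e x hx).2.symm.trans this) ▸ (e x hx).1, this⟩

theorem Fn.mem {k : X → X} (h : Fn hs F k) {α : MulAut (Ps hs)}
    (ha : afn α (ph D s ga) = ph D s (k ga)) (hb : afn α (ph D s gb) = ph D s (k gb))
    (hc : afn α (ph D s gc) = ph D s (k gc)) : α ∈ F.autGroup (Ps hs) := by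
  obtain ⟨f, hf, e⟩ := h
  exact hf.mem_autGroup (ext hs (Fus2.homOn_afn α) hf.homOn (ha.trans (e _ rfl).2.symm)
    (hb.trans (e _ rfl).2.symm) (hc.trans (e _ rfl).2.symm))

variable (hs) (h : St S T D.A₁ D.A₂)
include h

theorem ph_mem (x : X) : ph D s x ∈ S := by
  refine mul_mem (h.le (D.f_mem ..)) ?_
  split_ifs
  exacts [one_mem _, hs.mem]

theorem ph_surj {g : Ω} (hg : g ∈ S) : ∃ x, g = ph D s x := by
  by_cases e : g ∈ T
  · obtain ⟨t, a, b, c, rfl⟩ := (D.mem_iff g).1 e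
    exact ⟨(t, a, b, c, 0), by simp [ph]⟩
  · obtain ⟨t, a, b, c, e⟩ := (D.mem_iff _).1 (h.two g hg s hs.mem e hs.nmem)
    exact ⟨(t, a, b, c, 1), by simp [ph, ← e, mul_assoc, hs.sq]⟩

theorem card_S : Nat.card S = 32 := by
  rw [← Nat.card_congr (Equiv.ofBijective (fun x : X => (⟨_, ph_mem hs h x⟩ : S))
    ⟨fun x y e => ph_inj hs (congrArg Subtype.val e), fun g =>
      (ph_surj hs h g.2).imp fun x e => Subtype.ext e.symm⟩)]
  simp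

theorem Ps_le : Ps hs ≤ S := by rintro _ ⟨x, -, rfl⟩; exact ph_mem hs h x

theorem fn_cj (F : FusionSystem S) (g : X) : Fn hs F (cj g) :=
  ⟨_, Fus2.M_conj F (Ps_le hs h) (ph_mem hs h g),
    fun x hx => ⟨(d₃ x hx).2.2.1 g, (ph_cj hs ..).symm⟩⟩

theorem Ps_nor : S ≤ normalizer (Ps hs : Set Ω) := fun g hg => by
  haveI := finite_of_le (Ps_le hs h)
  obtain ⟨g, rfl⟩ := ph_surj hs h hg
  refine Fus.mem_normalizer_of_conj_mem ?_
  rintro _ ⟨x, hx, rfl⟩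
  exact ⟨_, (d₃ x hx).2.2.1 g, (ph_cj hs ..).symm⟩

omit h in
theorem triple (α : MulAut (Ps hs)) : ∃ a b c, (afn α (ph D s ga) = ph D s a ∧
    afn α (ph D s gb) = ph D s b ∧ afn α (ph D s gc) = ph D s c) ∧ c.1 = c.2.1 ∧ mu c c ≠ o ∧
    a.1 = a.2.1 ∧ mu a a = o ∧ mu a c = mu c a ∧ b.1 = b.2.1 ∧ mu b b = o ∧ mu b c = mu c b ∧
    mu a b = mu (mu b a) (mu c c) := by
  obtain ⟨a, ha, ea⟩ := Fus2.afn_mem α ((mem_Ps hs (x := ga)).2 rfl)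
  obtain ⟨b, hb, eb⟩ := Fus2.afn_mem α ((mem_Ps hs (x := gb)).2 rfl)
  obtain ⟨c, hc, ec⟩ := Fus2.afn_mem α ((mem_Ps hs (x := gc)).2 rfl)
  have m : ∀ {x y x' y'}, x.1 = x.2.1 → y.1 = y.2.1 → afn α (ph D s x) = ph D s x' →
      afn α (ph D s y) = ph D s y' → afn α (ph D s (mu x y)) = ph D s (mu x' y') :=
    fun hx hy e e' => by rw [ph_mu hs, Fus2.homOn_afn α _ ((mem_Ps hs).2 hx) _ ((mem_Ps hs).2 hy),
      e, e', ph_mu hs]
  have e₀ : afn α (ph D s o) = ph D s o := by rw [ph_o, (Fus2.homOn_afn α).map_one]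
  have cc := m rfl rfl ec ec
  have ca := m rfl rfl ec ea
  have cb := m rfl rfl ec eb
  have ba := m (by decide) (by decide) (m rfl rfl eb ea) cc
  exact ⟨a, b, c, ⟨ea, eb, ec⟩, hc, fun e => (by decide : mu gc gc ≠ o) (ph_inj hs
      (Fus2.afn_injective α (cc.trans ((congrArg _ e).trans e₀.symm)))), ha,
    ph_inj hs ((m rfl rfl ea ea).symm.trans e₀), ph_inj hs ((m rfl rfl ea ec).symm.trans ca), hb,
    ph_inj hs ((m rfl rfl eb eb).symm.trans e₀), ph_inj hs ((m rfl rfl eb ec).symm.trans cb),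
    ph_inj hs ((m rfl rfl ea eb).symm.trans ba)⟩

variable (hS : IsPGroup 2 S) (hF : F.IsSaturated 2)
include hS hF

theorem no_kappa : ¬ Fn hs F (W (mu ga z) (mu gb z) (mu gc z)) := by
  rintro ⟨f, hf, e⟩
  obtain ⟨α, hα, e₁⟩ := hf.exists_aut' (by
    rintro _ ⟨x, hx, rfl⟩; exact ⟨_, (e x hx).1, (e x hx).2⟩)
  have e₂ : ∀ x : X, x.1 = x.2.1 → afn α (ph D s x) = _ := fun x hx =>
    (e₁ _ ((mem_Ps hs).2 hx)).trans (e x hx).2
  haveI := finite_of_le (Ps_le hs h)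
  obtain ⟨β, hβ, e₃⟩ := (sat_sylow hS hF (isFullyNormalized_of_normal (Ps_le hs h)
    (Ps_nor hs h))).exists_conj_mem_of_pow hα (k := 1) (Fus2.aut_ext (by
      rintro _ ⟨x, hx, rfl⟩
      rw [pow_one, sq, Fus2.afn_mul, e₂ x hx, e₂ _ (e x hx).1, (d₃ x hx).2.2.2.2, Fus2.afn_one]))
  obtain ⟨g, hg, e₃⟩ := Fus2.mem_autInducedBy_iff.1 e₃
  obtain ⟨g, rfl⟩ := ph_surj hs h hg
  obtain ⟨a, b, c, ⟨ea, eb, ec⟩, v₁, v₂, v₃, v₄, v₅, v₆, v₇, v₈, v₉⟩ := triple hs β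
  have k : ∀ {x x' y}, x.1 = x.2.1 → afn β (ph D s x) = ph D s x' →
      W (mu ga z) (mu gb z) (mu gc z) x = y → cj g x' = W a b c y := fun {x x' y} hx e₄ e₅ => by
    have := e₃ _ (Fus2.afn_mem β ((mem_Ps hs).2 hx))
    rw [Fus2.afn_mul, Fus2.afn_mul, Fus2.afn_inv_afn, e₂ x hx, e₄, ← ph_cj hs,
      word hs (Fus2.homOn_afn β) ea eb ec (e x hx).1, e₅] at this
    exact (ph_inj hs this).symm
  exact (d₂ c v₁ v₂ a v₃ v₄ v₅ b v₆ v₇ v₈ v₉).2 g (k rfl ec (by decide)) (k rfl ea (by decide))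
    (k rfl eb (by decide))

theorem aut_cases {α : MulAut (Ps hs)} (hα : α ∈ F.autGroup (Ps hs)) :
    (∃ g ∈ S, ∀ w ∈ Ps hs, afn α w = g * w * g⁻¹) ∨ (Fn hs F (W pa gb pc) ∧
      ∀ E : FusionSystem S, Fn hs E (W pa gb pc) → α ∈ E.autGroup (Ps hs)) := by
  obtain ⟨a, b, c, ⟨ea, eb, ec⟩, v₁, v₂, v₃, v₄, v₅, v₆, v₇, v₈, v₉⟩ := triple hs α
  have hW : Fn hs F (W a b c) := ⟨_, M_afn (Ps_le hs h) hα, fun x hx => by
    have := word hs (Fus2.homOn_afn α) ea eb ec hx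
    exact ⟨(mem_Ps hs).1 (this ▸ Fus2.afn_mem α ((mem_Ps hs).2 hx)), this⟩⟩
  rcases (d₂ c v₁ v₂ a v₃ v₄ v₅ b v₆ v₇ v₈ v₉).1 with ⟨g, rfl, rfl, rfl⟩ | ⟨g, e₁, e₂, e₃⟩ |
    ⟨k, -, ⟨g, rfl, rfl, rfl⟩, g', e₁, e₂, e₃⟩
  · exact .inl ⟨_, ph_mem hs h g, ext hs (Fus2.homOn_afn α) (Fus2.homOn_conj _ _)
      (ea.trans (ph_cj hs ..)) (eb.trans (ph_cj hs ..)) (ec.trans (ph_cj hs ..))⟩
  · have := (fn_cj hs h F g).comp hW
    exact (no_kappa hs h hS hF ((this.comp (this.comp this)).norm e₁ e₂ e₃)).elim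
  · exact .inr ⟨((fn_cj hs h F g').comp (hW.comp (fn_cj hs h F k))).norm e₁ e₂ e₃,
      fun E hE => ((fn_cj hs h E g).comp (hE.comp (fn_cj hs h E k))).mem ea eb ec⟩

theorem aut_le {E : FusionSystem S} (hE : Fn hs E (W pa gb pc)) :
    F.autGroup (Ps hs) ≤ E.autGroup (Ps hs) := fun α hα => by
  rcases aut_cases hs h hS hF hα with ⟨g, hg, e⟩ | e
  exacts [(Fus2.M_conj E (Ps_le hs h) hg).mem_autGroup e, e.2 E hE]

theorem psi (hP : F.IsEssential 2 (Ps hs)) : Fn hs F (W pa gb pc) := by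
  by_contra hc
  have hT : ¬ Ps hs ≤ T := fun e => by
    simpa [gb] using (ph_T hs).1 (e ((mem_Ps hs (x := gb)).2 rfl))
  rcases h.ess hS hF hP fun α hα w hw hw' => by
    rcases aut_cases hs h hS hF hα with ⟨g, hg, e⟩ | e
    exacts [e w hw ▸ h.nor g hg w hw', (hc e.1).elim] with e | e | e
  exacts [hT e.le, hT (e.le.trans D.le₁), hT (e.le.trans D.le₂)]

theorem eq_Ps {P : Subgroup Ω} (hP : F.IsEssential 2 P) (hT : ¬ P ≤ T) : P = Ps hs := by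
  obtain ⟨-, hZ, p, hp, hpT, p2, hc⟩ := h.out hs hS hF hP hT
  obtain ⟨p, rfl⟩ := ph_surj hs h (hP.1.1 hp)
  obtain ⟨d₅, d₆, d₇⟩ := d₄ p (mt (ph_T hs).2 hpT) (ph_inj hs (by rw [ph_mu hs, p2, ph_o]))
  have k : ∀ w ∈ P, w ∈ T → w ∈ Ps hs := fun w hw hw' => by
    obtain ⟨x, rfl⟩ := ph_surj hs h (hP.1.1 hw)
    obtain ⟨b, c, e⟩ := D.mem_cen_iff.1 (hc _ hw hw')
    rw [← ph_iv hs x, ← ph_cj hs, ← ph_mu hs,
      show D.f 0 0 b c = ph D s (0, 0, b, c, 0) by simp [ph]] at e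
    exact (mem_Ps hs).2 (d₆ x ((ph_T hs).1 hw') (by rw [ph_inj hs e]))
  have hle : P ≤ Ps hs := fun w hw => (em (w ∈ T)).elim (k w hw) fun hw' =>
    (mul_mem_cancel_right ((mem_Ps hs).2 d₅)).1
      (k _ (mul_mem hw hp) (h.two _ (hP.1.1 hw) _ (hP.1.1 hp) hw' hpT))
  have hc : ph D s gc ∈ P := mem_of_commute hP.1 (ph_mem hs h _) fun w hw => by
    obtain ⟨x, hx, rfl⟩ := hle hw
    rw [commute_iff_eq, ← ph_mu hs, (d₃ x hx).2.2.2.1, ph_mu hs]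
  have k' : ∀ e x, ph D s x ∈ P → ph D s (op e x) ∈ P := fun e x hx => by
    unfold op
    split_ifs
    exacts [ph_o (D := D) (s := s) ▸ one_mem P, hx]
  refine le_antisymm hle ?_
  rintro _ ⟨x, hx, rfl⟩
  obtain ⟨b, c, e | e⟩ := d₇ x hx <;> rw [e, ph_mu hs, ph_mu hs] <;>
    exact mul_mem (mul_mem (hZ (D.mem_cen_iff.2 ⟨b, c, by simp [ph]⟩)) (k' _ _ hc)) (k' _ _ hp)

end Two

end Cfsg.Agent.MP.Spg
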