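import Cfsg.Agent.Lib.MP.StgF

/-!
Row STG of statement 5175: from the configuration `Cfg` to the three cases.
-/

set_option autoImplicit false
set_option linter.unusedSimpArgs false
set_option linter.unusedSectionVars false

namespace Cfsg.Agent.MP.Stg

open Subgroup Cfsg.Agent.Tr Cfsg.Agent.Fus Cfsg.FusionSystem
open Cfsg.Agent.Fus2 (M afn img HomOn afn_apply afn_mul afn_mem)
open scoped commutatorElement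

universe u

variable {Ω : Type u} [Group Ω] {S : Subgroup Ω} [Finite S] {F : FusionSystem S}
  {E₁ E₂ : Subgroup Ω} {s : Ω} {l : MulAut E₁}

theorem exists_sq {R : Subgroup Ω} {x : Ω} (hx : x ∉ R) {n : ℕ} (hn : x ^ 2 ^ n ∈ R) :
    ∃ k : ℕ, x ^ k ∉ R ∧ x ^ k * x ^ k ∈ R := by
  induction n with
  | zero => exact absurd (by simpa using hn) hx
  | succ n ih =>
    by_cases h : x ^ 2 ^ n ∈ R
    · exact ih h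
    · exact ⟨_, h, by rwa [← pow_add, ← mul_two, ← pow_succ]⟩

theorem conj_Cc (h : E₂ ≤ S) {x : Ω} (hx : x ∈ S) (e₁ : cj x E₁ = E₂) (e₂ : cj x E₂ = E₁) {c : Ω}
    (hc : c ∈ Cc F E₁ E₂) : x * c * x⁻¹ ∈ Cc F E₂ E₁ := by
  have k : ∀ y ∈ E₁, x * y * x⁻¹ ∈ E₂ := fun y hy => e₁ ▸ conj_mem_cj.2 hy
  have h₁ : E₁ ≤ S := e₂ ▸ cj_le_of_mem h hx
  refine ⟨k c hc.1, fun g hg => ?_⟩
  have : x⁻¹ * afn g (x * c * x⁻¹) * x⁻¹⁻¹ ∈ E₂ := (Cc_le (Cc_inv (((Fus2.M_conj F h₁ hx).comp ((Fus2.mem_autGroup_iff h).1 hg) k).comp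
    (Fus2.M_conj F h (S.inv_mem hx)) fun y hy => afn_mem _ (k y hy)) (fun y hy => by
      rw [inv_inv, ← mem_cj, e₁]; exact afn_mem _ (k y hy)) hc)).2
  rwa [inv_inv, ← mem_cj, e₂] at this

namespace CF

variable (h : CF F E₁ E₂ s l)
include h

theorem tw' : TW E₁ E₂ (Cc F E₁ E₂) (Cc F E₂ E₁) := by
  obtain ⟨l', h'⟩ := h.symm
  exact ⟨h.t.sq₁, h.t.sq₂, Cc_le, inf_comm E₂ E₁ ▸ Cc_le, h.t.ne₁, h.t.ne₂, h.t.cm,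
    fun a ha ha' b hb hb' => ⟨h.nc ha ha' hb hb', by
      rw [← commutatorElement_def, ← h.t.cm_symm ha hb]; exact h'.nc hb hb' ha ha'⟩⟩

theorem sup_le_N : E₁ ⊔ E₂ ≤ normalizerIn S E₁ := sup_le (le_inf h.le le_normalizer) h.nrm

variable (hs : SolvStmt.{u}) (hS : IsPGroup 2 S) (hF : F.IsSaturated 2) (hm : Min F)
include hs hS hF hm

theorem inf_C : Cc F E₁ E₂ ⊓ Cc F E₂ E₁ = ⊥ := by
  obtain ⟨l', h'⟩ := h.symm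
  by_contra hn
  obtain ⟨d₁, m₁, -, f₁, k₁⟩ := h.mover (one_mem _) (by simp)
  obtain ⟨d₂, m₂, -, f₂, k₂⟩ := h'.mover (one_mem _) (by simp)
  have l₁ : Cc F E₁ E₂ ⊓ Cc F E₂ E₁ ≤ E₁ := inf_le_left.trans (Cc_le.trans inf_le_left)
  have l₂ : Cc F E₁ E₂ ⊓ Cc F E₂ E₁ ≤ E₂ := inf_le_right.trans (Cc_le.trans inf_le_left)
  exact hs F hS hF hm _ E₁ E₂ _ _ hn (l₁.trans h.le)
    (le_inf h.le fun x hx => centralizer_le_normalizer _ fun y hy => (h.t.e₁.comm (l₁ hy) hx).eq)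
    (le_inf h.le' fun x hx => centralizer_le_normalizer _ fun y hy => (h.t.e₂.comm (l₂ hy) hx).eq)
    h.tw' (afn d₁) (afn d₂) (by rwa [sup_eq_left.2 l₁, ← Fus2.mem_autGroup_iff h.le])
    (by rwa [sup_eq_left.2 l₂, ← Fus2.mem_autGroup_iff h.le']) (fun x hx => by rwa [f₁ x hx.1])
    (fun x hx => by rwa [f₂ x hx.2]) (fun x => afn_mem _) (fun x => afn_mem _) k₁
    fun x hx => k₂ x ⟨hx.2, hx.1⟩

theorem N_le : normalizerIn S E₁ ≤ E₁ ⊔ E₂ := by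
  obtain ⟨l', h'⟩ := h.symm
  have hC := h.inf_C hs hS hF hm
  have t := h.tw'
  intro x hx
  by_contra hn
  have iv : ∀ {f}, f ∈ normalizerIn S E₁ → Iv f E₁ ∧ Iv f E₂ := fun hf =>
    ⟨fun _ => conj_mem_of_mem_normalizerIn hf, fun _ => conj_mem_of_mem_normalizerIn (h.nrm₂ hf)⟩
  have up : ∀ f ∈ normalizerIn S E₁, ∀ y ∈ E₁ ⊔ E₂, f * f ∈ E₁ ⊔ E₂ → y * f * (y * f) ∈ E₁ ⊔ E₂ :=
    fun f hf y hy ff => by
      rw [show y * f * (y * f) = y * (f * y * f⁻¹) * (f * f) by group]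
      refine mul_mem (mul_mem hy ?_) ff
      rw [← cj_eq_iff.2 hf.2, ← h.cj₂ hf, ← cj_sup]
      exact conj_mem_cj.2 hy
  obtain ⟨f, f₁, f₂, f₃, f₄⟩ : ∃ f ∈ St S E₂ l, f ∈ St S E₁ l' ∧ f ∉ E₁ ⊔ E₂ ∧ f * f ∈ E₁ ⊓ E₂ := by
    obtain ⟨n, e⟩ := isPGroup_iff_forall_mem.1 hS x hx.1
    obtain ⟨k, k₁, k₂⟩ := exists_sq hn (e ▸ one_mem _)
    obtain ⟨b, hb, k₃⟩ := h.adj (pow_mem hx k)
    obtain ⟨a, ha, k₄⟩ := h'.adj (h.nrm₂ (St_le k₃))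
    have k₅ := mul_mem (h.le_St ha) k₃
    obtain ⟨a', ha', b', hb', e⟩ := t.dec (up _ (St_le k₃) _ (mem_sup_left ha)
      (up _ (pow_mem hx k) _ (mem_sup_right hb) k₂))
    refine ⟨_, k₅, k₄, fun k₆ => k₁ ((mul_mem_cancel_left (mem_sup_right hb)).1
      ((mul_mem_cancel_left (mem_sup_left ha)).1 k₆)), e ▸ ⟨mul_mem ha' (h.mem_of_St hb' ?_),
      mul_mem (h'.mem_of_St ha' ?_) hb'⟩⟩
    · exact (mul_mem_cancel_left (h.le_St ha')).1 (e ▸ mul_mem k₅ k₅)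
    · exact (mul_mem_cancel_right (h'.le_St hb')).1 (e ▸ mul_mem k₄ k₄)
  have key : ∀ f ∈ St S E₂ l, f ∈ St S E₁ l' → f ∉ E₁ ⊔ E₂ → f * f ∈ E₁ ⊓ E₂ →
      Fr f (E₁ ⊓ E₂) ⊥ ∧ Fr f E₁ ⊥ ∧ Fr f E₂ ⊥ ∧ (∃ z ∈ E₂, Nm f z ∉ E₁) ∧ ∃ z ∈ E₁, Nm f z ∉ E₂ :=
    fun f f₁ f₂ f₃ f₄ => by
      obtain ⟨n₁, n₂⟩ := iv (St_le f₁)
      have c₁ := h.iv_C (St_le f₁)
      have c₂ := h'.iv_C (St_le f₂)
      obtain ⟨z, hz, hz'⟩ : ∃ z ∈ E₁, Nm f z ∉ E₂ := by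
        by_contra! k₁
        have k₂ : ∀ z ∈ E₂, Nm f z ∈ E₁ := fun z hz => by_contra fun hz' => by
          obtain ⟨-, -, -, z, hz, hz'⟩ := t.swap.free n₂ n₁ h'.sj h.sj c₂ c₁ ⟨f₄.2, f₄.1⟩
            ((inf_comm _ _).trans hC) (h'.dich hS hF ((inf_comm _ _).trans hC)) hz hz'
          exact hz' (k₁ z hz)
        exact f₃ (mem_sup_left (h.triv f₁ (fun w hw => (nm_eq_one t.e₁ hw.1).1 (mem_bot.1 (hC.le
          ⟨t.nm_mem n₁ n₂ h.sj c₁ k₁ k₂ hw, t.swap.nm_mem n₂ n₁ h'.sj c₂ k₂ k₁ ⟨hw.2, hw.1⟩⟩))) k₁))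
      obtain ⟨k₁, k₂, k₃, k₄⟩ := t.free n₁ n₂ h.sj h'.sj c₁ c₂ f₄ hC (h.dich hS hF hC) hz hz'
      exact ⟨k₁, k₂, k₃, k₄, z, hz, hz'⟩
  obtain ⟨f, f₁, f₂, f₃, f₄⟩ : ∃ f ∈ St S E₂ l, f ∈ St S E₁ l' ∧ f ∉ E₁ ⊔ E₂ ∧ f * f = 1 := by
    obtain ⟨y, hy, e⟩ := (key f f₁ f₂ f₃ f₄).1 _ f₄ ((nm_eq_one t.e₁ f₄.1).2
      ((Commute.refl f).mul_right (Commute.refl f)))
    refine ⟨y * f, mul_mem (h.le_St hy.1) f₁, mul_mem (h'.le_St hy.2) f₂,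
      fun k => f₃ ((mul_mem_cancel_left (mem_sup_left hy.1)).1 k), ?_⟩
    rw [show y * f * (y * f) = Nm f y * (f * f) by rw [Nm]; group]
    exact mul_eq_one_comm.1 e
  obtain ⟨-, k₁, k₂, ⟨z₂, hz₂, hz₂'⟩, z₁, hz₁, hz₁'⟩ := key f f₁ f₂ f₃ (f₄ ▸ one_mem _)
  obtain ⟨n₁, n₂⟩ := iv (St_le f₁)
  obtain ⟨a₁, m₁, e₁, i₁, j₁⟩ := h.mover' hS hF f₁ f₄ k₁
  obtain ⟨a₂, m₂, e₂, i₂, j₂⟩ := h'.mover' hS hF f₂ f₄ k₂
  let Z := centralizer ({f} : Set Ω)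
  have mZ : ∀ {x}, x ∈ Z ↔ Commute f x := mem_centralizer_singleton_iff.trans eq_comm
  have nU : ∀ {E}, E ≤ S → E ⊓ Z ≤ normalizerIn S (zpowers f) := fun hE => le_inf
    (inf_le_left.trans hE) fun x hx => centralizer_le_normalizer _ (by
      rintro _ ⟨n, rfl⟩; exact ((mZ.1 hx.2).zpow_left n).eq)
  have iU : ∀ {E a}, M F (E ⊔ zpowers f) a → a f = f → ∀ x ∈ zpowers f, a x ∈ zpowers f :=
    fun m e => by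
      rintro _ ⟨n, rfl⟩
      exact ⟨n, by simp only [m.homOn.map_zpow (mem_sup_right (mem_zpowers f)), e]⟩
  have iZ : ∀ {E a}, M F (E ⊔ zpowers f) a → a f = f → (∀ x ∈ E, a x ∈ E) →
      ∀ x ∈ E ⊓ Z, a x ∈ E ⊓ Z := fun {E a} m e i x hx => ⟨i x hx.1, mZ.2 (by
        have k : f ∈ E ⊔ zpowers f := mem_sup_right (mem_zpowers f)
        have := m.map_mul k (mem_sup_left hx.1)
        rw [(mZ.1 hx.2).eq, m.map_mul (mem_sup_left hx.1) k, e] at this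
        exact this.symm)⟩
  refine hs F hS hF hm (zpowers f) (E₁ ⊓ Z) (E₂ ⊓ Z) (Cc F E₁ E₂ ⊓ Z) (Cc F E₂ E₁ ⊓ Z)
    (fun e => f₃ (mem_bot.1 (e ▸ mem_zpowers f) ▸ one_mem _)) (zpowers_le.2 (St_le f₁).1)
    (nU h.le) (nU h.le') ⟨fun x hx => t.sq₁ x hx.1, fun x hx => t.sq₂ x hx.1,
      fun x hx => ⟨⟨(t.le₁ hx.1).1, hx.2⟩, (t.le₁ hx.1).2, hx.2⟩,
      fun x hx => ⟨⟨(t.le₂ hx.1).1, hx.2⟩, (t.le₂ hx.1).2, hx.2⟩, fun k => hz₁' (k ⟨n₁.nm hz₁,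
        mZ.2 ((nm_eq_one t.e₁ (n₁.nm hz₁)).1 (nm_nm t.e₁ n₁ (f₄ ▸ one_mem _) hz₁))⟩).1,
      fun k => hz₂' (k ⟨n₂.nm hz₂,
        mZ.2 ((nm_eq_one t.e₂ (n₂.nm hz₂)).1 (nm_nm t.e₂ n₂ (f₄ ▸ one_mem _) hz₂))⟩).1,
      fun a ha b hb => ?_, fun a ha ha' b hb hb' => ?_⟩ a₁ a₂
    (m₁.mono (sup_le_sup_right inf_le_left _)) (m₂.mono (sup_le_sup_right inf_le_left _))
    (iU m₁ e₁) (iU m₂ e₂) (iZ m₁ e₁ i₁) (iZ m₂ e₂ i₂)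
    (fun x hx hx' k => j₁ x ⟨hx.1.1, hx.2.1⟩ (fun k => hx' ⟨k, hx.1.2⟩) k.1)
    fun x hx hx' k => j₂ x ⟨hx.2.1, hx.1.1⟩ (fun k => hx' ⟨k, hx.1.2⟩) k.1
  · have k : a * b * a⁻¹ * b⁻¹ ∈ Z :=
      mul_mem (mul_mem (mul_mem ha.2 hb.2) (Z.inv_mem ha.2)) (Z.inv_mem hb.2)
    exact ⟨⟨(t.cm a ha.1 b hb.1).1, k⟩, (t.cm a ha.1 b hb.1).2, k⟩
  · have k := t.nc a ha.1 (fun k => ha' ⟨k, ha.2⟩) b hb.1 fun k => hb' ⟨k, hb.2⟩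
    exact ⟨fun e => k.1 e.1, fun e => k.2 e.1⟩

theorem aut_eq : autInducedBy S E₁ = autInducedBy E₂ E₁ := by
  refine le_antisymm (fun d hd => ?_) (autInducedBy_mono h.le' _)
  obtain ⟨g, hg, rfl⟩ := mem_autInducedBy_iff'.1 hd
  obtain ⟨a, ha, b, hb, rfl⟩ := h.t.dec (h.N_le hs hS hF hm hg)
  rw [conjAut_mul (le_normalizer ha) (h.t.nrm hb), (h.ca_eq_one (h.le ha) _).2 ha, one_mul]
  exact h.ca hb

theorem syl : IsSylowIn 2 (autInducedBy E₂ E₁) (F.autGroup E₁) :=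
  h.aut_eq hs hS hF hm ▸ sat_sylow hS hF h.fn

theorem ess : F.IsEssential 2 E₁ := by
  let := cg h.t.e₁
  have := h.fin
  have hI : (Inn E₁).subgroupOf (F.autGroup E₁) = ⊥ := eq_bot_iff.2 fun α hα => by
    obtain ⟨g, hg, e⟩ := mem_Inn_iff.1 hα
    exact Subtype.ext (MulEquiv.ext fun x => Subtype.ext ((e x).trans
      (mul_inv_eq_iff_eq_mul.2 (h.t.e₁.comm hg x.2).eq)))
  obtain ⟨-, R, hR⟩ := h.syl hs hS hF hm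
  have hT := isSylowIn_top R
  obtain ⟨⟨d, hd⟩, h1⟩ := ne_bot_iff_exists_ne_one.1 h.r1.l.ne
  refine isEssential_iff.2 ⟨isCentric_of_isFullyCentralized (sat_centralized hS hF h.fn) h.cen,
    h.fn, Ess.exists_stronglyPEmbedded_of_equiv ((QuotientGroup.quotientMulEquivOfEq hI).trans
      QuotientGroup.quotientBot).symm ((exists_stronglyPEmbedded_iff hT).2 ⟨?_, fun e => ?_⟩)⟩
  · rw [← BS.orderOf_eq_two (a := (⟨d, h.rk.le hd⟩ : F.autGroup E₁)) (Subtype.ext (h.r1.l.sq d hd))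
      fun e => h1 (Subtype.ext (congrArg (fun x : F.autGroup E₁ => x.1) e))]
    exact orderOf_dvd_natCard _
  · have : kGeneratedCore 2 1 (R : Subgroup (F.autGroup E₁)) ≤
        (normalizer (autInducedBy E₂ E₁ : Set (MulAut E₁))).subgroupOf _ := by
      rw [kGeneratedCore_eq_closure hT, closure_le, hR]
      rintro g ⟨x, hx, k₁, k₂⟩
      exact cj_eq_iff.1 (h.rk.ti g.2 hx (fun e => k₁ (Subtype.ext e)) k₂)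
    exact h.rk.ne (cj_eq_iff.2 (this (e.ge (mem_top ⟨l, h.lF⟩)))).symm

theorem idx : (E₁ ⊔ E₂).relIndex S = 2 ∨ Cc F E₁ E₂ = ⊥ ∧ E₂.relIndex E₁ = 2 := by
  have hN := h.N_le hs hS hF hm
  have hB : E₁ ⊔ E₂ ≤ S := sup_le h.le h.le'
  have sw : ∀ x ∈ S, cj x E₁ ≤ E₁ ⊔ E₂ → x ∉ E₁ ⊔ E₂ → cj x E₁ = E₂ := fun x hx k k' =>
    (h.max _ (k.trans h.sup_le_N) (h.t.e₁.cj x) (card_cj _ _).ge).resolve_left fun e =>
      k' (hN ⟨hx, cj_eq_iff.1 e⟩)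
  have xr : ∀ {A : Subgroup Ω}, A ≤ normalizerIn S (E₁ ⊔ E₂) → ∀ a ∈ A, cj a E₂ = E₁ →
      (E₁ ⊔ E₂).relIndex A = 2 := fun {A} hA a ha e => relIindex_eq_two_iff'.2 ⟨a, ha, fun b hb => by
    by_cases k : b ∈ E₁ ⊔ E₂
    · refine .inr ⟨k, fun k' => h.t.ne₁ ?_⟩
      have := h.cj₂ (h.sup_le_N ((mul_mem_cancel_right k).1 k'))
      exact (e.symm.trans this).le
    · refine .inl ⟨hN ⟨S.mul_mem (hA ha).1 (hA hb).1, cj_eq_iff.1 ?_⟩, k⟩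
      rw [cj_mul, sw b (hA hb).1 ((cj_mono _ le_sup_left).trans (cj_eq_iff.2 (hA hb).2).le) k, e]⟩
  have sN : s ∈ normalizerIn S (E₁ ⊔ E₂) :=
    ⟨h.sS, cj_eq_iff.1 (by rw [cj_sup, h.s₁, h.s₂, sup_comm])⟩
  have BN : E₁ ⊔ E₂ ≤ normalizerIn S (E₁ ⊔ E₂) := le_inf hB le_normalizer
  refine or_iff_not_imp_left.2 fun hn => ?_
  obtain ⟨x, hx, x₁, x₂⟩ := Fus.exists_mem_normalizer_not_mem hS
    (lt_of_le_not_ge inf_le_left fun k => hn (xr k s h.sS h.s₂) : normalizerIn S (E₁ ⊔ E₂) < S)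
  have hA : cj x E₁ ≤ normalizerIn S (E₁ ⊔ E₂) :=
    (cj_mono _ (le_sup_left.trans BN)).trans (cj_eq_iff.2 x₁).le
  obtain ⟨a, ha, ha'⟩ : ∃ a ∈ cj x E₁, a ∉ E₁ ⊔ E₂ := by
    by_contra! k
    refine x₂ ((mul_mem_cancel_left sN).1 (BN (hN ⟨S.mul_mem h.sS hx, cj_eq_iff.1 ?_⟩)))
    rw [cj_mul, sw x hx k fun k' => x₂ (BN k'), h.s₂]
  have hE := h.t.e₁.cj x
  have a₁ := sw a (hA ha).1 ((cj_mono _ le_sup_left).trans (cj_eq_iff.2 (hA ha).2).le) ha'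
  have a₂ : cj a E₂ = E₁ := by rw [← a₁, ← cj_mul, hE a ha, cj_one]
  have k₁ : (E₁ ⊔ E₂) ⊓ cj x E₁ ≤ E₂ ⊓ E₁ := fun y hy => by
    have e : a * y * a⁻¹ = y := mul_inv_eq_iff_eq_mul.2 (hE.comm ha hy.2).eq
    rcases h.t.mem_or hy.1 (hE y hy.2) with k | k
    · exact ⟨e ▸ a₁ ▸ conj_mem_cj.2 k, k⟩
    · exact ⟨k, e ▸ a₂ ▸ conj_mem_cj.2 k⟩
  have := Fus2.finite_of_le (inf_le_right.trans h.le : E₂ ⊓ E₁ ≤ S)
  have := h.fin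
  have c₁ := card_inf_mul_relIndex (E₁ ⊔ E₂) (cj x E₁)
  have c₂ := card_inf_mul_relIndex E₂ E₁
  have c₃ := card_le_of_le k₁
  have c₄ : 0 < Nat.card (E₂ ⊓ E₁ : Subgroup Ω) := Nat.card_pos
  have c₅ : E₂.relIndex E₁ ≠ 1 := fun e => h.t.ne₁ (relIndex_eq_one.1 e)
  have c₆ : E₂.relIndex E₁ ≠ 0 := index_ne_zero_of_finite
  rw [xr hA a ha a₂, card_cj, ← c₂] at c₁
  have c₇ : E₂.relIndex E₁ = 2 := by
    by_contra k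
    have : 3 ≤ E₂.relIndex E₁ := by omega
    nlinarith
  refine ⟨eq_bot_iff.2 fun c hc => (h.inf_C hs hS hF hm).le ⟨hc, ?_⟩, c₇⟩
  have k₂ := Subgroup.eq_of_le_of_card_ge k₁ (by rw [c₇] at c₁; omega)
  have k₃ := conj_Cc h.le' (hA ha).1 a₁ a₂ hc
  rwa [(hE.comm ha (k₂.ge ⟨(Cc_le hc).2, hc.1⟩).2).eq, mul_inv_cancel_right] at k₃

theorem crd : ∃ (K : Type) (_ : Field K) (_ : Fintype K) (_ : CharP K 2) (a b c : Ω → K),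
    Crd E₁ E₂ (Cc F E₁ E₂) a b c ∧ ∀ μ ≠ 0, ∃ g : Ω → Ω,
      (∀ x ∈ E₁, ∀ y ∈ E₁, g (x * y) = g x * g y) ∧ (∀ x ∈ Cc F E₁ E₂, g x = x) ∧
      (∀ x ∈ Cc F E₂ E₁, g x ∈ Cc F E₂ E₁) ∧ (∀ x ∈ E₁ ⊓ E₂, c (g x) = μ * c x) ∧
      ∀ x ∈ E₁, ∀ y ∈ E₂, ∃ x' ∈ E₁, ∃ y' ∈ E₂, μ * a x' = a x ∧ g ⁅x, y⁆ = ⁅x', y'⁆ := by
  classical
  let := cg h.t.e₁
  have := h.fin
  obtain ⟨K, iF, iK, iC, a, c, α, a₁, a₂, a₃, c₁, c₂, c₃, b₁, b₂, b₃, cm, tor⟩ :=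
    h.rk.coords (h.syl hs hS hF hm)
  let e : (E₁ → K) → Ω → K := fun a x => if hx : x ∈ E₁ then a ⟨x, hx⟩ else 0
  have he : ∀ a (x : Ω) (hx : x ∈ E₁), e a x = a ⟨x, hx⟩ := fun a x hx => dif_pos hx
  let b : Ω → K := fun x => if hx : x ∈ E₂ then α (conjAut E₁ x (h.t.nrm hx)) else 0
  have hb : ∀ (x : Ω) (hx : x ∈ E₂), b x = α (conjAut E₁ x (h.t.nrm hx)) := fun x hx => dif_pos hx
  refine ⟨K, iF, iK, iC, e a, b, e c, ⟨fun x hx y hy => ?_, fun x hx => ?_, fun r => ?_,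
    fun x hx y hy => ?_, fun x hx => ?_, fun r => ?_, fun x hx y hy => ?_, fun x hx => ?_,
    fun r => ?_, fun x hx y hy => ?_⟩, fun μ hμ => ?_⟩
  · rw [he _ _ hx, he _ _ hy, he _ _ (mul_mem hx hy), ← a₁]; rfl
  · rw [he _ _ hx, a₂, h.mem_fx]
  · obtain ⟨x, rfl⟩ := a₃ r
    exact ⟨x, x.2, he _ _ x.2⟩
  · rw [hb _ hx, hb _ hy, hb _ (mul_mem hx hy), ← b₁ _ (h.ca hx) _ (h.ca hy), ← conjAut_mul]
  · rw [hb _ hx, b₂ _ (h.ca hx), h.ca_eq_one (h.le' hx)]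
  · obtain ⟨d, hd, rfl⟩ := b₃ r
    obtain ⟨x, hx, rfl⟩ := h.exists_ca hd
    exact ⟨x, hx, hb _ hx⟩
  · rw [he _ _ hx.1, he _ _ hy.1, he _ _ (mul_mem hx.1 hy.1),
      ← c₁ _ (h.mem_fx.2 hx.2) _ (h.mem_fx.2 hy.2)]; rfl
  · rw [he _ _ hx.1, c₂ _ (h.mem_fx.2 hx.2), h.mem_C (v := ⟨x, hx.1⟩), mem_inf,
      and_iff_right (h.mem_fx.2 hx.2)]
  · obtain ⟨x, hx, rfl⟩ := c₃ r
    exact ⟨x, ⟨x.2, h.mem_fx.1 hx⟩, he _ _ x.2⟩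
  · rw [he _ _ hx, hb _ hy, mul_comm, ← cm _ (h.ca hy), he _ _ (h.t.cm' hx hy).1]
    exact congrArg c (Subtype.ext (h.ca_apply hy ⟨x, hx⟩).symm)
  · obtain ⟨g, hg, g₁, g₂, g₃, g₄⟩ := tor μ hμ
    obtain ⟨G, hG, k₁, k₂⟩ := h.ext hS hF hg g₁
    refine ⟨afn g, Fus2.homOn_afn g, fun x hx => ?_, fun x => h.ext_C hS hF hg g₁, fun x hx => ?_,
      fun x hx y hy => ⟨_, afn_mem g hx, _, k₂ y hy, ?_, ?_⟩⟩
    · rw [afn_apply _ hx.1, g₂ _ (h.mem_C (v := ⟨x, hx.1⟩).1 hx)]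
    · rw [afn_apply _ hx.1, he _ _ (g _).2, he _ _ hx.1, g₄ _ (h.mem_fx.2 hx.2)]
    · rw [afn_apply _ hx, he _ _ (g _).2, he _ _ hx, g₃]
    · rw [← k₁ _ (h.t.cm' hx hy).1, hG.homOn.map_comm (mem_sup_left hx) (mem_sup_right hy), k₁ x hx]

end CF

theorem Crd.card {K : Type*} [Field K] {C : Subgroup Ω} {a b c : Ω → K} (h : Crd E₁ E₂ C a b c) :
    E₂.relIndex E₁ = Nat.card K := by
  let φ : E₁ →* Multiplicative K :=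
    MonoidHom.mk' (fun x => Multiplicative.ofAdd (a x)) fun x y => h.a₁ x x.2 y y.2
  have : φ.ker = E₂.subgroupOf E₁ := Subgroup.ext fun x => h.a₂ x x.2
  rw [relIndex, ← this, index_ker, MonoidHom.range_eq_top.2 fun r => ?_, card_top]
  · rfl
  · obtain ⟨x, hx, e⟩ := h.a₃ r.toAdd
    exact ⟨⟨x, hx⟩, e⟩

end Cfsg.Agent.MP.Stg

namespace Cfsg.Agent.MP

universe u

open Stg

theorem stg (hs : SolvStmt.{u}) : StgStmt.{u} := by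
  intro Ω _ S _ F hS hF hm E₁ E₂ s l h₀
  have h : CF F E₁ E₂ s l := h₀
  have hC := h.inf_C hs hS hF hm
  obtain ⟨K, iF, iK, iC, a, b, c, k, tor⟩ := h.crd hs hS hF hm
  have hi := h.idx hs hS hF hm
  refine ⟨h.ess hs hS hF hm, ?_⟩
  by_cases h1 : Cc F E₁ E₂ = ⊥
  · obtain ⟨D, e⟩ := (h1 ▸ k).h3 h.t
    by_cases h2 : Nat.card K = 2
    · exact .inl (by rw [← e, D.card₁, h2])
    refine .inr ⟨K, iF, iK, iC, hi.resolve_right fun e => h2 (k.card ▸ e.2), .inl ⟨?_, D, e⟩⟩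
    have := Fintype.one_lt_card (α := K)
    rw [Nat.card_eq_fintype_card] at h2
    omega
  · obtain ⟨l', h'⟩ := h.symm
    refine .inr ⟨K, iF, iK, iC, hi.resolve_right fun e => h1 e.1, .inr (k.co h.tw' hC
      ((h.dich hS hF hC).resolve_left fun e => h1 (eq_bot_iff.2 fun x hx => ?_)) h'.sj tor)⟩
    simpa using e.le (conj_Cc h.le' h.sS h.s₁ h.s₂ hx)

end Cfsg.Agent.MP
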