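import Cfsg.Agent.Lib.MP.Defs
import Cfsg.Agent.Lib.BS.Ch1
import Cfsg.Agent.Lib.BS.Coord
import Cfsg.Agent.Lib.FT.Main

/-!
Row STG of statement 5175, the module part: a rank one pair whose conjugates form a Moufang set.
-/

set_option autoImplicit false
set_option linter.unusedSimpArgs false

namespace Cfsg.Agent.MP.Stg

open Subgroup Cfsg.Agent.Tr

universe u

/-- A rank one pair with the list of all conjugates. -/
structure Rk {V : Type*} [Group V] (K D D' : Subgroup (MulAut V)) : Prop where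
  sq : ∀ v : V, v * v = 1
  le : D ≤ K
  ex : ∃ l ∈ K, cj l D = D'
  r1 : R1 D D'
  all : ∀ g ∈ K, cj g D = D ∨ ∃ d ∈ D, cj g D = cj d D'

section Fx

variable {V : Type*} [Group V] {D : Subgroup (MulAut V)}

theorem mem_fx_cj {g : MulAut V} {v : V} : v ∈ fx (cj g D) ↔ g⁻¹ v ∈ fx D :=
  ⟨fun h d hd => by
    have := h _ (conj_mem_cj.2 hd)
    rw [MulAut.mul_apply, MulAut.mul_apply] at this
    conv_rhs => rw [← this]
    simp, fun h d hd => by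
    have := h _ (mem_cj.1 hd)
    simpa using this⟩

theorem map_mem_fx_cj {g : MulAut V} {v : V} : g v ∈ fx (cj g D) ↔ v ∈ fx D := by
  rw [mem_fx_cj]; simp

theorem map_mem_fx {g : MulAut V} (hg : cj g D = D) {v : V} : g v ∈ fx D ↔ v ∈ fx D := by
  conv_lhs => rw [← hg]
  exact map_mem_fx_cj

end Fx

variable {V : Type u} [CommGroup V] {K D D' : Subgroup (MulAut V)}

theorem nle (h : Hf D D') [Finite V] : ∃ x ∈ fx D, x ∉ fx D' := by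
  obtain ⟨⟨d, hd⟩, h1⟩ := ne_bot_iff_exists_ne_one.1 h.ne
  have h2 : d ≠ 1 := fun e => h1 (Subtype.ext e)
  obtain ⟨v, hv⟩ : ∃ v, v ∉ fx D := by
    by_contra! hc
    exact h2 (MulEquiv.ext fun v => hc v d hd)
  exact ⟨_, h.quad d hd v, h.inj d hd h2 v hv⟩

namespace Rk

variable (h : Rk K D D')
include h

theorem sq' (a b : V) : a * (a * b) = b := by rw [← mul_assoc, h.sq, one_mul]

theorem inv (a : V) : a⁻¹ = a := inv_eq_of_mul_eq_one_right (h.sq a)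

theorem le' : D' ≤ K := by
  obtain ⟨l, hl, rfl⟩ := h.ex
  exact cj_le_of_mem h.le hl

theorem dinv {d : MulAut V} (hd : d ∈ D) : d⁻¹ = d := inv_eq_of_mul_eq_one_right (h.r1.l.sq d hd)

theorem dinv' {d : MulAut V} (hd : d ∈ D') : d⁻¹ = d := inv_eq_of_mul_eq_one_right (h.r1.r.sq d hd)

theorem dd {d : MulAut V} (hd : d ∈ D) (v : V) : d (d v) = v := by
  rw [← MulAut.mul_apply, h.r1.l.sq d hd, MulAut.one_apply]

theorem fix_cj {g : MulAut V} (hg : g ∈ K) {c : V} (hc : c ∈ fx D ⊓ fx D') : c ∈ fx (cj g D) := by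
  rcases h.all g hg with e | ⟨d, hd, e⟩
  · rw [e]; exact hc.1
  · rw [e, mem_fx_cj, hc.1 _ (inv_mem hd)]; exact hc.2

theorem map_C {g : MulAut V} (hg : g ∈ K) {c : V} (hc : c ∈ fx D ⊓ fx D') : g c ∈ fx D ⊓ fx D' := by
  obtain ⟨l, hl, e⟩ := h.ex
  refine ⟨?_, ?_⟩
  · simpa [mem_fx_cj] using h.fix_cj (inv_mem hg) hc
  · simpa [← e, mem_fx_cj] using h.fix_cj (mul_mem (inv_mem hg) hl) hc

theorem mem_C_iff {c : V} : c ∈ fx D ⊓ fx D' ↔ ∀ g ∈ K, g c ∈ fx D := by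
  refine ⟨fun hc g hg => (h.map_C hg hc).1, fun hc => ⟨hc 1 (one_mem _), ?_⟩⟩
  obtain ⟨l, hl, rfl⟩ := h.ex
  exact mem_fx_cj.2 (hc _ (inv_mem hl))

variable [Finite V]

theorem eq_one {d : MulAut V} (hd : d ∈ D) (e : cj d D' = D') : d = 1 := by
  by_contra h1
  obtain ⟨x, hx, hx'⟩ := nle h.r1.r
  exact h.r1.l.inj d hd h1 x hx' (mul_mem ((map_mem_fx e).2 hx) hx)

theorem ne : D ≠ D' := fun e => by
  obtain ⟨x, hx, hx'⟩ := nle h.r1.r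
  exact hx' (e ▸ hx)

theorem ti {g x : MulAut V} (hg : g ∈ K) (hx : x ∈ D) (h1 : x ≠ 1) (h2 : g * x * g⁻¹ ∈ D) :
    cj g D = D := by
  refine (h.all g hg).resolve_right ?_
  rintro ⟨d, hd, e⟩
  have h3 : d⁻¹ * (g * x * g⁻¹) * d ∈ D' := mem_cj.1 (e ▸ conj_mem_cj.2 hx)
  refine h1 ?_
  have := h.eq_one (mul_mem (mul_mem (inv_mem hd) h2) hd) (cj_eq_of_mem h3)
  calc x = (d⁻¹ * g)⁻¹ * (d⁻¹ * (g * x * g⁻¹) * d) * (d⁻¹ * g) := by group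
    _ = 1 := by rw [this]; group

theorem adj {f : MulAut V} (hf : f ∈ K) (e : cj f D = D) : ∃ d ∈ D, cj (d * f) D' = D' := by
  obtain ⟨l, hl, e'⟩ := h.ex
  rcases h.all _ (mul_mem hf hl) with e₁ | ⟨d, hd, e₁⟩
  · rw [cj_mul, e', ← e, cj_inj] at e₁
    exact absurd e₁.symm h.ne
  · exact ⟨d⁻¹, inv_mem hd, by rw [cj_mul, ← e', ← cj_mul f, e₁, e', cj_inv_cj]⟩

theorem symm : Rk K D' D := by
  obtain ⟨l, hl, e⟩ := h.ex
  have key : ∀ g ∈ K, cj g D ≠ D' → ∃ d ∈ D', cj g D = cj (d * l) D' := fun g hg hn => by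
    rcases h.all _ (mul_mem (inv_mem hl) hg) with e₁ | ⟨d, hd, e₁⟩
    · rw [cj_mul, cj_eq_iff_eq_cj_inv, inv_inv, e] at e₁
      exact absurd e₁ hn
    · refine ⟨l * d * l⁻¹, e ▸ conj_mem_cj.2 hd, ?_⟩
      rw [inv_mul_cancel_right, cj_mul, ← e₁, ← cj_mul, mul_inv_cancel_left]
  refine ⟨h.sq, h.le', ⟨l⁻¹, inv_mem hl, by rw [← e, cj_inv_cj]⟩, ⟨h.r1.r, h.r1.l⟩, fun g hg => ?_⟩
  refine or_iff_not_imp_left.2 fun hn => ?_
  obtain ⟨d, hd, e₁⟩ := key (g * l) (mul_mem hg hl) (by rwa [cj_mul, e])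
  obtain ⟨d₀, hd₀, e₀⟩ := key 1 (one_mem _) (by rw [cj_one]; exact h.ne)
  refine ⟨d * d₀⁻¹, mul_mem hd (inv_mem hd₀), ?_⟩
  rw [cj_one] at e₀
  rw [cj_mul, e] at e₁
  rw [e₁]
  conv_rhs => rw [e₀, ← cj_mul]
  congr 1; group

/-- `V = [u, D'] H`. -/
theorem dec {u : V} (hu : u ∉ fx D') (v : V) : ∃ d ∈ D', v * (d u * u) ∈ fx D := by
  obtain ⟨l, hl, e⟩ := h.ex
  let π : D' → V ⧸ fx D := fun d => ((d.1 u * u : V) : V ⧸ fx D)
  have hi : Function.Injective π := fun d d' e' => by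
    by_contra hn
    refine h.r1.r.inj (d * d') (mul_mem d.2 d'.2) (fun e₁ => hn (Subtype.ext ?_)) u hu ?_
    · rw [← h.dinv' d'.2]; exact eq_inv_of_mul_eq_one_left e₁
    · have h1 := QuotientGroup.eq.1 e'
      have h2 := h.r1.r.quad _ d'.2 u _ d.2
      rw [map_mul, ← eq_mul_inv_iff_mul_eq, h.inv] at h2
      rw [h.inv] at h1
      rw [MulAut.mul_apply, h2]
      simpa only [mul_comm, mul_left_comm, mul_assoc, h.sq, h.sq', mul_one] using h1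
  have hb := hi.bijective_of_nat_card_le (by
    rw [← index_eq_card, h.r1.l.idx, ← e, card_cj])
  obtain ⟨d, hd⟩ := hb.2 v
  exact ⟨d, d.2, by simpa only [h.inv, mul_comm] using QuotientGroup.eq.1 hd⟩

theorem dec' (v : V) : ∃ x ∈ fx D, ∃ w ∈ fx D', v = x * w := by
  obtain ⟨u, -, hu⟩ := nle h.r1.l
  obtain ⟨d, hd, e⟩ := h.dec hu v
  exact ⟨_, e, _, h.r1.r.quad d hd u, by rw [mul_assoc, h.sq, mul_one]⟩

/-- The involutions swapping `D` and `D'`. -/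
theorem swap {d : MulAut V} (hd : d ∈ D) (h1 : d ≠ 1) : ∃ n ∈ K, n * n = 1 ∧ cj n D = D' ∧
    cj n D' = D ∧ (∀ c ∈ fx D ⊓ fx D', n c = c) ∧ ∀ w ∈ fx D', n w * (d w * w) ∈ fx D' := by
  obtain ⟨d', hd', e⟩ := (h.symm.all d (h.le hd)).resolve_left fun e => h1 (h.eq_one hd e)
  have e₁ : cj (d * d' * d) D' = D := by
    rw [cj_mul, e, ← cj_mul, mul_assoc, h.r1.r.sq d' hd', mul_one, cj_eq_of_mem hd]
  have e₂ : d * d' * d * (d * d' * d) = 1 := by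
    rw [show d * d' * d * (d * d' * d) = d * (d' * (d * d) * d') * d by group, h.r1.l.sq d hd,
      mul_one, h.r1.r.sq d' hd', mul_one, h.r1.l.sq d hd]
  refine ⟨d * d' * d, mul_mem (mul_mem (h.le hd) (h.le' hd')) (h.le hd), e₂,
    by rw [← e₁, ← cj_mul, e₂, cj_one], e₁, fun c hc => ?_, fun w hw => ?_⟩
  · rw [MulAut.mul_apply, MulAut.mul_apply, hc.1 d hd, hc.2 d' hd', hc.1 d hd]
  · have h2 : (d * d' * d) w ∈ fx D := e₁ ▸ map_mem_fx_cj.2 hw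
    have h3 := h2 d hd
    rw [MulAut.mul_apply, MulAut.mul_apply, h.dd hd] at h3
    have h4 := mul_mem hw (h.r1.r.quad d' hd' (d w * w))
    rw [MulAut.mul_apply, MulAut.mul_apply, ← h3]
    simpa only [map_mul, hw d' hd', mul_comm, mul_left_comm, mul_assoc, h.sq, h.sq', mul_one]
      using h4

theorem trans {u u' : V} (hu : u ∈ fx D) (hu₁ : u ∉ fx D') (hu' : u' ∈ fx D) (hu₂ : u' ∉ fx D') :
    ∃ g ∈ K, cj g D = D ∧ g u * u' ∈ fx D' := by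
  obtain ⟨⟨d₀, hd₀⟩, h1⟩ := ne_bot_iff_exists_ne_one.1 h.r1.l.ne
  obtain ⟨t, tK, tt, t₁, t₂, -, -⟩ := h.swap hd₀ fun e => h1 (Subtype.ext e)
  have w₁ : t u ∈ fx D' := t₁ ▸ map_mem_fx_cj.2 hu
  obtain ⟨d, hd, e⟩ := h.r1.l.surj (t u) (fun e => hu₁ (map_mem_fx_cj.1 (t₂.symm ▸ e))) u' hu'
  obtain ⟨n, nK, -, -, n₂, -, n₃⟩ := h.swap hd (by rintro rfl; exact hu₂ (by simpa [h.sq] using e))
  refine ⟨n * t, mul_mem nK tK, by rw [cj_mul, t₁, n₂], ?_⟩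
  simpa only [MulAut.mul_apply, mul_comm, mul_left_comm, mul_assoc, h.sq, h.sq', mul_one]
    using mul_mem (n₃ _ w₁) e

theorem eq_one_of_fix {f : MulAut V} (e : cj f D' = D') (h1 : ∀ x ∈ fx D, f x = x)
    (h2 : ∀ v, f v * v ∈ fx D) : f = 1 := by
  obtain ⟨u, hu, hu'⟩ := nle h.r1.l
  have k : ∀ d ∈ D', f (d u) = d u := fun d hd => by
    have h3 : f * d * f⁻¹ ∈ D' := e ▸ conj_mem_cj.2 hd
    have h4 : (f * d * f⁻¹) u = f (d u) := by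
      rw [MulAut.mul_apply, MulAut.mul_apply, show f⁻¹ u = u by
        rw [MulAut.inv_apply, MulEquiv.symm_apply_eq, h1 u hu]]
    have h5 : f * d * f⁻¹ * d = 1 := by
      by_contra hn
      refine h.r1.r.inj _ (mul_mem h3 hd) hn u hu' ?_
      have h6 := h.r1.r.quad d hd u _ h3
      rw [map_mul, h4, ← eq_mul_inv_iff_mul_eq, h.inv] at h6
      rw [MulAut.mul_apply, h6]
      simpa only [mul_comm, mul_left_comm, mul_assoc, h.sq, h.sq', mul_one] using h2 (d u)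
    rw [← h4, eq_inv_of_mul_eq_one_left h5, h.dinv' hd]
  ext v
  obtain ⟨d, hd, e₁⟩ := h.dec hu' v
  have := h1 _ e₁
  rw [map_mul, map_mul, k d hd, h1 u hu] at this
  exact mul_right_cancel this

theorem mover {f : MulAut V} (e : cj f D' = D') (hf : f * f = 1) : ∃ d ∈ D', Commute f d ∧
    ∀ x ∈ fx D, x ∉ fx D' → d x ∉ fx D := by
  obtain ⟨d, hd, h1, h2⟩ : ∃ d ∈ D', d ≠ 1 ∧ Commute f d := by
    obtain ⟨⟨d, hd⟩, h1⟩ := ne_bot_iff_exists_ne_one.1 h.r1.r.ne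
    have h3 : f * d * f⁻¹ ∈ D' := e ▸ conj_mem_cj.2 hd
    by_cases hc : d * (f * d * f⁻¹) = 1
    · refine ⟨d, hd, fun e => h1 (Subtype.ext e), ?_⟩
      have := (eq_inv_of_mul_eq_one_right hc).trans (h.dinv' hd)
      exact mul_inv_eq_iff_eq_mul.1 this
    · refine ⟨_, mul_mem hd h3, hc, ?_⟩
      have h4 := h.dinv' (mul_mem hd h3)
      rw [mul_inv_rev, h.dinv' hd, h.dinv' h3] at h4
      rw [commute_iff_eq, inv_eq_of_mul_eq_one_right hf] at *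
      conv_lhs => rw [← h4]
      simp only [← mul_assoc, hf, one_mul]
      rw [mul_assoc _ f f, hf, mul_one]
  exact ⟨d, hd, h2, fun x hx hx' h3 => h.r1.r.inj d hd h1 x hx' (mul_mem h3 hx)⟩

omit h in
/-- The conjugates of `D`. -/
def Pt (K D : Subgroup (MulAut V)) : Type u := {X : Subgroup (MulAut V) // ∃ g ∈ K, cj g D = X}

omit h in
instance : MulAction K (Pt K D) where
  smul g X := ⟨cj g X.1, by
    obtain ⟨x, hx, e⟩ := X.2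
    exact ⟨g * x, mul_mem g.2 hx, by rw [cj_mul, e]⟩⟩
  one_smul X := Subtype.ext (cj_one _)
  mul_smul g g' X := Subtype.ext (cj_mul _ _ _)

omit h in
theorem smul_eq {g : K} {X Y : Pt K D} : g • X = Y ↔ cj (g : MulAut V) X.1 = Y.1 := Subtype.ext_iff

theorem comm (hS : Fus.IsSylowIn 2 D K) {t : MulAut V} (tK : t ∈ K) (tt : t * t = 1)
    (t₁ : cj t D = D') {a b : MulAut V} (ha : a ∈ D) (hb : b ∈ D) (a1 : a ≠ 1) (b1 : b ≠ 1)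
    (hab : a ≠ b) : ∃ R : Subgroup (MulAut V), (∀ x ∈ R, ∀ y ∈ R, Commute x y) ∧
      (∀ x ∈ R, x ∈ K ∧ cj x D = D) ∧
      ∀ n ∈ K, n * n = 1 → cj n D = D' → cj n D' = D → n * t ∈ R := by
  let α : Pt K D := ⟨D, 1, one_mem _, cj_one _⟩
  let β : Pt K D := ⟨D', h.ex⟩
  have o2 : ∀ x (hx : x ∈ D), x ≠ 1 → orderOf (⟨x, h.le hx⟩ : K) = 2 := fun x hx h1 =>
    BS.orderOf_eq_two (Subtype.ext (h.r1.l.sq x hx)) fun e => h1 (congrArg Subtype.val e)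
  have H : BS.Hyp α β (⟨t, tK⟩ : K) (D.subgroupOf K) :=
    { ne := fun e => h.ne (congrArg Subtype.val e)
      tt := Subtype.ext tt
      ta := smul_eq.2 t₁
      Qa := fun x hx => smul_eq.2 (cj_eq_of_mem hx)
      Qn := fun g hg x hx => by
        have := conj_mem_cj (g := (g : MulAut V)).2 hx
        rwa [smul_eq.1 hg] at this
      tr := fun γ hγ => by
        obtain ⟨g, hg, e⟩ := γ.2
        obtain ⟨d, hd, e'⟩ := (h.all g hg).resolve_left fun e' => hγ (Subtype.ext (e.symm.trans e'))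
        exact ⟨⟨d, h.le hd⟩, hd, smul_eq.2 (e'.symm.trans e)⟩
      reg := fun x hx e => Subtype.ext (h.eq_one hx (smul_eq.1 e))
      evenQ := ⟨⟨a, h.le ha⟩, ha, o2 a ha a1⟩
      oddD := fun g h1 h2 => by
        by_contra hn
        obtain ⟨m, hm⟩ := Nat.not_odd_iff_even.1 hn
        have h3 : orderOf (g ^ m) = 2 := by
          have := orderOf_pos g
          rw [orderOf_pow' _ (by omega), hm, ← two_mul, Nat.gcd_mul_left_left,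
            Nat.mul_div_cancel _ (by omega)]
        have h4 : (g : MulAut V) ^ m ∈ D := hS.le_of_le_normalizer (zpowers_le.2 (pow_mem g.2 m))
          (isPGroup_zpowers (k := 1) (congrArg Subtype.val (h3 ▸ pow_orderOf_eq_one (g ^ m))))
          (zpowers_le.2 (pow_mem (cj_eq_iff.1 (smul_eq.1 h1)) m)) (mem_zpowers _)
        exact BS.ne_one_of_orderOf h3 (Subtype.ext (h.eq_one h4
          (smul_eq.1 (BS.pow_smul_fixed h2 m)))) }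
  obtain ⟨s, r, Q0, R, hR⟩ := H.exists_rich FT.oddOrder (a := ⟨a, h.le ha⟩) (b := ⟨b, h.le hb⟩)
    ha hb (o2 a ha a1) (o2 b hb b1) fun e => hab (congrArg Subtype.val e)
  refine ⟨R.map K.subtype, ?_, ?_, fun n nK nn n₁ n₂ => ⟨⟨n * t, mul_mem nK tK⟩, (hR.memK _).2
    ⟨smul_eq.2 ?_, smul_eq.2 ?_, Subtype.ext ?_⟩, rfl⟩⟩
  · rintro _ ⟨x, hx, rfl⟩ _ ⟨y, hy, rfl⟩
    have := hR.cyc
    have := congrArg (fun z : R => ((z : K) : MulAut V)) (mul_comm' (⟨x, hx⟩ : R) ⟨y, hy⟩)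
    exact this
  · rintro _ ⟨x, hx, rfl⟩
    exact ⟨x.2, smul_eq.1 ((hR.memK x).1 hx).1⟩
  · exact (cj_mul _ _ _).trans (t₁ ▸ n₂)
  · change cj (n * t) D' = D'
    rw [cj_mul, ← t₁, ← cj_mul t, tt, cj_one, n₁, t₁]
  · change t * (n * t) * t = (n * t)⁻¹
    rw [mul_inv_rev, inv_eq_of_mul_eq_one_right nn, inv_eq_of_mul_eq_one_right tt, mul_assoc,
      mul_assoc, tt, mul_one]

omit h in
theorem exists_coord_aut {R : Subgroup (MulAut V)} {A B : Subgroup V}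
    (hR : ∀ a ∈ R, ∀ b ∈ R, Commute a b) (hA : ∀ k ∈ R, ∀ x ∈ A, k x ∈ A)
    (hB : ∀ k ∈ R, ∀ x ∈ B, k x ∈ B) (hBA : B ≤ A)
    (hirr : ∀ x ∈ A, x ∉ B → ∀ y ∈ A, y ∉ B → ∃ k ∈ R, (k x)⁻¹ * y ∈ B) {e : V} (he : e ∈ A)
    (he' : e ∉ B) : ∃ (F : Type) (_ : Field F) (_ : Fintype F) (c : V → F) (χ : MulAut V → F),
      (∀ x ∈ A, ∀ y ∈ A, c (x * y) = c x + c y) ∧ (∀ x ∈ A, c x = 0 ↔ x ∈ B) ∧
      (∀ t, ∃ x ∈ A, c x = t) ∧ (∀ k ∈ R, ∀ x ∈ A, c (k x) = χ k * c x) := by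
  let L := MulAction.toPermHom V V
  let P := MulAut.toPerm V
  have hL : Function.Injective L := MulAction.toPerm_injective
  have cj : ∀ k x, P k * L x * (P k)⁻¹ = L (k x) := fun k x => by
    rw [mul_inv_eq_iff_eq_mul]; ext y; exact map_mul k x y
  have mm : ∀ {X : Subgroup V} {x : V}, L x ∈ X.map L ↔ x ∈ X := fun {X x} => mem_map_iff_mem hL
  obtain ⟨F, iF, iE, φ, χ, c, -, -⟩ := BS.exists_coord (R := R.map P) (A := A.map L) (B := B.map L)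
    (by rintro _ ⟨a, ha, rfl⟩ _ ⟨b, hb, rfl⟩; exact (hR a ha b hb).map P)
    (by rintro _ ⟨a, ha, rfl⟩ _ ⟨b, hb, rfl⟩; rw [cj]; exact mm.2 (hA a ha b hb))
    (by rintro _ ⟨a, ha, rfl⟩ _ ⟨b, hb, rfl⟩; rw [cj]; exact mm.2 (hB a ha b hb))
    (map_mono hBA)
    (by
      rintro _ ⟨a, ha, rfl⟩ _ ⟨b, hb, rfl⟩
      rw [← map_mul, mul_comm a, map_mul, mul_inv_cancel_right, mul_inv_cancel]; exact one_mem _)
    (fun C h1 h2 h3 => or_iff_not_imp_left.2 fun hn => le_antisymm h2 <| by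
      obtain ⟨x, hx, hx'⟩ := SetLike.not_le_iff_exists.1 fun h4 => hn (le_antisymm h4 h1)
      obtain ⟨x, hxA, rfl⟩ := h2 hx
      rintro _ ⟨y, hy, rfl⟩
      by_cases hyB : y ∈ B
      · exact h1 (mm.2 hyB)
      obtain ⟨k, hk, e⟩ := hirr x hxA (fun h4 => hx' (mm.2 h4)) y hy hyB
      have := mul_mem (h3 _ ⟨k, hk, rfl⟩ _ hx) (h1 (mm.2 e))
      rwa [cj, ← map_mul, mul_inv_cancel_left] at this) (mm.2 he) (mt mm.1 he')
  refine ⟨F, iF, iE, fun x => φ (L x), fun k => χ (P k), fun x hx y hy => ?_,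
    fun x hx => (c.ker _ (mm.2 hx)).trans mm, fun t => ?_, fun k hk x hx => ?_⟩
  · simp only [map_mul]; exact c.add _ (mm.2 hx) _ (mm.2 hy)
  · obtain ⟨_, ⟨x, hx, rfl⟩, e⟩ := c.surj t
    exact ⟨x, hx, e⟩
  · simp only [← cj]; exact c.conj _ ⟨k, hk, rfl⟩ _ (mm.2 hx)

theorem coords (hS : Fus.IsSylowIn 2 D K) : ∃ (F : Type) (_ : Field F) (_ : Fintype F)
    (_ : CharP F 2) (a c : V → F) (α : MulAut V → F), (∀ x y, a (x * y) = a x + a y) ∧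
    (∀ x, a x = 0 ↔ x ∈ fx D) ∧ (∀ t, ∃ x, a x = t) ∧
    (∀ x ∈ fx D, ∀ y ∈ fx D, c (x * y) = c x + c y) ∧ (∀ x ∈ fx D, c x = 0 ↔ x ∈ fx D') ∧
    (∀ t, ∃ x ∈ fx D, c x = t) ∧ (∀ x ∈ D, ∀ y ∈ D, α (x * y) = α x + α y) ∧
    (∀ x ∈ D, α x = 0 ↔ x = 1) ∧ (∀ t, ∃ x ∈ D, α x = t) ∧
    (∀ d ∈ D, ∀ v, c (d v * v) = α d * a v) ∧
    ∀ μ ≠ 0, ∃ g ∈ K, cj g D = D ∧ (∀ x ∈ fx D ⊓ fx D', g x = x) ∧ (∀ v, μ * a (g v) = a v) ∧
      ∀ x ∈ fx D, c (g x) = μ * c x := by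
  obtain ⟨⟨d₀, hd₀⟩, h0⟩ := ne_bot_iff_exists_ne_one.1 h.r1.l.ne
  replace h0 : d₀ ≠ 1 := fun e => h0 (Subtype.ext e)
  choose! n nK nn n₁ n₂ n₃ n₄ using fun d (hd : d ∈ D) => h.swap hd
  obtain ⟨R, hR, hRK, hn⟩ : ∃ R : Subgroup (MulAut V), (∀ x ∈ R, ∀ y ∈ R, Commute x y) ∧
      (∀ x ∈ R, x ∈ K ∧ cj x D = D) ∧ ∀ d ∈ D, d ≠ 1 → n d * n d₀ ∈ R := by
    by_cases hc : ∀ d ∈ D, d ≠ 1 → d = d₀
    · exact ⟨⊥, by simp, by simp [cj_one, one_mem], fun d hd h1 => by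
        rw [hc d hd h1, nn _ hd₀ h0]; exact one_mem _⟩
    push Not at hc
    obtain ⟨d, hd, h1, h2⟩ := hc
    obtain ⟨R, k₁, k₂, k₃⟩ := h.comm hS (nK _ hd₀ h0) (nn _ hd₀ h0) (n₁ _ hd₀ h0) hd hd₀ h1 h0 h2
    exact ⟨R, k₁, k₂, fun d hd h1 => k₃ _ (nK _ hd h1) (nn _ hd h1) (n₁ _ hd h1) (n₂ _ hd h1)⟩
  have m₁ : ∀ d ∈ D, d ≠ 1 → ∀ u, n d u ∈ fx D' ↔ u ∈ fx D := fun d hd h1 u => by
    rw [← n₁ _ hd h1, map_mem_fx_cj]
  have m₂ : ∀ d ∈ D, d ≠ 1 → ∀ u, n d u ∈ fx D ↔ u ∈ fx D' := fun d hd h1 u => by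
    conv_lhs => rw [← n₂ _ hd h1, map_mem_fx_cj]
  have tt : ∀ d ∈ D, d ≠ 1 → ∀ u, n d (n d u) = u := fun d hd h1 u => by
    rw [← MulAut.mul_apply, nn _ hd h1, MulAut.one_apply]
  obtain ⟨e, he, he'⟩ := nle h.r1.l
  obtain ⟨F, iF, iE, c, χ, c₁, c₂, c₃, c₄⟩ := exists_coord_aut (A := fx D) (B := fx D ⊓ fx D') hR
    (fun k hk x hx => (map_mem_fx (hRK k hk).2).2 hx) (fun k hk x hx => h.map_C (hRK k hk).1 hx)
    inf_le_left (fun u hu hu₁ u' hu' hu₂ => by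
      obtain ⟨d, hd, e⟩ := h.r1.l.surj (n d₀ u) (fun e => hu₁ ⟨hu, (m₂ _ hd₀ h0 _).1 e⟩) u' hu'
      have h1 : d ≠ 1 := by rintro rfl; exact hu₂ ⟨hu', by simpa [h.sq] using e⟩
      have w := (m₁ _ hd₀ h0 _).2 hu
      refine ⟨_, hn d hd h1, mem_inf.2 ⟨mul_mem (inv_mem ((m₂ d hd h1 _).2 w)) hu', ?_⟩⟩
      simpa only [MulAut.mul_apply, mul_comm, mul_left_comm, mul_assoc, h.sq, h.sq', mul_one,
        h.inv] using mul_mem (n₄ _ hd h1 _ w) e) he fun e => he' e.2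
  have c0 : c 1 = 0 := (c₂ 1 (one_mem _)).2 (one_mem _)
  have two : ∀ t : F, t + t = 0 := fun t => by
    obtain ⟨x, hx, rfl⟩ := c₃ t
    rw [← c₁ x hx x hx, h.sq, c0]
  have iC : CharP F 2 := CharTwo.of_one_ne_zero_of_two_eq_zero one_ne_zero
    (by rw [← two 1]; norm_num)
  have c₅ : ∀ x ∈ fx D, ∀ y ∈ fx D, x * y ∈ fx D' → c x = c y := fun x hx y hy e => by
    have := (c₂ _ (mul_mem hx hy)).2 ⟨mul_mem hx hy, e⟩
    rw [c₁ x hx y hy] at this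
    linear_combination this - two (c y)
  have q := h.r1.l.quad
  have k₀ : ∀ d ∈ D, ∀ x ∈ fx D, ∀ w, d (x * w) * (x * w) = d w * w := fun d hd x hx w => by
    simp only [map_mul, hx d hd, mul_comm, mul_left_comm, mul_assoc, h.sq, h.sq', mul_one]
  have k₁ : ∀ d ∈ D, d ≠ 1 → ∀ w ∈ fx D', c (d w * w) = c (n d w) := fun d hd h1 w hw =>
    (c₅ _ ((m₂ d hd h1 w).2 hw) _ (q d hd w) (n₄ _ hd h1 w hw)).symm
  have k₂ : ∀ d ∈ D, d ≠ 1 → ∀ v, c (d v * v) = χ (n d * n d₀) * c (d₀ v * v) := fun d hd h1 v => by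
    obtain ⟨x, hx, w, hw, rfl⟩ := h.dec' v
    rw [k₀ d hd x hx, k₀ d₀ hd₀ x hx, k₁ d hd h1 w hw, k₁ d₀ hd₀ h0 w hw,
      ← c₄ _ (hn d hd h1) _ ((m₂ _ hd₀ h0 w).2 hw), MulAut.mul_apply, tt _ hd₀ h0]
  have a₃ : ∀ t, ∃ x, c (d₀ x * x) = t := fun t => by
    obtain ⟨u, hu, rfl⟩ := c₃ t
    exact ⟨n d₀ u, by rw [k₁ _ hd₀ h0 _ ((m₁ _ hd₀ h0 _).2 hu), tt _ hd₀ h0]⟩
  have a₂ : ∀ d ∈ D, d ≠ 1 → ∀ x, c (d x * x) = 0 ↔ x ∈ fx D := fun d hd h1 x =>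
    ⟨fun e => by_contra fun hx => h.r1.l.inj d hd h1 x hx ((c₂ _ (q d hd x)).1 e).2,
      fun hx => by rw [hx d hd, h.sq, c0]⟩
  obtain ⟨v₀, hv₀⟩ := a₃ 1
  have hv : v₀ ∉ fx D := fun e => one_ne_zero (hv₀.symm.trans ((a₂ _ hd₀ h0 _).2 e))
  have α₃ : ∀ t, ∃ d ∈ D, c (d v₀ * v₀) = t := fun t => by
    obtain ⟨u, hu, rfl⟩ := c₃ t
    obtain ⟨d, hd, e⟩ := h.r1.l.surj v₀ hv u hu
    exact ⟨d, hd, (c₅ _ hu _ (q d hd _) e).symm⟩
  refine ⟨F, iF, iE, iC, fun v => c (d₀ v * v), c, fun d => c (d v₀ * v₀), fun x y => ?_,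
    a₂ _ hd₀ h0, a₃, c₁, fun x hx => (c₂ x hx).trans ⟨fun e => e.2, fun e => ⟨hx, e⟩⟩, c₃,
    fun x hx y hy => ?_, fun x hx => ⟨fun e => by_contra fun h1 => hv ((a₂ x hx h1 _).1 e), ?_⟩, α₃,
    fun d hd v => ?_, fun μ hμ => ?_⟩
  · simp only [← c₁ _ (q _ hd₀ x) _ (q _ hd₀ y), map_mul, mul_mul_mul_comm]
  · have := q y hy v₀ x hx
    rw [map_mul, ← eq_mul_inv_iff_mul_eq, h.inv] at this
    simp only [← c₁ _ (q _ hx v₀) _ (q _ hy v₀), MulAut.mul_apply, this]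
    congr 1
    simp only [mul_comm, mul_left_comm, mul_assoc, h.sq, h.sq', mul_one]
  · rintro rfl; simp [h.sq, c0]
  · by_cases h1 : d = 1
    · simp [h1, h.sq, c0]
    · simp only [k₂ d hd h1, hv₀, mul_one]
  · obtain ⟨d, hd, e⟩ := α₃ μ
    have h1 : d ≠ 1 := by rintro rfl; exact hμ (by simpa [h.sq, c0] using e.symm)
    rw [k₂ d hd h1, hv₀, mul_one] at e
    have g₁ := hRK _ (hn d hd h1)
    refine ⟨n d * n d₀, g₁.1, g₁.2, fun x hx => ?_, fun v => ?_,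
      fun x hx => e ▸ c₄ _ (hn d hd h1) x hx⟩
    · rw [MulAut.mul_apply, n₃ _ hd₀ h0 x hx, n₃ _ hd h1 x hx]
    · obtain ⟨x, hx, w, hw, rfl⟩ := h.dec' v
      have w₁ := (m₂ _ hd₀ h0 w).2 hw
      have w₂ := (m₁ d hd h1 _).2 w₁
      beta_reduce
      rw [map_mul (n d * n d₀), k₀ d₀ hd₀ _ ((map_mem_fx g₁.2).2 hx), k₀ d₀ hd₀ _ hx,
        MulAut.mul_apply, k₁ _ hd₀ h0 _ hw, k₁ _ hd₀ h0 _ w₂, ← e, ← c₄ _ (hn d hd h1) _ ((m₂ _ hd₀ h0 _).2 w₂),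
        MulAut.mul_apply, tt _ hd₀ h0, tt _ hd h1]

end Rk

end Cfsg.Agent.MP.Stg
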