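import Cfsg.Agent.Lib.MP.StgG
import Cfsg.Agent.Lib.MP.StgM

/-!
Row STG of statement 5175: symmetry of the configuration and its one sided consequences.
-/

set_option autoImplicit false
set_option linter.unusedSimpArgs false
set_option linter.unusedSectionVars false

namespace Cfsg.Agent.MP.Stg

open Subgroup Cfsg.Agent.Tr Cfsg.Agent.Fus Cfsg.FusionSystem
open Cfsg.Agent.Fus2 (M afn img HomOn afn_apply afn_mul afn_mem)
open scoped commutatorElement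

universe u

section Tr

variable {V W : Type*} [Group V] [Group W] (e : V ≃* W) {D D' : Subgroup (MulAut V)}

theorem mem_fx_map {v : V} : e v ∈ fx (D.map (MulAut.congr e).toMonoidHom) ↔ v ∈ fx D :=
  ⟨fun h d hd => e.injective (by simpa using h _ ⟨d, hd, rfl⟩), by
    rintro h _ ⟨d, hd, rfl⟩; simpa using h d hd⟩

theorem hf_map (h : Hf D D') :
    Hf (D.map (MulAut.congr e).toMonoidHom) (D'.map (MulAut.congr e).toMonoidHom) := by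
  have k : ∀ (d : MulAut V) v, (MulAut.congr e).toMonoidHom d (e v) * e v = e (d v * v) :=
    fun d v => by simp
  refine ⟨mt (map_eq_bot_iff_of_injective _ (MulAut.congr e).injective).1 h.ne, ?_, ?_, ?_, ?_, ?_⟩
  · rintro _ ⟨d, hd, rfl⟩; rw [← map_mul, h.sq d hd, map_one]
  · rintro _ ⟨d, hd, rfl⟩ v
    obtain ⟨v, rfl⟩ := e.surjective v
    rw [k, mem_fx_map]; exact h.quad d hd v
  · rw [card_map_of_injective (MulAut.congr e).injective, ← h.idx, ← index_map_equiv _ e]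
    congr 1; ext v
    obtain ⟨v, rfl⟩ := e.surjective v
    rw [mem_fx_map]; exact (mem_map_iff_mem e.injective).symm
  · rintro _ ⟨d, hd, rfl⟩ h1 v hv
    obtain ⟨v, rfl⟩ := e.surjective v
    rw [k, mem_fx_map]
    exact h.inj d hd (by rintro rfl; exact h1 (map_one _)) v (mt (mem_fx_map e).2 hv)
  · intro v hv w hw
    obtain ⟨v, rfl⟩ := e.surjective v
    obtain ⟨w, rfl⟩ := e.surjective w
    obtain ⟨d, hd, h1⟩ := h.surj v (mt (mem_fx_map e).2 hv) w ((mem_fx_map e).1 hw)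
    exact ⟨_, ⟨d, hd, rfl⟩, by rwa [k, ← map_mul, mem_fx_map]⟩

theorem cj_map {G H : Type*} [Group G] [Group H] (φ : G →* H) (g : G) (A : Subgroup G) :
    cj (φ g) (A.map φ) = (cj g A).map φ := by
  rw [cj, cj, map_map, map_map]; congr 1; ext x; simp

end Tr

variable {Ω : Type u} [Group Ω] {S : Subgroup Ω} [Finite S] {F : FusionSystem S}
  {E₁ E₂ : Subgroup Ω} {s : Ω} {l : MulAut E₁}

/-- A copy of `Cfg` for dot notation. -/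
def CF (F : FusionSystem S) (E₁ E₂ : Subgroup Ω) (s : Ω) (l : MulAut E₁) : Prop := Cfg F E₁ E₂ s l

/-- The largest `Aut_F(E₁)`-invariant subgroup of `E₁ ∩ E₂`. -/
def Cc (F : FusionSystem S) (E₁ E₂ : Subgroup Ω) : Subgroup Ω where
  carrier := {x | x ∈ E₁ ∧ ∀ g ∈ F.autGroup E₁, afn g x ∈ E₂}
  one_mem' := ⟨one_mem _, fun g _ => by rw [(Fus2.homOn_afn g).map_one]; exact one_mem _⟩
  mul_mem' := fun ha hb => ⟨mul_mem ha.1 hb.1, fun g hg => by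
    rw [(Fus2.homOn_afn g).map_mul ha.1 hb.1]; exact mul_mem (ha.2 g hg) (hb.2 g hg)⟩
  inv_mem' := fun ha => ⟨inv_mem ha.1, fun g hg => by
    rw [(Fus2.homOn_afn g).map_inv ha.1]; exact inv_mem (ha.2 g hg)⟩

theorem Cc_le : Cc F E₁ E₂ ≤ E₁ ⊓ E₂ := fun x hx =>
  ⟨hx.1, by simpa [afn_apply _ hx.1] using hx.2 1 (one_mem _)⟩

theorem Cc_inv {g : Ω → Ω} (hg : M F E₁ g) (h : ∀ x ∈ E₁, g x ∈ E₁) {x : Ω} (hx : x ∈ Cc F E₁ E₂) :
    g x ∈ Cc F E₁ E₂ := by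
  obtain ⟨α, hα, e⟩ := hg.exists_aut' h
  exact ⟨h x hx.1, fun β hβ => by rw [← e x hx.1, ← afn_mul]; exact hx.2 _ (mul_mem hβ hα)⟩

/-- The commutative group structure. -/
@[reducible] def cg {A : Subgroup Ω} (h : EE A) : CommGroup A :=
  { (inferInstance : Group A) with mul_comm := fun x y => Subtype.ext (h.comm x.2 y.2).eq }

/-- The stabilizer of the second point. -/
def St (S E₂ : Subgroup Ω) (l : MulAut E₁) : Subgroup Ω :=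
  ((normalizer (cj l (autInducedBy E₂ E₁) : Set (MulAut E₁))).comap (conjAutHom S E₁)).map
    (normalizerIn S E₁).subtype

omit [Finite S] in
theorem mem_St {x : Ω} (hx : x ∈ normalizerIn S E₁) : x ∈ St S E₂ l ↔
    cj (conjAut E₁ x hx.2) (cj l (autInducedBy E₂ E₁)) = cj l (autInducedBy E₂ E₁) :=
  (mem_map_iff_mem (x := ⟨x, hx⟩) (subtype_injective _)).trans cj_eq_iff.symm

omit [Finite S] in
theorem St_le : St S E₂ l ≤ normalizerIn S E₁ := map_subtype_le _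

namespace CF

variable (h : CF F E₁ E₂ s l)
include h

theorem t : TW E₁ E₂ ⊥ ⊥ := h.tw

theorem le' : E₂ ≤ S := h.s₁ ▸ cj_le_of_mem h.le h.sS

theorem card : Nat.card E₂ = Nat.card E₁ := by rw [← h.s₁, card_cj]

theorem nrm : E₂ ≤ normalizerIn S E₁ := le_inf h.le' h.t.nrm

theorem fin : Finite E₁ := Fus2.finite_of_le h.le

theorem symm : ∃ l', CF F E₂ E₁ s l' := by
  let e : E₁ ≃* E₂ := (cjEquiv s E₁).trans (MulEquiv.subgroupCongr h.s₁)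
  have he : ∀ x, (e x : Ω) = s * x * s⁻¹ := fun _ => rfl
  have hm := Fus2.M_conj F h.le h.sS
  have hi : IsIso F e := isIso_of_eq hm.toHom_mem he
  have hD : autInducedBy E₁ E₂ = (autInducedBy E₂ E₁).map (MulAut.congr e).toMonoidHom := by
    ext β
    obtain ⟨α, rfl⟩ := (MulAut.congr e).surjective β
    refine Iff.trans ?_ (mem_map_iff_mem (MulAut.congr e).injective).symm
    rw [mem_autInducedBy_iff, mem_autInducedBy_iff]
    constructor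
    · rintro ⟨g, hg, k⟩
      refine ⟨s⁻¹ * g * s, mem_cj.1 (h.s₂.symm ▸ hg), fun x => ?_⟩
      have := k (e x)
      rw [congr_apply_apply, he, he] at this
      rw [show (α x : Ω) = s⁻¹ * (s * α x * s⁻¹) * s by group, this]; group
    · rintro ⟨g, hg, k⟩
      refine ⟨s * g * s⁻¹, h.s₂ ▸ conj_mem_cj.2 hg, fun x => ?_⟩
      obtain ⟨x, rfl⟩ := e.surjective x
      rw [congr_apply_apply, he, he, k]; group
  have hN : normalizerIn S E₂ = cj s (normalizerIn S E₁) := by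
    rw [normalizerIn, normalizerIn, cj_inf, ← normalizer_cj, h.s₁, cj_eq_of_mem h.sS]
  refine ⟨(MulAut.congr e).toMonoidHom l, h.le', h.sS, h.s₂, h.s₁, h.t.swap, ⟨h.le', fun Q hQ => ?_⟩,
    fun x hx => ?_, fun A hA h2 hc => ?_, hi.congr_mem h.lF, ?_, fun g hg => ?_⟩
  · rw [hN, card_cj]
    exact h.fn.2 Q (isConj_trans (isConj_iff.2 ⟨e, hi⟩) hQ)
  · rw [← h.s₁, mem_cj]
    refine h.cen ⟨S.mul_mem (S.mul_mem (S.inv_mem h.sS) hx.1) h.sS, fun y hy => ?_⟩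
    have := hx.2 _ (h.s₁ ▸ conj_mem_cj.2 hy : s * y * s⁻¹ ∈ E₂)
    calc y * (s⁻¹ * x * s) = s⁻¹ * (s * y * s⁻¹ * x) * s := by group
      _ = _ := by rw [this]; group
  · rcases h.max (cj s⁻¹ A) (by rwa [cj_le_iff_le_cj_inv, inv_inv, ← hN]) (EE.cj h2 _)
      (by rwa [card_cj, ← h.card]) with e | e <;> rw [cj_eq_iff_eq_cj_inv, inv_inv] at e
    · exact .inl (e.trans h.s₁)
    · exact .inr (e.trans h.s₂)
  · rw [hD, cj_map]; exact ⟨hf_map e h.r1.l, hf_map e h.r1.r⟩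
  · obtain ⟨g, rfl⟩ := (MulAut.congr e).surjective g
    change cj ((MulAut.congr e).toMonoidHom g) _ = _ ∨ ∃ d, _ ∧ cj ((MulAut.congr e).toMonoidHom g) _ = _
    rw [hD, cj_map]
    rcases h.all g (hi.congr_mem_iff.1 hg) with k | ⟨d, hd, k⟩
    · exact .inl (by rw [k])
    · exact .inr ⟨_, ⟨d, hd, rfl⟩, by rw [k, ← map_mul, cj_map]⟩

theorem rk : Rk (F.autGroup E₁) (autInducedBy E₂ E₁) (cj l (autInducedBy E₂ E₁)) :=
  ⟨fun v => Subtype.ext (h.t.sq₁ v v.2), (autInducedBy_mono h.le' _).trans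
    (autInducedBy_le_autGroup h.le), ⟨l, h.lF, rfl⟩, h.r1, fun g hg => by
      simpa only [cj_mul] using h.all g hg⟩

theorem ca {b : Ω} (hb : b ∈ E₂) : conjAut E₁ b (h.t.nrm hb) ∈ autInducedBy E₂ E₁ :=
  conjAut_mem_autInducedBy hb _

theorem ca_apply {b : Ω} (hb : b ∈ E₂) (v : E₁) :
    ((conjAut E₁ b (h.t.nrm hb) v * v : E₁) : Ω) = ⁅(v : Ω), b⁆ := by
  rw [← h.t.cm_symm v.2 hb, commutatorElement_def, h.t.e₁.inv v.2]; rfl

theorem exists_ca {d : MulAut E₁} (hd : d ∈ autInducedBy E₂ E₁) :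
    ∃ b, ∃ hb : b ∈ E₂, d = conjAut E₁ b (h.t.nrm hb) := by
  obtain ⟨b, hb, e⟩ := mem_autInducedBy_iff'.1 hd
  exact ⟨b, hb.1, e⟩

theorem ca_eq_one {b : Ω} (hb : b ∈ S) (hn : b ∈ normalizer (E₁ : Set Ω)) :
    conjAut E₁ b hn = 1 ↔ b ∈ E₁ :=
  (conjAut_eq_one_iff hn).trans ⟨fun e => h.cen ⟨hb, e⟩, fun e y hy => (h.t.e₁.comm hy e).eq⟩

theorem mem_fx {v : E₁} : v ∈ fx (autInducedBy E₂ E₁) ↔ (v : Ω) ∈ E₂ := by
  refine ⟨fun hv => by_contra fun hn => h.t.ne₂ fun b hb => h.t.mem_of_cm v.2 hn hb ?_,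
    fun hv d hd => ?_⟩
  · rw [← h.ca_apply hb, hv _ (h.ca hb)]; exact h.t.sq₁ _ v.2
  · obtain ⟨b, hb, rfl⟩ := h.exists_ca hd
    exact Subtype.ext (mul_inv_eq_iff_eq_mul.2 (h.t.e₂.comm hb hv).eq)

theorem mem_C {v : E₁} : (v : Ω) ∈ Cc F E₁ E₂ ↔
    v ∈ fx (autInducedBy E₂ E₁) ⊓ fx (cj l (autInducedBy E₂ E₁)) := by
  let := cg h.t.e₁
  rw [h.rk.mem_C_iff]
  simp only [h.mem_fx]
  exact ⟨fun hv g hg => by simpa using hv.2 g hg, fun hv => ⟨v.2, fun g hg => by simpa using hv g hg⟩⟩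

theorem nc {a b : Ω} (ha : a ∈ E₁) (ha' : a ∉ E₂) (hb : b ∈ E₂) (hb' : b ∉ E₁) :
    ⁅a, b⁆ ∉ Cc F E₁ E₂ := fun e => h.r1.l.inj _ (h.ca hb) (mt (h.ca_eq_one (h.le' hb) _).1 hb')
  ⟨a, ha⟩ (mt h.mem_fx.1 ha') (h.mem_C.1 (h.ca_apply hb _ ▸ e)).2

theorem sj : Sj E₁ E₂ (Cc F E₁ E₂) := fun a ha ha' w hw => by
  obtain ⟨d, hd, e⟩ := h.r1.l.surj ⟨a, ha⟩ (mt h.mem_fx.1 ha') ⟨w, hw.1⟩ (h.mem_fx.2 hw.2)
  obtain ⟨b, hb, rfl⟩ := h.exists_ca hd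
  have := h.mem_C.2 ⟨mul_mem (h.mem_fx (v := ⟨w, hw.1⟩).2 hw.2) (h.r1.l.quad _ hd _), e⟩
  exact ⟨b, hb, by rwa [Subgroup.coe_mul, h.ca_apply hb] at this⟩

theorem cj₂ {f : Ω} (hf : f ∈ normalizerIn S E₁) : cj f E₂ = E₂ :=
  (h.max _ (cj_le_of_mem h.nrm hf) (h.t.e₂.cj f) (by rw [card_cj, h.card])).resolve_left
    fun e => h.t.ne₁ (cj_inj.1 ((cj_eq_iff.2 hf.2).trans e.symm)).le

theorem nrm₂ {f : Ω} (hf : f ∈ normalizerIn S E₁) : f ∈ normalizerIn S E₂ :=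
  ⟨hf.1, cj_eq_iff.1 (h.cj₂ hf)⟩

theorem cj_D {f : Ω} (hf : f ∈ normalizerIn S E₁) :
    cj (conjAut E₁ f hf.2) (autInducedBy E₂ E₁) = autInducedBy E₂ E₁ := by
  have := Fus2.finite_of_le h.le' (P := E₂)
  refine cj_eq_of_le (cj_le_iff.2 fun d hd => ?_)
  obtain ⟨b, hb, rfl⟩ := h.exists_ca hd
  rw [← conjAut_inv, ← conjAut_mul, ← conjAut_mul]
  exact conjAut_mem_autInducedBy (h.cj₂ hf ▸ conj_mem_cj.2 hb) _

theorem iv_C {f : Ω} (hf : f ∈ normalizerIn S E₁) : Iv f (Cc F E₁ E₂) := fun _ hx =>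
  Cc_inv (Fus2.M_conj F h.le hf.1) (fun y hy => (mem_normalizer_iff.1 hf.2 y).1 hy) hx

theorem le_St : E₁ ≤ St S E₂ l := fun x hx => by
  rw [mem_St ⟨h.le hx, le_normalizer hx⟩, (h.ca_eq_one (h.le hx) _).2 hx, cj_one]

theorem mem_of_St {b : Ω} (hb : b ∈ E₂) (h' : b ∈ St S E₂ l) : b ∈ E₁ := by
  let := cg h.t.e₁
  have := h.fin
  exact (h.ca_eq_one (h.le' hb) _).1 (h.rk.eq_one (h.ca hb) ((mem_St (h.nrm hb)).1 h'))

theorem adj {f : Ω} (hf : f ∈ normalizerIn S E₁) : ∃ b ∈ E₂, b * f ∈ St S E₂ l := by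
  let := cg h.t.e₁
  have := h.fin
  obtain ⟨d, hd, e⟩ := h.rk.adj (conjAut_mem_autGroup h.le hf.1 hf.2) (h.cj_D hf)
  obtain ⟨b, hb, rfl⟩ := h.exists_ca hd
  exact ⟨b, hb, (mem_St (mul_mem (h.nrm hb) hf)).2 (by rwa [← conjAut_mul] at e)⟩

theorem triv {f : Ω} (hf : f ∈ St S E₂ l) (h1 : ∀ w ∈ E₁ ⊓ E₂, Commute f w)
    (h2 : ∀ z ∈ E₁, Nm f z ∈ E₂) : f ∈ E₁ := by
  let := cg h.t.e₁
  have := h.fin
  refine (h.ca_eq_one (St_le hf).1 _).1 (h.rk.eq_one_of_fix ((mem_St (St_le hf)).1 hf)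
    (fun x hx => Subtype.ext (mul_inv_eq_iff_eq_mul.2 (h1 x ⟨x.2, h.mem_fx.1 hx⟩).eq))
    fun v => h.mem_fx.2 ?_)
  rw [mul_comm]; exact h2 v v.2

theorem mover {f : Ω} (hf : f ∈ St S E₂ l) (ff : f * f ∈ E₁) : ∃ d ∈ F.autGroup E₁,
    (∀ x ∈ E₁, afn d (f * x * f⁻¹) = f * afn d x * f⁻¹) ∧ (∀ x ∈ Cc F E₁ E₂, afn d x = x) ∧
    ∀ x ∈ E₁ ⊓ E₂, x ∉ Cc F E₁ E₂ → afn d x ∉ E₂ := by
  let := cg h.t.e₁
  have := h.fin
  have hn := (St_le hf).2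
  obtain ⟨d, hd, k₁, k₂⟩ := h.rk.mover ((mem_St (St_le hf)).1 hf)
    (by rw [← conjAut_mul]; exact (h.ca_eq_one (h.le ff) _).2 ff)
  refine ⟨d, h.rk.le' hd, fun x hx => ?_, fun x hx => ?_, fun x hx hx' => ?_⟩
  · rw [← Fus2.afn_conjAut hn hx, ← afn_mul, ← k₁.eq, afn_mul, Fus2.afn_conjAut hn (afn_mem _ hx)]
  · rw [afn_apply _ hx.1, (h.mem_C (v := ⟨x, hx.1⟩).1 hx).2 d hd]
  · rw [afn_apply _ hx.1, ← h.mem_fx]
    exact k₂ _ (h.mem_fx.2 hx.2) fun e => hx' (h.mem_C (v := ⟨x, hx.1⟩).2 ⟨h.mem_fx.2 hx.2, e⟩)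

variable (hS : IsPGroup 2 S) (hF : F.IsSaturated 2)
include hS hF

theorem mover' {f : Ω} (hf : f ∈ St S E₂ l) (ff : f * f = 1) (fr : Fr f E₁ ⊥) :
    ∃ a, M F (E₁ ⊔ zpowers f) a ∧ a f = f ∧ (∀ x ∈ E₁, a x ∈ E₁) ∧
      ∀ x ∈ E₁ ⊓ E₂, x ∉ Cc F E₁ E₂ → a x ∉ E₂ := by
  obtain ⟨d, hd, k₁, -, k₃⟩ := h.mover hf (ff ▸ one_mem _)
  have fS : f ∈ S := (St_le hf).1
  have iv : Iv f E₁ := fun y hy => (mem_normalizer_iff.1 (St_le hf).2 y).1 hy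
  have hz : ∀ g ∈ zpowers f, g = 1 ∨ g = f := fun g hg => by
    obtain ⟨n, rfl⟩ := hg
    rcases Int.even_or_odd' n with ⟨m, rfl | rfl⟩ <;> simp [zpow_add, zpow_mul, sq, ff]
  obtain ⟨g, hg, e⟩ := Fus2.receptive_ext (sat_receptive hS hF h.fn)
    ((Fus2.mem_autGroup_iff h.le).1 hd) (Fus2.img_afn d) (R := zpowers f) (zpowers_le.2 (St_le hf))
    fun g hg => by
      rcases hz g hg with rfl | rfl
      · exact ⟨1, one_mem _, by simp⟩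
      · exact ⟨g, fS, k₁⟩
  have f₁ : f ∈ E₁ ⊔ zpowers f := mem_sup_right (mem_zpowers f)
  have fi := inv_eq_of_mul_eq_one_right ff
  have x₁ : f⁻¹ * g f ∈ E₁ := h.cen ⟨S.mul_mem (S.inv_mem fS) (hg.mem f₁), fun y hy => by
    obtain ⟨x, hx, rfl⟩ := (Fus2.homOn_afn d).mem_img.1 ((Fus2.img_afn d).ge hy)
    have := hg.map_conj f₁ (mem_sup_left hx)
    rw [e _ (iv x hx), e x hx, k₁ x hx] at this
    calc _ = f⁻¹ * (f * afn d x * f⁻¹) * g f := by group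
      _ = _ := by rw [this]; group⟩
  obtain ⟨y, hy, e₁⟩ := fr _ x₁ (by
    rw [Nm, mul_inv_cancel_left, fi, mul_assoc, ← mul_assoc (g f), ← hg.map_mul f₁ f₁, ff,
      hg.map_one, one_mul, ff]
    exact one_mem _)
  have e₂ : ∀ x ∈ E₁, y * g x * y⁻¹ = afn d x := fun x hx => by
    rw [e x hx, (h.t.e₁.comm hy (afn_mem _ hx)).eq, mul_inv_cancel_right]
  refine ⟨fun x => y * g x * y⁻¹, hg.comp (Fus2.M_conj F le_rfl (h.le hy)) fun x => hg.mem, ?_,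
    fun x hx => by simp only [e₂ x hx, afn_mem _ hx],
    fun x hx hx' => by simp only [e₂ x hx.1]; exact k₃ x hx hx'⟩
  have e₃ := (eq_inv_of_mul_eq_one_left e₁).trans (h.t.e₁.inv (iv.nm hy))
  rw [inv_mul_eq_iff_eq_mul, Nm, (h.t.e₁.comm hy (iv y hy)).eq, ← mul_assoc, ← mul_assoc,
    ← mul_assoc, ff, one_mul, fi] at e₃
  simp only [e₃, ← mul_assoc, h.t.sq₁ y hy, one_mul, mul_inv_cancel_right]

theorem ext {g : MulAut E₁} (hg : g ∈ F.autGroup E₁)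
    (e : cj g (autInducedBy E₂ E₁) = autInducedBy E₂ E₁) :
    ∃ G, M F (E₁ ⊔ E₂) G ∧ (∀ x ∈ E₁, G x = afn g x) ∧ ∀ y ∈ E₂, G y ∈ E₂ := by
  obtain ⟨G, hG, k⟩ := Fus2.receptive_ext (sat_receptive hS hF h.fn)
    ((Fus2.mem_autGroup_iff h.le).1 hg) (Fus2.img_afn g) h.nrm fun b hb => by
      obtain ⟨b', hb', e'⟩ := h.exists_ca (e ▸ conj_mem_cj.2 (h.ca hb))
      refine ⟨b', h.le' hb', fun x hx => ?_⟩
      rw [← Fus2.afn_conjAut (h.t.nrm hb) hx, ← Fus2.afn_conjAut (h.t.nrm hb') (afn_mem _ hx),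
        ← e', ← afn_mul, ← afn_mul, inv_mul_cancel_right]
  have i₁ : img E₁ G = E₁ := (Fus2.img_congr k).trans (Fus2.img_afn g)
  have h₂ := hG.mono le_sup_right
  rcases h.max (img E₂ G) (Fus2.img_le_iff.2 fun y hy => i₁ ▸
      hG.mem_normalizerIn le_sup_left (mem_sup_right hy) (h.t.nrm hy)) (fun y hy => by
      obtain ⟨z, hz, rfl⟩ := h₂.mem_img.1 hy
      rw [← h₂.homOn.map_mul hz hz, h.t.sq₂ z hz, h₂.homOn.map_one])
    (by rw [h₂.card_img, h.card]) with i₂ | i₂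
  · refine absurd (fun y hy => ?_) h.t.ne₂
    obtain ⟨x, hx, e'⟩ := (hG.mono le_sup_left).mem_img.1
      (i₁.symm ▸ i₂ ▸ Fus2.mem_img_of_mem G hy : G y ∈ img E₁ G)
    exact hG.inj _ (mem_sup_left hx) _ (mem_sup_right hy) e' ▸ hx
  · exact ⟨G, hG, k, fun y hy => i₂ ▸ Fus2.mem_img_of_mem G hy⟩

theorem ext_C {g : MulAut E₁} (hg : g ∈ F.autGroup E₁)
    (e : cj g (autInducedBy E₂ E₁) = autInducedBy E₂ E₁) {x : Ω} (hx : x ∈ Cc F E₂ E₁) :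
    afn g x ∈ Cc F E₂ E₁ := by
  obtain ⟨G, hG, k₁, k₂⟩ := h.ext hS hF hg e
  exact k₁ x (Cc_le hx).2 ▸ Cc_inv (hG.mono le_sup_right) k₂ hx

theorem dich (hC : Cc F E₁ E₂ ⊓ Cc F E₂ E₁ = ⊥) :
    Cc F E₂ E₁ = ⊥ ∨ E₁ ⊓ E₂ ≤ Cc F E₁ E₂ ⊔ Cc F E₂ E₁ := by
  let := cg h.t.e₁
  have := h.fin
  refine or_iff_not_imp_left.2 fun hn w hw => ?_
  obtain ⟨⟨c, hc⟩, h1⟩ := ne_bot_iff_exists_ne_one.1 hn
  by_cases hw' : w ∈ Cc F E₁ E₂
  · exact mem_sup_left hw'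
  have c₁ := (Cc_le hc).2
  have c₂ := h.mem_fx (v := ⟨c, c₁⟩).2 (Cc_le hc).1
  have w₂ := h.mem_fx (v := ⟨w, hw.1⟩).2 hw.2
  obtain ⟨g, hg, e, k⟩ := h.rk.trans c₂ (fun e => h1 (Subtype.ext (mem_bot.1 (hC.le
    ⟨h.mem_C (v := ⟨c, c₁⟩).2 ⟨c₂, e⟩, hc⟩)))) w₂ fun e => hw' (h.mem_C (v := ⟨w, hw.1⟩).2 ⟨w₂, e⟩)
  have k₁ := h.mem_C.2 ⟨mul_mem ((map_mem_fx e).2 c₂) w₂, k⟩
  have k₂ := h.ext_C hS hF hg e hc
  rw [afn_apply _ c₁] at k₂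
  exact (mul_mem_cancel_left (mem_sup_right k₂)).1 (mem_sup_left k₁)

end CF

end Cfsg.Agent.MP.Stg
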