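import Cfsg.Agent.Lib.MP.Defs

/-!
Row STG of statement 5175, the group part: two elementary abelian subgroups acting on each other.
-/

set_option autoImplicit false
set_option linter.unusedSimpArgs false

namespace Cfsg.Agent.MP.Stg

open Subgroup Cfsg.Agent.Tr
open scoped commutatorElement

variable {X : Type*} [Group X] {E₁ E₂ C₁ C₂ A : Subgroup X}

/-- Exponent two (a copy for dot notation). -/
def EE (A : Subgroup X) : Prop := E2 A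

/-- A copy of `Tw` for dot notation. -/
def TW (E₁ E₂ C₁ C₂ : Subgroup X) : Prop := Tw E₁ E₂ C₁ C₂

theorem EE.inv (h : EE A) {a : X} (ha : a ∈ A) : a⁻¹ = a := inv_eq_of_mul_eq_one_right (h a ha)

theorem EE.comm (h : EE A) {a b : X} (ha : a ∈ A) (hb : b ∈ A) : Commute a b := by
  have := h.inv (mul_mem ha hb)
  rw [mul_inv_rev, h.inv ha, h.inv hb] at this
  exact this.symm

theorem EE.cj (h : EE A) (g : X) : EE (cj g A) := fun a ha => by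
  obtain ⟨b, hb, rfl⟩ := mem_cj'.1 ha
  rw [show g * b * g⁻¹ * (g * b * g⁻¹) = g * (b * b) * g⁻¹ by group, h b hb]; group

/-- The norm map of conjugation by `f`. -/
def Nm (f x : X) : X := x * (f * x * f⁻¹)

/-- `A / B` is a free module for `f`. -/
def Fr (f : X) (A B : Subgroup X) : Prop := ∀ x ∈ A, Nm f x ∈ B → ∃ y ∈ A, x * Nm f y ∈ B

/-- Commutators with a fixed element fill `(E₁ ∩ E₂) / C`. -/
def Sj (E₁ E₂ C : Subgroup X) : Prop :=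
  ∀ a ∈ E₁, a ∉ E₂ → ∀ w ∈ E₁ ⊓ E₂, ∃ b ∈ E₂, w * ⁅a, b⁆ ∈ C

/-- `f` normalizes `A`. -/
def Iv (f : X) (A : Subgroup X) : Prop := ∀ x ∈ A, f * x * f⁻¹ ∈ A

variable {f : X}

theorem Iv.nm (h : Iv f A) {x : X} (hx : x ∈ A) : Nm f x ∈ A := mul_mem hx (h x hx)

theorem Iv.inf {B : Subgroup X} (h : Iv f A) (h' : Iv f B) : Iv f (A ⊓ B) :=
  fun x hx => ⟨h x hx.1, h' x hx.2⟩

theorem nm_mul (h : EE A) (n : Iv f A) {x y : X} (hx : x ∈ A) (hy : y ∈ A) :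
    Nm f (x * y) = Nm f x * Nm f y := by
  rw [Nm, Nm, Nm, (h.comm (n x hx) hy).mul_mul_mul_comm]
  group

theorem nm_nm (h : EE A) (n : Iv f A) (ff : f * f ∈ A) {x : X} (hx : x ∈ A) :
    Nm f (Nm f x) = 1 := by
  have : f * Nm f x * f⁻¹ = Nm f x := by
    rw [Nm, (h.comm hx (n x hx)).eq, show f * (f * x * f⁻¹ * x) * f⁻¹ =
      f * f * x * (f * f)⁻¹ * (f * x * f⁻¹) by group, (h.comm ff hx).eq, mul_inv_cancel_right,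
      (h.comm hx (n x hx)).eq]
  rw [Nm, this, h _ (n.nm hx)]

theorem nm_eq_one (h : EE A) {x : X} (hx : x ∈ A) : Nm f x = 1 ↔ Commute f x := by
  rw [Nm, mul_eq_one_iff_inv_eq, h.inv hx, eq_mul_inv_iff_mul_eq, eq_comm]; rfl

theorem Fr.trans {B : Subgroup X} (h : EE A) (n : Iv f A) (ff : f * f ∈ A) (hB : B ≤ A)
    (h₁ : Fr f A B) (h₂ : Fr f B ⊥) : Fr f A ⊥ := fun x hx e => by
  rw [mem_bot] at e
  obtain ⟨y, hy, e₁⟩ := h₁ x hx (e ▸ one_mem _)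
  obtain ⟨z, hz, e₂⟩ := h₂ _ e₁ (by rw [nm_mul h n hx (n.nm hy), e, nm_nm h n ff hy, one_mul]; exact one_mem _)
  exact ⟨y * z, mul_mem hy (hB hz), by rwa [nm_mul h n hy (hB hz), ← mul_assoc]⟩

namespace TW

variable (t : TW E₁ E₂ C₁ C₂)
include t

theorem e₁ : EE E₁ := t.sq₁

theorem e₂ : EE E₂ := t.sq₂

theorem cm' {a b : X} (ha : a ∈ E₁) (hb : b ∈ E₂) : ⁅a, b⁆ ∈ E₁ ⊓ E₂ := t.cm a ha b hb

theorem cm_symm {a b : X} (ha : a ∈ E₁) (hb : b ∈ E₂) : ⁅b, a⁆ = ⁅a, b⁆ := by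
  rw [← commutatorElement_inv, t.e₁.inv (t.cm' ha hb).1]

theorem swap : TW E₂ E₁ C₂ C₁ where
  sq₁ := t.sq₂
  sq₂ := t.sq₁
  le₁ := inf_comm E₁ E₂ ▸ t.le₂
  le₂ := inf_comm E₁ E₂ ▸ t.le₁
  ne₁ := t.ne₂
  ne₂ := t.ne₁
  cm b hb a ha := by
    rw [← commutatorElement_def, t.cm_symm ha hb]; exact ⟨(t.cm' ha hb).2, (t.cm' ha hb).1⟩
  nc b hb hb' a ha ha' := by
    rw [← commutatorElement_def, t.cm_symm ha hb]; exact (t.nc a ha ha' b hb hb').symm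

theorem iv {b : X} (hb : b ∈ E₂) : Iv b E₁ := fun a ha => by
  have := mul_mem (t.swap.cm b hb a ha).2 ha
  rwa [inv_mul_cancel_right] at this

theorem nrm : E₂ ≤ normalizer (E₁ : Set X) := fun b hb =>
  mem_normalizer_iff.2 fun a => ⟨t.iv hb a, fun h => by simpa [mul_assoc] using t.iv (inv_mem hb) _ h⟩

theorem cm_left {a a' b : X} (ha : a ∈ E₁) (ha' : a' ∈ E₁) (hb : b ∈ E₂) :
    ⁅a * a', b⁆ = ⁅a, b⁆ * ⁅a', b⁆ := by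
  rw [show ⁅a * a', b⁆ = a * ⁅a', b⁆ * a⁻¹ * ⁅a, b⁆ by simp only [commutatorElement_def]; group,
    (t.e₁.comm ha (t.cm' ha' hb).1).eq, mul_inv_cancel_right,
    (t.e₁.comm (t.cm' ha hb).1 (t.cm' ha' hb).1).eq]

theorem cm_right {a b b' : X} (ha : a ∈ E₁) (hb : b ∈ E₂) (hb' : b' ∈ E₂) :
    ⁅a, b * b'⁆ = ⁅a, b⁆ * ⁅a, b'⁆ := by
  rw [← t.cm_symm ha (mul_mem hb hb'), t.swap.cm_left hb hb' ha, t.cm_symm ha hb, t.cm_symm ha hb']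

theorem cm_one {a b : X} (ha : a ∈ E₁) (hb : b ∈ E₁) : ⁅a, b⁆ = 1 :=
  commutatorElement_eq_one_iff_commute.2 (t.e₁.comm ha hb)

theorem mem_of_cm {a b : X} (ha : a ∈ E₁) (ha' : a ∉ E₂) (hb : b ∈ E₂) (h : ⁅a, b⁆ ∈ C₁) : b ∈ E₁ :=
  by_contra fun hn => (t.nc a ha ha' b hb hn).1 h

theorem dec {x : X} (hx : x ∈ E₁ ⊔ E₂) : ∃ a ∈ E₁, ∃ b ∈ E₂, a * b = x :=
  (mem_sup_of_le_normalizer' t.nrm).1 hx

theorem mem_or {x : X} (hx : x ∈ E₁ ⊔ E₂) (h : x * x = 1) : x ∈ E₁ ∨ x ∈ E₂ := by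
  obtain ⟨a, ha, b, hb, rfl⟩ := t.dec hx
  by_cases ha' : a ∈ E₂
  · exact .inr (mul_mem ha' hb)
  refine .inl (mul_mem ha (t.mem_of_cm ha ha' hb ?_))
  rw [commutatorElement_def, t.e₁.inv ha, t.e₂.inv hb, mul_assoc, h]
  exact one_mem _

variable {f : X} (n₁ : Iv f E₁) (n₂ : Iv f E₂)
include n₁ n₂

omit t n₁ n₂ in
theorem nm_cm (a b : X) : Nm f ⁅a, b⁆ = ⁅a, b⁆ * ⁅f * a * f⁻¹, f * b * f⁻¹⁆ := by
  rw [Nm, conjugate_commutatorElement]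

theorem half (sj : Sj E₁ E₂ C₁) (c₁ : Iv f C₁) (ff : f * f ∈ E₁) {z : X} (hz : z ∈ E₁)
    (hz' : Nm f z ∉ E₂) : Fr f (E₁ ⊓ E₂) C₁ ∧ Fr f E₂ (E₁ ⊓ E₂) := by
  have d₁ := n₁.nm hz
  have d₂ : f * Nm f z * f⁻¹ = Nm f z := by
    rw [((nm_eq_one t.sq₁ d₁).1 (nm_nm t.sq₁ n₁ ff hz)).eq, mul_inv_cancel_right]
  have k : ∀ b ∈ E₂, Nm f ⁅Nm f z, b⁆ = ⁅Nm f z, Nm f b⁆ := fun b hb => by
    rw [nm_cm, d₂, ← t.cm_right d₁ hb (n₂ b hb)]; rfl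
  have k₁ : Fr f (E₁ ⊓ E₂) C₁ := fun w hw e => by
    obtain ⟨b, hb, e₁⟩ := sj _ d₁ hz' w hw
    have e₂ := c₁.nm e₁
    rw [nm_mul t.sq₁ n₁ hw.1 (t.cm' d₁ hb).1, k b hb] at e₂
    have e₃ := t.mem_of_cm d₁ hz' (n₂.nm hb) ((mul_mem_cancel_left e).1 e₂)
    refine ⟨_, t.cm' hz hb, ?_⟩
    rwa [nm_cm, show f * b * f⁻¹ = b * Nm f b by rw [Nm, ← mul_assoc, t.sq₂ b hb, one_mul],
      t.cm_right (n₁ z hz) hb (n₂.nm hb), t.cm_one (n₁ z hz) e₃, mul_one,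
      ← t.cm_left hz (n₁ z hz) hb]
  refine ⟨k₁, fun b hb e => ?_⟩
  obtain ⟨y, hy, e₁⟩ := k₁ _ (t.cm' d₁ hb) (by rw [k b hb, t.cm_one d₁ e.1]; exact one_mem _)
  obtain ⟨b', hb', e₂⟩ := sj _ d₁ hz' y hy
  have e₃ := mul_mem e₁ (c₁.nm e₂)
  rw [nm_mul t.sq₁ n₁ hy.1 (t.cm' d₁ hb').1, k b' hb', mul_assoc, ← mul_assoc (Nm f y),
    t.sq₁ _ (n₁.nm hy.1), one_mul, ← t.cm_right d₁ hb (n₂.nm hb')] at e₃
  have e₄ := mul_mem hb (n₂.nm hb')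
  exact ⟨b', hb', t.mem_of_cm d₁ hz' e₄ e₃, e₄⟩

theorem free (s₁ : Sj E₁ E₂ C₁) (s₂ : Sj E₂ E₁ C₂) (c₁ : Iv f C₁) (c₂ : Iv f C₂)
    (ff : f * f ∈ E₁ ⊓ E₂) (hC : C₁ ⊓ C₂ = ⊥) (hH : C₂ = ⊥ ∨ E₁ ⊓ E₂ ≤ C₁ ⊔ C₂) {z : X}
    (hz : z ∈ E₁) (hz' : Nm f z ∉ E₂) :
    Fr f (E₁ ⊓ E₂) ⊥ ∧ Fr f E₁ ⊥ ∧ Fr f E₂ ⊥ ∧ ∃ z ∈ E₂, Nm f z ∉ E₁ := by
  obtain ⟨k₁, k₂⟩ := t.half n₁ n₂ s₁ c₁ ff.1 hz hz'
  obtain ⟨z₂, hz₂, hz₂'⟩ : ∃ z ∈ E₂, Nm f z ∉ E₁ := by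
    by_contra! hc
    refine t.ne₂ fun b hb => ?_
    obtain ⟨y, hy, e⟩ := k₂ b hb ⟨hc b hb, n₂.nm hb⟩
    exact (mul_mem_cancel_right (hc y hy)).1 e.1
  obtain ⟨k₃, k₄⟩ := t.swap.half n₂ n₁ s₂ c₂ ff.2 hz₂ hz₂'
  rw [inf_comm] at k₃ k₄
  have k₅ : Fr f (E₁ ⊓ E₂) ⊥ := by
    rcases hH with rfl | hH
    · exact k₃
    refine Fr.trans (fun x hx => t.sq₁ x hx.1) (n₁.inf n₂) ff t.le₁ k₁ fun x hx e => ?_
    obtain ⟨y, hy, e₁⟩ := k₃ x (t.le₁ hx) (mem_bot.1 e ▸ one_mem _)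
    obtain ⟨y₁, h₁, y₂, h₂, rfl⟩ := (mem_sup_of_le_normalizer (fun a ha => mem_normalizer_iff.2
      fun b => ⟨fun hb => by
        rwa [(t.e₁.comm (t.le₁ ha).1 (t.le₂ hb).1).eq, mul_inv_cancel_right], fun hb => by
        have := (t.e₁.comm (t.le₁ ha).1 (t.le₂ hb).1).eq
        rw [mul_assoc, mul_assoc, mul_assoc, inv_mul_cancel, mul_one, mul_right_inj, ← mul_assoc] at this
        rwa [this] at hb⟩)).1 (hH hy)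
    rw [nm_mul t.sq₁ n₁ (t.le₁ h₁).1 (t.le₂ h₂).1, ← mul_assoc, mul_mem_cancel_right (c₂.nm h₂)] at e₁
    exact ⟨y₁, h₁, hC ▸ ⟨mul_mem hx (c₁.nm h₁), e₁⟩⟩
  exact ⟨k₅, Fr.trans t.sq₁ n₁ ff.1 inf_le_left k₄ k₅, Fr.trans t.sq₂ n₂ ff.2 inf_le_right k₂ k₅,
    z₂, hz₂, hz₂'⟩

theorem nm_mem (s₁ : Sj E₁ E₂ C₁) (c₁ : Iv f C₁) (h₁ : ∀ z ∈ E₁, Nm f z ∈ E₂)
    (h₂ : ∀ z ∈ E₂, Nm f z ∈ E₁) {w : X} (hw : w ∈ E₁ ⊓ E₂) : Nm f w ∈ C₁ := by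
  obtain ⟨a, ha, ha'⟩ := SetLike.not_le_iff_exists.1 t.ne₁
  obtain ⟨b, hb, e⟩ := s₁ a ha ha' w hw
  have e₁ := c₁.nm e
  rwa [nm_mul t.sq₁ n₁ hw.1 (t.cm' ha hb).1, nm_cm,
    show f * b * f⁻¹ = b * Nm f b by rw [Nm, ← mul_assoc, t.sq₂ b hb, one_mul],
    t.cm_right (n₁ a ha) hb (n₂.nm hb), t.cm_one (n₁ a ha) (h₂ b hb), mul_one,
    ← t.cm_left ha (n₁ a ha) hb, ← t.cm_symm (mul_mem ha (n₁ a ha)) hb,
    ← Nm, t.swap.cm_one hb (h₁ a ha), mul_one] at e₁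

end TW

variable {K : Type*} [Field K] [CharP K 2]

theorem exists_section (h : EE A) {a : X → K} (h₁ : ∀ x ∈ A, ∀ y ∈ A, a (x * y) = a x + a y)
    (h₂ : ∀ t, ∃ x ∈ A, a x = t) :
    ∃ y : K → X, (∀ t, y t ∈ A) ∧ (∀ t, a (y t) = t) ∧ ∀ t t', y (t + t') = y t * y t' := by
  let : CommGroup A := { (inferInstance : Group A) with
    mul_comm := fun x y => Subtype.ext (h.comm x.2 y.2).eq }
  let : Module (ZMod 2) (Additive A) := AddCommGroup.zmodModule fun x => by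
    rw [two_nsmul]; exact congrArg Additive.ofMul (Subtype.ext (h _ x.toMul.2))
  let := ZMod.algebra K 2
  let φ : Additive A →+ K := AddMonoidHom.mk' (fun x => a x.toMul) fun x y => h₁ _ x.toMul.2 _ y.toMul.2
  obtain ⟨σ, hσ⟩ := (φ.toZModLinearMap 2).exists_rightInverse_of_surjective
    (LinearMap.range_eq_top.2 fun t => by
      obtain ⟨x, hx, e⟩ := h₂ t
      exact ⟨Additive.ofMul ⟨x, hx⟩, e⟩)
  exact ⟨fun t => (σ t).toMul, fun t => (σ t).toMul.2, fun t => LinearMap.congr_fun hσ t,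
    fun t t' => by simp only [map_add]; rfl⟩

/-- An additive section of `A / (A ∩ B)`. -/
structure Sec (A B : Subgroup X) (y : K → X) : Prop where
  mem : ∀ t, y t ∈ A
  add : ∀ t t', y (t + t') = y t * y t'
  ker : ∀ t, y t ∈ B → t = 0
  surj : ∀ e ∈ A, ∃ t, y t * e ∈ B

theorem exists_sec {B : Subgroup X} (h : EE A) {a : X → K}
    (h₁ : ∀ x ∈ A, ∀ y ∈ A, a (x * y) = a x + a y) (h₀ : ∀ x ∈ A, a x = 0 ↔ x ∈ B)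
    (h₂ : ∀ t, ∃ x ∈ A, a x = t) : ∃ y : K → X, Sec A B y ∧ ∀ t, a (y t) = t := by
  obtain ⟨y, y₁, y₂, y₃⟩ := exists_section h h₁ h₂
  exact ⟨y, ⟨y₁, y₃, fun t ht => (y₂ t).symm.trans ((h₀ _ (y₁ t)).2 ht), fun e he => ⟨a e,
    (h₀ _ (mul_mem (y₁ _) he)).1 (by rw [h₁ _ (y₁ _) _ he, y₂, CharTwo.add_self_eq_zero])⟩⟩, y₂⟩

omit [CharP K 2] in
theorem Sec.zero {B : Subgroup X} {y : K → X} (h : Sec A B y) : y 0 = 1 := by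
  simpa using h.add 0 0

theorem Sec.sq [Fintype K] {B : Subgroup X} {y : K → X} (h : Sec A B y) :
    Sec A B fun t => y (t ^ 2) where
  mem t := h.mem _
  add t t' := by rw [CharTwo.add_sq, h.add]
  ker t ht := pow_eq_zero_iff two_ne_zero |>.1 (h.ker _ ht)
  surj e he := by
    obtain ⟨t, ht⟩ := h.surj e he
    obtain ⟨r, rfl⟩ := (frobeniusEquiv K 2).surjective t
    exact ⟨r, ht⟩

theorem TW.gen (t : TW E₁ E₂ C₁ C₂) {W : Type*} [AddCommGroup W] {y x : K → X} {z : W → X}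
    {β : K → K → W} (hy : Sec E₁ E₂ y) (hx : Sec E₂ E₁ x) (z₁ : ∀ w, z w ∈ E₁ ⊓ E₂)
    (z₂ : ∀ w w', z (w + w') = z w * z w') (z₃ : Function.Injective z)
    (z₄ : ∀ e ∈ E₁ ⊓ E₂, ∃ w, z w = e) (hβ : ∀ a b, ⁅y a, x b⁆ = z (β a b)) :
    (∀ e, e ∈ E₁ ⊔ E₂ ↔ ∃ a b w, e = y a * x b * z w) ∧
    (∀ a b w a' b' w', y a * x b * z w * (y a' * x b' * z w') =
      y (a + a') * x (b + b') * z (w + w' + β a' b)) ∧
    (∀ {a b w a' b' w'}, y a * x b * z w = y a' * x b' * z w' → a = a' ∧ b = b' ∧ w = w') ∧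
    (∀ e, e ∈ E₁ ↔ ∃ a w, e = y a * x 0 * z w) ∧ ∀ e, e ∈ E₂ ↔ ∃ b w, e = y 0 * x b * z w := by
  have d₁ : ∀ e ∈ E₁, ∃ a w, e = y a * z w := fun e he => by
    obtain ⟨a, ha⟩ := hy.surj e he
    obtain ⟨w, hw⟩ := z₄ _ ⟨mul_mem (hy.mem a) he, ha⟩
    exact ⟨a, w, by rw [hw, ← mul_assoc, t.sq₁ _ (hy.mem a), one_mul]⟩
  have d₂ : ∀ e ∈ E₂, ∃ a w, e = x a * z w := fun e he => by
    obtain ⟨a, ha⟩ := hx.surj e he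
    obtain ⟨w, hw⟩ := z₄ _ ⟨ha, mul_mem (hx.mem a) he⟩
    exact ⟨a, w, by rw [hw, ← mul_assoc, t.sq₂ _ (hx.mem a), one_mul]⟩
  have c₁ := fun w a => (t.e₁.comm (z₁ w).1 (hy.mem a)).eq
  have c₂ := fun w a => (t.e₂.comm (z₁ w).2 (hx.mem a)).eq
  refine ⟨fun e => ⟨fun he => ?_, ?_⟩, fun a b w a' b' w' => ?_, fun {a b w a' b' w'} e => ?_,
    fun e => ⟨fun he => by simpa only [hx.zero, mul_one] using d₁ e he, ?_⟩,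
    fun e => ⟨fun he => by simpa only [hy.zero, one_mul] using d₂ e he, ?_⟩⟩
  · obtain ⟨a, ha, b, hb, rfl⟩ := t.dec he
    obtain ⟨a, w, rfl⟩ := d₁ a ha
    obtain ⟨b, w', rfl⟩ := d₂ b hb
    exact ⟨a, b, w + w', by rw [z₂, mul_assoc, ← mul_assoc (z w), c₂]; group⟩
  · rintro ⟨a, b, w, rfl⟩
    exact mul_mem (mul_mem_sup (hy.mem a) (hx.mem b)) (mem_sup_left (z₁ w).1)
  · have e : x b * y a' = z (β a' b) * (y a' * x b) := by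
      rw [← hβ, ← t.cm_symm (hy.mem _) (hx.mem _), commutatorElement_def]; group
    rw [hy.add, hx.add, z₂, z₂, (t.e₁.comm (mul_mem (z₁ w).1 (z₁ w').1) (z₁ _).1).eq]
    calc _ = y a * (x b * (z w * y a')) * x b' * z w' := by group
      _ = y a * (z (β a' b) * y a') * x b * (z w * x b') * z w' := by
        rw [c₁, ← mul_assoc (x b), e]; group
      _ = y a * y a' * (z (β a' b) * x b) * x b' * (z w * z w') := by rw [c₁, c₂]; group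
      _ = y a * y a' * x b * (z (β a' b) * x b') * (z w * z w') := by rw [c₂]; group
      _ = _ := by rw [c₂]; group
  · have h1 : a' + a = 0 := hy.ker _ (by
      rw [hy.add, ← t.e₁.inv (hy.mem a'), show (y a')⁻¹ * y a = x b' * z w' * (x b * z w)⁻¹ by
        rw [eq_mul_inv_iff_mul_eq, mul_assoc, ← mul_assoc (y a), e]; group]
      exact mul_mem (mul_mem (hx.mem _) (z₁ _).2) (inv_mem (mul_mem (hx.mem _) (z₁ _).2)))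
    obtain rfl := CharTwo.add_eq_zero.1 h1
    rw [mul_assoc, mul_assoc, mul_right_inj] at e
    have h2 : b' + b = 0 := hx.ker _ (by
      rw [hx.add, ← t.e₂.inv (hx.mem b'), show (x b')⁻¹ * x b = z w' * (z w)⁻¹ by
        rw [eq_mul_inv_iff_mul_eq, mul_assoc, e]; group]
      exact mul_mem (z₁ _).1 (inv_mem (z₁ _).1))
    obtain rfl := CharTwo.add_eq_zero.1 h2
    exact ⟨rfl, rfl, z₃ (mul_left_cancel e)⟩
  · rintro ⟨a, w, rfl⟩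
    rw [hx.zero, mul_one]; exact mul_mem (hy.mem a) (z₁ w).1
  · rintro ⟨a, w, rfl⟩
    rw [hy.zero, one_mul]; exact mul_mem (hx.mem a) (z₁ w).2

/-- Coordinates modulo `C`. -/
structure Crd (E₁ E₂ C : Subgroup X) (a b c : X → K) : Prop where
  a₁ : ∀ x ∈ E₁, ∀ y ∈ E₁, a (x * y) = a x + a y
  a₂ : ∀ x ∈ E₁, a x = 0 ↔ x ∈ E₂
  a₃ : ∀ t, ∃ x ∈ E₁, a x = t
  b₁ : ∀ x ∈ E₂, ∀ y ∈ E₂, b (x * y) = b x + b y
  b₂ : ∀ x ∈ E₂, b x = 0 ↔ x ∈ E₁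
  b₃ : ∀ t, ∃ x ∈ E₂, b x = t
  c₁ : ∀ x ∈ E₁ ⊓ E₂, ∀ y ∈ E₁ ⊓ E₂, c (x * y) = c x + c y
  c₂ : ∀ x ∈ E₁ ⊓ E₂, c x = 0 ↔ x ∈ C
  c₃ : ∀ t, ∃ x ∈ E₁ ⊓ E₂, c x = t
  cm : ∀ x ∈ E₁, ∀ y ∈ E₂, c ⁅x, y⁆ = a x * b y

variable {a b c : X → K}

theorem Crd.h3 (h : Crd E₁ E₂ ⊥ a b c) (t : TW E₁ E₂ C₁ C₂) :
    ∃ D : L3.H3 (E₁ ⊔ E₂) K, D.A₁ = E₁ := by
  obtain ⟨y, hy, ey⟩ := exists_sec t.e₁ h.a₁ h.a₂ h.a₃
  obtain ⟨x, hx, ex⟩ := exists_sec t.e₂ h.b₁ h.b₂ h.b₃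
  obtain ⟨z, hz, ez⟩ := exists_sec (A := E₁ ⊓ E₂) (fun x hx => t.sq₁ x hx.1) h.c₁ h.c₂ h.c₃
  have z₄ : ∀ e ∈ E₁ ⊓ E₂, z (c e) = e := fun e he => by
    obtain ⟨r, hr⟩ := hz.surj e he
    rw [(eq_inv_of_mul_eq_one_right hr).trans (t.e₁.inv (hz.mem r).1), ez]
  obtain ⟨k₁, k₂, k₃, -, k₅⟩ := t.swap.gen (z := z) (β := fun b a => a * b) hx hy
    (fun w => inf_comm E₁ E₂ ▸ hz.mem w) hz.add (fun r r' e => by rw [← ez r, e, ez])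
    (fun e he => ⟨_, z₄ e ⟨he.2, he.1⟩⟩) fun r r' => by
      rw [t.cm_symm (hy.mem _) (hx.mem _), ← z₄ _ (t.cm' (hy.mem _) (hx.mem _)),
        h.cm _ (hy.mem _) _ (hx.mem _), ex, ey]
  refine ⟨⟨fun a b c => x b * y a * z c, fun e => ?_, fun a b c a' b' c' => k₂ .., fun e => ?_⟩, ?_⟩
  · rw [sup_comm, k₁]
    exact ⟨fun ⟨a, b, w, e⟩ => ⟨b, a, w, e⟩, fun ⟨a, b, w, e⟩ => ⟨b, a, w, e⟩⟩
  · exact ⟨(k₃ e).2.1, (k₃ e).1, (k₃ e).2.2⟩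
  · ext e; exact (k₅ e).symm

theorem Crd.co [Fintype K] (h : Crd E₁ E₂ C₁ a b c) (t : TW E₁ E₂ C₁ C₂) (hC : C₁ ⊓ C₂ = ⊥)
    (hH : E₁ ⊓ E₂ ≤ C₁ ⊔ C₂) (s₂ : Sj E₂ E₁ C₂)
    (tor : ∀ μ ≠ 0, ∃ g : X → X, (∀ x ∈ E₁, ∀ y ∈ E₁, g (x * y) = g x * g y) ∧
      (∀ x ∈ C₁, g x = x) ∧ (∀ x ∈ C₂, g x ∈ C₂) ∧ (∀ x ∈ E₁ ⊓ E₂, c (g x) = μ * c x) ∧
      ∀ x ∈ E₁, ∀ y ∈ E₂, ∃ x' ∈ E₁, ∃ y' ∈ E₂, μ * a x' = a x ∧ g ⁅x, y⁆ = ⁅x', y'⁆) :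
    ∃ D : SP4.Co (E₁ ⊔ E₂) K, ∀ x, x ∈ E₁ ↔ ∃ a b c, x = D.f 0 a b c := by
  obtain ⟨y, hy, ey⟩ := exists_sec t.e₁ h.a₁ h.a₂ h.a₃
  obtain ⟨x, hx, ex⟩ := exists_sec t.e₂ h.b₁ h.b₂ h.b₃
  have dH : ∀ e ∈ E₁ ⊓ E₂, ∃ u ∈ C₁, ∃ v ∈ C₂, u * v = e := fun e he =>
    (mem_sup_of_le_normalizer (fun a ha => mem_normalizer_iff.2
      fun b => ⟨fun hb => by
        rwa [(t.e₁.comm (t.le₁ ha).1 (t.le₂ hb).1).eq, mul_inv_cancel_right], fun hb => by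
        have := (t.e₁.comm (t.le₁ ha).1 (t.le₂ hb).1).eq
        rw [mul_assoc, mul_assoc, mul_assoc, inv_mul_cancel, mul_one, mul_right_inj, ← mul_assoc] at this
        rwa [this] at hb⟩)).1 (hH he)
  obtain ⟨ψ, hψ, eψ⟩ := exists_sec (A := C₂) (B := C₁) (a := c) (fun x hx => t.sq₁ x (t.le₂ hx).1)
    (fun x hx y hy => h.c₁ x (t.le₂ hx) y (t.le₂ hy)) (fun x hx => h.c₂ x (t.le₂ hx)) fun r => by
      obtain ⟨e, he, rfl⟩ := h.c₃ r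
      obtain ⟨u, hu, v, hv, rfl⟩ := dH e he
      exact ⟨v, hv, by rw [h.c₁ _ (t.le₁ hu) _ (t.le₂ hv), (h.c₂ _ (t.le₁ hu)).2 hu, zero_add]⟩
  have H : EE (E₁ ⊓ E₂) := fun x hx => t.sq₁ x hx.1
  have ψH := fun r => t.le₂ (hψ.mem r)
  let p : X → X := fun e => e * ψ (c e)
  have p₁ : ∀ e ∈ E₁ ⊓ E₂, p e ∈ C₁ := fun e he => (h.c₂ _ (mul_mem he (ψH _))).1 (by
    rw [h.c₁ _ he _ (ψH _), eψ, CharTwo.add_self_eq_zero])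
  have p₂ : ∀ u ∈ C₁, ∀ v ∈ C₂, p (u * v) = u := fun u hu v hv => by
    have h1 := p₁ _ (mul_mem (t.le₁ hu) (t.le₂ hv))
    simp only [p, mul_assoc] at h1 ⊢
    rw [mem_bot.1 (hC.le ⟨(mul_mem_cancel_left hu).1 h1, mul_mem hv (hψ.mem _)⟩), mul_one]
  have cm := fun r r' => t.cm' (hy.mem r) (hx.mem r')
  have ca : ∀ u ∈ E₁, ∀ v ∈ E₂, ⁅u, v⁆ = ⁅y (a u), x (b v)⁆ := fun u hu v hv => by
    have h1 := (h.a₂ _ (mul_mem (hy.mem (a u)) hu)).1 (by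
      rw [h.a₁ _ (hy.mem _) _ hu, ey, CharTwo.add_self_eq_zero])
    have h2 := (h.b₂ _ (mul_mem (hx.mem (b v)) hv)).1 (by
      rw [h.b₁ _ (hx.mem _) _ hv, ex, CharTwo.add_self_eq_zero])
    have h3 := t.swap.cm_one hv h1
    rw [t.cm_symm (mul_mem (hy.mem _) hu) hv, t.cm_left (hy.mem _) hu hv] at h3
    have h4 := t.cm_one (hy.mem (a u)) h2
    rw [t.cm_right (hy.mem _) (hx.mem _) hv] at h4
    rw [eq_inv_of_mul_eq_one_right h3, eq_inv_of_mul_eq_one_left h4]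
  let φ : K → X := fun r => p ⁅y 1, x r⁆
  have φ₁ : ∀ r, φ r ∈ C₁ := fun r => p₁ _ (cm _ _)
  have φ₀ : φ 0 = 1 := by
    simp only [φ, p, hx.zero, commutatorElement_one_right, (h.c₂ 1 (one_mem _)).2 (one_mem _),
      hψ.zero, mul_one]
  have φ₂ : ∀ r r', φ (r + r') = φ r * φ r' := fun r r' => by
    simp only [φ, p, hx.add, t.cm_right (hy.mem 1) (hx.mem _) (hx.mem _), h.c₁ _ (cm _ _) _ (cm _ _),
      hψ.add]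
    exact (H.comm (cm _ _) (ψH _)).mul_mul_mul_comm _ _
  have φ₃ : ∀ u ∈ E₁, ∀ v ∈ E₂, p ⁅u, v⁆ = φ (a u ^ 2 * b v) := fun u hu v hv => by
    by_cases h0 : a u = 0
    · rw [← t.cm_symm hu hv, t.swap.cm_one hv ((h.a₂ u hu).1 h0), h0, ← one_mul (1 : X),
        p₂ _ (one_mem _) _ (one_mem _), zero_pow two_ne_zero, zero_mul, φ₀]
    obtain ⟨g, g₁, g₂, g₃, g₄, g₅⟩ := tor _ h0
    obtain ⟨u', hu', v', hv', e₁, e₂⟩ := g₅ u hu v hv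
    have e₃ := g₄ _ (t.cm' hu hv)
    rw [mul_right_eq_self₀, or_iff_left h0] at e₁
    rw [e₂, h.cm _ hu' _ hv', h.cm _ hu _ hv, e₁, one_mul, ← mul_assoc, ← sq] at e₃
    obtain ⟨w, hw, w', hw', e₄⟩ := dH _ (t.cm' hu hv)
    rw [← e₃, show φ (b v') = p ⁅u', v'⁆ by rw [ca u' hu' v' hv', e₁], ← e₂, ← e₄,
      g₁ _ (t.le₁ hw).1 _ (t.le₂ hw').1, g₂ w hw, p₂ _ hw _ hw', p₂ _ hw _ (g₃ _ hw')]
  have hφ : Sec C₁ C₂ φ := ⟨φ₁, φ₂, fun r hr => by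
      rw [← ex r]
      refine (h.b₂ _ (hx.mem r)).2 (by_contra fun hn => (t.nc _ (hy.mem 1)
        (fun e => one_ne_zero (hy.ker _ e)) _ (hx.mem r) hn).2 ?_)
      exact (mul_mem_cancel_right (hψ.mem _)).1 hr, fun e he => by
      obtain ⟨u, hu, e₁⟩ := s₂ _ (hx.mem 1) (fun e => one_ne_zero (hx.ker _ e)) e
        ⟨(t.le₁ he).2, (t.le₁ he).1⟩
      rw [t.cm_symm hu (hx.mem 1)] at e₁
      refine ⟨a u ^ 2 * b (x 1), ?_⟩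
      rw [← φ₃ u hu _ (hx.mem 1), show ⁅u, x 1⁆ = e * (e * ⁅u, x 1⁆) by
        rw [← mul_assoc, H e (t.le₁ he), one_mul], p₂ _ he _ e₁, H e (t.le₁ he)]
      exact one_mem _⟩
  have hφ' := hφ.sq
  obtain ⟨k₁, k₂, k₃, k₄, -⟩ := t.gen (z := fun w : K × K => φ (w.1 ^ 2) * ψ w.2)
    (β := fun a r => (r * a, r ^ 2 * a)) hy hx.sq (fun w => mul_mem (t.le₁ (φ₁ _)) (ψH _))
    (fun w w' => by
      simp only [Prod.fst_add, Prod.snd_add, hφ'.add, hψ.add]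
      exact ((H.comm (ψH _) (t.le₁ (φ₁ _))).mul_mul_mul_comm _ _).symm)
    (fun w w' e => by
      have e₁ := congrArg p e
      simp only [p₂ _ (φ₁ _) _ (hψ.mem _)] at e₁
      simp only [e₁, mul_right_inj] at e
      refine Prod.ext (CharTwo.add_eq_zero.1 (hφ'.ker _ ?_)) (by rw [← eψ w.2, e, eψ])
      rw [hφ'.add, e₁, H _ (t.le₁ (φ₁ _))]; exact one_mem _)
    (fun e he => by
      obtain ⟨r, hr⟩ := hφ'.surj _ (p₁ e he)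
      refine ⟨(r, c e), ?_⟩
      have := eq_inv_of_mul_eq_one_left (mem_bot.1 (hC.le ⟨mul_mem (φ₁ _) (p₁ e he), hr⟩))
      simp only [this, H.inv (t.le₁ (p₁ e he)), p, mul_assoc, H _ (ψH _), mul_one])
    (fun r r' => by
      have := φ₃ _ (hy.mem r) _ (hx.mem (r' ^ 2))
      rw [ey, ex, ← mul_pow, mul_comm r] at this
      simp only [← this, p, h.cm _ (hy.mem _) _ (hx.mem _), ex, ey, mul_comm r, mul_assoc,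
        H _ (ψH _), mul_one])
  refine ⟨⟨fun r a b c => y a * x (r ^ 2) * (φ (b ^ 2) * ψ c), fun e => (k₁ e).trans
    ⟨fun ⟨a, r, w, e⟩ => ⟨r, a, w.1, w.2, e⟩, fun ⟨r, a, b, c, e⟩ => ⟨a, r, (b, c), e⟩⟩,
    fun r a b c r' a' b' c' => (k₂ a r (b, c) a' r' (b', c')).trans ?_, fun {r a b c r' a' b' c'} e => ?_⟩,
    fun e => (k₄ e).trans ⟨fun ⟨a, w, e⟩ => ⟨a, w.1, w.2, e⟩, ?_⟩⟩
  · simp [CharTwo.two_eq_zero]
  · obtain ⟨h1, h2, h3⟩ := @k₃ a r (b, c) a' r' (b', c') e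
    exact ⟨h2, h1, congrArg Prod.fst h3, congrArg Prod.snd h3⟩
  · rintro ⟨a, b, c, e⟩
    exact ⟨a, (b, c), e⟩

end Cfsg.Agent.MP.Stg
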